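import Cfsg.Agent.M23Count.Defs
import Cfsg.Agent.S0998
import Cfsg.Agent.Classical.Linear.Card
import Mathlib.GroupTheory.PGroup
import Mathlib.GroupTheory.Transfer
import Mathlib.GroupTheory.Sylow
import Mathlib.GroupTheory.QuotientGroup.Basic
import Mathlib.GroupTheory.SpecificGroups.Cyclic

/-!
The normal subgroup of order 16 of an involution centraliser.

The quotient of the centraliser by the involution has order 1344; an element of order 7 acts
without fixed points, so a normal subgroup of order prime to 7 has order 1, 8 or 64; order 64 is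
excluded by an inverted element of order 3, and 1 by the absence of simple groups of order 1344.
-/

set_option autoImplicit false
set_option linter.style.haveILetI false

namespace CfsgLib.M23Count

universe u

namespace CoreLocal

section General

variable {G : Type u} [Group G]

theorem mem_centSingle {a b : G} : a ∈ Subgroup.centralizer ({b} : Set G) ↔ a * b = b * a :=
  Subgroup.mem_centralizer_singleton_iff

/-- Orbit counting for conjugation. -/
theorem conj_orbit_card [Finite G] (A : Subgroup G) (t : G) :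
    Nat.card ↥(A ⊓ Subgroup.centralizer ({t} : Set G)) *
      Nat.card {w : G // ∃ a ∈ A, a * t * a⁻¹ = w} = Nat.card A := by
  set K := (Subgroup.centralizer ({t} : Set G)).subgroupOf A with hK
  have e1 : Nat.card K = Nat.card ↥(A ⊓ Subgroup.centralizer ({t} : Set G)) := by
    rw [hK, ← Subgroup.card_map_of_injective (K := (Subgroup.centralizer ({t} : Set G)).subgroupOf A)
      A.subtype_injective, Subgroup.subgroupOf_map_subtype, inf_comm]
  have hf : ∀ a b : A, a⁻¹ * b ∈ K ↔ (a : G) * t * (a : G)⁻¹ = b * t * (b : G)⁻¹ := by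
    intro a b
    rw [hK, Subgroup.mem_subgroupOf, mem_centSingle]
    push_cast
    constructor
    · intro h
      calc (a : G) * t * (a : G)⁻¹ = a * (t * ((a : G)⁻¹ * b)) * (b : G)⁻¹ := by group
        _ = a * (((a : G)⁻¹ * b) * t) * (b : G)⁻¹ := by rw [h]
        _ = b * t * (b : G)⁻¹ := by group
    · intro h
      calc (a : G)⁻¹ * b * t = (a : G)⁻¹ * (b * t * (b : G)⁻¹) * b := by group
        _ = (a : G)⁻¹ * (a * t * (a : G)⁻¹) * b := by rw [h]
        _ = t * ((a : G)⁻¹ * b) := by group
  let F : A ⧸ K → {w : G // ∃ a ∈ A, a * t * a⁻¹ = w} :=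
    Quotient.lift (fun a : A => (⟨a * t * (a : G)⁻¹, a, a.2, rfl⟩ : {w : G // ∃ a ∈ A, a * t * a⁻¹ = w}))
      (fun a b hab => Subtype.ext ((hf a b).1 (QuotientGroup.leftRel_apply.1 hab)))
  have hFbij : Function.Bijective F := by
    refine ⟨fun p q => ?_, fun w => ?_⟩
    · induction p using Quotient.inductionOn with
      | h a =>
        induction q using Quotient.inductionOn with
        | h b =>
          intro h
          exact Quotient.sound (QuotientGroup.leftRel_apply.2 ((hf a b).2 (congrArg Subtype.val h)))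
    · obtain ⟨w, a, ha, e⟩ := w
      exact ⟨Quotient.mk'' ⟨a, ha⟩, Subtype.ext e⟩
  rw [← Nat.card_congr (Equiv.ofBijective F hFbij), ← e1]
  have := K.card_mul_index
  rwa [Subgroup.index] at this

theorem alt_five_inv_cent : ∀ s : alternatingGroup (Fin 5), s ≠ 1 → s * s = 1 →
    (Finset.univ.filter fun a : alternatingGroup (Fin 5) => a * s = s * a).card ≤ 4 := by
  decide +kernel

theorem zpow_sq_one {t : G} (ht : t * t = 1) (k : ℤ) : t ^ k * t ^ k = 1 := by
  rw [← (Commute.refl t).mul_zpow, ht, one_zpow]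

theorem not_seven_dvd_of_pow {f : G} (hf : orderOf f = 7) {n : ℕ} (h : f ^ n = 1) : 7 ∣ n := by
  rw [← hf]; exact orderOf_dvd_of_pow_eq_one h

end General

section Quot

variable {Q : Type u} [Group Q] [Finite Q]

/-- Facts about a group of order 1344 with fixed-point-free elements of order 7. -/
theorem exists_eight (hQ : Nat.card Q = 1344)
    (h7 : ∀ f : Q, orderOf f = 7 → Nat.card (Subgroup.centralizer ({f} : Set Q)) = 7)
    (hN7 : ∀ f : Q, orderOf f = 7 →
      Nat.card (Subgroup.normalizer (Subgroup.zpowers f : Set Q)) = 21)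
    {x y : Q} (hx : orderOf x = 3) (hy : y * x * y⁻¹ = x⁻¹) :
    ∃ M : Subgroup Q, M.Normal ∧ Nat.card M = 8 ∧
      ∀ L : Subgroup Q, L.Normal → M ≤ L → ¬ 7 ∣ Nat.card L → L = M := by
  classical
  haveI : Fact (Nat.Prime 7) := ⟨by norm_num⟩
  obtain ⟨f, hf⟩ := exists_prime_orderOf_dvd_card' (G := Q) 7 (by rw [hQ]; norm_num)
  have hmemC : ∀ g : Q, g * f = f * g → g ∈ Subgroup.zpowers f := by
    intro g hg
    have he : Subgroup.zpowers f = Subgroup.centralizer ({f} : Set Q) := by
      refine Subgroup.eq_of_le_of_card_ge ?_ ?_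
      · rw [Subgroup.zpowers_le, mem_centSingle]
      · rw [h7 f hf, Nat.card_zpowers, hf]
    rw [he]; exact mem_centSingle.2 hg
  -- a normal subgroup of order prime to seven
  have small : ∀ N : Subgroup Q, N.Normal → ¬ 7 ∣ Nat.card N →
      Nat.card N = 1 ∨ Nat.card N = 8 ∨ Nat.card N = 64 := by
    intro N hN hn7
    letI : MulAction ↥(Subgroup.zpowers f) ↥N :=
      { smul := fun a n => ⟨(a : Q) * n * (a : Q)⁻¹, hN.conj_mem _ n.2 _⟩
        one_smul := fun n => Subtype.ext (by
          show ((1 : ↥(Subgroup.zpowers f)) : Q) * n * ((1 : ↥(Subgroup.zpowers f)) : Q)⁻¹ = n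
          simp)
        mul_smul := fun a b n => Subtype.ext (by
          show ((a * b : ↥(Subgroup.zpowers f)) : Q) * n * ((a * b : ↥(Subgroup.zpowers f)) : Q)⁻¹ =
            (a : Q) * ((b : Q) * n * (b : Q)⁻¹) * (a : Q)⁻¹
          push_cast
          group) }
    have hp : IsPGroup 7 ↥(Subgroup.zpowers f) :=
      IsPGroup.of_card (n := 1) (by rw [Nat.card_zpowers, hf, pow_one])
    have hm := hp.card_modEq_card_fixedPoints (↥N)
    have hfix : Nat.card ↥(MulAction.fixedPoints ↥(Subgroup.zpowers f) ↥N) = 1 := by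
      rw [Nat.card_eq_one_iff_unique]
      refine ⟨⟨?_⟩, ⟨⟨1, fun a => Subtype.ext ?_⟩⟩⟩
      · rintro ⟨⟨a, ha⟩, hfa⟩ ⟨⟨b, hb⟩, hfb⟩
        have key : ∀ (c : Q) (hc : c ∈ N),
            (⟨c, hc⟩ : ↥N) ∈ MulAction.fixedPoints ↥(Subgroup.zpowers f) ↥N → c = 1 := by
          intro c hc hfc
          have h1 : f * c * f⁻¹ = c := congrArg Subtype.val (hfc ⟨f, Subgroup.mem_zpowers f⟩)
          have h2 : c ∈ Subgroup.zpowers f := hmemC c (mul_inv_eq_iff_eq_mul.1 h1).symm
          have h3 : orderOf c ∣ 7 := by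
            rw [← hf, ← Nat.card_zpowers f]
            exact Subgroup.orderOf_dvd_natCard _ h2
          rcases (Nat.dvd_prime (by norm_num)).1 h3 with h4 | h4
          · exact orderOf_eq_one_iff.1 h4
          · exact absurd (h4 ▸ Subgroup.orderOf_dvd_natCard _ hc) hn7
        exact Subtype.ext (Subtype.ext ((key a ha hfa).trans (key b hb hfb).symm))
      · show (a : Q) * 1 * (a : Q)⁻¹ = 1
        group
    rw [hfix] at hm
    have hd : Nat.card N ∣ 192 := by
      have h1 : Nat.card N ∣ 7 * 192 := by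
        have := Subgroup.card_subgroup_dvd_card N
        rwa [hQ] at this
      exact (Nat.Coprime.dvd_mul_left
        (((Nat.Prime.coprime_iff_not_dvd (by norm_num)).2 hn7).symm)).1 h1
    generalize Nat.card N = n at hm hd hn7 ⊢
    have : n ∈ Nat.divisors 192 := Nat.mem_divisors.2 ⟨hd, by norm_num⟩
    revert hm
    fin_cases this <;> decide
  have no64 : ∀ N : Subgroup Q, N.Normal → Nat.card N ≠ 64 := by
    intro N hN h64
    set q := QuotientGroup.mk' N
    have hcard : Nat.card (Q ⧸ N) = 21 := by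
      have := Subgroup.card_eq_card_quotient_mul_card_subgroup N
      rw [hQ, h64] at this
      omega
    have e : q y * q x * (q y)⁻¹ = (q x)⁻¹ := by rw [← map_inv, ← map_inv, ← map_mul, ← map_mul, hy]
    have h21 : (q y) ^ 21 = 1 := by rw [← hcard]; exact pow_card_eq_one'
    have e2 : (q y) ^ 2 * q x * ((q y) ^ 2)⁻¹ = q x := by
      calc (q y) ^ 2 * q x * ((q y) ^ 2)⁻¹ = q y * (q y * q x * (q y)⁻¹) * (q y)⁻¹ := by
            rw [pow_two]; group
        _ = q y * (q x)⁻¹ * (q y)⁻¹ := by rw [e]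
        _ = (q y * q x * (q y)⁻¹)⁻¹ := by group
        _ = q x := by rw [e, inv_inv]
    have hc : Commute ((q y) ^ 2) (q x) := mul_inv_eq_iff_eq_mul.1 e2
    have hc' : Commute (q y) (q x) := by
      have := hc.pow_left 11
      rwa [← pow_mul, show 2 * 11 = 21 + 1 from rfl, pow_succ, h21, one_mul] at this
    rw [hc'.eq, mul_inv_cancel_right, eq_inv_iff_mul_eq_one] at e
    have h3 : (q x) ^ 3 = 1 := by rw [← map_pow, ← hx, pow_orderOf_eq_one, map_one]
    rw [pow_succ, pow_two, e, one_mul] at h3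
    have hxN : x ∈ N := (QuotientGroup.eq_one_iff x).1 h3
    have := Subgroup.orderOf_dvd_natCard _ hxN
    rw [hx, h64] at this
    norm_num at this
  -- a normal subgroup of order divisible by seven is everything
  have large : ∀ N : Subgroup Q, N.Normal → 7 ∣ Nat.card N → N = ⊤ := by
    intro N hN hd7
    obtain ⟨f₁, hf₁⟩ := exists_prime_orderOf_dvd_card' (G := ↥N) 7 hd7
    have hf1 : orderOf (f₁ : Q) = 7 := by rw [Subgroup.orderOf_coe]; exact hf₁
    have hcardN : Nat.card N ∣ 7 * 192 := by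
      have := Subgroup.card_subgroup_dvd_card N
      rwa [hQ] at this
    have hsylcard : Nat.card (Subgroup.zpowers f₁) = 7 ^ (Nat.card ↥N).factorization 7 := by
      rw [Nat.card_zpowers, hf₁]
      have h1 : (Nat.card ↥N).factorization 7 = 1 := by
        have h2 : ¬ 7 ^ 2 ∣ Nat.card ↥N := fun h =>
          absurd (h.trans hcardN) (by norm_num)
        have h3 : 1 ≤ (Nat.card ↥N).factorization 7 :=
          (Nat.Prime.pow_dvd_iff_le_factorization (by norm_num) Nat.card_pos.ne').1 (by simpa using hd7)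
        have h4 : ¬ 2 ≤ (Nat.card ↥N).factorization 7 := fun h =>
          h2 ((Nat.Prime.pow_dvd_iff_le_factorization (by norm_num) Nat.card_pos.ne').2 h)
        omega
      rw [h1, pow_one]
    let P : Sylow 7 ↥N := Sylow.ofCard (Subgroup.zpowers f₁) hsylcard
    have hsup := Sylow.normalizer_sup_eq_top P
    have hmap : (P : Subgroup ↥N).map N.subtype = Subgroup.zpowers (f₁ : Q) := by
      rw [Sylow.coe_ofCard, MonoidHom.map_zpowers]; rfl
    rw [hmap] at hsup
    set K := Subgroup.normalizer (Subgroup.zpowers (f₁ : Q) : Set Q) with hK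
    have hidx : N.index ∣ 21 := by
      have hsur : Function.Surjective ((QuotientGroup.mk' N).comp K.subtype) := by
        rw [← MonoidHom.range_eq_top, MonoidHom.range_comp, Subgroup.range_subtype]
        have h1 := congrArg (Subgroup.map (QuotientGroup.mk' N)) hsup
        rwa [Subgroup.map_sup, QuotientGroup.map_mk'_self, sup_bot_eq,
          Subgroup.map_top_of_surjective _ (QuotientGroup.mk'_surjective N)] at h1
      rw [Subgroup.index, ← hN7 _ hf1]
      exact Subgroup.card_dvd_of_surjective _ hsur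
    have hmul : Nat.card N * N.index = 1344 := by rw [Subgroup.card_mul_index, hQ]
    have hidx' : N.index ∣ 3 := by
      have h1 : N.index ∣ 192 := by
        obtain ⟨k, hk⟩ := hd7
        exact ⟨k, by rw [hk] at hmul; nlinarith [hmul]⟩
      have := Nat.dvd_gcd hidx h1
      exact this.trans (by norm_num)
    rcases (Nat.dvd_prime (by norm_num)).1 hidx' with h1 | h3
    · exact Subgroup.index_eq_one.1 h1
    exfalso
    have h448 : Nat.card N = 448 := by rw [h3] at hmul; omega
    -- the centraliser in `N` of the Sylow subgroup is its normaliser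
    set K' := Subgroup.normalizer ((P : Subgroup ↥N) : Set ↥N)
    have hK'le : K'.map N.subtype ≤ K := by
      rintro _ ⟨n, hn, rfl⟩
      rw [hK, Subgroup.mem_normalizer_iff]
      intro a
      have hn' := Subgroup.mem_normalizer_iff.1 hn
      rw [← hmap]
      constructor
      · rintro ⟨b, hb, rfl⟩
        exact ⟨n * b * n⁻¹, (hn' b).1 hb, by simp⟩
      · rintro ⟨b, hb, e⟩
        refine ⟨n⁻¹ * b * n, (hn' _).2 (by rwa [show n * (n⁻¹ * b * n) * n⁻¹ = b by group]), ?_⟩
        simp only [Subgroup.subtype_apply] at e ⊢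
        push_cast
        rw [e]
        group
    have hK'7 : Nat.card K' = 7 := by
      have hd : Nat.card K' ∣ 21 := by
        rw [← Subgroup.card_map_of_injective (K := K') N.subtype_injective, ← hN7 _ hf1]
        exact Subgroup.card_dvd_of_le hK'le
      have hd' : Nat.card K' ∣ 448 := h448 ▸ Subgroup.card_subgroup_dvd_card K'
      have h7le : (P : Subgroup ↥N) ≤ K' := Subgroup.le_normalizer
      have h7 : Nat.card (P : Subgroup ↥N) = 7 := by rw [Sylow.coe_ofCard, Nat.card_zpowers, hf₁]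
      have h1 : Nat.card K' ∣ 7 := (Nat.dvd_gcd hd hd').trans (by norm_num)
      exact Nat.dvd_antisymm h1 (h7 ▸ Subgroup.card_dvd_of_le h7le)
    have hKP : K' ≤ Subgroup.centralizer ((P : Subgroup ↥N) : Set ↥N) := by
      have he : (P : Subgroup ↥N) = K' := by
        refine Subgroup.eq_of_le_of_card_ge Subgroup.le_normalizer ?_
        rw [hK'7, Sylow.coe_ofCard, Nat.card_zpowers, hf₁]
      rw [← he]
      intro a ha
      rw [Subgroup.mem_centralizer_iff]
      intro b hb
      simp only [SetLike.mem_coe] at ha hb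
      obtain ⟨i, rfl⟩ := Subgroup.mem_zpowers_iff.1 ha
      obtain ⟨j, rfl⟩ := Subgroup.mem_zpowers_iff.1 hb
      rw [← zpow_add, ← zpow_add, add_comm]
    have hcomp := MonoidHom.ker_transferSylow_isComplement' P hKP
    set R := (MonoidHom.transferSylow P hKP).ker
    have hRc : Nat.card R = 64 := by
      have := hcomp.card_mul_card
      rw [h448, Sylow.coe_ofCard, Nat.card_zpowers, hf₁] at this
      omega
    have hmemR : ∀ n : ↥N, n ^ 64 = 1 → n ∈ R := by
      intro n hn
      rw [MonoidHom.mem_ker]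
      have h1 : (MonoidHom.transferSylow P hKP n) ^ 64 = 1 := by rw [← map_pow, hn, map_one]
      have h2 : orderOf (MonoidHom.transferSylow P hKP n) ∣ 7 := by
        have := orderOf_dvd_natCard (MonoidHom.transferSylow P hKP n)
        have h7c : Nat.card (P : Subgroup ↥N) = 7 := by rw [Sylow.coe_ofCard, Nat.card_zpowers, hf₁]
        rwa [h7c] at this
      have h3 := Nat.dvd_gcd (orderOf_dvd_of_pow_eq_one h1) h2
      norm_num at h3
      exact h3
    have hRn : (R.map N.subtype).Normal := by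
      refine ⟨?_⟩
      rintro _ ⟨r, hr, rfl⟩ g
      refine ⟨⟨g * r * g⁻¹, hN.conj_mem _ r.2 g⟩, hmemR _ (Subtype.ext ?_), rfl⟩
      have hr64 : r ^ 64 = 1 := by
        have := Subgroup.orderOf_dvd_natCard R hr
        rw [hRc] at this
        exact orderOf_dvd_iff_pow_eq_one.1 this
      have hr' : (r : Q) ^ 64 = 1 := by rw [← SubmonoidClass.coe_pow, hr64]; rfl
      push_cast
      rw [conj_pow, hr', mul_one, mul_inv_cancel]
    exact no64 _ hRn (by rw [Subgroup.card_map_of_injective N.subtype_injective, hRc])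
  -- a normal subgroup of order eight exists
  have ex8 : ∃ M : Subgroup Q, M.Normal ∧ Nat.card M = 8 := by
    by_contra hne
    push Not at hne
    haveI : Nontrivial Q := by
      rw [← Finite.one_lt_card_iff_nontrivial, hQ]; norm_num
    haveI : IsSimpleGroup Q :=
      { eq_bot_or_eq_top_of_normal := fun N hN => by
          by_cases h : 7 ∣ Nat.card N
          · exact Or.inr (large N hN h)
          · rcases small N hN h with h1 | h8 | h64
            · exact Or.inl (Subgroup.eq_bot_of_card_eq _ h1)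
            · exact absurd h8 (hne N hN)
            · exact absurd h64 (no64 N hN) }
    have hnc : ¬ IsCyclic Q := by
      intro hcy
      have h1 : Subgroup.centralizer ({f} : Set Q) = ⊤ := by
        rw [eq_top_iff]
        intro g _
        exact mem_centSingle.2 (hcy.commGroup.mul_comm g f)
      have := h7 f hf
      rw [h1, Subgroup.card_top, hQ] at this
      norm_num at this
    rcases Cfsg.Agent.S0998.result hnc 3 2 7 6 Nat.prime_three Nat.prime_two (by norm_num)
      (by norm_num) (by norm_num) (by norm_num) (by rw [hQ]; norm_num) with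
      ⟨F, _, _, hF, ⟨e⟩⟩ | ⟨F, _, _, hF, ⟨e⟩⟩
    all_goals
      have h := Nat.card_congr e.toEquiv
      have h' := CfsgLib.Classical.Linear.card_psl_two (F := F)
      rw [hF, ← h, hQ] at h'
      norm_num at h'
  obtain ⟨M, hM, hM8⟩ := ex8
  refine ⟨M, hM, hM8, fun L hL hle hd => ?_⟩
  rcases small L hL hd with h | h | h
  · exact absurd (Subgroup.card_le_of_le hle) (by rw [hM8, h]; norm_num)
  · exact (Subgroup.eq_of_le_of_card_ge hle (by rw [hM8, h])).symm
  · exact absurd h (no64 L hL)

/-- A normal subgroup of order 8 on which an element of order 7 is transitive. -/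
theorem transitive_eight {M : Subgroup Q} (hM : M.Normal) (hM8 : Nat.card M = 8) {f : Q}
    (hf : orderOf f = 7) (h7 : Nat.card (Subgroup.centralizer ({f} : Set Q)) = 7)
    {a b : Q} (ha : a ∈ M) (ha1 : a ≠ 1) (hb : b ∈ M) (hb1 : b ≠ 1) :
    ∃ i : ℕ, f ^ i * a * (f ^ i)⁻¹ = b := by
  classical
  let S := {m : ↥M // m ≠ 1}
  let F : Fin 7 → S := fun i =>
    ⟨⟨f ^ (i : ℕ) * a * (f ^ (i : ℕ))⁻¹, hM.conj_mem _ ha _⟩, fun h => ha1 (by
      have h' : f ^ (i : ℕ) * a * (f ^ (i : ℕ))⁻¹ = 1 := congrArg Subtype.val h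
      exact conj_eq_one_iff.1 h')⟩
  have hinj : Function.Injective F := by
    intro i j hij
    by_contra hne
    wlog hlt : (j : ℕ) < (i : ℕ) generalizing i j with H
    · exact H hij.symm (Ne.symm hne) (lt_of_le_of_ne (not_lt.1 hlt) (fun h => hne (Fin.ext h)))
    have e : f ^ (i : ℕ) * a * (f ^ (i : ℕ))⁻¹ = f ^ (j : ℕ) * a * (f ^ (j : ℕ))⁻¹ :=
      congrArg (fun s : S => ((s : ↥M) : Q)) hij
    obtain ⟨k, hk⟩ := Nat.exists_eq_add_of_lt hlt
    have hkc : Commute (f ^ (k + 1)) a := by
      rw [show (i : ℕ) = j + (k + 1) by omega, pow_add] at e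
      have e' : f ^ (k + 1) * a * (f ^ (k + 1))⁻¹ = a := by
        calc f ^ (k + 1) * a * (f ^ (k + 1))⁻¹
            = (f ^ (j : ℕ))⁻¹ * (f ^ (j : ℕ) * f ^ (k + 1) * a * (f ^ (j : ℕ) * f ^ (k + 1))⁻¹) *
              f ^ (j : ℕ) := by group
          _ = a := by rw [e]; group
      exact mul_inv_eq_iff_eq_mul.1 e'
    have hco : Nat.Coprime (k + 1) 7 := by
      refine ((Nat.Prime.coprime_iff_not_dvd (by norm_num)).2 fun h => ?_).symm
      have := Nat.le_of_dvd (by omega) h
      omega
    obtain ⟨m, hm⟩ := exists_pow_eq_self_of_coprime (x := f) (n := k + 1) (by rwa [hf])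
    have hfa : Commute a f := by
      rw [← hm]; exact (hkc.pow_left m).symm
    have h1 : Subgroup.zpowers f = Subgroup.centralizer ({f} : Set Q) :=
      Subgroup.eq_of_le_of_card_ge (by rw [Subgroup.zpowers_le, mem_centSingle])
        (by rw [h7, Nat.card_zpowers, hf])
    have h2 : a ∈ Subgroup.zpowers f := h1 ▸ mem_centSingle.2 hfa.eq
    have h3 := Subgroup.orderOf_dvd_natCard _ h2
    rw [Nat.card_zpowers, hf] at h3
    have h4 := Subgroup.orderOf_dvd_natCard _ ha
    rw [hM8] at h4
    exact ha1 (orderOf_eq_one_iff.1 (Nat.dvd_one.1 ((Nat.dvd_gcd h3 h4).trans (by norm_num))))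
  have hS : Nat.card S = 7 := by
    have h1 : Nat.card {m : ↥M // m = 1} = 1 := Nat.card_unique
    have h2 := Nat.card_congr (Equiv.sumCompl fun m : ↥M => m = 1)
    rw [Nat.card_sum, h1, hM8] at h2
    show Nat.card {m : ↥M // ¬ m = 1} = 7
    omega
  have hbij : Function.Bijective F :=
    (Nat.bijective_iff_injective_and_card F).2 ⟨hinj, by rw [hS, Nat.card_fin]⟩
  obtain ⟨i, hi⟩ := hbij.2 ⟨⟨b, hb⟩, fun h => hb1 (congrArg Subtype.val h)⟩
  exact ⟨i, congrArg (fun s : S => ((s : ↥M) : Q)) hi⟩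

end Quot

end CoreLocal

open CoreLocal

variable {G : Type u} [Group G] [Finite G]

/-- The normal subgroup of order 16 in the centraliser of an involution. -/
theorem Setup.exists_core (h : Setup G) {t : G} (ht : orderOf t = 2) :
    ∃ E : Subgroup G, Core t E := by
  classical
  haveI : Fact (Nat.Prime 7) := ⟨by norm_num⟩
  haveI : Fact (Nat.Prime 3) := ⟨by norm_num⟩
  set C := Subgroup.centralizer ({t} : Set G) with hCdef
  have hC : Nat.card C = 2688 := h.cent_invol t ht
  have ht2 : t * t = 1 := by rw [← pow_two, ← ht, pow_orderOf_eq_one]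
  have ht1 : t ≠ 1 := fun e => by rw [e, orderOf_one] at ht; norm_num at ht
  have htC : t ∈ C := mem_centSingle.2 rfl
  have htinv : t⁻¹ = t := inv_eq_of_mul_eq_one_right ht2
  set T : Subgroup ↥C := Subgroup.zpowers (⟨t, htC⟩ : ↥C) with hT
  have hTmem : ∀ c : ↥C, c ∈ T ↔ (c : G) = 1 ∨ (c : G) = t := by
    intro c
    constructor
    · intro hc
      obtain ⟨i, rfl⟩ := Subgroup.mem_zpowers_iff.1 hc
      rcases Int.even_or_odd i with ⟨k, rfl⟩ | ⟨k, rfl⟩
      · left
        push_cast
        rw [zpow_add]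
        exact zpow_sq_one ht2 k
      · right
        push_cast
        rw [zpow_add, zpow_one, two_mul, zpow_add, zpow_sq_one ht2 k, one_mul]
    · rintro (e | e)
      · rw [show c = 1 from Subtype.ext e]; exact one_mem _
      · rw [show c = ⟨t, htC⟩ from Subtype.ext e]; exact Subgroup.mem_zpowers _
  haveI hTn : T.Normal := by
    refine ⟨fun n hn g => ?_⟩
    have hg : (g : G) * t = t * g := mem_centSingle.1 g.2
    rcases (hTmem n).1 hn with e | e
    · exact (hTmem _).2 (Or.inl (by push_cast; rw [e, mul_one, mul_inv_cancel]))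
    · exact (hTmem _).2 (Or.inr (by push_cast; rw [e, hg, mul_inv_cancel_right]))
  have hTcard : Nat.card T = 2 := by rw [hT, Nat.card_zpowers, ← Subgroup.orderOf_coe]; exact ht
  have hQ : Nat.card (↥C ⧸ T) = 1344 := by
    have := Subgroup.card_eq_card_quotient_mul_card_subgroup T
    rw [hC, hTcard] at this
    omega
  set q := QuotientGroup.mk' T with hq
  have qeq : ∀ a b : ↥C, q a = q b → (b : G) = a ∨ (b : G) = a * t := by
    intro a b e
    have hm : a⁻¹ * b ∈ T := QuotientGroup.eq.1 e
    rcases (hTmem _).1 hm with e' | e'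
    · left; push_cast at e'; exact (inv_mul_eq_one.1 e').symm
    · right; push_cast at e'; rw [← e']; group
  -- elements of order seven
  have h7G : ∀ f : ↥C, orderOf f = 7 →
      orderOf (f : G) = 7 ∧ ∀ g : G, g * f = f * g → g ∈ Subgroup.zpowers ((f : G) * t) := by
    intro f hf
    have hfG : orderOf (f : G) = 7 := by rw [Subgroup.orderOf_coe]; exact hf
    refine ⟨hfG, fun g hg => ?_⟩
    have hft : Commute (f : G) t := mem_centSingle.1 f.2
    have hord : orderOf ((f : G) * t) = 14 := by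
      rw [hft.orderOf_mul_eq_mul_orderOf_of_coprime (by rw [hfG, ht]; norm_num), hfG, ht]
    have he : Subgroup.zpowers ((f : G) * t) = Subgroup.centralizer ({(f : G)} : Set G) := by
      refine Subgroup.eq_of_le_of_card_ge ?_ ?_
      · rw [Subgroup.zpowers_le, mem_centSingle]
        calc (f : G) * t * f = f * (t * f) := by group
          _ = f * (f * t) := by rw [hft.eq]
      · rw [h.cent_seven _ hfG, Nat.card_zpowers, hord]
    rw [he]; exact mem_centSingle.2 hg
  have lift7 : ∀ fq : ↥C ⧸ T, orderOf fq = 7 → ∃ f : ↥C, orderOf f = 7 ∧ q f = fq := by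
    intro fq hfq
    obtain ⟨g, rfl⟩ := QuotientGroup.mk'_surjective T fq
    have h7 : (q g) ^ 7 = 1 := by rw [← hfq, pow_orderOf_eq_one]
    have hg7 : g ^ 7 ∈ T := (QuotientGroup.eq_one_iff _).1 (by rw [← map_pow] at h7; exact h7)
    have hg14 : g ^ 14 = 1 := by
      rw [show (14 : ℕ) = 7 + 7 from rfl, pow_add]
      rcases (hTmem _).1 hg7 with e | e <;>
        (push_cast at e; exact Subtype.ext (by push_cast; rw [e]; simp [ht2]))
    have hq8 : q (g ^ 8) = q g := by rw [map_pow, pow_succ, h7, one_mul]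
    refine ⟨g ^ 8, orderOf_eq_prime ?_ ?_, hq8⟩
    · rw [← pow_mul, show 8 * 7 = 14 * 4 from rfl, pow_mul, hg14, one_pow]
    · intro e
      rw [← hq8, e, map_one, orderOf_one] at hfq
      norm_num at hfq
  -- the centraliser and normaliser of an element of order seven in the quotient
  have q7 : ∀ fq : ↥C ⧸ T, orderOf fq = 7 →
      Nat.card (Subgroup.centralizer ({fq} : Set (↥C ⧸ T))) = 7 ∧
      Nat.card (Subgroup.normalizer (Subgroup.zpowers fq : Set (↥C ⧸ T))) = 21 := by
    intro fq hfq
    obtain ⟨f, hf, rfl⟩ := lift7 fq hfq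
    obtain ⟨hfG, hcf⟩ := h7G f hf
    have hft : Commute (f : G) t := mem_centSingle.1 f.2
    have same : ∀ a : G, a ^ 7 = 1 → (a * t) ^ 7 = 1 → Commute a t → False := by
      intro a h1 h2 hc
      rw [hc.mul_pow, h1, one_mul, show (7 : ℕ) = 2 * 3 + 1 from rfl, pow_succ, pow_mul, pow_two,
        ht2, one_pow, one_mul] at h2
      exact ht1 h2
    constructor
    · have he : Subgroup.centralizer ({q f} : Set (↥C ⧸ T)) = Subgroup.zpowers (q f) := by
        refine le_antisymm ?_ (by rw [Subgroup.zpowers_le, mem_centSingle])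
        intro gq hgq
        obtain ⟨g, rfl⟩ := QuotientGroup.mk'_surjective T gq
        have e : q (g * f * g⁻¹) = q f := by
          rw [map_mul, map_mul, map_inv, mem_centSingle.1 hgq, mul_inv_cancel_right]
        have hfg : (g : G) * f * (g : G)⁻¹ = f := by
          rcases qeq _ _ e with e' | e'
          · push_cast at e'; exact e'.symm
          · exfalso
            push_cast at e'
            refine same ((g : G) * f * (g : G)⁻¹) ?_ ?_ ?_
            · rw [conj_pow, ← hfG, pow_orderOf_eq_one, mul_one, mul_inv_cancel]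
            · rw [← e', ← hfG, pow_orderOf_eq_one]
            · exact mem_centSingle.1 (g * f * g⁻¹ : ↥C).2
        obtain ⟨i, hi⟩ := Subgroup.mem_zpowers_iff.1 (hcf g (mul_inv_eq_iff_eq_mul.1 hfg))
        rw [Subgroup.mem_zpowers_iff]
        refine ⟨i, ?_⟩
        have hgi : g = (f * ⟨t, htC⟩) ^ i := Subtype.ext (by push_cast; exact hi.symm)
        have hqt : q (⟨t, htC⟩ : ↥C) = 1 := (QuotientGroup.eq_one_iff _).2 (Subgroup.mem_zpowers _)
        rw [hgi, map_zpow, map_mul, hqt, mul_one]
      rw [he, Nat.card_zpowers, hfq]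
    · -- the normaliser
      set K := Subgroup.normalizer (Subgroup.zpowers (q f) : Set (↥C ⧸ T))
      have hKmap : (K.comap q).map C.subtype =
          Subgroup.normalizer (Subgroup.zpowers (f : G) : Set G) := by
        apply le_antisymm
        · rintro _ ⟨g, hg, rfl⟩
          have hg' : q g * q f * (q g)⁻¹ ∈ Subgroup.zpowers (q f) :=
            (Subgroup.mem_normalizer_iff.1 (Subgroup.mem_comap.1 hg) _).1 (Subgroup.mem_zpowers _)
          obtain ⟨i, hi⟩ := Subgroup.mem_zpowers_iff.1 hg'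
          have e : q (f ^ i) = q (g * f * g⁻¹) := by rw [map_zpow, hi, map_mul, map_mul, map_inv]
          have hfg : (g : G) * f * (g : G)⁻¹ = (f : G) ^ i := by
            rcases qeq _ _ e with e' | e'
            · push_cast at e'; exact e'
            · exfalso
              push_cast at e'
              refine same ((f : G) ^ i) ?_ ?_ (hft.zpow_left i)
              · rw [← zpow_natCast, ← zpow_mul, mul_comm, zpow_mul, zpow_natCast, ← hfG,
                  pow_orderOf_eq_one, one_zpow]
              · rw [← e', conj_pow, ← hfG, pow_orderOf_eq_one, mul_one, mul_inv_cancel]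
          have hmap : (Subgroup.zpowers (f : G)).map (MulAut.conj (g : G)).toMonoidHom =
              Subgroup.zpowers (f : G) := by
            refine Subgroup.eq_of_le_of_card_ge ?_ ?_
            · rw [MonoidHom.map_zpowers, Subgroup.zpowers_le]
              show (g : G) * f * (g : G)⁻¹ ∈ _
              rw [hfg]; exact Subgroup.zpow_mem _ (Subgroup.mem_zpowers _) _
            · rw [Subgroup.card_map_of_injective (MulEquiv.injective _)]
          rw [Subgroup.mem_normalizer_iff]
          intro a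
          show a ∈ Subgroup.zpowers (f : G) ↔ (g : G) * a * (g : G)⁻¹ ∈ Subgroup.zpowers (f : G)
          conv_rhs => rw [← hmap]
          exact (Subgroup.mem_map_iff_mem (MulEquiv.injective (MulAut.conj (g : G)))).symm
        · intro g hg
          rw [Subgroup.mem_normalizer_iff] at hg
          obtain ⟨i, hi⟩ := Subgroup.mem_zpowers_iff.1 ((hg f).1 (Subgroup.mem_zpowers _))
          -- the only involution commuting with `f` is `t`
          have hgC : g ∈ C := by
            have hc : (g * t * g⁻¹) * (f : G) = f * (g * t * g⁻¹) := by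
              obtain ⟨j, hj⟩ := Subgroup.mem_zpowers_iff.1 ((hg (g⁻¹ * f * g)).2 (by
                rw [show g * (g⁻¹ * (f : G) * g) * g⁻¹ = f by group]
                exact Subgroup.mem_zpowers _))
              have hj' : g * (f : G) ^ j * g⁻¹ = f := by rw [hj]; group
              calc g * t * g⁻¹ * f = g * t * g⁻¹ * (g * (f : G) ^ j * g⁻¹) := by rw [hj']
                _ = g * (t * (f : G) ^ j) * g⁻¹ := by group
                _ = g * ((f : G) ^ j * t) * g⁻¹ := by rw [((hft.zpow_left j).symm).eq]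
                _ = (g * (f : G) ^ j * g⁻¹) * (g * t * g⁻¹) := by group
                _ = f * (g * t * g⁻¹) := by rw [hj']
            obtain ⟨k, hk⟩ := Subgroup.mem_zpowers_iff.1 (hcf _ hc)
            have hk2 : ((f : G) * t) ^ (k * 2) = 1 := by
              rw [zpow_mul, hk, zpow_two]
              calc g * t * g⁻¹ * (g * t * g⁻¹) = g * (t * t) * g⁻¹ := by group
                _ = 1 := by rw [ht2, mul_one, mul_inv_cancel]
            have hord : orderOf ((f : G) * t) = 14 := by
              rw [hft.orderOf_mul_eq_mul_orderOf_of_coprime (by rw [hfG, ht]; norm_num), hfG, ht]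
            have h14 : ((14 : ℕ) : ℤ) ∣ k * 2 := hord ▸ orderOf_dvd_iff_zpow_eq_one.2 hk2
            obtain ⟨l, rfl⟩ : (7 : ℤ) ∣ k := by omega
            have h7t : t ^ (7 : ℤ) = t := by
              rw [show (7 : ℤ) = 3 + 3 + 1 from rfl, zpow_add, zpow_add, zpow_sq_one ht2 3, one_mul,
                zpow_one]
            have h7f : (f : G) ^ (7 : ℤ) = 1 := by
              rw [show (7 : ℤ) = ((7 : ℕ) : ℤ) from rfl, zpow_natCast, ← hfG, pow_orderOf_eq_one]
            rw [zpow_mul, hft.mul_zpow, h7t, h7f, one_mul] at hk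
            have hk1 : g * t * g⁻¹ = t := by
              rcases Int.even_or_odd l with ⟨m, rfl⟩ | ⟨m, rfl⟩
              · exfalso
                rw [zpow_add, zpow_sq_one ht2 m] at hk
                exact ht1 (conj_eq_one_iff.1 hk.symm)
              · rw [← hk, zpow_add, zpow_one, two_mul, zpow_add, zpow_sq_one ht2 m, one_mul]
            exact mem_centSingle.2 (mul_inv_eq_iff_eq_mul.1 hk1)
          refine ⟨⟨g, hgC⟩, ?_, rfl⟩
          rw [SetLike.mem_coe, Subgroup.mem_comap]
          have hmap : (Subgroup.zpowers (q f)).map (MulAut.conj (q ⟨g, hgC⟩)).toMonoidHom =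
              Subgroup.zpowers (q f) := by
            refine Subgroup.eq_of_le_of_card_ge ?_ ?_
            · rw [MonoidHom.map_zpowers, Subgroup.zpowers_le]
              show q ⟨g, hgC⟩ * q f * (q ⟨g, hgC⟩)⁻¹ ∈ _
              rw [← map_inv, ← map_mul, ← map_mul,
                show (⟨g, hgC⟩ : ↥C) * f * ⟨g, hgC⟩⁻¹ = f ^ i from
                  Subtype.ext (by push_cast; exact hi.symm), map_zpow]
              exact Subgroup.zpow_mem _ (Subgroup.mem_zpowers _) _
            · rw [Subgroup.card_map_of_injective (MulEquiv.injective _)]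
          rw [Subgroup.mem_normalizer_iff]
          intro a
          conv_rhs => rw [← hmap]
          exact (Subgroup.mem_map_iff_mem (MulEquiv.injective (MulAut.conj (q ⟨g, hgC⟩)))).symm
      have h42 := h.norm_seven _ hfG
      rw [← hKmap, Subgroup.card_map_of_injective C.subtype_injective] at h42
      have h1 := (K.comap q).card_mul_index
      rw [Subgroup.index_comap_of_surjective _ (QuotientGroup.mk'_surjective T), h42, hC] at h1
      have h2 := K.card_mul_index
      rw [hQ] at h2
      have h3 : K.index = 64 := by omega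
      rw [h3] at h2
      omega
  -- an inverted element of order three
  obtain ⟨x, hx⟩ := exists_prime_orderOf_dvd_card' (G := ↥C) 3 (by rw [hC]; norm_num)
  have hxG : orderOf (x : G) = 3 := by rw [Subgroup.orderOf_coe]; exact hx
  have hxt : Commute (x : G) t := mem_centSingle.1 x.2
  have h12 : Nat.card ↥(C ⊓ Subgroup.centralizer ({(x : G)} : Set G)) ≤ 12 := by
    set Cx := Subgroup.centralizer ({(x : G)} : Set G) with hCx
    obtain ⟨φ, -, hker⟩ := h.cent_three_hom _ hxG
    set D := C.subgroupOf Cx with hD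
    have hDc : Nat.card D = Nat.card ↥(C ⊓ Cx) := by
      rw [hD, ← Subgroup.card_map_of_injective (K := C.subgroupOf Cx) Cx.subtype_injective,
        Subgroup.subgroupOf_map_subtype]
    rw [← hDc]
    set ψ := φ.comp D.subtype with hψ
    have hkerle : Nat.card ψ.ker ≤ 3 := by
      have hle : (ψ.ker.map D.subtype).map Cx.subtype ≤ Subgroup.zpowers (x : G) := by
        rintro _ ⟨_, ⟨d, hd, rfl⟩, rfl⟩
        have : D.subtype d ∈ φ.ker := hd
        rw [hker, Subgroup.mem_subgroupOf] at this
        exact this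
      have := Subgroup.card_le_of_le hle
      rwa [Subgroup.card_map_of_injective Cx.subtype_injective,
        Subgroup.card_map_of_injective D.subtype_injective, Nat.card_zpowers, hxG] at this
    have htx : t ∈ Cx := mem_centSingle.2 hxt.symm.eq
    set s := φ ⟨t, htx⟩ with hs
    have hs2 : s * s = 1 := by
      rw [hs, ← map_mul, show (⟨t, htx⟩ : ↥Cx) * ⟨t, htx⟩ = 1 from Subtype.ext ht2, map_one]
    have hs1 : s ≠ 1 := by
      intro e
      have hm : (⟨t, htx⟩ : ↥Cx) ∈ φ.ker := e
      rw [hker, Subgroup.mem_subgroupOf] at hm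
      have := Subgroup.orderOf_dvd_natCard _ hm
      rw [Nat.card_zpowers, hxG, ht] at this
      norm_num at this
    have hrange : Nat.card ψ.range ≤ 4 := by
      have hsub : ∀ a ∈ ψ.range, a * s = s * a := by
        rintro _ ⟨d, rfl⟩
        have hd : ((d : ↥Cx) : G) * t = t * ((d : ↥Cx) : G) :=
          mem_centSingle.1 (Subgroup.mem_subgroupOf.1 d.2)
        show φ (d : ↥Cx) * φ ⟨t, htx⟩ = φ ⟨t, htx⟩ * φ (d : ↥Cx)
        rw [← map_mul, ← map_mul]
        exact congrArg φ (Subtype.ext hd)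
      calc Nat.card ψ.range
          ≤ Nat.card {a : alternatingGroup (Fin 5) // a * s = s * a} :=
            Nat.card_le_card_of_injective (fun a => (⟨a, hsub a a.2⟩ :
              {a : alternatingGroup (Fin 5) // a * s = s * a}))
              (fun a b e => Subtype.ext (congrArg (fun w : {a : alternatingGroup (Fin 5) // a * s = s * a} =>
                (w : alternatingGroup (Fin 5))) e))
        _ = (Finset.univ.filter fun a : alternatingGroup (Fin 5) => a * s = s * a).card := by
            rw [Nat.card_eq_fintype_card, Fintype.card_subtype]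
        _ ≤ 4 := alt_five_inv_cent s hs1 hs2
    have := ψ.ker.card_mul_index
    rw [Subgroup.index_ker] at this
    rw [← this]
    exact (Nat.mul_le_mul hkerle hrange).trans (by norm_num)
  have hinv : ∃ y : ↥C, y * x * y⁻¹ = x⁻¹ := by
    have horb := conj_orbit_card C (x : G)
    rw [hC] at horb
    set W := {w : G // ∃ a ∈ C, a * (x : G) * a⁻¹ = w}
    have hWbig : 224 ≤ Nat.card W := by nlinarith [horb, h12]
    let ι : W → {z : G // orderOf z = 3 ∧ Commute z t} := fun w => ⟨w.1, by
      obtain ⟨a, ha, e⟩ := w.2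
      rw [← e]
      refine ⟨?_, ?_⟩
      · rw [show a * (x : G) * a⁻¹ = MulAut.conj a (x : G) from rfl, MulEquiv.orderOf_eq, hxG]
      · exact ((show Commute a t from mem_centSingle.1 ha).mul_left hxt).mul_left
          (show Commute a t from mem_centSingle.1 ha).inv_left⟩
    have hι : Function.Injective ι := fun a b e => Subtype.ext (congrArg (fun z => z.1) e)
    have hbij : Function.Bijective ι :=
      (Nat.bijective_iff_injective_and_card ι).2 ⟨hι, le_antisymm
        (Nat.card_le_card_of_injective ι hι) (by rw [h.invol_three t ht]; exact hWbig)⟩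
    obtain ⟨⟨w, a, ha, e⟩, hw⟩ := hbij.2 ⟨(x : G)⁻¹, by rw [orderOf_inv, hxG], hxt.inv_left⟩
    refine ⟨⟨a, ha⟩, Subtype.ext ?_⟩
    push_cast
    rw [e]
    exact congrArg (fun z => z.1) hw
  obtain ⟨y, hy⟩ := hinv
  have hxq : orderOf (q x) = 3 := by
    refine orderOf_eq_prime (by rw [← map_pow, ← hx, pow_orderOf_eq_one, map_one]) ?_
    intro e
    have := Subgroup.orderOf_dvd_natCard T ((QuotientGroup.eq_one_iff _).1 e)
    rw [hx, hTcard] at this
    norm_num at this
  obtain ⟨M, hMn, hM8, hMmax⟩ := exists_eight hQ (fun f hf => (q7 f hf).1) (fun f hf => (q7 f hf).2)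
    (x := q x) (y := q y) hxq (by rw [← map_inv, ← map_mul, ← map_mul, hy, map_inv])
  obtain ⟨fq, hfq⟩ := exists_prime_orderOf_dvd_card' (G := ↥C ⧸ T) 7 (by rw [hQ]; norm_num)
  obtain ⟨f, hf, hfq'⟩ := lift7 fq hfq
  obtain ⟨hfG, hcf⟩ := h7G f hf
  set E : Subgroup G := (M.comap q).map C.subtype with hE
  have hE16 : Nat.card E = 16 := by
    rw [hE, Subgroup.card_map_of_injective C.subtype_injective]
    have h1 := (M.comap q).card_mul_index
    rw [Subgroup.index_comap_of_surjective _ (QuotientGroup.mk'_surjective T), hC] at h1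
    have h2 := M.card_mul_index
    rw [hM8, hQ] at h2
    rw [show M.index = 168 by omega] at h1
    omega
  have hEC : E ≤ C := Subgroup.map_subtype_le _
  have hEmem : ∀ a : ↥C, (a : G) ∈ E ↔ q a ∈ M := by
    intro a
    rw [hE]
    exact ⟨fun ⟨b, hb, e⟩ => (Subtype.ext e : b = a) ▸ hb, fun ha => ⟨a, ha, rfl⟩⟩
  have htE : t ∈ E := (hEmem ⟨t, htC⟩).2 (by
    rw [show q ⟨t, htC⟩ = 1 from (QuotientGroup.eq_one_iff _).2 (Subgroup.mem_zpowers _)]
    exact one_mem _)
  have hnormal : ∀ g : G, Commute g t → ∀ a ∈ E, g * a * g⁻¹ ∈ E := by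
    intro g hg a ha
    have hgC : g ∈ C := mem_centSingle.2 hg.eq
    have e := (hEmem ((⟨g, hgC⟩ : ↥C) * ⟨a, hEC ha⟩ * ⟨g, hgC⟩⁻¹)).2 (by
      rw [map_mul, map_mul, map_inv]
      exact hMn.conj_mem _ ((hEmem ⟨a, hEC ha⟩).1 ha) _)
    exact e
  have trans7 : ∀ a b : ↥C, (a : G) ∈ E → (b : G) ∈ E → q a ≠ 1 → q b ≠ 1 →
      ∃ i : ℕ, (f : G) ^ i * a * ((f : G) ^ i)⁻¹ = b ∨ (f : G) ^ i * a * ((f : G) ^ i)⁻¹ = b * t := by
    intro a b ha hb ha1 hb1
    obtain ⟨i, hi⟩ := transitive_eight hMn hM8 hfq (q7 fq hfq).1 ((hEmem a).1 ha) ha1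
      ((hEmem b).1 hb) hb1
    refine ⟨i, ?_⟩
    have e : q b = q (f ^ i * a * (f ^ i)⁻¹) := by
      rw [map_mul, map_mul, map_inv, map_pow, hfq', hi]
    rcases qeq _ _ e with e' | e' <;> push_cast at e'
    · exact Or.inl e'
    · exact Or.inr e'
  have qne : ∀ a : ↥C, (a : G) ≠ 1 → (a : G) ≠ t → q a ≠ 1 := fun a h1 h2 e => by
    rcases (hTmem a).1 ((QuotientGroup.eq_one_iff _).1 e) with h' | h'
    · exact h1 h'
    · exact h2 h'
  -- squares
  have sq_mem : ∀ a : ↥C, (a : G) ∈ E → (a : G) * a = 1 ∨ (a : G) * a = t := by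
    intro a ha
    haveI : Fact (Nat.Prime 2) := ⟨Nat.prime_two⟩
    obtain ⟨z, hz⟩ := exists_prime_orderOf_dvd_card' (G := ↥M) 2 (by rw [hM8]; norm_num)
    have hM2 : ∀ m ∈ M, m * m = 1 := by
      intro m hm
      by_cases h1 : m = 1
      · rw [h1, one_mul]
      · have hz1 : (z : ↥C ⧸ T) ≠ 1 := fun e => by
          rw [← Subgroup.orderOf_coe, e, orderOf_one] at hz; norm_num at hz
        obtain ⟨i, hi⟩ := transitive_eight hMn hM8 hfq (q7 fq hfq).1 z.2 hz1 hm h1
        have hzz : (z : ↥C ⧸ T) * z = 1 := by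
          rw [← pow_two, ← hz, ← Subgroup.orderOf_coe, pow_orderOf_eq_one]
        rw [← hi]
        calc fq ^ i * z * (fq ^ i)⁻¹ * (fq ^ i * z * (fq ^ i)⁻¹)
            = fq ^ i * ((z : ↥C ⧸ T) * z) * (fq ^ i)⁻¹ := by group
          _ = 1 := by rw [hzz, mul_one, mul_inv_cancel]
    have h2 : q (a * a) = 1 := by rw [map_mul]; exact hM2 _ ((hEmem a).1 ha)
    exact (hTmem _).1 ((QuotientGroup.eq_one_iff _).1 h2)
  have hsq : ∀ a ∈ E, a * a = 1 := by
    intro a₀ ha₀
    by_contra hne
    have hQ8 : ∀ b : ↥C, (b : G) ∈ E → q b ≠ 1 → (b : G) * b = t := by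
      intro b hb hb1
      have ha1 : q ⟨a₀, hEC ha₀⟩ ≠ 1 := by
        refine qne _ (fun e => hne ?_) (fun e => hne ?_)
        · rw [show a₀ = 1 from e, one_mul]
        · rw [show a₀ = t from e, ht2]
      have hat : a₀ * a₀ = t := (sq_mem ⟨a₀, hEC ha₀⟩ ha₀).resolve_left hne
      obtain ⟨i, hi⟩ := trans7 ⟨a₀, hEC ha₀⟩ b ha₀ hb ha1 hb1
      have hfi : Commute ((f : G) ^ i) t := (show Commute (f : G) t from mem_centSingle.1 f.2).pow_left i
      have hconj : (f : G) ^ i * a₀ * ((f : G) ^ i)⁻¹ * ((f : G) ^ i * a₀ * ((f : G) ^ i)⁻¹) = t := by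
        calc (f : G) ^ i * a₀ * ((f : G) ^ i)⁻¹ * ((f : G) ^ i * a₀ * ((f : G) ^ i)⁻¹)
            = (f : G) ^ i * (a₀ * a₀) * ((f : G) ^ i)⁻¹ := by group
          _ = t := by rw [hat, hfi.eq, mul_inv_cancel_right]
      rcases hi with e | e <;> rw [e] at hconj
      · exact hconj
      · have hbt : Commute (b : G) t := mem_centSingle.1 b.2
        calc (b : G) * b = (b : G) * b * (t * t) := by rw [ht2, mul_one]
          _ = (b : G) * (b * t) * t := by group
          _ = (b : G) * (t * b) * t := by rw [hbt.eq]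
          _ = (b : G) * t * (b * t) := by group
          _ = t := hconj
    -- two elements independent modulo `t` anticommute
    have hanti : ∀ u v : ↥C, (u : G) ∈ E → (v : G) ∈ E → q u ≠ 1 → q v ≠ 1 → q (u * v) ≠ 1 →
        (u : G) * v = t * (v * u) := by
      intro u v hu hv hu1 hv1 huv
      have e1 := hQ8 u hu hu1
      have e2 := hQ8 v hv hv1
      have e3 := hQ8 (u * v) (mul_mem hu hv) huv
      push_cast at e3
      have hut : (u : G) * t = t * u := mem_centSingle.1 u.2
      have hvt : (v : G) * t = t * v := mem_centSingle.1 v.2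
      have ui : (u : G)⁻¹ = t * u := inv_eq_of_mul_eq_one_right (by
        rw [← mul_assoc, hut, mul_assoc, e1, ht2])
      have vi : (v : G)⁻¹ = t * v := inv_eq_of_mul_eq_one_right (by
        rw [← mul_assoc, hvt, mul_assoc, e2, ht2])
      have uvi : ((u : G) * v)⁻¹ = t * (u * v) := inv_eq_of_mul_eq_one_right (by
        rw [← mul_assoc, show (u : G) * v * t = t * (u * v) by
          rw [mul_assoc, hvt, ← mul_assoc, hut, mul_assoc], mul_assoc, e3, ht2])
      rw [mul_inv_rev, ui, vi] at uvi
      have h5 : (v : G) * u = t * (u * v) := by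
        calc (v : G) * u = t * t * ((v : G) * u) := by rw [ht2, one_mul]
          _ = t * ((t * v) * u) := by group
          _ = t * ((v * t) * u) := by rw [hvt]
          _ = t * (v * (t * u)) := by group
          _ = (t * v) * (t * u) := by group
          _ = t * (u * v) := uvi
      rw [h5, ← mul_assoc t, ht2, one_mul]
    obtain ⟨A, hA, hA1⟩ : ∃ A ∈ M, A ≠ 1 := by
      by_contra hcon
      push Not at hcon
      have : M = ⊥ := (Subgroup.eq_bot_iff_forall M).2 hcon
      rw [this, Subgroup.card_bot] at hM8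
      norm_num at hM8
    have big : ∀ S : Finset (↥C ⧸ T), S.card < 8 → ∃ z ∈ M, z ∉ S := by
      intro S hS
      by_contra hcon
      push Not at hcon
      have h1 : Nat.card ↥M ≤ Nat.card ↥(S : Set (↥C ⧸ T)) :=
        Nat.card_le_card_of_injective (fun m : ↥M => (⟨m.1, hcon m.1 m.2⟩ : ↥(S : Set (↥C ⧸ T))))
          (fun a b e => Subtype.ext (congrArg (fun z => z.1) e))
      rw [hM8, Nat.card_coe_set_eq, Set.ncard_coe_finset] at h1
      omega
    obtain ⟨B, hB, hBS⟩ := big {1, A, A⁻¹} (lt_of_le_of_lt Finset.card_le_three (by norm_num))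
    obtain ⟨D, hD, hDS⟩ := big {1, A⁻¹, B⁻¹, B⁻¹ * A⁻¹, (A * B)⁻¹}
      (lt_of_le_of_lt Finset.card_le_five (by norm_num))
    simp only [Finset.mem_insert, Finset.mem_singleton, not_or] at hBS hDS
    obtain ⟨a, rfl⟩ := QuotientGroup.mk'_surjective T A
    obtain ⟨b, rfl⟩ := QuotientGroup.mk'_surjective T B
    obtain ⟨d, rfl⟩ := QuotientGroup.mk'_surjective T D
    have haE := (hEmem a).2 hA
    have hbE := (hEmem b).2 hB
    have hdE := (hEmem d).2 hD
    have n1 : q (a * b) ≠ 1 := fun e => hBS.2.2 (by rw [map_mul] at e; exact eq_inv_of_mul_eq_one_right e)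
    have n2 : q (a * d) ≠ 1 := fun e => hDS.2.1 (by rw [map_mul] at e; exact eq_inv_of_mul_eq_one_right e)
    have n3 : q (b * d) ≠ 1 := fun e => hDS.2.2.1 (by rw [map_mul] at e; exact eq_inv_of_mul_eq_one_right e)
    have n4 : q (a * (b * d)) ≠ 1 := fun e => hDS.2.2.2.1 (by
      rw [map_mul, map_mul, ← mul_assoc] at e
      rw [eq_inv_of_mul_eq_one_right e, mul_inv_rev])
    have x1 := hanti a b haE hbE hA1 hBS.1 n1
    have x2 := hanti a d haE hdE hA1 hDS.1 n2
    have x3 := hanti a (b * d) haE (mul_mem hbE hdE) hA1 n3 n4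
    push_cast at x3
    have hbt : (b : G) * t = t * b := mem_centSingle.1 b.2
    have x4 : (a : G) * (b * d) = (b : G) * d * a := by
      calc (a : G) * (b * d) = (a : G) * b * d := by group
        _ = t * (b * a) * d := by rw [x1]
        _ = t * b * (a * d) := by group
        _ = t * b * (t * (d * a)) := by rw [x2]
        _ = t * (b * t) * (d * a) := by group
        _ = (t * t) * ((b : G) * d * a) := by rw [hbt]; group
        _ = (b : G) * d * a := by rw [ht2, one_mul]
    rw [x4] at x3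
    exact ht1 (mul_eq_right.1 x3.symm)
  have hcomm : ∀ a ∈ E, ∀ b ∈ E, a * b = b * a := by
    intro a ha b hb
    have e1 : a⁻¹ = a := inv_eq_of_mul_eq_one_right (hsq a ha)
    have e2 : b⁻¹ = b := inv_eq_of_mul_eq_one_right (hsq b hb)
    have e3 : (a * b)⁻¹ = a * b := inv_eq_of_mul_eq_one_right (hsq _ (mul_mem ha hb))
    rw [mul_inv_rev, e1, e2] at e3
    exact e3.symm
  have hmax : ∀ L : Subgroup G, L ≤ C → E ≤ L →
      (∀ g : G, Commute g t → ∀ a ∈ L, g * a * g⁻¹ ∈ L) → ¬ 7 ∣ Nat.card L → L = E := by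
    intro L hLC hEL hLn hL7
    set L' := (L.subgroupOf C).map q with hL'
    have hL'n : L'.Normal := by
      refine ⟨fun n hn g => ?_⟩
      obtain ⟨a, ha, rfl⟩ := hn
      obtain ⟨b, rfl⟩ := QuotientGroup.mk'_surjective T g
      refine ⟨b * a * b⁻¹, ?_, by rw [map_mul, map_mul, map_inv]⟩
      rw [SetLike.mem_coe, Subgroup.mem_subgroupOf] at ha ⊢
      push_cast
      exact hLn _ (mem_centSingle.1 b.2) _ ha
    have hML : M ≤ L' := by
      intro m hm
      obtain ⟨a, rfl⟩ := QuotientGroup.mk'_surjective T m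
      exact ⟨a, Subgroup.mem_subgroupOf.2 (hEL ((hEmem a).2 hm)), rfl⟩
    have hdvd : Nat.card L' ∣ Nat.card L := by
      rw [← Nat.card_congr (Subgroup.subgroupOfEquivOfLe hLC).toEquiv]
      exact Subgroup.card_map_dvd _ _
    have hLM := hMmax L' hL'n hML (fun h => hL7 (h.trans hdvd))
    refine le_antisymm (fun a ha => ?_) hEL
    refine (hEmem ⟨a, hLC ha⟩).2 ?_
    rw [← hLM]
    exact ⟨⟨a, hLC ha⟩, Subgroup.mem_subgroupOf.2 ha, rfl⟩
  have hlines : ∀ a ∈ E, ∀ b ∈ E, a ≠ 1 → a ≠ t → b ≠ 1 → b ≠ t →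
      ∃ g : G, Commute g t ∧ (g * a * g⁻¹ = b ∨ g * a * g⁻¹ = b * t) := by
    intro a ha b hb a1 at' b1 bt
    obtain ⟨i, hi⟩ := trans7 ⟨a, hEC ha⟩ ⟨b, hEC hb⟩ ha hb (qne _ a1 at') (qne _ b1 bt)
    exact ⟨(f : G) ^ i, (show Commute (f : G) t from mem_centSingle.1 f.2).pow_left i, hi⟩
  have hself : Subgroup.centralizer (E : Set G) = E := by
    have hEL : E ≤ Subgroup.centralizer (E : Set G) := fun a ha =>
      Subgroup.mem_centralizer_iff.2 fun b hb => hcomm b hb a ha
    have hLC : Subgroup.centralizer (E : Set G) ≤ C := fun a ha =>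
      mem_centSingle.2 ((Subgroup.mem_centralizer_iff.1 ha t htE).symm)
    refine hmax _ hLC hEL ?_ ?_
    · intro g hg a ha
      rw [Subgroup.mem_centralizer_iff] at ha ⊢
      intro b hb
      have hb' : g⁻¹ * b * g ∈ E := by
        have := hnormal g⁻¹ hg.inv_left b hb
        rwa [inv_inv] at this
      calc b * (g * a * g⁻¹) = g * ((g⁻¹ * b * g) * a) * g⁻¹ := by group
        _ = g * (a * (g⁻¹ * b * g)) * g⁻¹ := by rw [ha _ hb']
        _ = g * a * g⁻¹ * b := by group
    · intro h7
      obtain ⟨w, hw⟩ := exists_prime_orderOf_dvd_card' (G := ↥(Subgroup.centralizer (E : Set G))) 7 h7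
      set w' : ↥C := ⟨w, hLC w.2⟩
      have hw' : orderOf w' = 7 := by
        rw [← Subgroup.orderOf_coe]
        show orderOf (w : G) = 7
        rw [Subgroup.orderOf_coe]; exact hw
      obtain ⟨hwG, hcw⟩ := h7G w' hw'
      have hEle : E ≤ Subgroup.zpowers ((w' : G) * t) := fun e he =>
        hcw e (Subgroup.mem_centralizer_iff.1 w.2 e he)
      have hdd := Subgroup.card_dvd_of_le hEle
      have hord : orderOf ((w' : G) * t) = 14 := by
        rw [(show Commute (w' : G) t from mem_centSingle.1 w'.2).orderOf_mul_eq_mul_orderOf_of_coprime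
          (by rw [hwG, ht]; norm_num), hwG, ht]
      rw [hE16, Nat.card_zpowers, hord] at hdd
      norm_num at hdd
  exact ⟨E, hE16, hcomm, hsq, htE, hEC, hnormal, hmax, hself, hlines⟩

/-- The subgroup of order 16 is unique. -/
theorem Core.unique {t : G} {E F : Subgroup G} (hE : Core t E) (hF : Core t F) : E = F := by
  haveI : Fact (Nat.Prime 7) := ⟨by norm_num⟩
  have hL : E ⊔ F ≤ Subgroup.centralizer ({t} : Set G) := sup_le hE.le hF.le
  have hconj : ∀ g : G, Commute g t → ∀ a ∈ E ⊔ F, g * a * g⁻¹ ∈ E ⊔ F := by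
    intro g hg a ha
    have h1 : (E ⊔ F).map (MulAut.conj g).toMonoidHom ≤ E ⊔ F := by
      rw [Subgroup.map_sup]
      refine sup_le ?_ ?_
      · rintro _ ⟨b, hb, rfl⟩
        exact Subgroup.mem_sup_left (hE.normal g hg b hb)
      · rintro _ ⟨b, hb, rfl⟩
        exact Subgroup.mem_sup_right (hF.normal g hg b hb)
    exact h1 ⟨a, ha, rfl⟩
  have hno : ¬ 7 ∣ Nat.card ↥(E ⊔ F) := by
    intro h7
    obtain ⟨w, hw⟩ := exists_prime_orderOf_dvd_card' (G := ↥(E ⊔ F)) 7 h7
    have hmem : (w : G) ∈ E ⊔ F := w.2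
    have hFN : F ≤ Subgroup.normalizer (E : Set G) := by
      intro b hb
      have hbt : Commute b t := mem_centSingle.1 (hF.le hb)
      exact Subgroup.mem_normalizer_fintype fun a ha => hE.normal b hbt a ha
    rw [← SetLike.mem_coe, Subgroup.coe_mul_of_right_le_normalizer_left E F hFN] at hmem
    obtain ⟨e, he, b, hb, hw'⟩ := Set.mem_mul.1 hmem
    have hsqE : (e * b) * (e * b) ∈ E := by
      have hbt : Commute b t := mem_centSingle.1 (hF.le hb)
      have h1 : b * e * b⁻¹ ∈ E := hE.normal b hbt e he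
      have h2 : e * b * (e * b) = e * (b * e * b⁻¹) := by
        calc e * b * (e * b) = e * (b * e * b⁻¹) * (b * b) := by group
          _ = e * (b * e * b⁻¹) := by rw [hF.sq b hb, mul_one]
      rw [h2]
      exact mul_mem he h1
    have h4 : ((w : G) * w) * ((w : G) * w) = 1 := by
      rw [← hw']; exact hE.sq _ hsqE
    have h7' : 7 ∣ 4 := by
      refine CoreLocal.not_seven_dvd_of_pow (f := (w : G)) (by rw [Subgroup.orderOf_coe]; exact hw) ?_
      rw [show (4 : ℕ) = 1 + 1 + (1 + 1) from rfl, pow_add, pow_add, pow_one]; exact h4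
    norm_num at h7'
  have h1 := hE.max (E ⊔ F) hL le_sup_left hconj hno
  have h2 : F ≤ E := h1 ▸ le_sup_right
  exact (Subgroup.eq_of_le_of_card_ge h2 (by rw [hE.card, hF.card])).symm

omit [Finite G] in
/-- Conjugation carries the subgroup along. -/
theorem Core.conj {t : G} {E : Subgroup G} (hE : Core t E) (g : G) :
    Core (g * t * g⁻¹) (E.map (MulAut.conj g).toMonoidHom) := by
  have hm : ∀ a : G, a ∈ E.map (MulAut.conj g).toMonoidHom ↔ g⁻¹ * a * g ∈ E := by
    intro a
    constructor
    · rintro ⟨b, hb, rfl⟩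
      show g⁻¹ * (g * b * g⁻¹) * g ∈ E
      rwa [show g⁻¹ * (g * b * g⁻¹) * g = b by group]
    · intro ha
      exact ⟨_, ha, by show g * (g⁻¹ * a * g) * g⁻¹ = a; group⟩
  have hcomm' : ∀ a : G, Commute a (g * t * g⁻¹) ↔ Commute (g⁻¹ * a * g) t := by
    intro a
    constructor <;> intro h
    · calc g⁻¹ * a * g * t = g⁻¹ * (a * (g * t * g⁻¹)) * g := by group
        _ = g⁻¹ * ((g * t * g⁻¹) * a) * g := by rw [h.eq]
        _ = t * (g⁻¹ * a * g) := by group
    · calc a * (g * t * g⁻¹) = g * ((g⁻¹ * a * g) * t) * g⁻¹ := by group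
        _ = g * (t * (g⁻¹ * a * g)) * g⁻¹ := by rw [h.eq]
        _ = g * t * g⁻¹ * a := by group
  refine ⟨?_, ?_, ?_, ?_, ?_, ?_, ?_, ?_, ?_⟩
  · rw [Subgroup.card_map_of_injective (MulEquiv.injective _)]; exact hE.card
  · rintro _ ⟨a, ha, rfl⟩ _ ⟨b, hb, rfl⟩
    rw [← map_mul, ← map_mul, hE.comm a ha b hb]
  · rintro _ ⟨a, ha, rfl⟩
    rw [← map_mul, hE.sq a ha, map_one]
  · exact ⟨t, hE.mem, rfl⟩
  · intro a ha
    exact mem_centSingle.2 ((hcomm' a).2 (mem_centSingle.1 (hE.le ((hm a).1 ha)))).eq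
  · intro h hh a ha
    rw [hm] at ha ⊢
    have := hE.normal (g⁻¹ * h * g) ((hcomm' h).1 hh) _ ha
    rwa [show g⁻¹ * h * g * (g⁻¹ * a * g) * (g⁻¹ * h * g)⁻¹ = g⁻¹ * (h * a * h⁻¹) * g by group] at this
  · intro L hLC hEL hLn hL7
    set L₀ := L.map (MulAut.conj g⁻¹).toMonoidHom with hL₀
    have hm0 : ∀ a : G, a ∈ L₀ ↔ g * a * g⁻¹ ∈ L := by
      intro a
      constructor
      · rintro ⟨b, hb, rfl⟩
        show g * (g⁻¹ * b * g⁻¹⁻¹) * g⁻¹ ∈ L
        rwa [show g * (g⁻¹ * b * g⁻¹⁻¹) * g⁻¹ = b by group]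
      · intro ha
        exact ⟨_, ha, by show g⁻¹ * (g * a * g⁻¹) * g⁻¹⁻¹ = a; group⟩
    have h0 : L₀ = E := by
      refine hE.max L₀ ?_ ?_ ?_ ?_
      · intro a ha
        have h' : Commute (g * a * g⁻¹) (g * t * g⁻¹) := mem_centSingle.1 (hLC ((hm0 a).1 ha))
        rw [hcomm', show g⁻¹ * (g * a * g⁻¹) * g = a by group] at h'
        exact mem_centSingle.2 h'.eq
      · intro a ha
        exact (hm0 a).2 (hEL ⟨a, ha, rfl⟩)
      · intro h hh a ha
        rw [hm0] at ha ⊢
        have := hLn (g * h * g⁻¹) ((hcomm' _).2 (by rwa [show g⁻¹ * (g * h * g⁻¹) * g = h by group])) _ ha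
        rwa [show g * h * g⁻¹ * (g * a * g⁻¹) * (g * h * g⁻¹)⁻¹ = g * (h * a * h⁻¹) * g⁻¹ by group] at this
      · rw [hL₀, Subgroup.card_map_of_injective (MulEquiv.injective _)]; exact hL7
    ext a
    rw [hm, ← h0, hm0, show g * (g⁻¹ * a * g) * g⁻¹ = a by group]
  · refine le_antisymm (fun a ha => ?_) ?_
    · rw [hm, ← hE.self_cent, Subgroup.mem_centralizer_iff]
      intro b hb
      have := Subgroup.mem_centralizer_iff.1 ha (g * b * g⁻¹) ⟨b, hb, rfl⟩
      calc b * (g⁻¹ * a * g) = g⁻¹ * ((g * b * g⁻¹) * a) * g := by group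
        _ = g⁻¹ * (a * (g * b * g⁻¹)) * g := by rw [this]
        _ = g⁻¹ * a * g * b := by group
    · rintro _ ⟨a, ha, rfl⟩
      rw [Subgroup.mem_centralizer_iff]
      rintro _ ⟨b, hb, rfl⟩
      rw [← map_mul, ← map_mul, hE.comm b hb a ha]
  · rintro _ ⟨a, ha, rfl⟩ _ ⟨b, hb, rfl⟩ a1 at' b1 bt
    obtain ⟨h, hh, e⟩ := hE.lines a ha b hb
      (fun e => a1 (by rw [e, map_one])) (fun e => at' (by rw [e]; rfl))
      (fun e => b1 (by rw [e, map_one])) (fun e => bt (by rw [e]; rfl))
    refine ⟨g * h * g⁻¹, (hcomm' _).2 (by rwa [show g⁻¹ * (g * h * g⁻¹) * g = h by group]), ?_⟩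
    rcases e with e | e
    · left
      show g * h * g⁻¹ * (g * a * g⁻¹) * (g * h * g⁻¹)⁻¹ = g * b * g⁻¹
      rw [← e]; group
    · right
      show g * h * g⁻¹ * (g * a * g⁻¹) * (g * h * g⁻¹)⁻¹ = g * b * g⁻¹ * (g * t * g⁻¹)
      calc g * h * g⁻¹ * (g * a * g⁻¹) * (g * h * g⁻¹)⁻¹ = g * (h * a * h⁻¹) * g⁻¹ := by group
        _ = g * (b * t) * g⁻¹ := by rw [e]
        _ = g * b * g⁻¹ * (g * t * g⁻¹) := by group

end CfsgLib.M23Count
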