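import Cfsg.Agent.M23Count.Defs
import Cfsg.Agent.M12Count.Basic
import Cfsg.Agent.OrderCounts.Basic
import Cfsg.Agent.SylowToolkit.Counting
import Cfsg.Agent.Dickson.Sixty
import Mathlib

/-!
What the order `10200960` and the element-order counts of `M₂₃` give directly: the centralisers of
the elements of orders two, three, five and seven, and the quotient `C(x)/⟨x⟩ ≅ A₅`.

An involution centralises an element of order seven, so the orders fourteen and fifteen take the
values `1457280` and `1360128`; there is then no room for elements of order ten, and counting the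
elements of order six in two ways gives everything about the elements of order three.
-/

set_option autoImplicit false
set_option linter.style.haveILetI false

namespace CfsgLib.M23Count

open Subgroup

open CfsgLib.M12Count (count_modEq centralizer_le_normalizer_zpowers mem_centralizer_of_commute
  commute_of_mem_centralizer exists_sylow_eq)

universe u

section general

variable {G : Type u} [Group G] [Finite G]

theorem cnt_ne_zero {n : ℕ} {x : G} (hx : orderOf x = n) : cnt G n ≠ 0 :=
  (CfsgLib.OrderCounts.cnt_ne_zero_iff n).mpr ⟨x, hx⟩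

theorem exists_of_cnt_ne_zero {n : ℕ} (hn : cnt G n ≠ 0) : ∃ x : G, orderOf x = n :=
  (CfsgLib.OrderCounts.cnt_ne_zero_iff n).mp hn

theorem orderOf_conjugate (a g : G) : orderOf (a * g * a⁻¹) = orderOf g :=
  orderOf_injective (MulAut.conj a).toMonoidHom (MulAut.conj a).injective g

theorem card_commute_conjugate (a g : G) (d : ℕ) :
    Nat.card {y : G // orderOf y = d ∧ Commute g y} =
      Nat.card {y : G // orderOf y = d ∧ Commute (a * g * a⁻¹) y} := by
  refine Nat.card_congr ((MulAut.conj a).toEquiv.subtypeEquiv fun y => ?_)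
  show _ ↔ orderOf ((MulAut.conj a) y) = d ∧ Commute (a * g * a⁻¹) ((MulAut.conj a) y)
  rw [MulEquiv.orderOf_eq, MulAut.conj_apply]
  exact and_congr_right fun _ => (Commute.conj_iff a).symm

theorem commute_iff_of_zpowers_eq {g g' : G} (e : zpowers g = zpowers g') (y : G) :
    Commute g y ↔ Commute g' y := by
  constructor
  · intro hy
    obtain ⟨k, rfl⟩ := mem_zpowers_iff.1 (e.symm ▸ mem_zpowers g' : g' ∈ zpowers g)
    exact hy.zpow_left k
  · intro hy
    obtain ⟨k, rfl⟩ := mem_zpowers_iff.1 (e ▸ mem_zpowers g : g ∈ zpowers g')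
    exact hy.zpow_left k

theorem card_commute_of_zpowers {g g' a : G} (e : zpowers (a * g * a⁻¹) = zpowers g') (d : ℕ) :
    Nat.card {y : G // orderOf y = d ∧ Commute g y} =
      Nat.card {y : G // orderOf y = d ∧ Commute g' y} := by
  rw [card_commute_conjugate a g d]
  exact Nat.card_congr (Equiv.subtypeEquivRight fun y =>
    and_congr_right fun _ => commute_iff_of_zpowers_eq e y)

theorem card_centralizer_conjugate (a g : G) :
    Nat.card (centralizer ({g} : Set G)) = Nat.card (centralizer ({a * g * a⁻¹} : Set G)) := by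
  refine Nat.card_congr ((MulAut.conj a).toEquiv.subtypeEquiv fun y => ?_)
  show _ ↔ (MulAut.conj a) y ∈ _
  rw [mem_centralizer_singleton_iff, mem_centralizer_singleton_iff, MulAut.conj_apply]
  exact (Commute.conj_iff (a := y) (b := g) a).symm

/-- The number of elements of order `d` commuting with `g` is the number in the centraliser. -/
theorem card_orderOf_centralizer (g : G) (d : ℕ) :
    Nat.card {y : centralizer ({g} : Set G) // orderOf y = d} =
      Nat.card {y : G // orderOf y = d ∧ Commute g y} :=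
  Nat.card_congr
    { toFun := fun y => ⟨(y.1 : G), by rw [Subgroup.orderOf_coe]; exact y.2,
        commute_of_mem_centralizer y.1.2⟩
      invFun := fun y => ⟨⟨y.1, mem_centralizer_of_commute y.2.2⟩,
        by rw [Subgroup.orderOf_mk]; exact y.2.1⟩
      left_inv := fun y => rfl
      right_inv := fun y => rfl }

/-- The elements of order `p * d`, for coprime `p` and `d`. -/
theorem cnt_mul {p d k : ℕ} (hp : 1 < p) (hd : 1 < d) (hco : Nat.Coprime p d)
    (hk : ∀ x : G, orderOf x = p → Nat.card {y : G // orderOf y = d ∧ Commute x y} = k) :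
    cnt G (p * d) = cnt G p * k := by
  classical
  haveI := Fintype.ofFinite {x : G // orderOf x = p}
  obtain ⟨u, -, hu⟩ := Nat.exists_mul_mod_eq_one_of_coprime hco.symm hp
  obtain ⟨v, -, hv⟩ := Nat.exists_mul_mod_eq_one_of_coprime hco hd
  have hsum : (d * u + p * v) % (p * d) = 1 % (p * d) := by
    refine (Nat.modEq_and_modEq_iff_modEq_mul hco).1 ⟨?_, ?_⟩
    · show (d * u + p * v) % p = 1 % p
      rw [Nat.add_mul_mod_self_left, hu, Nat.mod_eq_of_lt hp]
    · show (d * u + p * v) % d = 1 % d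
      rw [add_comm, Nat.add_mul_mod_self_left, hv, Nat.mod_eq_of_lt hd]
  have h1 : 1 < p * d := lt_of_lt_of_le hp (Nat.le_mul_of_pos_right p (by omega))
  let f : (Σ x : {x : G // orderOf x = p}, {y : G // orderOf y = d ∧ Commute (x : G) y}) →
      {z : G // orderOf z = p * d} := fun s => ⟨(s.1 : G) * s.2, by
    rw [s.2.2.2.orderOf_mul_eq_mul_orderOf_of_coprime (by rw [s.1.2, s.2.2.1]; exact hco), s.1.2,
      s.2.2.1]⟩
  have hf : Function.Bijective f := by
    constructor
    · rintro ⟨⟨x, hx⟩, ⟨y, hy, hxy⟩⟩ ⟨⟨x', hx'⟩, ⟨y', hy', hxy'⟩⟩ e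
      have e' : x * y = x' * y' := congrArg Subtype.val e
      have key : ∀ x y : G, orderOf x = p → orderOf y = d → Commute x y →
          (x * y) ^ (d * u) = x := by
        intro x y hx hy hxy
        rw [hxy.mul_pow, orderOf_dvd_iff_pow_eq_one.1 (hy.symm ▸ dvd_mul_right d u :
          orderOf y ∣ d * u), mul_one, ← pow_mod_orderOf, hx, hu, pow_one]
      obtain rfl : x = x' := by rw [← key x y hx hy hxy, e', key x' y' hx' hy' hxy']
      obtain rfl : y = y' := mul_left_cancel e'
      rfl
    · rintro ⟨z, hz⟩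
      refine ⟨⟨⟨z ^ (d * u), ?_⟩, ⟨z ^ (p * v), ?_, (Commute.refl z).pow_pow _ _⟩⟩,
        Subtype.ext ?_⟩
      · have hd1 : orderOf (z ^ d) = p := by
          rw [orderOf_pow_of_dvd (by omega) (hz ▸ dvd_mul_left d p), hz,
            Nat.mul_div_cancel _ (by omega)]
        rw [pow_mul, Nat.Coprime.orderOf_pow, hd1]
        rw [hd1, Nat.coprime_comm]
        refine Nat.Coprime.coprime_mul_left (k := d) ?_
        rw [Nat.coprime_iff_gcd_eq_one, Nat.gcd_comm, Nat.gcd_rec, hu, Nat.gcd_one_left]
      · have hp1 : orderOf (z ^ p) = d := by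
          rw [orderOf_pow_of_dvd (by omega) (hz ▸ dvd_mul_right p d), hz,
            Nat.mul_div_cancel_left _ (by omega)]
        rw [pow_mul, Nat.Coprime.orderOf_pow, hp1]
        rw [hp1, Nat.coprime_comm]
        refine Nat.Coprime.coprime_mul_left (k := p) ?_
        rw [Nat.coprime_iff_gcd_eq_one, Nat.gcd_comm, Nat.gcd_rec, hv, Nat.gcd_one_left]
      · show z ^ (d * u) * z ^ (p * v) = z
        rw [← pow_add, ← pow_mod_orderOf, hz, hsum, Nat.mod_eq_of_lt h1, pow_one]
  show Nat.card {z : G // orderOf z = p * d} = _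
  rw [← Nat.card_eq_of_bijective f hf, Nat.card_sigma,
    Finset.sum_congr rfl (fun x _ => hk x.1 x.2), Finset.sum_const, Finset.card_univ,
    smul_eq_mul, ← Nat.card_eq_fintype_card]
  rfl

/-- Subgroups of prime order are conjugate when the prime divides the order exactly once. -/
theorem exists_conj_zpowers {p m : ℕ} [Fact p.Prime] (hG : Nat.card G = p * m) (hm : ¬ p ∣ m)
    {g g' : G} (hg : orderOf g = p) (hg' : orderOf g' = p) :
    ∃ a : G, zpowers (a * g * a⁻¹) = zpowers g' := by
  obtain ⟨P, hP⟩ := exists_sylow_eq hG hm hg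
  obtain ⟨Q, hQ⟩ := exists_sylow_eq hG hm hg'
  obtain ⟨a, ha⟩ := MulAction.exists_smul_eq G P Q
  refine ⟨a, eq_of_le_of_card_ge (zpowers_le.2 ?_) ?_⟩
  · rw [hQ, ← ha, Sylow.coe_subgroup_smul]
    exact ⟨g, hP ▸ mem_zpowers g, rfl⟩
  · rw [Nat.card_zpowers, Nat.card_zpowers, hg', orderOf_conjugate, hg]

theorem conjMap_injective (g : G) :
    Function.Injective fun q : G ⧸ centralizer ({g} : Set G) =>
      (⟨q.out * g * q.out⁻¹, orderOf_conjugate q.out g⟩ : {x : G // orderOf x = orderOf g}) := by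
  intro q r e
  have e' : q.out * g * q.out⁻¹ = r.out * g * r.out⁻¹ := congrArg Subtype.val e
  rw [← q.out_eq', ← r.out_eq', QuotientGroup.eq, mem_centralizer_singleton_iff]
  calc q.out⁻¹ * r.out * g = q.out⁻¹ * (r.out * g * r.out⁻¹) * r.out := by group
    _ = q.out⁻¹ * (q.out * g * q.out⁻¹) * r.out := by rw [e']
    _ = g * (q.out⁻¹ * r.out) := by group

theorem index_centralizer_le {n : ℕ} {g : G} (hg : orderOf g = n) :
    (centralizer ({g} : Set G)).index ≤ cnt G n := by
  subst hg
  exact Nat.card_le_card_of_injective _ (conjMap_injective g)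

theorem isConj_of_index_eq {n : ℕ} {g g' : G} (hg : orderOf g = n) (hg' : orderOf g' = n)
    (hi : (centralizer ({g} : Set G)).index = cnt G n) : IsConj g g' := by
  subst hg
  haveI := Fintype.ofFinite {x : G // orderOf x = orderOf g}
  haveI := Fintype.ofFinite (G ⧸ centralizer ({g} : Set G))
  have hb := (Fintype.bijective_iff_injective_and_card _).2 ⟨conjMap_injective g, by
    rw [← Nat.card_eq_fintype_card, ← Nat.card_eq_fintype_card]; exact hi⟩
  obtain ⟨q, hq⟩ := hb.2 ⟨g', hg'⟩
  exact isConj_iff.2 ⟨q.out, congrArg Subtype.val hq⟩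

/-- The normaliser of `⟨g⟩` has order `|C(g)|` times a divisor of `φ (orderOf g)`, with equality
when all the automorphisms of `⟨g⟩` occur. -/
theorem card_normalizer_zpowers (g : G) :
    Nat.card (normalizer (zpowers g : Set G)) =
      Nat.card (centralizer ({g} : Set G)) *
        Nat.card (zpowers g).normalizerMonoidHom.range := by
  rw [← index_ker, ← card_mul_index (zpowers g).normalizerMonoidHom.ker]
  congr 1
  rw [normalizerMonoidHom_ker, zpowers_eq_closure, centralizer_closure]
  exact Nat.card_congr (subgroupOfEquivOfLe (by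
    rw [← zpowers_eq_closure]; exact centralizer_le_normalizer_zpowers g)).toEquiv

theorem card_mulAut_zpowers (g : G) :
    Nat.card (MulAut (zpowers g)) = (orderOf g).totient := by
  rw [IsCyclic.card_mulAut, Nat.card_zpowers]

theorem card_normalizer_zpowers_dvd (g : G) :
    Nat.card (normalizer (zpowers g : Set G)) ∣
      Nat.card (centralizer ({g} : Set G)) * (orderOf g).totient := by
  rw [card_normalizer_zpowers, ← card_mulAut_zpowers]
  exact Nat.mul_dvd_mul_left _ (card_subgroup_dvd_card _)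

theorem card_normalizer_inf {C : Subgroup G} {g : G} (hgC : g ∈ C) :
    Nat.card (normalizer (zpowers (⟨g, hgC⟩ : C) : Set C)) =
      Nat.card ↥(normalizer (zpowers g : Set G) ⊓ C) := by
  have e : zpowers (⟨g, hgC⟩ : C) = (zpowers g).subgroupOf C := by
    ext y
    simp only [mem_subgroupOf, mem_zpowers_iff, Subtype.ext_iff, Subgroup.coe_zpow]
  rw [e, ← subgroupOf_normalizer_eq (zpowers_le.2 hgC), ← inf_subgroupOf_right]
  exact Nat.card_congr (subgroupOfEquivOfLe inf_le_right).toEquiv

section coprimeKernel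

variable {A B : Type u} [Group A] [Group B] [Finite A] {π : A →* B}

/-- A central kernel of order three does not affect the elements of other prime orders. -/
theorem card_orderOf_map (hπ : Function.Surjective π) (hker : Nat.card π.ker = 3)
    (hc : ∀ k ∈ π.ker, ∀ a : A, Commute k a) {p : ℕ} [hp : Fact p.Prime] (h3 : p ≠ 3) :
    Nat.card {b : B // orderOf b = p} = Nat.card {a : A // orderOf a = p} := by
  have hco : Nat.Coprime 3 p := (Nat.coprime_primes Nat.prime_three hp.out).2 (Ne.symm h3)
  have hk3 : ∀ k ∈ π.ker, k ^ 3 = 1 := fun k hk =>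
    orderOf_dvd_iff_pow_eq_one.1 (hker ▸ Subgroup.orderOf_dvd_natCard _ hk)
  have hkp : ∀ k ∈ π.ker, k ^ p = 1 → k = 1 := fun k hk h1 =>
    orderOf_eq_one_iff.1 (Nat.eq_one_of_dvd_coprimes hco
      (orderOf_dvd_iff_pow_eq_one.2 (hk3 k hk)) (orderOf_dvd_iff_pow_eq_one.2 h1))
  have himg : ∀ a : A, orderOf a = p → orderOf (π a) = p := by
    intro a ha
    rcases (Nat.dvd_prime hp.out).1 (ha ▸ orderOf_map_dvd π a) with h1 | h1
    · have := hkp a (MonoidHom.mem_ker.2 (orderOf_eq_one_iff.1 h1)) (ha ▸ pow_orderOf_eq_one a)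
      rw [this, orderOf_one] at ha
      exact absurd ha.symm hp.out.one_lt.ne'
    · exact h1
  refine (Nat.card_eq_of_bijective
    (fun a : {a : A // orderOf a = p} => (⟨π a, himg a a.2⟩ : {b : B // orderOf b = p})) ⟨?_, ?_⟩).symm
  · rintro ⟨a, ha⟩ ⟨a', ha'⟩ e
    have e' : π a = π a' := congrArg Subtype.val e
    have hk : a'⁻¹ * a ∈ π.ker := by
      rw [MonoidHom.mem_ker, map_mul, map_inv, e', inv_mul_cancel]
    have h1 : (a'⁻¹ * a) ^ p = 1 := by
      have h2 : (a' * (a'⁻¹ * a)) ^ p = 1 := by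
        rw [mul_inv_cancel_left]; exact ha ▸ pow_orderOf_eq_one a
      have h3' : a' ^ p = 1 := ha' ▸ pow_orderOf_eq_one a'
      rwa [((hc _ hk a').symm).mul_pow, h3', one_mul] at h2
    exact Subtype.ext (inv_mul_eq_one.1 (hkp _ hk h1)).symm
  · rintro ⟨b, hb⟩
    obtain ⟨a, ha⟩ := hπ b
    obtain ⟨u, -, hu⟩ := Nat.exists_mul_mod_eq_one_of_coprime hco hp.out.one_lt
    have hmap : π (a ^ (3 * u)) = b := by
      rw [map_pow, ha, ← pow_mod_orderOf, hb, hu, pow_one]
    have hbp : b ^ p = 1 := hb ▸ pow_orderOf_eq_one b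
    have hap : (a ^ (3 * u)) ^ p = 1 := by
      have hk : a ^ p ∈ π.ker := by rw [MonoidHom.mem_ker, map_pow, ha, hbp]
      rw [← pow_mul, show 3 * u * p = p * 3 * u by ring, pow_mul, pow_mul, hk3 _ hk, one_pow]
    refine ⟨⟨a ^ (3 * u), ?_⟩, Subtype.ext hmap⟩
    refine orderOf_eq_prime hap fun h1 => ?_
    rw [h1, map_one] at hmap
    rw [← hmap, orderOf_one] at hb
    exact hp.out.one_lt.ne hb

/-- Commuting images, one of order prime to three, have commuting preimages. -/
theorem commute_of_map (hker : Nat.card π.ker = 3) (hc : ∀ k ∈ π.ker, ∀ a : A, Commute k a)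
    {a c : A} {p : ℕ} (hp : Nat.Coprime 3 p) (ha : a ^ p = 1) (h : Commute (π a) (π c)) :
    Commute a c := by
  set k := a * c * a⁻¹ * c⁻¹ with hk
  have hkm : k ∈ π.ker := by
    rw [MonoidHom.mem_ker, hk]
    simp only [map_mul, map_inv]
    rw [h.eq]
    group
  have e : a * c * a⁻¹ = k * c := by rw [hk]; group
  have hi : ∀ i : ℕ, a ^ i * c * (a ^ i)⁻¹ = k ^ i * c := by
    intro i
    induction i with
    | zero => simp
    | succ i ih =>
      calc a ^ (i + 1) * c * (a ^ (i + 1))⁻¹
          = a * (a ^ i * c * (a ^ i)⁻¹) * a⁻¹ := by rw [pow_succ']; group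
        _ = a * (k ^ i * c) * a⁻¹ := by rw [ih]
        _ = k ^ i * (a * c * a⁻¹) := by
          rw [← mul_assoc a, ((hc _ (pow_mem hkm i) a).symm).eq]; group
        _ = k ^ (i + 1) * c := by rw [e, ← mul_assoc, ← pow_succ]
  have h1 := hi p
  rw [ha, one_mul, inv_one, mul_one] at h1
  have hkp : k ^ p = 1 := mul_eq_right.1 h1.symm
  have hk1 : k = 1 := orderOf_eq_one_iff.1 (Nat.eq_one_of_dvd_coprimes hp
    (hker ▸ Subgroup.orderOf_dvd_natCard _ hkm) (orderOf_dvd_iff_pow_eq_one.2 hkp))
  rw [hk1, one_mul] at e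
  exact mul_inv_eq_iff_eq_mul.1 e

end coprimeKernel

end general

namespace CountHyp

variable {G : Type u} [Group G] [Finite G] (h : CountHyp G)
include h

theorem cnt_le {n : ℕ} : cnt G n ≤ 1854720 := by
  by_cases hn : cnt G n = 0
  · omega
  · exact (by decide : ∀ c ∈ countValues, c ≤ 1854720) _ (h.mem n hn)

theorem cnt_two : cnt G 2 = 3795 := by
  obtain ⟨n, hn⟩ := h.surj 3795 (by decide)
  match n, hn with
  | 0, hn =>
    haveI : IsEmpty {g : G // orderOf g = 0} := ⟨fun g => (orderOf_pos (g : G)).ne' g.2⟩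
    rw [cnt, Nat.card_of_isEmpty] at hn
    omega
  | 1, hn =>
    rw [show cnt G 1 = 1 from CfsgLib.OrderCounts.cnt_one] at hn
    omega
  | 2, hn => exact hn
  | k + 3, hn =>
    have h2 : 2 ∣ cnt G (k + 3) :=
      (Nat.totient_even (by omega)).two_dvd.trans (Cfsg.Agent.S3995.totient_dvd_cnt _)
    rw [hn] at h2
    omega

theorem cnt_prime {p v : ℕ} (hp : p.Prime) (hp2 : 3 ≤ p) (hd : p ∣ Nat.card G)
    (key : ∀ c ∈ countValues, c % 2 = 0 → (c + 1) % p = 0 → c = v) : cnt G p = v := by
  have hne : cnt G p ≠ 0 := CfsgLib.OrderCounts.cnt_prime_ne_zero hp hd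
  have he : 2 ∣ cnt G p :=
    (Nat.totient_even (by omega)).two_dvd.trans (Cfsg.Agent.S3995.totient_dvd_cnt _)
  refine key _ (h.mem p hne) (Nat.mod_eq_zero_of_dvd he) ?_
  have h1 := Cfsg.Agent.S3995.dvd_sum_cnt (G := G) hp.ne_zero hd
  rw [hp.sum_divisors, CfsgLib.OrderCounts.cnt_one] at h1
  exact Nat.mod_eq_zero_of_dvd (Nat.add_comm 1 (cnt G p) ▸ h1)

theorem cnt_three : cnt G 3 = 56672 :=
  h.cnt_prime (by norm_num) le_rfl (by rw [h.card]; norm_num) (by decide)

theorem cnt_five : cnt G 5 = 680064 :=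
  h.cnt_prime (by norm_num) (by norm_num) (by rw [h.card]; norm_num) (by decide)

theorem cnt_seven : cnt G 7 = 1457280 :=
  h.cnt_prime (by norm_num) (by norm_num) (by rw [h.card]; norm_num) (by decide)

theorem cnt_eleven : cnt G 11 = 1854720 :=
  h.cnt_prime (by norm_num) (by norm_num) (by rw [h.card]; norm_num) (by decide)

theorem cnt_twentythree : cnt G 23 = 887040 :=
  h.cnt_prime (by norm_num) (by norm_num) (by rw [h.card]; norm_num) (by decide)

theorem norm_of_cnt {p m v n : ℕ} [Fact p.Prime] (hm : 10200960 = p * m) (hpm : ¬ p ∣ m)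
    (hv : cnt G p = v) (hn : ∀ s, s * (p - 1) = v → 10200960 = n * s) {g : G}
    (hg : orderOf g = p) : Nat.card (normalizer (zpowers g : Set G)) = n := by
  have hG : Nat.card G = p * m := by rw [h.card, hm]
  obtain ⟨P, hP⟩ := exists_sylow_eq hG hpm hg
  have e := CfsgLib.SylowToolkit.card_orderOf_eq_prime (G := G) hG hpm
  have hs := hn _ (e.symm.trans hv)
  have hN := CfsgLib.SylowToolkit.card_normalizer_mul P
  rw [h.card] at hN
  rw [hP]
  exact Nat.eq_of_mul_eq_mul_right Nat.card_pos (hN.trans hs)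

theorem norm_five {g : G} (hg : orderOf g = 5) :
    Nat.card (normalizer (zpowers g : Set G)) = 60 :=
  haveI : Fact (Nat.Prime 5) := ⟨by norm_num⟩
  h.norm_of_cnt (m := 2040192) (by norm_num) (by norm_num) h.cnt_five
    (fun s hs => by omega) hg

theorem norm_seven {g : G} (hg : orderOf g = 7) :
    Nat.card (normalizer (zpowers g : Set G)) = 42 :=
  haveI : Fact (Nat.Prime 7) := ⟨by norm_num⟩
  h.norm_of_cnt (m := 1457280) (by norm_num) (by norm_num) h.cnt_seven
    (fun s hs => by omega) hg

theorem norm_eleven {g : G} (hg : orderOf g = 11) :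
    Nat.card (normalizer (zpowers g : Set G)) = 55 :=
  haveI : Fact (Nat.Prime 11) := ⟨by norm_num⟩
  h.norm_of_cnt (m := 927360) (by norm_num) (by norm_num) h.cnt_eleven
    (fun s hs => by omega) hg

theorem norm_twentythree {g : G} (hg : orderOf g = 23) :
    Nat.card (normalizer (zpowers g : Set G)) = 253 :=
  haveI : Fact (Nat.Prime 23) := ⟨by norm_num⟩
  h.norm_of_cnt (m := 443520) (by norm_num) (by norm_num) h.cnt_twentythree
    (fun s hs => by omega) hg

/-- Eleven and twenty-three divide no centraliser of an element of order two or three. -/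
theorem not_dvd_large {x : G} {q : ℕ} (hx : orderOf x = q) (hq : q = 2 ∨ q = 3) :
    ¬ 11 ∣ Nat.card (centralizer ({x} : Set G)) ∧
      ¬ 23 ∣ Nat.card (centralizer ({x} : Set G)) := by
  have aux : ∀ p n : ℕ, p.Prime →
      (∀ g : G, orderOf g = p → Nat.card (normalizer (zpowers g : Set G)) = n) → ¬ q ∣ n →
      ¬ p ∣ Nat.card (centralizer ({x} : Set G)) := by
    intro p n hp hN hqn hdvd
    haveI := Fact.mk hp
    obtain ⟨g, hg⟩ := exists_prime_orderOf_dvd_card' (G := centralizer ({x} : Set G)) p hdvd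
    have hg' : orderOf (g : G) = p := by rw [Subgroup.orderOf_coe]; exact hg
    have := Subgroup.orderOf_dvd_natCard _ (centralizer_le_normalizer_zpowers (g : G)
      (mem_centralizer_of_commute (commute_of_mem_centralizer g.2).symm))
    rw [hx, hN _ hg'] at this
    exact hqn this
  refine ⟨aux 11 55 (by norm_num) (fun g hg => h.norm_eleven hg) ?_,
    aux 23 253 (by norm_num) (fun g hg => h.norm_twentythree hg) ?_⟩ <;>
    rcases hq with rfl | rfl <;> norm_num

theorem const_five {f f' : G} (hf : orderOf f = 5) (hf' : orderOf f' = 5) (d : ℕ) :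
    Nat.card {y : G // orderOf y = d ∧ Commute f y} =
      Nat.card {y : G // orderOf y = d ∧ Commute f' y} := by
  haveI : Fact (Nat.Prime 5) := ⟨by norm_num⟩
  obtain ⟨a, ha⟩ := exists_conj_zpowers (m := 2040192) (by rw [h.card]) (by norm_num) hf hf'
  exact card_commute_of_zpowers ha d

theorem const_seven {f f' : G} (hf : orderOf f = 7) (hf' : orderOf f' = 7) (d : ℕ) :
    Nat.card {y : G // orderOf y = d ∧ Commute f y} =
      Nat.card {y : G // orderOf y = d ∧ Commute f' y} := by
  haveI : Fact (Nat.Prime 7) := ⟨by norm_num⟩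
  obtain ⟨a, ha⟩ := exists_conj_zpowers (m := 1457280) (by rw [h.card]) (by norm_num) hf hf'
  exact card_commute_of_zpowers ha d

theorem one_invol_seven {f : G} (hf : orderOf f = 7) :
    Nat.card {y : G // orderOf y = 2 ∧ Commute f y} = 1 := by
  haveI : Fact (Nat.Prime 7) := ⟨by norm_num⟩
  have e := cnt_mul (p := 7) (d := 2) (by norm_num) (by norm_num) (by norm_num)
    fun x hx => h.const_seven hx hf 2
  have hmod := count_modEq hf 2
  have hle := h.cnt_le (n := 7 * 2)
  rw [h.cnt_seven] at e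
  rw [show CfsgLib.M12Count.cnt G 2 = 3795 from h.cnt_two] at hmod
  omega

theorem no_three_seven {f : G} (hf : orderOf f = 7) :
    Nat.card {y : G // orderOf y = 3 ∧ Commute f y} = 0 := by
  haveI : Fact (Nat.Prime 7) := ⟨by norm_num⟩
  have e := cnt_mul (p := 7) (d := 3) (by norm_num) (by norm_num) (by norm_num)
    fun x hx => h.const_seven hx hf 3
  have hmod := count_modEq hf 3
  have hle := h.cnt_le (n := 7 * 3)
  rw [h.cnt_seven] at e
  rw [show CfsgLib.M12Count.cnt G 3 = 56672 from h.cnt_three] at hmod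
  omega

theorem two_three_five {f : G} (hf : orderOf f = 5) :
    Nat.card {y : G // orderOf y = 3 ∧ Commute f y} = 2 := by
  haveI : Fact (Nat.Prime 5) := ⟨by norm_num⟩
  have e := cnt_mul (p := 5) (d := 3) (by norm_num) (by norm_num) (by norm_num)
    fun x hx => h.const_five hx hf 3
  have hmod := count_modEq hf 3
  have hle := h.cnt_le (n := 5 * 3)
  rw [h.cnt_five] at e
  rw [show CfsgLib.M12Count.cnt G 3 = 56672 from h.cnt_three] at hmod
  omega

theorem cnt_fourteen : cnt G 14 = 1457280 := by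
  haveI : Fact (Nat.Prime 7) := ⟨by norm_num⟩
  obtain ⟨f, hf⟩ := exists_prime_orderOf_dvd_card' (G := G) 7 (by rw [h.card]; norm_num)
  have e := cnt_mul (p := 7) (d := 2) (by norm_num) (by norm_num) (by norm_num)
    fun x hx => h.const_seven hx hf 2
  rw [h.cnt_seven, h.one_invol_seven hf] at e
  simpa using e

theorem cnt_fifteen : cnt G 15 = 1360128 := by
  haveI : Fact (Nat.Prime 5) := ⟨by norm_num⟩
  obtain ⟨f, hf⟩ := exists_prime_orderOf_dvd_card' (G := G) 5 (by rw [h.card]; norm_num)
  have e := cnt_mul (p := 5) (d := 3) (by norm_num) (by norm_num) (by norm_num)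
    fun x hx => h.const_five hx hf 3
  rw [h.cnt_five, h.two_three_five hf] at e
  simpa using e

theorem no_invol_five {f : G} (hf : orderOf f = 5) :
    Nat.card {y : G // orderOf y = 2 ∧ Commute f y} = 0 := by
  by_contra hne
  have e := cnt_mul (p := 5) (d := 2) (by norm_num) (by norm_num) (by norm_num)
    fun x hx => h.const_five hx hf 2
  rw [h.cnt_five, show (5 * 2 : ℕ) = 10 by norm_num] at e
  obtain ⟨a, ha⟩ := h.surj 318780 (by decide)
  obtain ⟨b, hb⟩ := h.surj 850080 (by decide)
  obtain ⟨c, hc⟩ := h.surj 1275120 (by decide)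
  have c1 : cnt G 1 = 1 := CfsgLib.OrderCounts.cnt_one
  have c2 := h.cnt_two
  have c3 := h.cnt_three
  have c5 := h.cnt_five
  have c7 := h.cnt_seven
  have c11 := h.cnt_eleven
  have c23 := h.cnt_twentythree
  have c14 := h.cnt_fourteen
  have c15 := h.cnt_fifteen
  have off : ∀ v, (v = 318780 ∨ v = 850080 ∨ v = 1275120) → ∀ n, cnt G n = v →
      n ∉ ({1, 2, 3, 5, 7, 11, 23, 14, 15, 10} : Finset ℕ) := by
    intro v hv n hn hm
    simp only [Finset.mem_insert, Finset.mem_singleton] at hm
    rcases hm with rfl | rfl | rfl | rfl | rfl | rfl | rfl | rfl | rfl | rfl <;> omega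
  have ha' := off _ (by simp) a ha
  have hb' := off _ (by simp) b hb
  have hc' := off _ (by simp) c hc
  have hab : a ≠ b := fun e' => by rw [e'] at ha; omega
  have hac : a ≠ c := fun e' => by rw [e'] at ha; omega
  have hbc : b ≠ c := fun e' => by rw [e'] at hb; omega
  have hsum := CfsgLib.SylowToolkit.one_add_sum_card_orderOf_le (G := G)
    (insert a (insert b (insert c ({2, 3, 5, 7, 11, 23, 14, 15, 10} : Finset ℕ)))) (by
      simp only [Finset.mem_insert, Finset.mem_singleton] at ha' hb' hc' ⊢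
      omega)
  change 1 + ∑ n ∈ _, cnt G n ≤ Nat.card G at hsum
  simp only [Finset.mem_insert, Finset.mem_singleton, not_or] at ha' hb' hc'
  rw [Finset.sum_insert (by simp [hab, hac, ha']), Finset.sum_insert (by simp [hbc, hb']),
    Finset.sum_insert (by simp [hc'])] at hsum
  simp only [Finset.sum_insert, Finset.sum_singleton, Finset.mem_insert, Finset.mem_singleton,
    show (2 : ℕ) ≠ 3 by norm_num, reduceCtorEq, not_false_eq_true, Nat.reduceEqDiff, or_false,
    or_self] at hsum
  rw [h.card] at hsum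
  omega

theorem cent_five {f : G} (hf : orderOf f = 5) :
    Nat.card (centralizer ({f} : Set G)) = 15 := by
  haveI : Fact (Nat.Prime 2) := ⟨Nat.prime_two⟩
  have hd := card_dvd_of_le (centralizer_le_normalizer_zpowers f)
  rw [h.norm_five hf] at hd
  have h5 : 5 ∣ Nat.card (centralizer ({f} : Set G)) :=
    hf ▸ Subgroup.orderOf_dvd_natCard _ (mem_centralizer_of_commute (Commute.refl f))
  have h3 : 3 ∣ Nat.card (centralizer ({f} : Set G)) := by
    have := h.two_three_five hf
    obtain ⟨⟨y, hy, hfy⟩⟩ :=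
      (Nat.card_pos_iff.1 (show 0 < Nat.card {y : G // orderOf y = 3 ∧ Commute f y} by omega)).1
    exact hy ▸ Subgroup.orderOf_dvd_natCard _ (mem_centralizer_of_commute hfy)
  have h2 : ¬ 2 ∣ Nat.card (centralizer ({f} : Set G)) := by
    intro h2
    obtain ⟨y, hy⟩ := exists_prime_orderOf_dvd_card' (G := centralizer ({f} : Set G)) 2 h2
    haveI : Nonempty {y : centralizer ({f} : Set G) // orderOf y = 2} := ⟨⟨y, hy⟩⟩
    have hpos : 0 < Nat.card {y : centralizer ({f} : Set G) // orderOf y = 2} := Nat.card_pos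
    rw [card_orderOf_centralizer, h.no_invol_five hf] at hpos
    omega
  have key : ∀ m ∈ (60 : ℕ).divisors, 5 ∣ m → 3 ∣ m → ¬ 2 ∣ m → m = 15 := by decide
  exact key _ (Nat.mem_divisors.2 ⟨hd, by norm_num⟩) h5 h3 h2

theorem cent_seven {f : G} (hf : orderOf f = 7) :
    Nat.card (centralizer ({f} : Set G)) = 14 := by
  haveI : Fact (Nat.Prime 3) := ⟨Nat.prime_three⟩
  have hd := card_dvd_of_le (centralizer_le_normalizer_zpowers f)
  rw [h.norm_seven hf] at hd
  have h7 : 7 ∣ Nat.card (centralizer ({f} : Set G)) :=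
    hf ▸ Subgroup.orderOf_dvd_natCard _ (mem_centralizer_of_commute (Commute.refl f))
  have h2 : 2 ∣ Nat.card (centralizer ({f} : Set G)) := by
    have := h.one_invol_seven hf
    obtain ⟨⟨y, hy, hfy⟩⟩ :=
      (Nat.card_pos_iff.1 (show 0 < Nat.card {y : G // orderOf y = 2 ∧ Commute f y} by omega)).1
    exact hy ▸ Subgroup.orderOf_dvd_natCard _ (mem_centralizer_of_commute hfy)
  have h3 : ¬ 3 ∣ Nat.card (centralizer ({f} : Set G)) := by
    intro h3
    obtain ⟨y, hy⟩ := exists_prime_orderOf_dvd_card' (G := centralizer ({f} : Set G)) 3 h3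
    haveI : Nonempty {y : centralizer ({f} : Set G) // orderOf y = 3} := ⟨⟨y, hy⟩⟩
    have hpos : 0 < Nat.card {y : centralizer ({f} : Set G) // orderOf y = 3} := Nat.card_pos
    rw [card_orderOf_centralizer, h.no_three_seven hf] at hpos
    omega
  have key : ∀ m ∈ (42 : ℕ).divisors, 7 ∣ m → 2 ∣ m → ¬ 3 ∣ m → m = 14 := by decide
  exact key _ (Nat.mem_divisors.2 ⟨hd, by norm_num⟩) h7 h2 h3

theorem cent_invol {t : G} (ht : orderOf t = 2) :
    Nat.card (centralizer ({t} : Set G)) = 2688 := by
  haveI : Fact (Nat.Prime 7) := ⟨by norm_num⟩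
  haveI : Fact (Nat.Prime 5) := ⟨by norm_num⟩
  set C := centralizer ({t} : Set G) with hC
  have hCd : Nat.card C ∣ 10200960 := h.card ▸ card_subgroup_dvd_card C
  have hidx := card_mul_index C
  have hle := index_centralizer_le ht
  rw [← hC, h.cnt_two] at hle
  rw [h.card] at hidx
  have hbig : 2688 ≤ Nat.card C := by
    by_contra hlt
    have := Nat.mul_le_mul (show Nat.card C ≤ 2687 by omega) hle
    omega
  have h5 : ¬ 5 ∣ Nat.card C := by
    intro hd
    obtain ⟨g, hg⟩ := exists_prime_orderOf_dvd_card' (G := C) 5 hd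
    have hg' : orderOf (g : G) = 5 := by rw [Subgroup.orderOf_coe]; exact hg
    have := Subgroup.orderOf_dvd_natCard _
      (mem_centralizer_of_commute (commute_of_mem_centralizer g.2).symm :
        t ∈ centralizer ({(g : G)} : Set G))
    rw [ht, h.cent_five hg'] at this
    norm_num at this
  obtain ⟨h11, h23⟩ := h.not_dvd_large ht (Or.inl rfl)
  rw [← hC] at h11 h23
  have hd8064 : Nat.card C ∣ 8064 := by
    refine Nat.Coprime.dvd_of_dvd_mul_left (m := 5 * 11 * 23) ?_
      (show Nat.card C ∣ 5 * 11 * 23 * 8064 by simpa using hCd)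
    refine Nat.Coprime.mul_right (Nat.Coprime.mul_right ?_ ?_) ?_
    · exact ((Nat.Prime.coprime_iff_not_dvd (by norm_num)).2 h5).symm
    · exact ((Nat.Prime.coprime_iff_not_dvd (by norm_num)).2 h11).symm
    · exact ((Nat.Prime.coprime_iff_not_dvd (by norm_num)).2 h23).symm
  have h7 : 7 ∣ Nat.card C := by
    by_contra h7
    have : Nat.card C ∣ 1152 := Nat.Coprime.dvd_of_dvd_mul_left (m := 7)
      ((Nat.Prime.coprime_iff_not_dvd (by norm_num)).2 h7).symm (by simpa using hd8064)
    have := Nat.le_of_dvd (by norm_num) this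
    omega
  obtain ⟨g, hg⟩ := exists_prime_orderOf_dvd_card' (G := C) 7 h7
  have hg' : orderOf (g : G) = 7 := by rw [Subgroup.orderOf_coe]; exact hg
  have hgt : Commute (g : G) t := (commute_of_mem_centralizer g.2).symm
  haveI : Subsingleton {y : G // orderOf y = 2 ∧ Commute (g : G) y} :=
    (Nat.card_eq_one_iff_unique.1 (h.one_invol_seven hg')).1
  have hNC : normalizer (zpowers (g : G) : Set G) ≤ C := by
    intro n hn
    have hmem : n⁻¹ * (g : G) * n ∈ zpowers (g : G) :=
      (mem_normalizer_iff'' (H := zpowers (g : G))).1 hn g |>.1 (mem_zpowers _)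
    obtain ⟨k, hk⟩ := mem_zpowers_iff.1 hmem
    have hc : Commute (g : G) (n * t * n⁻¹) := by
      have h1 : Commute (n⁻¹ * (g : G) * n) t := hk ▸ hgt.zpow_left k
      simpa [mul_assoc] using (Commute.conj_iff n).2 h1
    exact mem_centralizer_singleton_iff.2 (mul_inv_eq_iff_eq_mul.1
      (congrArg Subtype.val (Subsingleton.elim (α := {y : G // orderOf y = 2 ∧ Commute (g : G) y})
        ⟨n * t * n⁻¹, (orderOf_conjugate n t).trans ht, hc⟩ ⟨t, ht, hgt⟩)))
  have hm7 : ¬ 7 ∣ Nat.card C / 7 := by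
    intro hd
    obtain ⟨j, hj⟩ := hd
    obtain ⟨i, hi⟩ := h7
    rw [hi, Nat.mul_div_cancel_left _ (by norm_num)] at hj
    have : 49 ∣ 8064 := (Dvd.intro j (by rw [hi, hj]; ring) : 49 ∣ Nat.card C).trans hd8064
    norm_num at this
  obtain ⟨P, hP⟩ := exists_sylow_eq (G := C) (m := Nat.card C / 7)
    (Nat.mul_div_cancel' h7).symm hm7 (g := (⟨(g : G), g.2⟩ : C))
    (by rw [Subgroup.orderOf_mk]; exact hg')
  have hn := CfsgLib.SylowToolkit.card_normalizer_mul P
  rw [← hP, card_normalizer_inf g.2, inf_eq_left.2 hNC, h.norm_seven hg'] at hn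
  have hmod : Nat.card (Sylow 7 C) % 7 = 1 := CfsgLib.SylowToolkit.card_sylow_mod
  have hdn : Nat.card (Sylow 7 C) ∣ 192 := Nat.dvd_of_mul_dvd_mul_left (by norm_num : 0 < 42)
    (by rw [hn]; simpa using hd8064)
  have key : ∀ n ∈ (192 : ℕ).divisors, n % 7 = 1 → 2688 ≤ 42 * n → n = 64 := by decide +kernel
  rw [← hn, key _ (Nat.mem_divisors.2 ⟨hdn, by norm_num⟩) hmod (hn.symm ▸ hbig)]

theorem invol_conj {s t : G} (hs : orderOf s = 2) (ht : orderOf t = 2) : IsConj s t := by
  refine isConj_of_index_eq hs ht ?_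
  have := card_mul_index (centralizer ({s} : Set G))
  rw [h.cent_invol hs, h.card] at this
  rw [h.cnt_two]
  omega

theorem const_two {t t' : G} (ht : orderOf t = 2) (ht' : orderOf t' = 2) (d : ℕ) :
    Nat.card {y : G // orderOf y = d ∧ Commute t y} =
      Nat.card {y : G // orderOf y = d ∧ Commute t' y} := by
  obtain ⟨a, ha⟩ := isConj_iff.1 (h.invol_conj ht ht')
  rw [card_commute_conjugate a t d, ha]

theorem three_invol {t : G} (ht : orderOf t = 2) :
    Nat.card {y : G // orderOf y = 3 ∧ Commute t y} = 224 := by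
  haveI : Fact (Nat.Prime 3) := ⟨Nat.prime_three⟩
  have hC : Nat.card (centralizer ({t} : Set G)) = 3 * 896 := by rw [h.cent_invol ht]
  have e := cnt_mul (p := 2) (d := 3) (by norm_num) (by norm_num) (by norm_num)
    fun x hx => h.const_two hx ht 3
  have e3 := CfsgLib.SylowToolkit.card_orderOf_eq_prime hC (by norm_num)
  rw [card_orderOf_centralizer] at e3
  rw [h.cnt_two, e3] at e
  have hcand := CfsgLib.SylowToolkit.card_sylow_mem_candidates
    (p := 3) (G := centralizer ({t} : Set G)) (k := 1) (m := 896) (by rw [hC]; norm_num)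
    (by norm_num)
  have key : ∀ n ∈ (896 : ℕ).divisors.filter (fun n => n % 3 = 1),
      3795 * (n * (3 - 1)) ∈ countValues → n = 112 := by decide +kernel
  have hne : cnt G (2 * 3) ≠ 0 := by
    rw [e]
    exact (Nat.mul_pos (by norm_num) (Nat.mul_pos Nat.card_pos (by norm_num))).ne'
  rw [e3, key _ hcand (e ▸ h.mem _ hne)]

theorem cnt_six : cnt G 6 = 850080 := by
  haveI : Fact (Nat.Prime 2) := ⟨Nat.prime_two⟩
  obtain ⟨t, ht⟩ := exists_prime_orderOf_dvd_card' (G := G) 2 (by rw [h.card]; norm_num)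
  have e := cnt_mul (p := 2) (d := 3) (by norm_num) (by norm_num) (by norm_num)
    fun x hx => h.const_two hx ht 3
  rw [h.cnt_two, h.three_invol ht] at e
  simpa using e

theorem cent_three_bounds {x : G} (hx : orderOf x = 3) :
    180 ≤ Nat.card (centralizer ({x} : Set G)) ∧
      Nat.card (centralizer ({x} : Set G)) ∣ 5760 := by
  haveI : Fact (Nat.Prime 7) := ⟨by norm_num⟩
  set C := centralizer ({x} : Set G) with hC
  have hCd : Nat.card C ∣ 10200960 := h.card ▸ card_subgroup_dvd_card C
  have hidx := card_mul_index C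
  have hle := index_centralizer_le hx
  rw [← hC, h.cnt_three] at hle
  rw [h.card] at hidx
  refine ⟨by
    by_contra hlt
    have := Nat.mul_le_mul (show Nat.card C ≤ 179 by omega) hle
    omega, ?_⟩
  have h7 : ¬ 7 ∣ Nat.card C := by
    intro hd
    obtain ⟨g, hg⟩ := exists_prime_orderOf_dvd_card' (G := C) 7 hd
    have hg' : orderOf (g : G) = 7 := by rw [Subgroup.orderOf_coe]; exact hg
    have := Subgroup.orderOf_dvd_natCard _
      (mem_centralizer_of_commute (commute_of_mem_centralizer g.2).symm :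
        x ∈ centralizer ({(g : G)} : Set G))
    rw [hx, h.cent_seven hg'] at this
    norm_num at this
  obtain ⟨h11, h23⟩ := h.not_dvd_large hx (Or.inr rfl)
  rw [← hC] at h11 h23
  refine Nat.Coprime.dvd_of_dvd_mul_left (m := 7 * 11 * 23) ?_
    (show Nat.card C ∣ 7 * 11 * 23 * 5760 by simpa using hCd)
  refine Nat.Coprime.mul_right (Nat.Coprime.mul_right ?_ ?_) ?_
  · exact ((Nat.Prime.coprime_iff_not_dvd (by norm_num)).2 h7).symm
  · exact ((Nat.Prime.coprime_iff_not_dvd (by norm_num)).2 h11).symm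
  · exact ((Nat.Prime.coprime_iff_not_dvd (by norm_num)).2 h23).symm

theorem exists_invol_commute_three {x : G} (hx : orderOf x = 3) :
    ∃ t : G, orderOf t = 2 ∧ Commute x t := by
  haveI : Fact (Nat.Prime 2) := ⟨Nat.prime_two⟩
  obtain ⟨hge, hd⟩ := h.cent_three_bounds hx
  have key : ∀ n ∈ (5760 : ℕ).divisors, 180 ≤ n → 2 ∣ n := by decide +kernel
  obtain ⟨t, ht⟩ := exists_prime_orderOf_dvd_card' (G := centralizer ({x} : Set G)) 2
    (key _ (Nat.mem_divisors.2 ⟨hd, by norm_num⟩) hge)
  exact ⟨t, by rw [Subgroup.orderOf_coe]; exact ht, commute_of_mem_centralizer t.2⟩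

/-- All subgroups of order three are conjugate. -/
theorem conj_three {x x' : G} (hx : orderOf x = 3) (hx' : orderOf x' = 3) :
    ∃ a : G, zpowers (a * x * a⁻¹) = zpowers x' := by
  haveI : Fact (Nat.Prime 3) := ⟨Nat.prime_three⟩
  obtain ⟨t, ht, hxt⟩ := h.exists_invol_commute_three hx
  obtain ⟨t', ht', hxt'⟩ := h.exists_invol_commute_three hx'
  obtain ⟨b, hb⟩ := isConj_iff.1 (h.invol_conj ht ht')
  have hbx : Commute t' (b * x * b⁻¹) := hb ▸ ((Commute.conj_iff b).2 hxt).symm
  have hC : Nat.card (centralizer ({t'} : Set G)) = 3 * 896 := by rw [h.cent_invol ht']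
  obtain ⟨c, hc⟩ := exists_conj_zpowers hC (by norm_num)
    (g := ⟨b * x * b⁻¹, mem_centralizer_of_commute hbx⟩)
    (g' := ⟨x', mem_centralizer_of_commute hxt'.symm⟩)
    (by rw [Subgroup.orderOf_mk, orderOf_conjugate, hx]) (by rw [Subgroup.orderOf_mk, hx'])
  refine ⟨(c : G) * b, ?_⟩
  have e := congrArg (Subgroup.map (centralizer ({t'} : Set G)).subtype) hc
  rw [MonoidHom.map_zpowers, MonoidHom.map_zpowers] at e
  simpa [mul_assoc] using e

theorem five_three {x : G} (hx : orderOf x = 3) :
    Nat.card {y : G // orderOf y = 5 ∧ Commute x y} = 24 := by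
  have e := cnt_mul (p := 3) (d := 5) (by norm_num) (by norm_num) (by norm_num)
    fun z hz => by
      obtain ⟨a, ha⟩ := h.conj_three hz hx
      exact card_commute_of_zpowers ha 5
  rw [h.cnt_three, show (3 * 5 : ℕ) = 15 by norm_num, h.cnt_fifteen] at e
  omega

theorem invol_three' {x : G} (hx : orderOf x = 3) :
    Nat.card {y : G // orderOf y = 2 ∧ Commute x y} = 15 := by
  have e := cnt_mul (p := 3) (d := 2) (by norm_num) (by norm_num) (by norm_num)
    fun z hz => by
      obtain ⟨a, ha⟩ := h.conj_three hz hx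
      exact card_commute_of_zpowers ha 2
  rw [h.cnt_three, show (3 * 2 : ℕ) = 6 by norm_num, h.cnt_six] at e
  omega

/-- A centraliser of an element of order three has order 180 or 360 and six Sylow
5-subgroups, whose normalisers have order a sixth of it. -/
theorem cent_three_shape {x : G} (hx : orderOf x = 3) :
    ∃ f : G, orderOf f = 5 ∧ Commute x f ∧
      Nat.card (centralizer ({x} : Set G)) =
        6 * Nat.card ↥(normalizer (zpowers f : Set G) ⊓ centralizer ({x} : Set G)) ∧
      (Nat.card (centralizer ({x} : Set G)) = 180 ∨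
        Nat.card (centralizer ({x} : Set G)) = 360) := by
  haveI : Fact (Nat.Prime 5) := ⟨by norm_num⟩
  obtain ⟨hge, hd⟩ := h.cent_three_bounds hx
  obtain ⟨⟨f, hf, hxf⟩⟩ := (Nat.card_pos_iff.1
    (show 0 < Nat.card {y : G // orderOf y = 5 ∧ Commute x y} by rw [h.five_three hx]; norm_num)).1
  set C := centralizer ({x} : Set G) with hC
  have hfC : f ∈ C := mem_centralizer_of_commute hxf
  have h5 : 5 ∣ Nat.card C := hf ▸ Subgroup.orderOf_dvd_natCard _ hfC
  obtain ⟨m, hm⟩ := h5
  have hm5 : ¬ 5 ∣ m := by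
    intro hd5
    have : 25 ∣ 5760 := ((Nat.mul_dvd_mul_left 5 hd5).trans (hm ▸ dvd_rfl)).trans hd
    norm_num at this
  obtain ⟨P, hP⟩ := exists_sylow_eq (G := C) hm hm5 (g := (⟨f, hfC⟩ : C))
    (by rw [Subgroup.orderOf_mk, hf])
  have e := CfsgLib.SylowToolkit.card_orderOf_eq_prime (G := C) hm hm5
  rw [card_orderOf_centralizer, h.five_three hx] at e
  have hn := CfsgLib.SylowToolkit.card_normalizer_mul P
  rw [← hP, card_normalizer_inf hfC, show Nat.card (Sylow 5 C) = 6 by omega] at hn
  refine ⟨f, hf, hxf, by omega, ?_⟩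
  have hk : Nat.card ↥(normalizer (zpowers f : Set G) ⊓ C) ∣ 60 :=
    h.norm_five hf ▸ card_dvd_of_le inf_le_left
  have key : ∀ k ∈ (60 : ℕ).divisors, 180 ≤ k * 6 → k * 6 = 180 ∨ k * 6 = 360 := by decide
  rw [← hn]
  exact key _ (Nat.mem_divisors.2 ⟨hk, by norm_num⟩) (hn.symm ▸ hge)

/-- The quotient `C(x)/⟨x⟩`. -/
theorem quotient_three {x : G} (hx : orderOf x = 3) :
    ∃ (Q : Type u) (_ : Group Q) (_ : Finite Q)
      (π : ↥(centralizer ({x} : Set G)) →* Q), Function.Surjective π ∧
      π.ker = (zpowers x).subgroupOf (centralizer ({x} : Set G)) ∧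
      Nat.card π.ker = 3 ∧
      (∀ k ∈ π.ker, ∀ a, Commute k a) ∧
      3 * Nat.card Q = Nat.card (centralizer ({x} : Set G)) ∧
      Nat.card {q : Q // orderOf q = 2} = 15 ∧ Nat.card {q : Q // orderOf q = 5} = 24 := by
  set C := centralizer ({x} : Set G) with hC
  set K := (zpowers x).subgroupOf C with hK
  have hxC : x ∈ C := mem_centralizer_of_commute (Commute.refl x)
  have hcK : Nat.card K = 3 := by
    rw [hK, Nat.card_congr (subgroupOfEquivOfLe (zpowers_le.2 hxC)).toEquiv, Nat.card_zpowers, hx]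
  have hcent : ∀ k ∈ K, ∀ a : C, Commute k a := fun k hk a => Subtype.ext (by
    obtain ⟨i, hi⟩ := mem_zpowers_iff.1 (mem_subgroupOf.1 hk)
    show (k : G) * a = a * k
    rw [← hi]
    exact ((commute_of_mem_centralizer a.2).zpow_left i).eq)
  haveI : K.Normal := ⟨fun k hk a => by
    rwa [← (hcent k hk a).eq, mul_inv_cancel_right]⟩
  have hker : (QuotientGroup.mk' K).ker = K := QuotientGroup.ker_mk' K
  refine ⟨C ⧸ K, inferInstance, inferInstance, QuotientGroup.mk' K,
    QuotientGroup.mk'_surjective K, hker, by rw [hker, hcK], by rw [hker]; exact hcent, ?_, ?_, ?_⟩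
  · have := Subgroup.card_eq_card_quotient_mul_card_subgroup K
    rw [hcK] at this
    omega
  · haveI : Fact (Nat.Prime 2) := ⟨Nat.prime_two⟩
    rw [card_orderOf_map (QuotientGroup.mk'_surjective K) (by rw [hker, hcK])
      (by rw [hker]; exact hcent) (by norm_num), card_orderOf_centralizer, h.invol_three' hx]
  · haveI : Fact (Nat.Prime 5) := ⟨by norm_num⟩
    rw [card_orderOf_map (QuotientGroup.mk'_surjective K) (by rw [hker, hcK])
      (by rw [hker]; exact hcent) (by norm_num), card_orderOf_centralizer, h.five_three hx]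

theorem cent_three {x : G} (hx : orderOf x = 3) :
    Nat.card (centralizer ({x} : Set G)) = 180 := by
  obtain ⟨f, hf, hxf, hcard, hcases⟩ := h.cent_three_shape hx
  refine hcases.resolve_right fun h360 => ?_
  have hq := h.quotient_three hx
  rw [h360] at hq hcard
  set C := centralizer ({x} : Set G) with hC
  obtain ⟨Q, iQ, iF, π, hπ, -, hker, hcent, hQ, hQ2, hQ5⟩ := hq
  haveI : Fact (Nat.Prime 3) := ⟨Nat.prime_three⟩
  -- no element of order two or five commutes in `Q` with one of order three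
  have nocomm : ∀ (p : ℕ) (a : C) (y : Q), (p = 2 ∨ p = 5) → orderOf a = p → orderOf y = 3 →
      ¬ Commute (π a) y := by
    intro p a y hp ha hy hay
    obtain ⟨c, rfl⟩ := hπ y
    have hco : Nat.Coprime 3 p := by rcases hp with rfl | rfl <;> norm_num
    have hac : Commute a c := commute_of_map hker hcent hco (ha ▸ pow_orderOf_eq_one a) hay
    let H : Subgroup C := centralizer ({a} : Set C)
    have hle : π.ker ≤ H := fun k hk => mem_centralizer_singleton_iff.2 (hcent k hk a).eq
    let ψ := π.comp H.subtype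
    have h3 : 3 ∣ Nat.card ψ.range := hy ▸ Subgroup.orderOf_dvd_natCard _
      (show π c ∈ ψ.range from ⟨⟨c, mem_centralizer_singleton_iff.2 hac.eq.symm⟩, rfl⟩)
    have hkc : Nat.card ψ.ker = 3 := by
      rw [show ψ.ker = π.ker.subgroupOf H from rfl,
        Nat.card_congr (subgroupOfEquivOfLe hle).toEquiv, hker]
    have hH : 9 ∣ Nat.card H := by
      rw [← card_mul_index ψ.ker, index_ker, hkc]
      exact Nat.mul_dvd_mul_left 3 h3
    have hH' : Nat.card H ∣ Nat.card (centralizer ({(a : G)} : Set G)) := by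
      rw [Nat.card_congr (H.equivMapOfInjective C.subtype C.subtype_injective).toEquiv]
      refine card_dvd_of_le ?_
      rintro _ ⟨z, hz, rfl⟩
      exact mem_centralizer_singleton_iff.2
        (congrArg Subtype.val (mem_centralizer_singleton_iff.1 hz))
    have ha' : orderOf (a : G) = p := by rw [Subgroup.orderOf_coe]; exact ha
    have h9 := hH.trans hH'
    rcases hp with rfl | rfl
    · rw [h.cent_invol ha'] at h9; norm_num at h9
    · rw [h.cent_five ha'] at h9; norm_num at h9
  -- there are forty Sylow three-subgroups in `Q`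
  have h40 : Nat.card {q : Q // orderOf q = 3} = 80 := by
    have e := CfsgLib.SylowToolkit.card_orderOf_eq_prime (p := 3) (G := Q) (m := 40) (by omega)
      (by norm_num)
    obtain ⟨y, hy⟩ := exists_prime_orderOf_dvd_card' (G := Q) 3 (by omega)
    obtain ⟨P, hP⟩ := exists_sylow_eq (m := 40) (show Nat.card Q = 3 * 40 by omega)
      (by norm_num) hy
    have hN := CfsgLib.SylowToolkit.card_normalizer_mul P
    rw [← hP] at hN
    have hC3 : Nat.card (centralizer ({y} : Set Q)) = 3 := by
      have hd : Nat.card (centralizer ({y} : Set Q)) ∣ 120 :=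
        (card_subgroup_dvd_card _).trans (dvd_of_eq (by omega))
      have hno : ∀ p : ℕ, (p = 2 ∨ p = 5) → ¬ p ∣ Nat.card (centralizer ({y} : Set Q)) := by
        intro p hp hdvd
        haveI : Fact p.Prime := ⟨by rcases hp with rfl | rfl <;> norm_num⟩
        obtain ⟨b, hb⟩ := exists_prime_orderOf_dvd_card' (G := centralizer ({y} : Set Q)) p hdvd
        have hb' : orderOf (b : Q) = p := by rw [Subgroup.orderOf_coe]; exact hb
        obtain ⟨a, ha⟩ := hπ (b : Q)
        -- replace the preimage by one of order `p`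
        obtain ⟨i, -, hi⟩ := Nat.exists_mul_mod_eq_one_of_coprime
          (show Nat.Coprime 3 p by rcases hp with rfl | rfl <;> norm_num) (Fact.out : p.Prime).one_lt
        have hap : π (a ^ (3 * i)) = b := by
          rw [map_pow, ha, ← pow_mod_orderOf, hb', hi, pow_one]
        have hk : a ^ p ∈ π.ker := by
          rw [MonoidHom.mem_ker, map_pow, ha, ← hb', pow_orderOf_eq_one]
        have hk3 : (a ^ p) ^ 3 = 1 := orderOf_dvd_iff_pow_eq_one.1
          (hker ▸ Subgroup.orderOf_dvd_natCard _ hk)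
        have hap1 : (a ^ (3 * i)) ^ p = 1 := by
          rw [← pow_mul, show 3 * i * p = p * 3 * i by ring, pow_mul, pow_mul, hk3, one_pow]
        refine nocomm p _ y hp (orderOf_eq_prime hap1 fun h1 => ?_) hy
          (hap ▸ (commute_of_mem_centralizer b.2).symm)
        rw [h1, map_one] at hap
        rw [← hap, orderOf_one] at hb'
        exact (Fact.out : p.Prime).one_lt.ne hb'
      have key : ∀ m ∈ (120 : ℕ).divisors, ¬ 2 ∣ m → ¬ 5 ∣ m → 3 ∣ m → m = 3 := by decide
      exact key _ (Nat.mem_divisors.2 ⟨hd, by norm_num⟩) (hno 2 (Or.inl rfl)) (hno 5 (Or.inr rfl))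
        (hy ▸ Subgroup.orderOf_dvd_natCard _ (mem_centralizer_of_commute (Commute.refl y)))
    have h6 := card_normalizer_zpowers_dvd y
    rw [hC3, hy, show Nat.totient 3 = 2 by decide] at h6
    have h6' := Nat.le_of_dvd (by norm_num) h6
    have hn40 := Nat.le_of_dvd (by norm_num)
      (CfsgLib.SylowToolkit.card_sylow_dvd (p := 3) (G := Q) (k := 1) (m := 40) (by omega)
        (by norm_num))
    have key : ∀ n ∈ (40 : ℕ).divisors, n % 3 = 1 → 120 ≤ 6 * n → n = 40 := by decide
    have := key _ (Nat.mem_divisors.2 ⟨CfsgLib.SylowToolkit.card_sylow_dvd (p := 3) (G := Q)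
      (k := 1) (m := 40) (by omega) (by norm_num), by norm_num⟩)
      CfsgLib.SylowToolkit.card_sylow_mod (by
        have := Nat.mul_le_mul_right (Nat.card (Sylow 3 Q)) h6'
        omega)
    omega
  -- an element of order divisible by four
  have hfN : normalizer (zpowers f : Set G) ≤ C := by
    rw [← inf_eq_left]
    exact eq_of_le_of_card_ge inf_le_left (by rw [h.norm_five hf]; omega)
  have e := card_normalizer_zpowers f
  rw [h.norm_five hf, h.cent_five hf] at e
  have htop : (zpowers f).normalizerMonoidHom.range = ⊤ := eq_top_of_card_eq _ (by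
    rw [card_mulAut_zpowers, hf, show Nat.totient 5 = 4 by decide]; omega)
  obtain ⟨σ, hσ⟩ : ∃ σ : MulAut (zpowers f), orderOf σ = 4 := by
    have h5 : Nat.card (zpowers f) = 5 := by rw [Nat.card_zpowers, hf]
    have hu : ∀ n, n = 5 → ∃ u : (ZMod n)ˣ, orderOf u = 4 := by
      rintro n rfl
      exact ⟨⟨2, 3, by decide, by decide⟩, by
        rw [orderOf_eq_iff (by norm_num)]
        exact ⟨by decide, by decide⟩⟩
    obtain ⟨u, hu⟩ := hu _ h5
    exact ⟨(IsCyclic.mulAutMulEquiv (zpowers f)).symm u, by rw [MulEquiv.orderOf_eq, hu]⟩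
  obtain ⟨n, hn⟩ : σ ∈ (zpowers f).normalizerMonoidHom.range := htop ▸ mem_top σ
  have h4 : 4 ∣ orderOf (n : G) := by
    rw [← hσ, ← hn, Subgroup.orderOf_coe]
    exact orderOf_map_dvd _ n
  set d := orderOf (π ⟨n, hfN n.2⟩) with hd
  have h4d : 4 ∣ d := by
    have hm : (⟨n, hfN n.2⟩ : C) ^ d ∈ π.ker := by
      rw [MonoidHom.mem_ker, map_pow, hd, pow_orderOf_eq_one]
    have h3 : (⟨n, hfN n.2⟩ : C) ^ (d * 3) = 1 := by
      rw [pow_mul]
      exact orderOf_dvd_iff_pow_eq_one.1 (hker ▸ Subgroup.orderOf_dvd_natCard _ hm)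
    have := orderOf_dvd_of_pow_eq_one h3
    rw [Subgroup.orderOf_mk] at this
    exact (show Nat.Coprime 4 3 by norm_num).dvd_of_dvd_mul_right (h4.trans this)
  have hd1 : d ≠ 1 ∧ d ≠ 2 ∧ d ≠ 3 ∧ d ≠ 5 := by
    refine ⟨?_, ?_, ?_, ?_⟩ <;> intro hh <;> rw [hh] at h4d <;> norm_num at h4d
  haveI : Nonempty {q : Q // orderOf q = d} := ⟨⟨_, hd.symm⟩⟩
  have hpos : 0 < Nat.card {q : Q // orderOf q = d} := Nat.card_pos
  have hsum := CfsgLib.SylowToolkit.one_add_sum_card_orderOf_le (G := Q)
    (insert d ({2, 3, 5} : Finset ℕ)) (by simp [hd1.1.symm])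
  rw [Finset.sum_insert (by simp [hd1]), Finset.sum_insert (by simp),
    Finset.sum_pair (by norm_num), hQ2, h40, hQ5] at hsum
  omega

theorem norm_three {x : G} (hx : orderOf x = 3) :
    Nat.card (normalizer (zpowers x : Set G)) = 360 := by
  have hd := card_normalizer_zpowers_dvd x
  rw [h.cent_three hx, hx, show Nat.totient 3 = 2 by decide] at hd
  obtain ⟨j, hj⟩ : 180 ∣ Nat.card (normalizer (zpowers x : Set G)) :=
    h.cent_three hx ▸ card_dvd_of_le (centralizer_le_normalizer_zpowers x)
  rw [hj] at hd ⊢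
  rcases (Nat.dvd_prime Nat.prime_two).1
    (Nat.dvd_of_mul_dvd_mul_left (by norm_num : 0 < 180) hd) with rfl | rfl
  swap
  · rfl
  exfalso
  have hinv : IsConj x x⁻¹ := isConj_of_index_eq hx (by rw [orderOf_inv, hx]) (by
    have := card_mul_index (centralizer ({x} : Set G))
    rw [h.cent_three hx, h.card] at this
    rw [h.cnt_three]
    omega)
  obtain ⟨g, hg⟩ := isConj_iff.1 hinv
  have hgN : g ∈ normalizer (zpowers x : Set G) := by
    refine mem_normalizer_iff_map_conj_eq.2 ?_
    rw [MonoidHom.map_zpowers]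
    show zpowers (g * x * g⁻¹) = zpowers x
    rw [hg, zpowers_inv]
  have heq := eq_of_le_of_card_ge (centralizer_le_normalizer_zpowers x)
    (by rw [hj, h.cent_three hx])
  rw [← heq, mem_centralizer_singleton_iff] at hgN
  rw [mul_inv_eq_iff_eq_mul.2 hgN] at hg
  have : orderOf x ∣ 2 := orderOf_dvd_of_pow_eq_one (by
    rw [pow_two]; nth_rw 2 [hg]; exact mul_inv_cancel x)
  rw [hx] at this
  norm_num at this

theorem cent_three_hom {x : G} (hx : orderOf x = 3) :
    ∃ φ : ↥(centralizer ({x} : Set G)) →* alternatingGroup (Fin 5),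
      Function.Surjective φ ∧ φ.ker = (zpowers x).subgroupOf (centralizer ({x} : Set G)) := by
  obtain ⟨Q, iQ, iF, π, hπ, hπk, -, -, hQ, -, hQ5⟩ := h.quotient_three hx
  rw [h.cent_three hx] at hQ
  haveI : Fact (Nat.Prime 5) := ⟨by norm_num⟩
  have e := CfsgLib.SylowToolkit.card_orderOf_eq_prime (p := 5) (G := Q) (m := 12) (by omega)
    (by norm_num)
  rw [hQ5] at e
  obtain ⟨φ⟩ := CfsgLib.Dickson.nonempty_mulEquiv_alternatingGroup_five
    (show Nat.card Q = 60 by omega) (by omega)
  refine ⟨φ.toMonoidHom.comp π, φ.surjective.comp hπ, ?_⟩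
  rw [← hπk]
  exact MonoidHom.ker_mulEquiv_comp π φ

/-- The facts read off from the counts. -/
theorem setup : Setup G where
  card := h.card
  invol_conj _ _ hs ht := h.invol_conj hs ht
  cent_invol _ ht := h.cent_invol ht
  cent_three _ hx := h.cent_three hx
  cent_three_hom _ hx := h.cent_three_hom hx
  norm_three _ hx := h.norm_three hx
  invol_three t ht := by
    rw [← h.three_invol ht]
    exact Nat.card_congr (Equiv.subtypeEquivRight fun y =>
      and_congr_right fun _ => ⟨Commute.symm, Commute.symm⟩)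
  cent_five _ hf := h.cent_five hf
  cent_seven _ hf := h.cent_seven hf
  norm_seven _ hf := h.norm_seven hf

end CountHyp

end CfsgLib.M23Count
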