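import Cfsg.Agent.M23Count.Flags

/-!
`Geom`: the flags reachable from a flag lie at distance at most two from it.
-/

set_option autoImplicit false

open scoped Pointwise

namespace CfsgLib.M23Count

namespace Geom

universe u v

variable {G : Type u} {V : Type v} [Group G] [MulAction G V] (Γ : Geom G V)

/-- Flags joined by an edge. -/
def Adj (f f' : V × Fin 7) : Prop :=
  Γ.far f.1 f'.1 ∧ Γ.pt f.1 f'.1 = f.2 ∧ Γ.pt f'.1 f.1 = f'.2

/-- Flags joined by two edges. -/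
def Two (f f' : V × Fin 7) : Prop :=
  ∃ w, (w, f'.1) ∈ Γ.paths f.1 f.2 ∧ Γ.pt f'.1 w = f'.2

theorem tri_free {x y : V} (hn : Γ.near x y) {a : G} (ha : a ∈ Γ.sub y) (hax : a • x = x)
    {i : Fin 7} (hi : i ∉ Γ.tri x y) (hfix : Γ.π x ⟨a, hax⟩ i = i) : a = 1 := by
  classical
  let S : Set G := ((Γ.sub y ⊓ MulAction.stabilizer G x : Subgroup G) : Set G)
  have hS : S.ncard = 4 := Γ.ncard_inter x y hn
  have hfin : S.Finite := Set.finite_of_ncard_ne_zero (by omega)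
  let f : G → Fin 7 := fun g => if h : g • x = x then Γ.π x ⟨g, h⟩ i else i
  have hT : (((Γ.tri x y)ᶜ : Finset (Fin 7)) : Set (Fin 7)).ncard = 4 := by
    rw [Set.ncard_coe_finset, Finset.card_compl, Fintype.card_fin, Γ.tri_card x y hn.1 hn.2]
  have hsub : (((Γ.tri x y)ᶜ : Finset (Fin 7)) : Set (Fin 7)) ⊆ f '' S := by
    intro j hj
    obtain ⟨c, hc, hcj⟩ := Γ.tri_reg x y hn.1 hn.2 i j hi
      (Finset.mem_compl.1 (Finset.mem_coe.1 hj))
    exact ⟨c, ⟨hc, c.2⟩, by simp only [f]; rw [dif_pos (show (c : G) • x = x from c.2)]; exact hcj⟩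
  have hcard : S.ncard ≤ (f '' S).ncard := by
    rw [hS, ← hT]
    exact Set.ncard_le_ncard hsub (hfin.image f)
  have hinj : Set.InjOn f S :=
    (Set.ncard_image_iff hfin).1 (le_antisymm (Set.ncard_image_le hfin) hcard)
  have h1x : (1 : G) • x = x := one_smul G x
  refine hinj ⟨ha, hax⟩ (one_mem _) ?_
  simp only [f]
  rw [dif_pos hax, dif_pos h1x, hfix,
    show (⟨1, h1x⟩ : ↥(MulAction.stabilizer G x)) = 1 from rfl, map_one]
  rfl

theorem cent_eq {x y : V} (hn : Γ.near x y) {b : G} (hb : b ∈ Γ.sub x) (hby : b • y = y)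
    (hb1 : b ≠ 1) :
    Γ.sub y ⊓ Subgroup.centralizer ({b} : Set G) = Γ.sub y ⊓ MulAction.stabilizer G x := by
  have hnot : b ∉ Γ.sub y := fun h => hb1 (Subgroup.mem_bot.1 (Γ.sub_disj x y hn.1 ▸ ⟨hb, h⟩))
  have hs := Γ.small y b hby (Γ.orderOf_sub hb hb1) hnot
  have : Finite ↥(Γ.sub y ⊓ Subgroup.centralizer ({b} : Set G)) :=
    Nat.finite_of_card_ne_zero (by omega)
  symm
  refine Subgroup.eq_of_le_of_card_ge
    (fun a ha => ⟨ha.1, Subgroup.mem_centralizer_singleton_iff.2 ?_⟩) ?_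
  · exact Γ.near_comm x y hn.1 a ha b ⟨hb, hby⟩
  · rw [hs, Γ.near_card x y hn.1 hn.2]

theorem mem_inter_of_comm {x y : V} (hn : Γ.near x y) {b : G} (hb : b ∈ Γ.sub x) (hby : b • y = y)
    (hb1 : b ≠ 1) {a : G} (ha : a ∈ Γ.sub y) (hc : Commute a b) :
    a ∈ Γ.sub y ⊓ MulAction.stabilizer G x := by
  rw [← Γ.cent_eq hn hb hby hb1]
  exact ⟨ha, Subgroup.mem_centralizer_singleton_iff.2 hc.eq⟩

theorem commutes_delta {y : V} {b e : G} (hby : b • y = y) (hbb : b * b = 1) (he : e ∈ Γ.sub y) :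
    Commute (b * e * b⁻¹ * e) b := by
  have hbe := Γ.conj_mem_sub hby he
  have hinv : b⁻¹ = b := inv_eq_of_mul_eq_one_right hbb
  have hcomm : b * e * b⁻¹ * e = e * (b * e * b⁻¹) := Γ.sub_comm y _ hbe e he
  rw [hinv] at hcomm ⊢
  show b * e * b * e * b = b * (b * e * b * e)
  calc b * e * b * e * b = e * (b * e * b) * b := by rw [hcomm]
    _ = e * b * e * (b * b) := by group
    _ = e * b * e := by rw [hbb, mul_one]
    _ = b * b * (e * b * e) := by rw [hbb, one_mul]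
    _ = b * (b * e * b * e) := by group

theorem delta_surj {x y : V} (hn : Γ.near x y) {b : G} (hb : b ∈ Γ.sub x) (hby : b • y = y)
    (hb1 : b ≠ 1) {c : G} (hc : c ∈ Γ.sub y ⊓ MulAction.stabilizer G x) :
    ∃ e ∈ Γ.sub y, b * e * b⁻¹ * e = c := by
  have := Γ.finite_sub y
  have hbb := Γ.sub_sq x b hb
  let δ : ↥(Γ.sub y) →* ↥(Γ.sub y) := MonoidHom.mk'
    (fun e => ⟨b * e * b⁻¹ * e, mul_mem (Γ.conj_mem_sub hby e.2) e.2⟩) fun e f => by
      apply Subtype.ext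
      show b * ((e : G) * f) * b⁻¹ * ((e : G) * f) = b * e * b⁻¹ * e * (b * f * b⁻¹ * f)
      have h1 := Γ.sub_comm y _ (Γ.conj_mem_sub hby f.2) e e.2
      calc b * ((e : G) * f) * b⁻¹ * ((e : G) * f)
          = b * e * b⁻¹ * ((b * f * b⁻¹) * e) * f := by group
        _ = b * e * b⁻¹ * (e * (b * f * b⁻¹)) * f := by rw [h1]
        _ = _ := by group
  have hker : δ.ker = (Γ.sub y ⊓ MulAction.stabilizer G x).subgroupOf (Γ.sub y) := by
    ext e
    rw [MonoidHom.mem_ker, Subgroup.mem_subgroupOf, ← Γ.cent_eq hn hb hby hb1, Subgroup.mem_inf,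
      and_iff_right e.2, Subgroup.mem_centralizer_singleton_iff, Subtype.ext_iff]
    show b * (e : G) * b⁻¹ * e = 1 ↔ (e : G) * b = b * e
    rw [mul_eq_one_iff_eq_inv, Γ.inv_sub e.2, mul_inv_eq_iff_eq_mul]
    exact eq_comm
  have hkc : Nat.card δ.ker = 4 := by
    rw [hker, Nat.card_congr (Subgroup.subgroupOfEquivOfLe inf_le_left).toEquiv,
      Γ.near_card x y hn.1 hn.2]
  have hr : Nat.card δ.range = 4 := by
    have h := δ.ker.card_mul_index
    rw [Subgroup.index_ker, hkc, Γ.sub_card] at h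
    omega
  have heq : δ.range = (Γ.sub y ⊓ MulAction.stabilizer G x).subgroupOf (Γ.sub y) := by
    refine Subgroup.eq_of_le_of_card_ge ?_ (le_of_eq ?_)
    · rintro _ ⟨e, rfl⟩
      exact Γ.mem_inter_of_comm hn hb hby hb1 (δ e).2 (Γ.commutes_delta hby hbb e.2)
    · rw [hr, Nat.card_congr (Subgroup.subgroupOfEquivOfLe inf_le_left).toEquiv,
        Γ.near_card x y hn.1 hn.2]
  obtain ⟨e, he⟩ : (⟨c, hc.1⟩ : ↥(Γ.sub y)) ∈ δ.range := by
    rw [heq]; exact hc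
  exact ⟨e, e.2, congrArg Subtype.val he⟩

theorem exists_ne_one {x y : V} (hn : Γ.near x y) :
    ∃ a ∈ Γ.sub y ⊓ MulAction.stabilizer G x, a ≠ 1 := by
  have : Finite ↥(Γ.sub y ⊓ MulAction.stabilizer G x) :=
    Nat.finite_of_card_ne_zero (by rw [Γ.near_card x y hn.1 hn.2]; norm_num)
  refine Subgroup.nontrivial_iff_exists_ne_one _ |>.1 ?_
  rw [← Finite.one_lt_card_iff_nontrivial, Γ.near_card x y hn.1 hn.2]
  norm_num

/-- A vertex over `q` fixed by an element of `sub x` has another triple at `x`. -/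
theorem not_same_tri {x y z : V} (hn : Γ.near x y) (hnz : Γ.near x z) (hyz : Γ.far y z) :
    Γ.tri x z ≠ Γ.tri x y := by
  intro htri
  obtain ⟨e, he, rfl⟩ := (Γ.tri_eq_iff x y z hn.1 hn.2 hnz.1 hnz.2).1 htri.symm
  obtain ⟨a, ha, ha1⟩ := Γ.exists_ne_one hn
  have hax : a • x = x := ha.2
  have haa := Γ.sub_sq y a ha.1
  have hc : a * e * a⁻¹ * e ∈ Γ.sub x ⊓ MulAction.stabilizer G y :=
    Γ.mem_inter_of_comm (Γ.near_symm hn) ha.1 hax ha1
      (mul_mem (Γ.conj_mem_sub hax he) he) (Γ.commutes_delta hax haa he)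
  have hfix : (e * a * e⁻¹) • y = y := by
    have h0 : (a * e * a⁻¹ * e) * a = e * a * e⁻¹ := by
      have h1 : a * e * a⁻¹ * e = e * (a * e * a⁻¹) :=
        Γ.sub_comm x _ (Γ.conj_mem_sub hax he) e he
      rw [h1, Γ.inv_sub he, Γ.inv_sub ha.1]
      calc e * (a * e * a) * a = e * a * e * (a * a) := by group
        _ = e * a * e := by rw [haa, mul_one]
    rw [← h0, mul_smul, Γ.smul_sub ha.1]
    exact hc.2
  have h1 : e * a * e⁻¹ ∈ Γ.sub (e • y) ⊓ MulAction.stabilizer G y :=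
    ⟨Γ.conj_mem_sub_smul e ha.1, hfix⟩
  rw [((Γ.far_iff y (e • y)).1 hyz).2, Subgroup.mem_bot] at h1
  exact ha1 (conj_eq_one_iff.1 h1)

theorem near_of_fixed {x y z : V} (hn : Γ.near x y) (hyz : Γ.far y z) {b : G}
    (hb : b ∈ Γ.sub x) (hb1 : b ≠ 1) (hbz : b • z = z) : Γ.near x z := by
  refine ⟨fun e => ?_, fun h => hb1 (Γ.semireg x z h b hb hbz)⟩
  subst e
  exact hn.2 (Γ.far_symm _ _ hyz)

theorem path_comm [Finite G] {x w y : V} {i : Fin 7} (hp : (w, y) ∈ Γ.paths x i) {b : G}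
    (hb : b ∈ Γ.sub x) (hby : b • y = y) (hb1 : b ≠ 1) :
    ∃ c ∈ Γ.sub y ⊓ MulAction.stabilizer G x, b • w = c • w := by
  obtain ⟨hn, -⟩ := Γ.two_step hp
  have hyw := Γ.far_symm _ _ hp.2.2.1
  have hq : Γ.pt y w ∈ Γ.tri y x := (Γ.two_step (Γ.paths_rev hp)).2
  have hf : Γ.far y (b • w) := by
    have := (Γ.far_smul_iff b y w).2 hyw
    rwa [hby] at this
  have hpt : Γ.pt y (b • w) = Γ.pt y w := by
    rw [Γ.pt_smul y w ⟨b, hby⟩ hyw]
    exact Γ.tri_fix y x hn.1.symm (Γ.near_symm hn).2 ⟨b, hby⟩ hb _ hq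
  obtain ⟨c, hc, hcw⟩ := (Γ.pt_eq_iff y w _ hyw hf).1 hpt.symm
  have hbb := Γ.sub_sq x b hb
  have h1 : (b * c * b⁻¹ * c) • w = w := by
    rw [Γ.inv_sub hb, mul_smul, hcw, ← mul_smul, mul_assoc, hbb, mul_one, mul_smul, hcw,
      ← mul_smul, hbb, one_smul]
  have h2 := Γ.semireg y w hyw _ (mul_mem (Γ.conj_mem_sub hby hc) hc) h1
  rw [mul_eq_one_iff_eq_inv, Γ.inv_sub hc, mul_inv_eq_iff_eq_mul] at h2
  exact ⟨c, Γ.mem_inter_of_comm hn hb hby hb1 hc h2.symm, hcw.symm⟩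

theorem cover [Finite G] {x w y : V} {i : Fin 7} (hp : (w, y) ∈ Γ.paths x i) {z : V}
    (hz : z ∈ Γ.row y (Γ.pt y w)) :
    (∃ a ∈ Γ.sub y ⊓ MulAction.stabilizer G x, z = a • w) ∨
      ∃ b ∈ Γ.sub x ⊓ MulAction.stabilizer G y, b ≠ 1 ∧ b • z = z := by
  classical
  have := Γ.finite_V
  obtain ⟨hn, -⟩ := Γ.two_step hp
  have hyw := Γ.far_symm _ _ hp.2.2.1
  set A := Γ.sub y ⊓ MulAction.stabilizer G x with hA
  set B := Γ.sub x ⊓ MulAction.stabilizer G y with hB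
  have hfree : ∀ b ∈ B, b ≠ 1 → ∀ a ∈ A, b • a • w ≠ a • w := by
    intro b hb hb1 a ha h
    have hf : Γ.far x (a • w) := by
      have h' := (Γ.far_smul_iff a x w).2 hp.1
      rwa [show a • x = x from ha.2] at h'
    exact hb1 (Γ.semireg x _ hf b hb.1 h)
  have huniq : ∀ b ∈ B, ∀ b' ∈ B, b ≠ 1 → b' ≠ 1 → b ≠ b' → ∀ v ∈ Γ.row y (Γ.pt y w),
      b • v = v → b' • v ≠ v := by
    intro b hb b' hb' h1 h1' hne v hv hbv hbv'
    have hnv := Γ.near_of_fixed hn hv.1 hb.1 h1 hbv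
    refine Γ.not_same_tri hn hnv hv.1 ?_
    refine (Γ.tri_line x v y hnv.1 hnv.2 hn.1 hn.2).2 ?_
    have hnv' := Γ.near_symm hnv
    have : Finite ↥(Γ.sub x ⊓ MulAction.stabilizer G v) :=
      Nat.finite_of_card_ne_zero (by rw [Γ.near_card v x hnv'.1 hnv'.2]; norm_num)
    symm
    refine Subgroup.eq_of_le_of_card_ge (fun c hc => ?_) (le_of_eq ?_)
    · rcases four_cases (Γ.near_card y x hn.1.symm (Γ.near_symm hn).2)
        (fun t ht => Γ.sub_sq x t ht.1) hb hb' h1 h1' hne hc with rfl | rfl | rfl | rfl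
      · exact one_mem _
      · exact ⟨hc.1, hbv⟩
      · exact ⟨hc.1, hbv'⟩
      · exact ⟨hc.1, by show (b * b') • v = v; rw [mul_smul, hbv', hbv]⟩
    · rw [Γ.near_card v x hnv'.1 hnv'.2, Γ.near_card y x hn.1.symm (Γ.near_symm hn).2]
  have hex : ∀ b : G, ∃ e : G, b ∈ B → e ∈ Γ.sub y ∧ (b = 1 → e = 1) ∧
      (b ≠ 1 → ∀ c ∈ A, b • (e * c) • w = (e * c) • w) := by
    intro b
    by_cases hb : b ∈ B
    · by_cases hb1 : b = 1
      · exact ⟨1, fun _ => ⟨one_mem _, fun _ => rfl, fun h => absurd hb1 h⟩⟩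
      obtain ⟨c0, hc0, hcw⟩ := Γ.path_comm hp hb.1 hb.2 hb1
      obtain ⟨e, he, hec⟩ := Γ.delta_surj hn hb.1 hb.2 hb1 hc0
      refine ⟨e, fun _ => ⟨he, fun h => absurd h hb1, fun _ c hc => ?_⟩⟩
      have hbc : b * c = c * b := (Γ.near_comm x y hn.1 c hc b hb).symm
      have hbe := Γ.conj_mem_sub hb.2 he
      calc b • (e * c) • w = (b * e * b⁻¹ * c) • b • w := by
            rw [smul_smul, smul_smul]
            congr 1
            calc b * (e * c) = b * e * b⁻¹ * (b * c) := by group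
              _ = b * e * b⁻¹ * (c * b) := by rw [hbc]
              _ = _ := by group
        _ = (b * e * b⁻¹ * c * c0) • w := by rw [hcw, smul_smul]
        _ = (e * c) • w := by
            congr 1
            rw [mul_assoc, Γ.sub_comm y c hc.1 c0 hc0.1, ← mul_assoc]
            congr 1
            rw [← hec, ← mul_assoc, Γ.sub_sq y _ hbe, one_mul]
    · exact ⟨1, fun h => absurd h hb⟩
  choose e he using hex
  let Φ : G × G → V := fun p => (e p.1 * p.2) • w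
  have hsub : Φ '' ((B : Set G) ×ˢ (A : Set G)) ⊆ Γ.row y (Γ.pt y w) := by
    rintro _ ⟨⟨b, c⟩, ⟨hb, hc⟩, rfl⟩
    exact Γ.pt_sub (mul_mem (he b hb).1 hc.1) hyw
  have hinj : Set.InjOn Φ ((B : Set G) ×ˢ (A : Set G)) := by
    rintro ⟨b, c⟩ ⟨hb, hc⟩ ⟨b', c'⟩ ⟨hb', hc'⟩ h
    simp only [Φ] at h
    by_cases hbb : b = b'
    · subst hbb
      have := Γ.semireg_inj hyw (mul_mem (he b hb).1 hc.1) (mul_mem (he b hb).1 hc'.1) h
      have h2 : c = c' := mul_left_cancel this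
      rw [h2]
    exfalso
    by_cases hb1 : b = 1
    · have hb1' : b' ≠ 1 := fun e => hbb (hb1.trans e.symm)
      refine hfree b' hb' hb1' c hc ?_
      have h0 : (e b * c) • w = c • w := by rw [(he b hb).2.1 hb1, one_mul]
      rw [h0] at h
      rw [h]
      exact (he b' hb').2.2 hb1' c' hc'
    by_cases hb1' : b' = 1
    · refine hfree b hb hb1 c' hc' ?_
      have h0 : (e b' * c') • w = c' • w := by rw [(he b' hb').2.1 hb1', one_mul]
      rw [h0] at h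
      rw [← h]
      exact (he b hb).2.2 hb1 c hc
    refine huniq b hb b' hb' hb1 hb1' hbb _ (hsub ⟨(b, c), ⟨hb, hc⟩, rfl⟩)
      ((he b hb).2.2 hb1 c hc) ?_
    show b' • (e b * c) • w = (e b * c) • w
    rw [h]
    exact (he b' hb').2.2 hb1' c' hc'
  have hall : Φ '' ((B : Set G) ×ˢ (A : Set G)) = Γ.row y (Γ.pt y w) := by
    refine Set.eq_of_subset_of_ncard_le hsub ?_ (Set.toFinite _)
    rw [Γ.ncard_row, hinj.ncard_image, Set.ncard_prod, Γ.ncard_inter x y hn,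
      Γ.ncard_inter y x (Γ.near_symm hn)]
  rw [← hall] at hz
  obtain ⟨⟨b, c⟩, ⟨hb, hc⟩, rfl⟩ := hz
  by_cases hb1 : b = 1
  · exact Or.inl ⟨c, hc, by simp only [Φ]; rw [(he b hb).2.1 hb1, one_mul]⟩
  · exact Or.inr ⟨b, hb, hb1, (he b hb).2.2 hb1 c hc⟩

/-- A neighbour of a flag at distance two is at distance at most two. -/
theorem closed [Finite G] {x w y z : V} {i : Fin 7} (hp : (w, y) ∈ Γ.paths x i)
    (hz : z ∈ Γ.row y (Γ.pt y w)) :
    Γ.Adj (x, i) (z, Γ.pt z y) ∨ Γ.Two (x, i) (z, Γ.pt z y) := by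
  classical
  obtain ⟨hn, hi⟩ := Γ.two_step hp
  rcases Γ.cover hp hz with ⟨a, ha, rfl⟩ | ⟨b, hb, hb1, hbz⟩
  · left
    have hax : a • x = x := ha.2
    have h := Γ.paths_smul hax (Γ.tri_fix x y hn.1 hn.2 ⟨a, hax⟩ ha.1 i hi) hp
    rw [show a • (w, y).2 = y from Γ.smul_sub ha.1] at h
    exact ⟨h.1, h.2.1, h.2.2.2.1.symm⟩
  right
  have hbx : b • x = x := Γ.smul_sub hb.1
  have hby : b • y = y := hb.2
  have hnz := Γ.near_of_fixed hn hz.1 hb.1 hb1 hbz
  have hzne : z ≠ w := fun h => hb1 (Γ.semireg x w hp.1 b hb.1 (h ▸ hbz))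
  have hi' : i ∈ Γ.tri x z := by
    have hpz : (y, w) ∈ Γ.paths z (Γ.pt z y) :=
      ⟨Γ.far_symm _ _ hz.1, rfl, Γ.far_symm _ _ hp.2.2.1, hz.2.symm, hzne.symm⟩
    have hx' : x ∈ Γ.row w (Γ.pt w y) :=
      ⟨Γ.far_symm _ _ hp.1, hp.2.2.2.1.symm⟩
    rcases Γ.cover hpz hx' with ⟨a, ha, hxa⟩ | ⟨b1, hb1m, hb11, hb1x⟩
    · exfalso
      refine hnz.2 ?_
      have h := (Γ.far_smul_iff a z y).2 (Γ.far_symm _ _ hz.1)
      rw [show a • z = z from ha.2, ← hxa] at h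
      exact Γ.far_symm _ _ h
    · by_contra hni
      refine hb11 (Γ.tri_free hnz hb1m.1 hb1x hni ?_)
      conv_lhs => rw [← hp.2.1]
      rw [← Γ.pt_smul x w ⟨b1, hb1x⟩ hp.1, show b1 • w = w from hb1m.2]
      exact hp.2.1
  have hzy := Γ.far_symm _ _ hz.1
  have hr : Γ.pt z y ∈ Γ.tri z x := by
    by_contra hr
    refine hb1 (Γ.tri_free (Γ.near_symm hnz) hb.1 hbz hr ?_)
    rw [← Γ.pt_smul z y ⟨b, hbz⟩ hzy, hby]
  obtain ⟨w2, hw2⟩ := Γ.exists_path (Γ.near_symm hnz) hr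
  have hrev := Γ.paths_rev hw2
  set i' := Γ.pt x w2 with hi'def
  suffices hii : i' = i by
    exact ⟨w2, hii ▸ hrev, hw2.2.1⟩
  -- an element fixing `x`, `y`, `z` and moving the triple of `z` at `x`
  obtain ⟨b', hb', hb'1, hb'b⟩ : ∃ b' ∈ Γ.sub x ⊓ MulAction.stabilizer G z, b' ≠ 1 ∧ b' ≠ b := by
    by_contra hno
    simp only [not_exists, not_and, not_not] at hno
    have hle : ((Γ.sub x ⊓ MulAction.stabilizer G z : Subgroup G) : Set G) ⊆ {1, b} :=
      fun t ht => (em (t = 1)).elim Or.inl fun h => Or.inr (hno t ht h)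
    have h1 := Set.ncard_le_ncard hle (Set.toFinite _)
    rw [Γ.ncard_inter z x (Γ.near_symm hnz)] at h1
    have h2 := Set.ncard_insert_le (1 : G) ({b} : Set G)
    rw [Set.ncard_singleton] at h2
    omega
  have hbz' : b ∈ Γ.sub x ⊓ MulAction.stabilizer G z := ⟨hb.1, hbz⟩
  have hTne := Γ.not_same_tri hn hnz hz.1
  let A := Γ.sub y ⊓ MulAction.stabilizer G x
  have hδ : ∀ a ∈ A, a ≠ 1 → a * b' * a⁻¹ * b' ∈ Γ.sub x ⊓ MulAction.stabilizer G y :=
    fun a ha ha1 => Γ.mem_inter_of_comm (Γ.near_symm hn) ha.1 ha.2 ha1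
      (mul_mem (Γ.conj_mem_sub ha.2 hb'.1) hb'.1)
      (Γ.commutes_delta ha.2 (Γ.sub_sq y a ha.1) hb'.1)
  obtain ⟨a, ha, ha1, hab⟩ : ∃ a ∈ A, a ≠ 1 ∧
      (a * b' * a⁻¹ * b' = 1 ∨ a * b' * a⁻¹ * b' = b) := by
    obtain ⟨a1, ha1, ha11⟩ := Γ.exists_ne_one hn
    obtain ⟨a2, ha2, ha21, ha22⟩ : ∃ a2 ∈ A, a2 ≠ 1 ∧ a2 ≠ a1 := by
      by_contra hno
      simp only [not_exists, not_and, not_not] at hno
      have hle : (A : Set G) ⊆ {1, a1} :=
        fun t ht => (em (t = 1)).elim Or.inl fun h => Or.inr (hno t ht h)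
      have h1 := Set.ncard_le_ncard hle (Set.toFinite _)
      rw [Γ.ncard_inter x y hn] at h1
      have h2 := Set.ncard_insert_le (1 : G) ({a1} : Set G)
      rw [Set.ncard_singleton] at h2
      omega
    by_contra hno
    simp only [not_exists, not_and, not_or] at hno
    obtain ⟨n11, n12⟩ := hno a1 ha1 ha11
    obtain ⟨n21, n22⟩ := hno a2 ha2 ha21
    have h12 : a2 * a1 ≠ 1 := fun e => ha22 (by
      rw [mul_eq_one_iff_eq_inv.1 e, Γ.inv_sub ha1.1])
    obtain ⟨n31, n32⟩ := hno (a2 * a1) (mul_mem ha2 ha1) h12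
    set d1 := a1 * b' * a1⁻¹ * b' with hd1
    set d2 := a2 * b' * a2⁻¹ * b' with hd2
    have hd1m := hδ a1 ha1 ha11
    have hd2m := hδ a2 ha2 ha21
    rw [← hd1] at hd1m
    rw [← hd2] at hd2m
    have h3 : (a2 * a1) * b' * (a2 * a1)⁻¹ * b' = d1 * d2 := by
      have hbb := Γ.sub_sq x b' hb'.1
      have hcm : Commute a2 d1 := Γ.near_comm x y hn.1 a2 ha2 d1 hd1m
      calc (a2 * a1) * b' * (a2 * a1)⁻¹ * b' = a2 * (a1 * b' * a1⁻¹) * a2⁻¹ * b' := by group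
        _ = a2 * (d1 * b') * a2⁻¹ * b' := by
          rw [hd1, mul_assoc (a1 * b' * a1⁻¹), hbb, mul_one]
        _ = (a2 * d1) * b' * a2⁻¹ * b' := by group
        _ = (d1 * a2) * b' * a2⁻¹ * b' := by rw [hcm.eq]
        _ = d1 * d2 := by rw [hd2]; group
    rw [h3] at n31 n32
    rcases four_cases (Γ.near_card y x hn.1.symm (Γ.near_symm hn).2)
      (fun t ht => Γ.sub_sq x t ht.1) hb hd1m hb1 n11 (Ne.symm n12) hd2m with e | e | e | e
    · exact n21 e
    · exact n22 e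
    · exact n31 (by rw [e, Γ.sub_sq x d1 hd1m.1])
    · refine n32 ?_
      rw [e, ← mul_assoc, Γ.sub_comm x d1 hd1m.1 b hb.1, mul_assoc, Γ.sub_sq x d1 hd1m.1, mul_one]
  have hax : a • x = x := ha.2
  have hay : a • y = y := Γ.smul_sub ha.1
  have hab' : a * b = b * a := Γ.near_comm x y hn.1 a ha b hb
  have hnaz : Γ.near x (a • z) := by
    have h := (Γ.near_smul_iff a x z).2 hnz
    rwa [hax] at h
  have hb'az : b' • a • z = a • z := by
    have h1 : (a * b' * a⁻¹) • a • z = a • z := by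
      rw [smul_smul, inv_mul_cancel_right, mul_smul, show b' • z = z from hb'.2]
    have h2 : a * b' * a⁻¹ = (a * b' * a⁻¹ * b') * b' := by
      rw [mul_assoc (a * b' * a⁻¹), Γ.sub_sq x b' hb'.1, mul_one]
    have hbaz : b • a • z = a • z := by rw [smul_smul, ← hab', mul_smul, hbz]
    rcases hab with e | e
    · rwa [h2, e, one_mul] at h1
    · rw [h2, e, mul_smul] at h1
      rw [← smul_left_cancel_iff b, h1, hbaz]
  have htri : Γ.tri x (a • z) = Γ.tri x z := by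
    refine (Γ.tri_line x (a • z) z hnaz.1 hnaz.2 hnz.1 hnz.2).2 ?_
    have hnaz' := Γ.near_symm hnaz
    have : Finite ↥(Γ.sub x ⊓ MulAction.stabilizer G (a • z)) :=
      Nat.finite_of_card_ne_zero (by rw [Γ.near_card _ x hnaz'.1 hnaz'.2]; norm_num)
    symm
    refine Subgroup.eq_of_le_of_card_ge (fun c hc => ?_) (le_of_eq ?_)
    · have hbaz : b • a • z = a • z := by rw [smul_smul, ← hab', mul_smul, hbz]
      rcases four_cases (Γ.near_card z x hnz.1.symm (Γ.near_symm hnz).2)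
        (fun t ht => Γ.sub_sq x t ht.1) hbz' hb' hb1 hb'1 (Ne.symm hb'b) hc
        with rfl | rfl | rfl | rfl
      · exact one_mem _
      · exact ⟨hc.1, hbaz⟩
      · exact ⟨hc.1, hb'az⟩
      · exact ⟨hc.1, by show (b * b') • a • z = a • z; rw [mul_smul, hb'az, hbaz]⟩
    · rw [Γ.near_card _ x hnaz'.1 hnaz'.2, Γ.near_card z x hnz.1.symm (Γ.near_symm hnz).2]
  set T := Γ.tri x z with hT
  set σ := Γ.π x ⟨a, hax⟩ with hσ
  have hσT : T.image σ = T := by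
    rw [hσ, hT, ← Γ.tri_smul x z ⟨a, hax⟩ hnz.1 hnz.2]; exact htri
  obtain ⟨d0, hd0T, hd0⟩ : ∃ d ∈ T, d ∉ Γ.tri x y := by
    by_contra h
    simp only [not_exists, not_and, not_not] at h
    exact hTne (Finset.eq_of_subset_of_card_le h
      (by rw [Γ.tri_card x z hnz.1 hnz.2, Γ.tri_card x y hn.1 hn.2]))
  -- a second `b''` moves `z` to `a • z`
  obtain ⟨b2, hb2, hb21, hb2b⟩ : ∃ b2 ∈ Γ.sub x ⊓ MulAction.stabilizer G y, b2 ≠ 1 ∧ b2 ≠ b := by
    by_contra hno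
    simp only [not_exists, not_and, not_not] at hno
    have hle : ((Γ.sub x ⊓ MulAction.stabilizer G y : Subgroup G) : Set G) ⊆ {1, b} :=
      fun t ht => (em (t = 1)).elim Or.inl fun h => Or.inr (hno t ht h)
    have h1 := Set.ncard_le_ncard hle (Set.toFinite _)
    rw [Γ.ncard_inter y x (Γ.near_symm hn)] at h1
    have h2 := Set.ncard_insert_le (1 : G) ({b} : Set G)
    rw [Set.ncard_singleton] at h2
    omega
  have hb2x : b2 • x = x := Γ.smul_sub hb2.1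
  have hb2y : b2 • y = y := hb2.2
  have hqx : Γ.pt y w ∈ Γ.tri y x := (Γ.two_step (Γ.paths_rev hp)).2
  have hb2z : b2 • z ≠ z := by
    intro h
    refine hTne ((Γ.tri_line x z y hnz.1 hnz.2 hn.1 hn.2).2 ?_)
    have : Finite ↥(Γ.sub x ⊓ MulAction.stabilizer G z) :=
      Nat.finite_of_card_ne_zero (by rw [Γ.near_card z x hnz.1.symm (Γ.near_symm hnz).2]; norm_num)
    symm
    refine Subgroup.eq_of_le_of_card_ge (fun c hc => ?_) (le_of_eq ?_)
    · rcases four_cases (Γ.near_card y x hn.1.symm (Γ.near_symm hn).2)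
        (fun t ht => Γ.sub_sq x t ht.1) hb hb2 hb1 hb21 (Ne.symm hb2b) hc with rfl | rfl | rfl | rfl
      · exact one_mem _
      · exact hbz'
      · exact ⟨hc.1, h⟩
      · exact ⟨hc.1, by show (b * b2) • z = z; rw [mul_smul, h, hbz]⟩
    · rw [Γ.near_card z x hnz.1.symm (Γ.near_symm hnz).2,
        Γ.near_card y x hn.1.symm (Γ.near_symm hn).2]
  obtain ⟨a2, ha2, haz⟩ : ∃ a2 ∈ A, b2 • z = a2 • z := by
    have hf : Γ.far y (b2 • z) := by
      have h := (Γ.far_smul_iff b2 y z).2 hz.1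
      rwa [hb2y] at h
    have hpt : Γ.pt y (b2 • z) = Γ.pt y z := by
      rw [Γ.pt_smul y z ⟨b2, hb2y⟩ hz.1]
      refine Γ.tri_fix y x hn.1.symm (Γ.near_symm hn).2 ⟨b2, hb2y⟩ hb2.1 _ ?_
      rw [hz.2]; exact hqx
    obtain ⟨c, hc, hcz⟩ := (Γ.pt_eq_iff y z _ hz.1 hf).1 hpt.symm
    refine ⟨c, Γ.mem_inter_of_comm hn hb.1 hby hb1 hc ?_, hcz.symm⟩
    have hbc : b • c • z = c • z := by
      rw [hcz, smul_smul, Γ.sub_comm x b hb.1 b2 hb2.1, mul_smul, hbz]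
    have h2 := Γ.semireg_inj hz.1 (Γ.conj_mem_sub hby hc) hc
      (show (b * c * b⁻¹) • z = c • z by
        rw [mul_smul, mul_smul, show b⁻¹ • z = z by rw [Γ.inv_sub hb.1, hbz], hbc])
    exact (mul_inv_eq_iff_eq_mul.1 h2).symm
  have ha2x : a2 • x = x := ha2.2
  have ha21 : a2 ≠ 1 := fun e => hb2z (by rw [haz, e, one_smul])
  have hσ2T : T.image (Γ.π x ⟨a2, ha2x⟩) = T := by
    rw [hT, ← Γ.tri_smul x z ⟨a2, ha2x⟩ hnz.1 hnz.2]
    show Γ.tri x (a2 • z) = Γ.tri x z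
    rw [← haz]
    exact (Γ.tri_sub hnz hb2.1).2
  have haeq : a2 = a := by
    by_contra hne
    have hsub : ∀ c ∈ A, T.image (fun j => if h : c • x = x then Γ.π x ⟨c, h⟩ j else j) = T := by
      intro c hc
      rw [show (fun j => if h : c • x = x then Γ.π x ⟨c, h⟩ j else j) =
        (Γ.π x ⟨c, hc.2⟩ : Fin 7 → Fin 7) from funext fun j => dif_pos hc.2]
      rcases four_cases (Γ.near_card x y hn.1 hn.2) (fun t ht => Γ.sub_sq y t ht.1) ha ha2 ha1
        ha21 (Ne.symm hne) hc with rfl | rfl | rfl | rfl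
      · rw [show (⟨1, hc.2⟩ : ↥(MulAction.stabilizer G x)) = 1 from rfl, map_one]
        exact Finset.image_id
      · exact hσT
      · exact hσ2T
      · rw [show (⟨a * a2, hc.2⟩ : ↥(MulAction.stabilizer G x)) = ⟨a, hax⟩ * ⟨a2, ha2x⟩ from rfl,
          map_mul, Equiv.Perm.coe_mul, ← Finset.image_image, hσ2T, ← hσ, hσT]
    have hfour : (Γ.tri x y)ᶜ ⊆ T := by
      intro j hj
      obtain ⟨c, hc, hcj⟩ := Γ.tri_reg x y hn.1 hn.2 d0 j hd0 (Finset.mem_compl.1 hj)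
      rw [← hsub (c : G) ⟨hc, c.2⟩]
      exact Finset.mem_image.2 ⟨d0, hd0T, by
        rw [dif_pos (show (c : G) • x = x from c.2)]; exact hcj⟩
    have h1 := Finset.card_le_card hfour
    rw [Finset.card_compl, Fintype.card_fin, Γ.tri_card x y hn.1 hn.2,
      Γ.tri_card x z hnz.1 hnz.2] at h1
    omega
  subst haeq
  -- `h = b2 * a` fixes `x`, `y`, `z`
  have hhx : (b2 * a2) • x = x := by rw [mul_smul, hax, hb2x]
  have hhz : (b2 * a2) • z = z := by
    rw [mul_smul, ← haz, smul_smul, Γ.sub_sq x b2 hb2.1, one_smul]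
  have hhy : (b2 * a2) • y = y := by rw [mul_smul, hay, hb2y]
  have hπh : Γ.π x ⟨b2 * a2, hhx⟩ = σ := by
    rw [show (⟨b2 * a2, hhx⟩ : ↥(MulAction.stabilizer G x)) = ⟨b2, hb2x⟩ * ⟨a2, hax⟩ from rfl,
      map_mul, Γ.π_sub ⟨b2, hb2x⟩ hb2.1, one_mul, hσ]
  have hi'T : i' ∈ T := (Γ.two_step hrev).2
  have hσi' : σ i' = i' := by
    have hmv := Γ.paths_smul hhz (by rw [← Γ.pt_smul z y ⟨_, hhz⟩ hzy, hhy]) hw2
    rw [show (b2 * a2) • (w2, x).2 = x from hhx] at hmv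
    rw [← hπh, hi'def, ← Γ.pt_smul x w2 ⟨_, hhx⟩ hrev.1]
    exact Γ.pt_unique hw2 hmv
  have hσi : σ i = i := Γ.tri_fix x y hn.1 hn.2 ⟨a2, hax⟩ ha.1 i hi
  by_contra hne
  have hd0i : d0 ≠ i := fun e => hd0 (e ▸ hi)
  have hfix : σ d0 ≠ d0 := fun e => ha1 (Γ.tri_free hn ha.1 hax hd0 e)
  have hd0i' : d0 ≠ i' := fun e => hfix (e ▸ hσi')
  have hT3 : T = {i, i', d0} := by
    symm
    refine Finset.eq_of_subset_of_card_le ?_ ?_
    · intro t ht
      simp only [Finset.mem_insert, Finset.mem_singleton] at ht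
      rcases ht with rfl | rfl | rfl <;> assumption
    · rw [Γ.tri_card x z hnz.1 hnz.2, Finset.card_insert_of_notMem, Finset.card_pair hd0i'.symm]
      simp [Ne.symm hne, hd0i.symm]
  have hmem : σ d0 ∈ T := hσT ▸ Finset.mem_image_of_mem _ hd0T
  rw [hT3] at hmem
  simp only [Finset.mem_insert, Finset.mem_singleton] at hmem
  rcases hmem with e | e | e
  · exact hd0i (σ.injective (e.trans hσi.symm))
  · exact hd0i' (σ.injective (e.trans hσi'.symm))
  · exact hfix e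

end Geom

end CfsgLib.M23Count
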