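import Cfsg.Prelude.Def_Spor_Mathieu
import Mathlib.GroupTheory.Sylow
import Mathlib.GroupTheory.SpecificGroups.Alternating
import Mathlib.GroupTheory.GroupAction.Basic

/-!
Shared definitions for the recognition of `M₂₃` by its order and its element-order counts.

Route: the counts give `Setup`; `Setup` gives an elementary abelian `E` of order 16 (`Heptad`), one
conjugate containing each involution; the 253 conjugates form a `Geom`, seven orbits of `E` on the
conjugates in general position giving seven points at each of them; the points are glued to 23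
points on which the conjugates are the blocks of a Steiner system `S(4, 7, 23)`.
-/

set_option autoImplicit false

open scoped Pointwise

namespace CfsgLib.M23Count

universe u v

/-- The number of elements of order `n`. -/
noncomputable def cnt (G : Type u) [Group G] (n : ℕ) : ℕ := Nat.card {g : G // orderOf g = n}

/-- The values taken by the element-order counts of `M₂₃`. -/
def countValues : Finset ℕ :=
  {1, 3795, 56672, 318780, 680064, 850080, 1457280, 1275120, 1854720, 1360128, 887040}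

/-- The hypothesis on a group with the order and the set of counts of `M₂₃`. -/
structure CountHyp (G : Type u) [Group G] : Prop where
  card : Nat.card G = 10200960
  mem : ∀ n : ℕ, cnt G n ≠ 0 → cnt G n ∈ countValues
  surj : ∀ c ∈ countValues, ∃ n : ℕ, cnt G n = c

/-- The facts read off from the counts. -/
structure Setup (G : Type u) [Group G] : Prop where
  card : Nat.card G = 10200960
  invol_conj : ∀ s t : G, orderOf s = 2 → orderOf t = 2 → IsConj s t
  cent_invol : ∀ t : G, orderOf t = 2 → Nat.card (Subgroup.centralizer ({t} : Set G)) = 2688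
  cent_three : ∀ x : G, orderOf x = 3 → Nat.card (Subgroup.centralizer ({x} : Set G)) = 180
  cent_three_hom : ∀ x : G, orderOf x = 3 →
    ∃ φ : ↥(Subgroup.centralizer ({x} : Set G)) →* alternatingGroup (Fin 5),
      Function.Surjective φ ∧
        φ.ker = (Subgroup.zpowers x).subgroupOf (Subgroup.centralizer ({x} : Set G))
  norm_three : ∀ x : G, orderOf x = 3 →
    Nat.card (Subgroup.normalizer (Subgroup.zpowers x : Set G)) = 360
  invol_three : ∀ t : G, orderOf t = 2 → Nat.card {x : G // orderOf x = 3 ∧ Commute x t} = 224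
  cent_five : ∀ f : G, orderOf f = 5 → Nat.card (Subgroup.centralizer ({f} : Set G)) = 15
  cent_seven : ∀ f : G, orderOf f = 7 → Nat.card (Subgroup.centralizer ({f} : Set G)) = 14
  norm_seven : ∀ f : G, orderOf f = 7 →
    Nat.card (Subgroup.normalizer (Subgroup.zpowers f : Set G)) = 42

/-- The centre part of an involution centraliser: order 16, elementary, with no larger normal
subgroup of order prime to 7. -/
structure Core {G : Type u} [Group G] (t : G) (E : Subgroup G) : Prop where
  card : Nat.card E = 16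
  comm : ∀ a ∈ E, ∀ b ∈ E, a * b = b * a
  sq : ∀ a ∈ E, a * a = 1
  mem : t ∈ E
  le : E ≤ Subgroup.centralizer ({t} : Set G)
  normal : ∀ g : G, Commute g t → ∀ a ∈ E, g * a * g⁻¹ ∈ E
  max : ∀ L : Subgroup G, L ≤ Subgroup.centralizer ({t} : Set G) → E ≤ L →
    (∀ g : G, Commute g t → ∀ a ∈ L, g * a * g⁻¹ ∈ L) → ¬ 7 ∣ Nat.card L → L = E
  self_cent : Subgroup.centralizer (E : Set G) = E
  lines : ∀ a ∈ E, ∀ b ∈ E, a ≠ 1 → a ≠ t → b ≠ 1 → b ≠ t →
    ∃ g : G, Commute g t ∧ (g * a * g⁻¹ = b ∨ g * a * g⁻¹ = b * t)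

/-- An elementary abelian subgroup of order 16 with normaliser `2⁴ : A₇`. -/
structure Heptad {G : Type u} [Group G] (E : Subgroup G) : Prop where
  card : Nat.card E = 16
  comm : ∀ a ∈ E, ∀ b ∈ E, a * b = b * a
  sq : ∀ a ∈ E, a * a = 1
  self_cent : Subgroup.centralizer (E : Set G) = E
  norm_card : Nat.card (Subgroup.normalizer (E : Set G)) = 40320
  core : ∀ u ∈ E, u ≠ 1 → Core u E
  cent_le : ∀ u ∈ E, u ≠ 1 →
    Subgroup.centralizer ({u} : Set G) ≤ Subgroup.normalizer (E : Set G)
  trans : ∀ u ∈ E, ∀ w ∈ E, u ≠ 1 → w ≠ 1 →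
    ∃ n ∈ Subgroup.normalizer (E : Set G), n * u * n⁻¹ = w
  ti : ∀ g : G, ∀ u ∈ E, u ≠ 1 → g * u * g⁻¹ ∈ E → g ∈ Subgroup.normalizer (E : Set G)
  small : ∀ a ∈ Subgroup.normalizer (E : Set G), orderOf a = 2 → a ∉ E →
    Nat.card ↥(E ⊓ Subgroup.centralizer ({a} : Set G)) = 4

/-- The geometry of the conjugates: `sub v` the subgroup at `v`, `far` general position, `pt` the
point at `v` belonging to a far vertex, `tri` the three points at `v` belonging to a near one. -/
structure Geom (G : Type u) (V : Type v) [Group G] [MulAction G V] where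
  sub : V → Subgroup G
  far : V → V → Prop
  π : ∀ v : V, ↥(MulAction.stabilizer G v) →* Equiv.Perm (Fin 7)
  pt : V → V → Fin 7
  tri : V → V → Finset (Fin 7)
  card_V : Nat.card V = 253
  trans : ∀ v w : V, ∃ g : G, g • v = w
  sub_smul : ∀ (g : G) (v : V), sub (g • v) = (sub v).map (MulAut.conj g).toMonoidHom
  sub_card : ∀ v : V, Nat.card (sub v) = 16
  sub_comm : ∀ v : V, ∀ a ∈ sub v, ∀ b ∈ sub v, a * b = b * a
  sub_sq : ∀ v : V, ∀ a ∈ sub v, a * a = 1
  sub_le : ∀ v : V, sub v ≤ MulAction.stabilizer G v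
  sub_trans : ∀ v : V, ∀ a ∈ sub v, ∀ b ∈ sub v, a ≠ 1 → b ≠ 1 →
    ∃ h ∈ MulAction.stabilizer G v, h * a * h⁻¹ = b
  sub_disj : ∀ v w : V, v ≠ w → sub v ⊓ sub w = ⊥
  card_stab : ∀ v : V, Nat.card (MulAction.stabilizer G v) = 40320
  small : ∀ v : V, ∀ a ∈ MulAction.stabilizer G v, orderOf a = 2 → a ∉ sub v →
    Nat.card ↥(sub v ⊓ Subgroup.centralizer ({a} : Set G)) = 4
  far_iff : ∀ v w : V, far v w ↔ v ≠ w ∧ sub w ⊓ MulAction.stabilizer G v = ⊥
  far_symm : ∀ v w : V, far v w → far w v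
  near_card : ∀ v w : V, v ≠ w → ¬ far v w →
    Nat.card ↥(sub w ⊓ MulAction.stabilizer G v) = 4
  near_comm : ∀ v w : V, v ≠ w → ∀ a ∈ sub w ⊓ MulAction.stabilizer G v,
    ∀ b ∈ sub v ⊓ MulAction.stabilizer G w, a * b = b * a
  semireg : ∀ v w : V, far v w → ∀ e ∈ sub v, e • w = w → e = 1
  π_ker : ∀ v : V, (π v).ker = (sub v).subgroupOf (MulAction.stabilizer G v)
  π_range : ∀ v : V, (π v).range = alternatingGroup (Fin 7)
  pt_smul : ∀ (v w : V) (h : ↥(MulAction.stabilizer G v)), far v w →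
    pt v ((h : G) • w) = π v h (pt v w)
  pt_eq_iff : ∀ v w w' : V, far v w → far v w' →
    (pt v w = pt v w' ↔ ∃ e ∈ sub v, e • w = w')
  pt_surj : ∀ (v : V) i, ∃ w, far v w ∧ pt v w = i
  tri_card : ∀ v w : V, v ≠ w → ¬ far v w → (tri v w).card = 3
  tri_fix : ∀ v w : V, v ≠ w → ¬ far v w → ∀ a : ↥(MulAction.stabilizer G v), (a : G) ∈ sub w →
    ∀ i ∈ tri v w, π v a i = i
  tri_reg : ∀ v w : V, v ≠ w → ¬ far v w → ∀ i j, i ∉ tri v w → j ∉ tri v w →
    ∃ a : ↥(MulAction.stabilizer G v), (a : G) ∈ sub w ∧ π v a i = j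
  tri_smul : ∀ (v w : V) (h : ↥(MulAction.stabilizer G v)), v ≠ w → ¬ far v w →
    tri v ((h : G) • w) = (tri v w).image (π v h)
  tri_eq_iff : ∀ v w w' : V, v ≠ w → ¬ far v w → v ≠ w' → ¬ far v w' →
    (tri v w = tri v w' ↔ ∃ e ∈ sub v, e • w = w')
  tri_line : ∀ v w w' : V, v ≠ w → ¬ far v w → v ≠ w' → ¬ far v w' →
    (tri v w = tri v w' ↔ sub v ⊓ MulAction.stabilizer G w = sub v ⊓ MulAction.stabilizer G w')
  tri_surj : ∀ (v : V) (T : Finset (Fin 7)), T.card = 3 → ∃ w, v ≠ w ∧ ¬ far v w ∧ tri v w = T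

/-- Twenty-three points on which the 253 vertices are seven-sets meeting in at most three points. -/
def HasPoints (G : Type u) (V : Type v) [Group G] [MulAction G V] : Prop :=
  ∃ (act : G →* Equiv.Perm (Fin 23)) (blk : V → Finset (Fin 23)),
    Function.Injective act ∧ (∀ w, (blk w).card = 7) ∧
      (∀ g w, blk (g • w) = (blk w).image (act g)) ∧ ∀ w w', w ≠ w' → (blk w ∩ blk w').card ≤ 3

end CfsgLib.M23Count
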