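import Cfsg.Agent.M23Count.FlagsBase

/-!
`Geom`: the vertices at distance two along a point are exactly the 60 near ones whose triple
contains the point.
-/

set_option autoImplicit false

open scoped Pointwise

namespace CfsgLib.M23Count

theorem exists_even_fix {i j j' : Fin 7} (hj : j ≠ i) (hj' : j' ≠ i) :
    ∃ σ ∈ alternatingGroup (Fin 7), σ i = i ∧ σ j = j' := by
  by_cases h : j = j'
  · exact ⟨1, one_mem _, rfl, h⟩
  obtain ⟨k, hk⟩ : ∃ k, k ∉ ({i, j, j'} : Finset (Fin 7)) := by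
    by_contra hno
    simp only [not_exists, not_not] at hno
    have h1 := Finset.card_le_three (a := i) (b := j) (c := j')
    rw [Finset.eq_univ_of_forall hno, Finset.card_univ, Fintype.card_fin] at h1
    omega
  simp only [Finset.mem_insert, Finset.mem_singleton, not_or] at hk
  refine ⟨Equiv.swap j j' * Equiv.swap j' k, ?_, ?_, ?_⟩
  · simp [Equiv.Perm.mem_alternatingGroup, Equiv.Perm.sign_swap h,
      Equiv.Perm.sign_swap (Ne.symm hk.2.2)]
  · rw [Equiv.Perm.mul_apply, Equiv.swap_apply_of_ne_of_ne hj'.symm (Ne.symm hk.1),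
      Equiv.swap_apply_of_ne_of_ne hj.symm hj'.symm]
  · rw [Equiv.Perm.mul_apply, Equiv.swap_apply_of_ne_of_ne h (Ne.symm hk.2.1),
      Equiv.swap_apply_left]

theorem exists_even_triple {i : Fin 7} {T T' : Finset (Fin 7)} (hT : T.card = 3)
    (hT' : T'.card = 3) (h : i ∈ T ↔ i ∈ T') :
    ∃ σ ∈ alternatingGroup (Fin 7), σ i = i ∧ T.image σ = T' := by
  have hc : (T.erase i).card = (T'.erase i).card := by
    by_cases hi : i ∈ T
    · rw [Finset.card_erase_of_mem hi, Finset.card_erase_of_mem (h.1 hi), hT, hT']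
    · rw [Finset.erase_eq_of_notMem hi, Finset.erase_eq_of_notMem (fun h' => hi (h.2 h')), hT, hT']
  have e := Finset.equivOfCardEq hc
  let x : Option ↥(T.erase i) → Fin 7 := fun o => o.elim i Subtype.val
  let y : Option ↥(T.erase i) → Fin 7 := fun o => o.elim i fun s => (e s : Fin 7)
  have hx : Function.Injective x := by
    rintro (_ | ⟨a, ha⟩) (_ | ⟨b, hb⟩) hab <;> simp [x] at hab
    · rfl
    · exact absurd hab.symm (Finset.mem_erase.1 hb).1
    · exact absurd hab (Finset.mem_erase.1 ha).1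
    · subst hab; rfl
  have hy : Function.Injective y := by
    rintro (_ | a) (_ | b) hab <;> simp [y] at hab
    · rfl
    · exact absurd hab.symm (Finset.mem_erase.1 (e b).2).1
    · exact absurd hab (Finset.mem_erase.1 (e a).2).1
    · exact congrArg some (e.injective (Subtype.ext (congrArg Subtype.val (e.injective.eq_iff.2 hab))))
  obtain ⟨σ, hσ⟩ := Equiv.Perm.exists_extending_pair x y hx hy
  have hi : σ i = i := hσ none
  have himg : T.image σ = T' := by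
    refine Finset.eq_of_subset_of_card_le (fun z hz => ?_)
      (by rw [Finset.card_image_of_injective _ σ.injective, hT, hT'])
    obtain ⟨t, ht, rfl⟩ := Finset.mem_image.1 hz
    by_cases hti : t = i
    · subst hti; rw [hi]; exact h.1 ht
    · have := hσ (some ⟨t, Finset.mem_erase.2 ⟨hti, ht⟩⟩)
      simp only [x, y, Option.elim_some] at this
      rw [this]
      exact (Finset.mem_erase.1 (e _).2).2
  by_cases hs : Equiv.Perm.sign σ = 1
  · exact ⟨σ, hs, hi, himg⟩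
  obtain ⟨p, hp, q, hq, hpq⟩ := Finset.one_lt_card.1 (show 1 < (T'.erase i).card by
    have := Finset.pred_card_le_card_erase (s := T') (a := i)
    omega)
  obtain ⟨hpi, hpT⟩ := Finset.mem_erase.1 hp
  obtain ⟨hqi, hqT⟩ := Finset.mem_erase.1 hq
  refine ⟨Equiv.swap p q * σ, ?_, ?_, ?_⟩
  · rw [Equiv.Perm.mem_alternatingGroup, map_mul, Equiv.Perm.sign_swap hpq,
      (Int.units_eq_one_or _).resolve_left hs]
    rfl
  · rw [Equiv.Perm.mul_apply, hi, Equiv.swap_apply_of_ne_of_ne hpi.symm hqi.symm]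
  · refine Finset.eq_of_subset_of_card_le (fun z hz => ?_)
      (by rw [Finset.card_image_of_injective _ (Equiv.swap p q * σ).injective, hT, hT'])
    obtain ⟨t, ht, rfl⟩ := Finset.mem_image.1 hz
    have hmem : σ t ∈ T' := himg ▸ Finset.mem_image_of_mem _ ht
    rw [Equiv.Perm.mul_apply, Equiv.swap_apply_def]
    split_ifs <;> assumption

theorem four_cases {G : Type*} [Group G] {B : Subgroup G} (h4 : Nat.card B = 4)
    (hsq : ∀ x ∈ B, x * x = 1) {b c : G} (hb : b ∈ B) (hc : c ∈ B) (hb1 : b ≠ 1) (hc1 : c ≠ 1)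
    (hbc : b ≠ c) {x : G} (hx : x ∈ B) : x = 1 ∨ x = b ∨ x = c ∨ x = b * c := by
  classical
  have : Finite B := Nat.finite_of_card_ne_zero (by omega)
  have h1 : b * c ≠ 1 := fun e => hbc (by
    rw [eq_inv_of_mul_eq_one_left e]
    exact inv_eq_of_mul_eq_one_right (hsq c hc))
  have h2 : b * c ≠ b := fun e => hc1 (mul_eq_left.1 e)
  have h3 : b * c ≠ c := fun e => hb1 (mul_eq_right.1 e)
  have key : ({1, b, c, b * c} : Set G) = (B : Set G) := by
    refine Set.eq_of_subset_of_ncard_le ?_ ?_ (B : Set G).toFinite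
    · rintro y (rfl | rfl | rfl | rfl)
      exacts [one_mem _, hb, hc, mul_mem hb hc]
    · rw [show (B : Set G).ncard = 4 from (Nat.card_coe_set_eq _).symm.trans h4]
      rw [Set.ncard_insert_of_notMem, Set.ncard_insert_of_notMem, Set.ncard_insert_of_notMem,
        Set.ncard_singleton] <;>
        simp [hb1.symm, hc1.symm, hbc, h1.symm, h2.symm, h3.symm]
  have hx' : x ∈ ({1, b, c, b * c} : Set G) := key ▸ hx
  simpa using hx'

namespace Geom

universe u v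

variable {G : Type u} {V : Type v} [Group G] [MulAction G V] (Γ : Geom G V)

/-- The far vertices over a point. -/
def row (x : V) (i : Fin 7) : Set V := {w | Γ.far x w ∧ Γ.pt x w = i}

/-- The paths of length two along a point. -/
def paths (x : V) (i : Fin 7) : Set (V × V) :=
  {p | Γ.far x p.1 ∧ Γ.pt x p.1 = i ∧ Γ.far p.1 p.2 ∧ Γ.pt p.1 p.2 = Γ.pt p.1 x ∧ p.2 ≠ x}

include Γ in
theorem finite_V : Finite V := Nat.finite_of_card_ne_zero (by rw [Γ.card_V]; norm_num)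

theorem finite_sub (x : V) : Finite (Γ.sub x) :=
  Nat.finite_of_card_ne_zero (by rw [Γ.sub_card]; norm_num)

theorem ncard_sub (x : V) : (Γ.sub x : Set G).ncard = 16 :=
  (Nat.card_coe_set_eq _).symm.trans (Γ.sub_card x)

theorem semireg_inj {x w : V} (h : Γ.far x w) {e e' : G} (he : e ∈ Γ.sub x) (he' : e' ∈ Γ.sub x)
    (heq : e • w = e' • w) : e = e' := by
  have := Γ.semireg x w h (e⁻¹ * e') (mul_mem (inv_mem he) he')
    (by rw [mul_smul, ← heq, inv_smul_smul])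
  exact inv_mul_eq_one.1 this

theorem row_eq {x w : V} (h : Γ.far x w) :
    Γ.row x (Γ.pt x w) = (fun e => e • w) '' (Γ.sub x : Set G) := by
  ext w'
  constructor
  · rintro ⟨hf, hp⟩
    obtain ⟨e, he, rfl⟩ := (Γ.pt_eq_iff x w w' h hf).1 hp.symm
    exact ⟨e, he, rfl⟩
  · rintro ⟨e, he, rfl⟩
    exact Γ.pt_sub he h

theorem ncard_row (x : V) (i : Fin 7) : (Γ.row x i).ncard = 16 := by
  obtain ⟨hw, hi⟩ := Γ.wit_spec x i
  rw [← hi, Γ.row_eq hw, Set.InjOn.ncard_image, Γ.ncard_sub]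
  exact fun e he e' he' h => Γ.semireg_inj hw he he' h

theorem cent_perm (w : V) {e : G} (he : e ∈ Γ.sub w) (he1 : e ≠ 1) (i j : Fin 7) :
    ∃ k : ↥(MulAction.stabilizer G w), (k : G) * e * (k : G)⁻¹ = e ∧ Γ.π w k i = j := by
  classical
  let H : Subgroup (ConjAct G) :=
    (MulAction.stabilizer G w).map (ConjAct.toConjAct (G := G)).toMonoidHom
  have hH : Nat.card H = 40320 := by
    rw [Subgroup.card_map_of_injective (ConjAct.toConjAct (G := G)).injective, Γ.card_stab]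
  have : Finite H := Nat.finite_of_card_ne_zero (by omega)
  have horb : MulAction.orbit H e = (Γ.sub w : Set G) \ {1} := by
    ext y
    constructor
    · rintro ⟨⟨k, hk⟩, rfl⟩
      obtain ⟨g, hg, rfl⟩ := hk
      show ConjAct.toConjAct g • e ∈ _
      rw [ConjAct.toConjAct_smul]
      exact ⟨Γ.conj_mem_sub hg he, fun h => he1 (conj_eq_one_iff.1 h)⟩
    · rintro ⟨hy, hy1⟩
      obtain ⟨g, hg, hgy⟩ := Γ.sub_trans w e he y hy he1 hy1
      exact ⟨⟨ConjAct.toConjAct g, g, hg, rfl⟩, by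
        show ConjAct.toConjAct g • e = y
        rw [ConjAct.toConjAct_smul, hgy]⟩
  have h15 : (MulAction.orbit H e).ncard = 15 := by
    rw [horb, Set.ncard_sdiff_singleton_of_mem (Γ.sub w).one_mem, Γ.ncard_sub]
  have hc : 7 ∣ Nat.card (MulAction.stabilizer H e) := by
    have h1 := (MulAction.stabilizer H e).card_mul_index
    rw [MulAction.index_stabilizer, h15, hH] at h1
    exact ⟨384, by omega⟩
  have : Finite (MulAction.stabilizer H e) := inferInstance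
  have : Fact (Nat.Prime 7) := ⟨by norm_num⟩
  obtain ⟨⟨⟨_, g, hg, rfl⟩, hk⟩, hord⟩ := exists_prime_orderOf_dvd_card' 7 hc
  have hcomm : g * e * g⁻¹ = e := by
    have : ConjAct.toConjAct g • e = e := hk
    rwa [ConjAct.toConjAct_smul] at this
  have hg7 : orderOf g = 7 := by
    rw [← hord, ← Subgroup.orderOf_coe, ← Subgroup.orderOf_coe]
    exact (orderOf_injective (ConjAct.toConjAct (G := G)).toMonoidHom
      (ConjAct.toConjAct (G := G)).injective g).symm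
  have hπ : orderOf (Γ.π w ⟨g, hg⟩) = 7 := by
    refine ((Nat.dvd_prime (by norm_num)).1 ?_).resolve_left fun h => ?_
    · refine (orderOf_map_dvd (Γ.π w) _).trans (dvd_of_eq ?_)
      rw [Subgroup.orderOf_mk, hg7]
    · have h' := Γ.mem_sub_of_π_eq_one _ (orderOf_eq_one_iff.1 h)
      have := orderOf_dvd_of_pow_eq_one (show g ^ 2 = 1 by rw [pow_two]; exact Γ.sub_sq w g h')
      rw [hg7] at this
      norm_num at this
  have hcyc : (Γ.π w ⟨g, hg⟩).IsCycle := by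
    refine Equiv.Perm.isCycle_of_prime_order (by rw [hπ]; norm_num) ?_
    rw [hπ]
    exact lt_of_le_of_lt (Finset.card_le_univ _) (by norm_num)
  have hsupp : (Γ.π w ⟨g, hg⟩).support = Finset.univ := by
    refine Finset.eq_univ_of_card _ ?_
    rw [← hcyc.orderOf, hπ, Fintype.card_fin]
  obtain ⟨n, hn⟩ := hcyc.exists_pow_eq (Equiv.Perm.mem_support.1 (hsupp ▸ Finset.mem_univ i))
    (Equiv.Perm.mem_support.1 (hsupp ▸ Finset.mem_univ j))
  have hgn : Commute (g ^ n) e := (Commute.pow_left (mul_inv_eq_iff_eq_mul.1 hcomm) n)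
  refine ⟨⟨g, hg⟩ ^ n, ?_, by rw [map_pow]; exact hn⟩
  rw [SubmonoidClass.coe_pow, hgn.eq, mul_inv_cancel_right]

/-- The stabiliser of a far pair is transitive on the subgroup at either end. -/
theorem row_trans {x w : V} (hf : Γ.far x w) {e e' : G} (he : e ∈ Γ.sub w) (he1 : e ≠ 1)
    (he' : e' ∈ Γ.sub w) (he1' : e' ≠ 1) :
    ∃ h : G, h • x = x ∧ h • w = w ∧ h * e * h⁻¹ = e' := by
  obtain ⟨g, hg, hge⟩ := Γ.sub_trans w e he e' he' he1 he1'
  obtain ⟨k, hk, hkp⟩ := Γ.cent_perm w he' he1' (Γ.π w ⟨g, hg⟩ (Γ.pt w x)) (Γ.pt w x)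
  have hwx := Γ.far_symm _ _ hf
  set m : ↥(MulAction.stabilizer G w) := k * ⟨g, hg⟩ with hm
  have hfix : (m : G) • w = w := m.2
  have hp : Γ.pt w ((m : G) • x) = Γ.pt w x := by
    rw [Γ.pt_smul w x m hwx, hm, map_mul, Equiv.Perm.mul_apply, hkp]
  have hfm : Γ.far w ((m : G) • x) := by
    have h := (Γ.far_smul_iff (m : G) w x).2 hwx
    rwa [hfix] at h
  obtain ⟨e0, he0, h0⟩ := (Γ.pt_eq_iff w _ x hfm hwx).1 hp
  refine ⟨e0 * (m : G), by rw [mul_smul, h0], by rw [mul_smul, hfix, Γ.smul_sub he0], ?_⟩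
  have hme : (m : G) * e * (m : G)⁻¹ = e' := by
    show (k : G) * g * e * ((k : G) * g)⁻¹ = e'
    calc (k : G) * g * e * ((k : G) * g)⁻¹ = (k : G) * (g * e * g⁻¹) * (k : G)⁻¹ := by group
      _ = e' := by rw [hge, hk]
  calc e0 * (m : G) * e * (e0 * (m : G))⁻¹ = e0 * ((m : G) * e * (m : G)⁻¹) * e0⁻¹ := by group
    _ = e' := by rw [hme, Γ.sub_comm w e0 he0 e' he', mul_inv_cancel_right]

theorem paths_eq {x w : V} (hf : Γ.far x w) :
    Γ.paths x (Γ.pt x w) =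
      (fun p : G × G => (p.1 • w, (p.1 * p.2) • x)) ''
        ((Γ.sub x : Set G) ×ˢ ((Γ.sub w : Set G) \ {1})) := by
  have hwx := Γ.far_symm _ _ hf
  ext ⟨a, b⟩
  constructor
  · rintro ⟨ha, hp, hab, hq, hbx⟩
    simp only at ha hp hab hq hbx
    obtain ⟨e, he, rfl⟩ := (Γ.pt_eq_iff x w a hf ha).1 hp.symm
    have hax := Γ.far_symm _ _ ha
    obtain ⟨e', he', rfl⟩ := (Γ.pt_eq_iff _ x b hax hab).1 hq.symm
    have hm : e⁻¹ * e' * e ∈ Γ.sub w := Γ.mem_sub_smul.1 he'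
    refine ⟨(e, e⁻¹ * e' * e), ⟨he, hm, fun h1 => hbx ?_⟩, ?_⟩
    · have : e' = 1 := by
        have h1' : e⁻¹ * e' * e = 1 := h1
        calc e' = e * (e⁻¹ * e' * e) * e⁻¹ := by group
          _ = 1 := by rw [h1', mul_one, mul_inv_cancel]
      rw [this, one_smul]
    · show (e • w, (e * (e⁻¹ * e' * e)) • x) = (e • w, e' • x)
      rw [show e * (e⁻¹ * e' * e) = e' * e by group, mul_smul, Γ.smul_sub he]
  · rintro ⟨⟨e, e'⟩, ⟨he, he', he1⟩, hab⟩
    simp only [Prod.mk.injEq] at hab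
    obtain ⟨rfl, rfl⟩ := hab
    have h0 := Γ.pt_sub he' hwx
    refine ⟨(Γ.pt_sub he hf).1, (Γ.pt_sub he hf).2, ?_, ?_, ?_⟩
    · show Γ.far (e • w) ((e * e') • x)
      rw [mul_smul, Γ.far_smul_iff]; exact h0.1
    · show Γ.pt (e • w) ((e * e') • x) = Γ.pt (e • w) x
      have h1 := Γ.pt_transport e h0.1 hwx h0.2
      rwa [Γ.smul_sub he, ← mul_smul] at h1
    · show (e * e') • x ≠ x
      intro h
      rw [mul_smul] at h
      refine he1 (Γ.semireg w x hwx e' he' ?_)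
      exact smul_left_cancel e (h.trans (Γ.smul_sub he).symm)

theorem ncard_paths (x : V) (i : Fin 7) : (Γ.paths x i).ncard = 240 := by
  obtain ⟨hw, hi⟩ := Γ.wit_spec x i
  rw [← hi, Γ.paths_eq hw, Set.InjOn.ncard_image, Set.ncard_prod, Γ.ncard_sub,
    Set.ncard_sdiff_singleton_of_mem (Γ.sub _).one_mem, Γ.ncard_sub]
  rintro ⟨e, e'⟩ ⟨he, he', -⟩ ⟨f, f'⟩ ⟨hf, hf', -⟩ h
  simp only [Prod.mk.injEq] at h
  obtain rfl : e = f := Γ.semireg_inj hw he hf h.1
  rw [mul_smul, mul_smul] at h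
  have h2 : e' = f' := Γ.semireg_inj (Γ.far_symm _ _ hw) he' hf' (smul_left_cancel e h.2)
  rw [h2]

theorem paths_smul {x : V} {i : Fin 7} {h : G} (hx : h • x = x)
    (hi : Γ.π x ⟨h, hx⟩ i = i) {p : V × V} (hp : p ∈ Γ.paths x i) :
    (h • p.1, h • p.2) ∈ Γ.paths x i := by
  obtain ⟨h1, h2, h3, h4, h5⟩ := hp
  refine ⟨?_, ?_, (Γ.far_smul_iff h _ _).2 h3, ?_, fun e => h5 (smul_left_cancel h (e.trans hx.symm))⟩
  · have := (Γ.far_smul_iff h x p.1).2 h1
    rwa [hx] at this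
  · show Γ.pt x (h • p.1) = i
    rw [Γ.pt_smul x p.1 ⟨h, hx⟩ h1, h2, hi]
  · have := Γ.pt_transport h h3 (Γ.far_symm _ _ h1) h4
    rwa [hx] at this

theorem paths_trans {x : V} {i : Fin 7} {p p' : V × V} (hp : p ∈ Γ.paths x i)
    (hp' : p' ∈ Γ.paths x i) : ∃ h : G, ∃ hx : h • x = x, Γ.π x ⟨h, hx⟩ i = i ∧
      h • p.1 = p'.1 ∧ h • p.2 = p'.2 := by
  obtain ⟨hw, hi⟩ := Γ.wit_spec x i
  rw [← hi, Γ.paths_eq hw] at hp hp'
  obtain ⟨⟨e, e'⟩, ⟨he, he', he1⟩, rfl⟩ := hp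
  obtain ⟨⟨f, f'⟩, ⟨hf, hf', hf1⟩, rfl⟩ := hp'
  obtain ⟨k, hkx, hkw, hk⟩ := Γ.row_trans hw he' he1 hf' hf1
  have hx : (f * k * e⁻¹) • x = x := by
    rw [mul_smul, mul_smul, Γ.smul_sub (inv_mem he), hkx, Γ.smul_sub hf]
  have h1 : (f * k * e⁻¹) • e • Γ.wit x i = f • Γ.wit x i := by
    rw [smul_smul, inv_mul_cancel_right, mul_smul, hkw]
  refine ⟨f * k * e⁻¹, hx, ?_, h1, ?_⟩
  · conv_lhs => rw [← hi, ← (Γ.pt_sub he hw).2]
    rw [← Γ.pt_smul x _ ⟨f * k * e⁻¹, hx⟩ (Γ.pt_sub he hw).1, h1, (Γ.pt_sub hf hw).2, hi]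
  · show (f * k * e⁻¹) • (e * e') • x = (f * f') • x
    have hk' : k * e' = f' * k := mul_inv_eq_iff_eq_mul.1 hk
    rw [smul_smul, show f * k * e⁻¹ * (e * e') = f * (k * e') by group, hk', mul_smul, mul_smul,
      hkx, ← mul_smul]

theorem tri_sub {x y : V} (hn : Γ.near x y) {e : G} (he : e ∈ Γ.sub x) :
    Γ.near x (e • y) ∧ Γ.tri x (e • y) = Γ.tri x y := by
  have hn' : Γ.near x (e • y) := by
    have h := (Γ.near_smul_iff e x y).2 hn
    rwa [Γ.smul_sub he] at h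
  exact ⟨hn', ((Γ.tri_eq_iff x y _ hn.1 hn.2 hn'.1 hn'.2).2 ⟨e, he, rfl⟩).symm⟩

/-- The stabiliser of a flag is transitive on each kind of vertex. -/
theorem exists_kind_move {x y y' : V} {i : Fin 7}
    (h : (Γ.far x y ∧ Γ.far x y' ∧ (Γ.pt x y = i ↔ Γ.pt x y' = i)) ∨
      (Γ.near x y ∧ Γ.near x y' ∧ (i ∈ Γ.tri x y ↔ i ∈ Γ.tri x y'))) :
    ∃ g : G, ∃ hx : g • x = x, Γ.π x ⟨g, hx⟩ i = i ∧ g • y = y' := by
  suffices key : ∃ (k : ↥(MulAction.stabilizer G x)) (e : G),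
      e ∈ Γ.sub x ∧ Γ.π x k i = i ∧ e • (k : G) • y = y' by
    obtain ⟨k, e, he, hk, hy⟩ := key
    have hx : (e * (k : G)) • x = x := by rw [mul_smul, k.2, Γ.smul_sub he]
    refine ⟨e * (k : G), hx, ?_, by rw [mul_smul, hy]⟩
    rw [show (⟨e * (k : G), hx⟩ : ↥(MulAction.stabilizer G x)) = ⟨e, Γ.sub_le x he⟩ * k from rfl,
      map_mul, Γ.π_sub ⟨e, Γ.sub_le x he⟩ he, one_mul, hk]
  rcases h with ⟨hy, hy', hiff⟩ | ⟨hy, hy', hiff⟩
  · obtain ⟨σ, hσ, hσi, hσy⟩ : ∃ σ ∈ alternatingGroup (Fin 7), σ i = i ∧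
        σ (Γ.pt x y) = Γ.pt x y' := by
      by_cases hi : Γ.pt x y = i
      · exact ⟨1, one_mem _, rfl, hi.trans (hiff.1 hi).symm⟩
      · exact exists_even_fix hi fun h => hi (hiff.2 h)
    obtain ⟨k, rfl⟩ := Γ.exists_π x hσ
    have hf : Γ.far x ((k : G) • y) := by
      have := (Γ.far_smul_iff (k : G) x y).2 hy
      rwa [k.2] at this
    obtain ⟨e, he, hey⟩ := (Γ.pt_eq_iff x _ y' hf hy').1 (by rw [Γ.pt_smul x y k hy, hσy])
    exact ⟨k, e, he, hσi, hey⟩
  · obtain ⟨σ, hσ, hσi, hσy⟩ := exists_even_triple (Γ.tri_card x y hy.1 hy.2)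
      (Γ.tri_card x y' hy'.1 hy'.2) hiff
    obtain ⟨k, rfl⟩ := Γ.exists_π x hσ
    have hn : Γ.near x ((k : G) • y) := by
      have := (Γ.near_smul_iff (k : G) x y).2 hy
      rwa [k.2] at this
    obtain ⟨e, he, hey⟩ := (Γ.tri_eq_iff x _ y' hn.1 hn.2 hy'.1 hy'.2).1
      (by rw [Γ.tri_smul x y k hy.1 hy.2, hσy])
    exact ⟨k, e, he, hσi, hey⟩

/-- All endpoints of paths are of one kind `T`; then each of `T` occurs equally often. -/
theorem paths_fiber {x : V} {i : Fin 7} {T : Set V} (hT : ∀ p ∈ Γ.paths x i, p.2 ∈ T)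
    (htr : ∀ y ∈ T, ∀ y' ∈ T, ∃ g : G, ∃ hx : g • x = x, Γ.π x ⟨g, hx⟩ i = i ∧ g • y = y')
    {y₀ : V} (hy₀ : y₀ ∈ T) :
    240 = T.ncard * {p | p ∈ Γ.paths x i ∧ p.2 = y₀}.ncard := by
  classical
  have := Γ.finite_V
  have hfib : ∀ y ∈ T, {p | p ∈ Γ.paths x i ∧ p.2 = y}.ncard =
      {p | p ∈ Γ.paths x i ∧ p.2 = y₀}.ncard := by
    have hle : ∀ y ∈ T, ∀ y' ∈ T, {p | p ∈ Γ.paths x i ∧ p.2 = y}.ncard ≤
        {p | p ∈ Γ.paths x i ∧ p.2 = y'}.ncard := by
      intro y hy y' hy'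
      obtain ⟨g, hx, hgi, rfl⟩ := htr y hy y' hy'
      refine Set.ncard_le_ncard_of_injOn (fun p => (g • p.1, g • p.2)) ?_ ?_ (Set.toFinite _)
      · rintro p ⟨hp, rfl⟩
        exact ⟨Γ.paths_smul hx hgi hp, rfl⟩
      · intro p _ q _ hpq
        simp only [Prod.mk.injEq] at hpq
        exact Prod.ext (smul_left_cancel g hpq.1) (smul_left_cancel g hpq.2)
    exact fun y hy => le_antisymm (hle y hy y₀ hy₀) (hle y₀ hy₀ y hy)
  have hsum := Finset.card_eq_sum_card_fiberwise (f := Prod.snd)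
    (s := (Γ.paths x i).toFinite.toFinset) (t := T.toFinite.toFinset) fun p hp => by
      simp only [Set.Finite.coe_toFinset] at hp ⊢
      exact hT p hp
  rw [← Set.ncard_eq_toFinset_card, Γ.ncard_paths, Finset.sum_congr rfl
    (g := fun _ => {p | p ∈ Γ.paths x i ∧ p.2 = y₀}.ncard) (fun y hy => ?_), Finset.sum_const,
    ← Set.ncard_eq_toFinset_card, smul_eq_mul] at hsum
  · exact hsum
  · rw [← hfib y ((Set.Finite.mem_toFinset _).1 hy), ← Set.ncard_coe_finset]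
    congr 1
    ext p
    simp

theorem ncard_far_ne (x : V) (i : Fin 7) : {y | Γ.far x y ∧ Γ.pt x y ≠ i}.ncard = 96 := by
  classical
  have := Γ.finite_V
  rw [Set.ncard_eq_toFinset_card _ (Set.toFinite _),
    Finset.card_eq_sum_card_fiberwise (f := Γ.pt x) (t := Finset.univ.erase i)]
  · refine (Finset.sum_congr rfl (g := fun _ => 16) fun j hj => ?_).trans ?_
    · rw [← Γ.ncard_row x j, ← Set.ncard_coe_finset]
      congr 1
      ext y
      have hji := (Finset.mem_erase.1 hj).1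
      simp only [Finset.coe_filter, Set.Finite.mem_toFinset, Set.mem_ofPred_eq, row]
      exact ⟨fun h => ⟨h.1.1, h.2⟩, fun h => ⟨⟨h.1, h.2 ▸ hji⟩, h.2⟩⟩
    · simp
  · intro y hy
    simp only [Set.Finite.coe_toFinset, Set.mem_ofPred_eq] at hy
    simp [hy.2]

theorem ncard_tri (x : V) {T : Finset (Fin 7)} (hT : T.card = 3) :
    {y | Γ.near x y ∧ Γ.tri x y = T}.ncard = 4 := by
  obtain ⟨y, hy1, hy2, rfl⟩ := Γ.tri_surj x T hT
  have hy : Γ.near x y := ⟨hy1, hy2⟩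
  have := Γ.finite_sub x
  have heq : {y' | Γ.near x y' ∧ Γ.tri x y' = Γ.tri x y} = MulAction.orbit ↥(Γ.sub x) y := by
    ext y'
    constructor
    · rintro ⟨hn, ht⟩
      obtain ⟨e, he, rfl⟩ := (Γ.tri_eq_iff x y y' hy.1 hy.2 hn.1 hn.2).1 ht.symm
      exact ⟨⟨e, he⟩, rfl⟩
    · rintro ⟨⟨e, he⟩, rfl⟩
      exact Γ.tri_sub hy he
  have hst : Nat.card (MulAction.stabilizer ↥(Γ.sub x) y) = 4 := by
    have hn := Γ.near_symm hy
    rw [← Γ.near_card y x hn.1 hn.2]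
    exact Nat.card_congr
      { toFun := fun a => ⟨(a.1 : G), a.1.2, a.2⟩
        invFun := fun a => ⟨⟨(a : G), a.2.1⟩, a.2.2⟩
        left_inv := fun a => rfl
        right_inv := fun a => rfl }
  rw [heq, ← MulAction.index_stabilizer]
  have h := (MulAction.stabilizer ↥(Γ.sub x) y).card_mul_index
  rw [hst, Γ.sub_card] at h
  omega

theorem ncard_near (x : V) (p : Finset (Fin 7) → Prop) [DecidablePred p] :
    {y | Γ.near x y ∧ p (Γ.tri x y)}.ncard =
      4 * ((Finset.univ.powersetCard 3).filter p).card := by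
  classical
  have := Γ.finite_V
  rw [Set.ncard_eq_toFinset_card _ (Set.toFinite _),
    Finset.card_eq_sum_card_fiberwise (f := Γ.tri x)
      (t := (Finset.univ.powersetCard 3).filter p)]
  · refine (Finset.sum_congr rfl (g := fun _ => 4) fun T hT => ?_).trans ?_
    · simp only [Finset.mem_filter, Finset.mem_powersetCard, Finset.subset_univ, true_and] at hT
      rw [← Γ.ncard_tri x hT.1, ← Set.ncard_coe_finset]
      congr 1
      ext y
      simp only [Finset.coe_filter, Set.Finite.mem_toFinset, Set.mem_ofPred_eq]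
      exact ⟨fun h => ⟨h.1.1, h.2⟩, fun h => ⟨⟨h.1, h.2 ▸ hT.2⟩, h.2⟩⟩
    · simp [mul_comm]
  · intro y hy
    simp only [Set.Finite.coe_toFinset, Set.mem_ofPred_eq] at hy
    simp only [Finset.coe_filter, Finset.mem_powersetCard, Finset.subset_univ, true_and,
      Set.mem_ofPred_eq]
    exact ⟨Γ.tri_card x y hy.1.1 hy.1.2, hy.2⟩

theorem c_triples : ∀ i : Fin 7,
    ((Finset.univ.powersetCard 3).filter fun T : Finset (Fin 7) => i ∈ T).card = 15 ∧
      ((Finset.univ.powersetCard 3).filter fun T : Finset (Fin 7) => i ∉ T).card = 20 := by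
  decide

theorem orbit_sixty (x : V) (i : Fin 7) :
    {y | Γ.near x y ∧ i ∈ Γ.tri x y}.ncard = 60 := by
  rw [Γ.ncard_near x (fun T => i ∈ T), (c_triples i).1]

theorem orbit_eighty (x : V) (i : Fin 7) :
    {y | Γ.near x y ∧ i ∉ Γ.tri x y}.ncard = 80 := by
  rw [Γ.ncard_near x (fun T => i ∉ T), (c_triples i).2]

theorem clique_false [Finite G] {x : V} {i : Fin 7}
    (h : ∀ p ∈ Γ.paths x i, p.2 ∈ Γ.row x i) : False := by
  have := Γ.finite_V
  set S : Set V := insert x (Γ.row x i) with hS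
  have hxn : x ∉ Γ.row x i := fun hx => Γ.far_ne hx.1 rfl
  have hS17 : S.ncard = 17 := by
    rw [hS, Set.ncard_insert_of_notMem hxn, Γ.ncard_row]
  let K : Subgroup G := MulAction.stabilizer G S
  have horb : MulAction.orbit K x = S := by
    ext y
    constructor
    · rintro ⟨⟨k, hk⟩, rfl⟩
      show k • x ∈ S
      have hk' : k • S = S := hk
      rw [← hk', Set.smul_mem_smul_set_iff]
      exact Set.mem_insert _ _
    · intro hy
      rcases hy with rfl | hy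
      · exact MulAction.mem_orbit_self _
      obtain ⟨g, hg, hgi⟩ := Γ.exists_move x y i (Γ.pt y x)
      refine ⟨⟨g, ?_⟩, hg⟩
      show g • S = S
      refine Set.eq_of_subset_of_ncard_le ?_ (by rw [Set.ncard_smul_set]) S.toFinite
      rintro _ ⟨v, hv, rfl⟩
      show g • v ∈ S
      rcases hv with rfl | hv
      · rw [hg]; exact Or.inr hy
      have hfar : Γ.far y (g • v) := by
        have := (Γ.far_smul_iff g _ v).2 hv.1
        rwa [hg] at this
      have hpt : Γ.pt y (g • v) = Γ.pt y x := by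
        rw [← hgi, ← hv.2, Γ.φ_pt g hv.1, hg]
      by_cases hgv : g • v = x
      · exact Or.inl hgv
      · exact Or.inr (h (y, g • v) ⟨hy.1, hy.2, hfar, hpt, hgv⟩)
  have h1 := (MulAction.stabilizer K x).index_dvd_card
  rw [MulAction.index_stabilizer, horb, hS17] at h1
  have h2 := h1.trans (Subgroup.card_subgroup_dvd_card K)
  have hG : Nat.card G = 40320 * 253 := by
    have h3 := (MulAction.stabilizer G x).card_mul_index
    rw [MulAction.index_stabilizer, Γ.card_stab] at h3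
    have horbit : MulAction.orbit G x = Set.univ := Set.eq_univ_of_forall fun w => Γ.trans x w
    rw [horbit, Set.ncard_univ, Γ.card_V] at h3
    exact h3.symm
  rw [hG] at h2
  norm_num at h2

theorem ncard_inter (x y : V) (hn : Γ.near x y) :
    ((Γ.sub y ⊓ MulAction.stabilizer G x : Subgroup G) : Set G).ncard = 4 :=
  (Nat.card_coe_set_eq _).symm.trans (Γ.near_card x y hn.1 hn.2)

/-- The endpoint of a path is near, with the point in its triple. -/
theorem two_step [Finite G] {x : V} {i : Fin 7} {p : V × V} (hp : p ∈ Γ.paths x i) :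
    Γ.near x p.2 ∧ i ∈ Γ.tri x p.2 := by
  classical
  have := Γ.finite_V
  obtain ⟨h1, h2, h3, h4, h5⟩ := hp
  have hall : ∀ q ∈ Γ.paths x i, ∃ g : G, ∃ hx : g • x = x, Γ.π x ⟨g, hx⟩ i = i ∧
      g • p.2 = q.2 := by
    intro q hq
    obtain ⟨g, hx, hgi, -, hg⟩ := Γ.paths_trans (p := p) ⟨h1, h2, h3, h4, h5⟩ hq
    exact ⟨g, hx, hgi, hg⟩
  by_cases hfar : Γ.far x p.2
  · exfalso
    have inv : ∀ q ∈ Γ.paths x i, Γ.far x q.2 ∧ (Γ.pt x q.2 = i ↔ Γ.pt x p.2 = i) := by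
      intro q hq
      obtain ⟨g, hx, hgi, hg⟩ := hall q hq
      have hf' := (Γ.far_smul_iff g x p.2).2 hfar
      rw [hx, hg] at hf'
      refine ⟨hf', ?_⟩
      rw [← hg, Γ.pt_smul x p.2 ⟨g, hx⟩ hfar]
      exact ⟨fun h => (Γ.π x ⟨g, hx⟩).injective (h.trans hgi.symm), fun h => by rw [h, hgi]⟩
    by_cases hi : Γ.pt x p.2 = i
    · exact Γ.clique_false fun q hq => ⟨(inv q hq).1, (inv q hq).2.2 hi⟩
    · have hh := Γ.paths_fiber (T := {y | Γ.far x y ∧ Γ.pt x y ≠ i})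
        (fun q hq => ⟨(inv q hq).1, fun e => hi ((inv q hq).2.1 e)⟩)
        (fun y hy y' hy' => Γ.exists_kind_move (Or.inl ⟨hy.1, hy'.1, iff_of_false hy.2 hy'.2⟩))
        (y₀ := p.2) ⟨hfar, hi⟩
      rw [Γ.ncard_far_ne] at hh
      omega
  have hn : Γ.near x p.2 := ⟨h5.symm, hfar⟩
  refine ⟨hn, by_contra fun hi => ?_⟩
  have inv : ∀ q ∈ Γ.paths x i, Γ.near x q.2 ∧ i ∉ Γ.tri x q.2 := by
    intro q hq
    obtain ⟨g, hx, hgi, hg⟩ := hall q hq
    have hn' := (Γ.near_smul_iff g x p.2).2 hn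
    rw [hx, hg] at hn'
    refine ⟨hn', fun h => hi ?_⟩
    rw [← hg, Γ.tri_smul x p.2 ⟨g, hx⟩ hn.1 hn.2, Finset.mem_image] at h
    obtain ⟨j, hj, hji⟩ := h
    rwa [(Γ.π x ⟨g, hx⟩).injective (hji.trans hgi.symm)] at hj
  have hh := Γ.paths_fiber (T := {y | Γ.near x y ∧ i ∉ Γ.tri x y}) inv
    (fun y hy y' hy' => Γ.exists_kind_move (Or.inr ⟨hy.1, hy'.1, iff_of_false hy.2 hy'.2⟩))
    (y₀ := p.2) ⟨hn, hi⟩
  rw [Γ.orbit_eighty] at hh
  have h4le : 4 ≤ {q | q ∈ Γ.paths x i ∧ q.2 = p.2}.ncard := by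
    rw [← Γ.ncard_inter p.2 x (Γ.near_symm hn)]
    refine Set.ncard_le_ncard_of_injOn (fun b => (b • p.1, p.2)) ?_ ?_ (Set.toFinite _)
    · intro b hb
      have hbx : b • x = x := Γ.smul_sub hb.1
      have hby : b • p.2 = p.2 := hb.2
      have := Γ.paths_smul hbx (by rw [Γ.π_sub ⟨b, hbx⟩ hb.1]; rfl)
        (p := p) ⟨h1, h2, h3, h4, h5⟩
      rw [hby] at this
      exact ⟨this, rfl⟩
    · intro b hb b' hb' hbb
      simp only [Prod.mk.injEq, and_true] at hbb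
      exact Γ.semireg_inj h1 hb.1 hb'.1 hbb
  omega

/-- The common neighbours: four, translates under the meet, all over one point. -/
theorem common_eq [Finite G] {x w y : V} {i : Fin 7} (hp : (w, y) ∈ Γ.paths x i) :
    {p | p ∈ Γ.paths x i ∧ p.2 = y} =
      (fun a => (a • w, y)) '' ((Γ.sub y ⊓ MulAction.stabilizer G x : Subgroup G) : Set G) := by
  classical
  have := Γ.finite_V
  obtain ⟨hn, hi⟩ := Γ.two_step hp
  symm
  refine Set.eq_of_subset_of_ncard_le ?_ ?_ (Set.toFinite _)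
  · rintro _ ⟨a, ha, rfl⟩
    have hax : a • x = x := ha.2
    have h := Γ.paths_smul hax (Γ.tri_fix x y hn.1 hn.2 ⟨a, hax⟩ ha.1 i hi) hp
    rw [show a • (w, y).2 = y from Γ.smul_sub ha.1] at h
    exact ⟨h, rfl⟩
  · have hh := Γ.paths_fiber (T := {y | Γ.near x y ∧ i ∈ Γ.tri x y}) (fun q hq => Γ.two_step hq)
      (fun y hy y' hy' => Γ.exists_kind_move (Or.inr ⟨hy.1, hy'.1, iff_of_true hy.2 hy'.2⟩))
      (y₀ := y) ⟨hn, hi⟩
    rw [Γ.orbit_sixty] at hh
    rw [Set.InjOn.ncard_image, Γ.ncard_inter x y hn]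
    · omega
    · intro a ha b hb hab
      simp only [Prod.mk.injEq, and_true] at hab
      exact Γ.semireg_inj (Γ.far_symm _ _ hp.2.2.1) ha.1 hb.1 hab

theorem pt_unique [Finite G] {x w w' y : V} {i : Fin 7} (hp : (w, y) ∈ Γ.paths x i)
    (hp' : (w', y) ∈ Γ.paths x i) : Γ.pt y w' = Γ.pt y w := by
  have h : (w', y) ∈ {p | p ∈ Γ.paths x i ∧ p.2 = y} := ⟨hp', rfl⟩
  rw [Γ.common_eq hp] at h
  obtain ⟨a, ha, e⟩ := h
  simp only [Prod.mk.injEq, and_true] at e
  rw [← e]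
  exact (Γ.pt_sub ha.1 (Γ.far_symm _ _ hp.2.2.1)).2

theorem paths_rev {x w y : V} {i : Fin 7} (hp : (w, y) ∈ Γ.paths x i) :
    (w, x) ∈ Γ.paths y (Γ.pt y w) :=
  ⟨Γ.far_symm _ _ hp.2.2.1, rfl, Γ.far_symm _ _ hp.1, hp.2.2.2.1.symm, hp.2.2.2.2.symm⟩

theorem exists_path [Finite G] {x y : V} {i : Fin 7} (hn : Γ.near x y) (hi : i ∈ Γ.tri x y) :
    ∃ w, (w, y) ∈ Γ.paths x i := by
  obtain ⟨p, hp⟩ : (Γ.paths x i).Nonempty :=
    Set.nonempty_of_ncard_ne_zero (by rw [Γ.ncard_paths]; norm_num)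
  obtain ⟨hn', hi'⟩ := Γ.two_step hp
  obtain ⟨g, hx, hgi, rfl⟩ := Γ.exists_kind_move (x := x) (y := p.2) (y' := y) (i := i)
    (Or.inr ⟨hn', hn, iff_of_true hi' hi⟩)
  exact ⟨g • p.1, Γ.paths_smul hx hgi hp⟩

end Geom

end CfsgLib.M23Count
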