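import Cfsg.Agent.M23Count.Defs

/-!
`Geom`: elementary consequences, and transport of points and triples along group elements.
-/

set_option autoImplicit false

open scoped Pointwise

namespace CfsgLib.M23Count

namespace Geom

universe u v

variable {G : Type u} {V : Type v} [Group G] [MulAction G V] (Γ : Geom G V)

/-- Near vertices. -/
def near (a b : V) : Prop := a ≠ b ∧ ¬ Γ.far a b

theorem far_ne {x y : V} (h : Γ.far x y) : x ≠ y := ((Γ.far_iff x y).1 h).1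

theorem near_symm {x y : V} (h : Γ.near x y) : Γ.near y x :=
  ⟨h.1.symm, fun h' => h.2 (Γ.far_symm _ _ h')⟩

theorem mem_sub_smul {g : G} {x : V} {a : G} : a ∈ Γ.sub (g • x) ↔ g⁻¹ * a * g ∈ Γ.sub x := by
  rw [Γ.sub_smul, Subgroup.mem_map_equiv]
  simp [MulAut.conj_symm_apply, mul_assoc]

theorem conj_mem_sub_smul (g : G) {x : V} {a : G} (ha : a ∈ Γ.sub x) :
    g * a * g⁻¹ ∈ Γ.sub (g • x) := by
  rw [Γ.mem_sub_smul]; simpa [mul_assoc] using ha

theorem conj_mem_sub {x : V} {g : G} (hg : g • x = x) {a : G} (ha : a ∈ Γ.sub x) :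
    g * a * g⁻¹ ∈ Γ.sub x := hg ▸ Γ.conj_mem_sub_smul g ha

theorem smul_sub {x : V} {a : G} (ha : a ∈ Γ.sub x) : a • x = x := Γ.sub_le x ha

theorem far_smul_iff (g : G) (x y : V) : Γ.far (g • x) (g • y) ↔ Γ.far x y := by
  have key : ∀ (g : G) (x y : V), Γ.far (g • x) (g • y) → Γ.far x y := by
    intro g x y h
    rw [Γ.far_iff] at h ⊢
    refine ⟨fun e => h.1 (by rw [e]), Subgroup.eq_bot_iff_forall _ |>.2 fun a ha => ?_⟩
    have h1 : g * a * g⁻¹ ∈ Γ.sub (g • y) ⊓ MulAction.stabilizer G (g • x) := by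
      refine ⟨Γ.conj_mem_sub_smul g ha.1, ?_⟩
      have hx : a • x = x := ha.2
      show (g * a * g⁻¹) • g • x = g • x
      rw [smul_smul, inv_mul_cancel_right, mul_smul, hx]
    rw [h.2, Subgroup.mem_bot] at h1
    exact conj_eq_one_iff.1 h1
  exact ⟨key g x y, fun h => key g⁻¹ _ _ (by rwa [inv_smul_smul, inv_smul_smul])⟩

theorem near_smul_iff (g : G) (x y : V) : Γ.near (g • x) (g • y) ↔ Γ.near x y := by
  simp only [near, Γ.far_smul_iff]
  constructor <;> rintro ⟨h1, h2⟩ <;> refine ⟨?_, h2⟩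
  · exact fun e => h1 (by rw [e])
  · exact fun e => h1 (smul_left_cancel g e)

theorem inv_sub {x : V} {a : G} (ha : a ∈ Γ.sub x) : a⁻¹ = a :=
  inv_eq_of_mul_eq_one_right (Γ.sub_sq x a ha)

theorem orderOf_sub {x : V} {a : G} (ha : a ∈ Γ.sub x) (h1 : a ≠ 1) : orderOf a = 2 :=
  orderOf_eq_prime (by rw [pow_two]; exact Γ.sub_sq x a ha) h1

theorem π_sub {x : V} (a : ↥(MulAction.stabilizer G x)) (ha : (a : G) ∈ Γ.sub x) :
    Γ.π x a = 1 := by
  rw [← MonoidHom.mem_ker, Γ.π_ker]; exact ha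

theorem mem_sub_of_π_eq_one {x : V} (a : ↥(MulAction.stabilizer G x)) (h : Γ.π x a = 1) :
    (a : G) ∈ Γ.sub x := by
  rw [← MonoidHom.mem_ker, Γ.π_ker] at h; exact h

theorem π_even {x : V} (a : ↥(MulAction.stabilizer G x)) :
    Γ.π x a ∈ alternatingGroup (Fin 7) := Γ.π_range x ▸ ⟨a, rfl⟩

theorem exists_π (x : V) {σ : Equiv.Perm (Fin 7)} (hσ : σ ∈ alternatingGroup (Fin 7)) :
    ∃ h : ↥(MulAction.stabilizer G x), Γ.π x h = σ := by
  rw [← Γ.π_range x] at hσ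
  exact hσ

/-- `e ∈ sub x` does not change the point at `x`. -/
theorem pt_sub {x w : V} {e : G} (he : e ∈ Γ.sub x) (hf : Γ.far x w) :
    Γ.far x (e • w) ∧ Γ.pt x (e • w) = Γ.pt x w := by
  have hf' : Γ.far x (e • w) := by
    have h := (Γ.far_smul_iff e x w).2 hf
    rwa [Γ.smul_sub he] at h
  exact ⟨hf', ((Γ.pt_eq_iff x w (e • w) hf hf').2 ⟨e, he, rfl⟩).symm⟩

/-- A far vertex over a point. -/
noncomputable def wit (x : V) (i : Fin 7) : V := (Γ.pt_surj x i).choose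

theorem wit_spec (x : V) (i : Fin 7) : Γ.far x (Γ.wit x i) ∧ Γ.pt x (Γ.wit x i) = i :=
  (Γ.pt_surj x i).choose_spec

/-- The map of points induced by a group element. -/
noncomputable def φ (g : G) (x : V) (i : Fin 7) : Fin 7 := Γ.pt (g • x) (g • Γ.wit x i)

theorem pt_transport (g : G) {x w w' : V} (hw : Γ.far x w) (hw' : Γ.far x w')
    (h : Γ.pt x w = Γ.pt x w') : Γ.pt (g • x) (g • w) = Γ.pt (g • x) (g • w') := by
  obtain ⟨e, he, rfl⟩ := (Γ.pt_eq_iff _ _ _ hw hw').1 h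
  refine (Γ.pt_eq_iff _ _ _ ((Γ.far_smul_iff g _ _).2 hw) ((Γ.far_smul_iff g _ _).2 hw')).2
    ⟨g * e * g⁻¹, Γ.conj_mem_sub_smul g he, ?_⟩
  rw [smul_smul, inv_mul_cancel_right, mul_smul]

theorem φ_pt (g : G) {x w : V} (hw : Γ.far x w) :
    Γ.φ g x (Γ.pt x w) = Γ.pt (g • x) (g • w) :=
  Γ.pt_transport g (Γ.wit_spec x _).1 hw (Γ.wit_spec x _).2

theorem φ_one (x : V) (i : Fin 7) : Γ.φ 1 x i = i := by
  rw [φ, one_smul, one_smul]; exact (Γ.wit_spec x i).2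

theorem φ_mul (g h : G) (x : V) (i : Fin 7) : Γ.φ (g * h) x i = Γ.φ g (h • x) (Γ.φ h x i) := by
  show Γ.pt ((g * h) • x) ((g * h) • Γ.wit x i) = Γ.φ g (h • x) (Γ.pt (h • x) (h • Γ.wit x i))
  rw [Γ.φ_pt g ((Γ.far_smul_iff h _ _).2 (Γ.wit_spec x i).1), mul_smul, mul_smul]

theorem φ_inj (g : G) (x : V) {i j : Fin 7} (h : Γ.φ g x i = Γ.φ g x j) : i = j := by
  have := congrArg (Γ.φ g⁻¹ (g • x)) h
  rwa [← Γ.φ_mul, ← Γ.φ_mul, inv_mul_cancel, Γ.φ_one, Γ.φ_one] at this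

theorem φ_stab {x : V} (h : ↥(MulAction.stabilizer G x)) (i : Fin 7) :
    Γ.φ (h : G) x i = Γ.π x h i := by
  have hx : (h : G) • x = x := h.2
  rw [φ, hx, Γ.pt_smul x _ h (Γ.wit_spec x i).1, (Γ.wit_spec x i).2]

/-- The triple, described by the action on far vertices. -/
theorem pt_mem_tri_iff {x y w : V} (hn : Γ.near x y) (hw : Γ.far x w) :
    Γ.pt x w ∈ Γ.tri x y ↔
      ∀ a ∈ Γ.sub y, a • x = x → Γ.pt x (a • w) = Γ.pt x w := by
  constructor
  · intro hi a ha hax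
    rw [Γ.pt_smul x w ⟨a, hax⟩ hw]
    exact Γ.tri_fix x y hn.1 hn.2 ⟨a, hax⟩ ha _ hi
  · intro hall
    by_contra hi
    obtain ⟨j, hj, hji⟩ : ∃ j, j ∉ Γ.tri x y ∧ j ≠ Γ.pt x w := by
      by_contra hno
      simp only [not_exists, not_and, not_not] at hno
      have : (Finset.univ : Finset (Fin 7)) ⊆ insert (Γ.pt x w) (Γ.tri x y) := fun j _ => by
        by_cases hj : j ∈ Γ.tri x y
        · exact Finset.mem_insert_of_mem hj
        · exact Finset.mem_insert.2 (Or.inl (hno j hj))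
      have h1 := (Finset.card_le_card this).trans (Finset.card_insert_le _ _)
      rw [Finset.card_univ, Fintype.card_fin, Γ.tri_card x y hn.1 hn.2] at h1
      omega
    obtain ⟨a, ha, haj⟩ := Γ.tri_reg x y hn.1 hn.2 _ j hi hj
    have := hall a ha a.2
    rw [Γ.pt_smul x w a hw, haj] at this
    exact hji this

theorem φ_mem_tri (g : G) {x y : V} (hn : Γ.near x y) {i : Fin 7} :
    Γ.φ g x i ∈ Γ.tri (g • x) (g • y) ↔ i ∈ Γ.tri x y := by
  obtain ⟨hw, hi⟩ := Γ.wit_spec x i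
  have hn' := (Γ.near_smul_iff g x y).2 hn
  have hw' := (Γ.far_smul_iff g _ _).2 hw
  unfold φ
  constructor
  · intro h
    rw [← hi]
    refine (Γ.pt_mem_tri_iff hn hw).2 fun a ha hax => ?_
    have h' := (Γ.pt_mem_tri_iff hn' hw').1 h (g * a * g⁻¹) (Γ.conj_mem_sub_smul g ha)
      (by rw [smul_smul, inv_mul_cancel_right, mul_smul, hax])
    rw [smul_smul, inv_mul_cancel_right, mul_smul] at h'
    have hax' : Γ.far x (a • Γ.wit x i) := by
      have := (Γ.far_smul_iff a x (Γ.wit x i)).2 hw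
      rwa [hax] at this
    rw [← Γ.φ_pt g hax', ← Γ.φ_pt g hw] at h'
    exact Γ.φ_inj g x h'
  · intro h
    rw [← hi] at h
    refine (Γ.pt_mem_tri_iff hn' hw').2 fun a ha hax => ?_
    have hb : g⁻¹ * a * g ∈ Γ.sub y := Γ.mem_sub_smul.1 ha
    have hbx : (g⁻¹ * a * g) • x = x := by rw [mul_smul, mul_smul, hax, inv_smul_smul]
    have h' := (Γ.pt_mem_tri_iff hn hw).1 h _ hb hbx
    have hax' : Γ.far x ((g⁻¹ * a * g) • Γ.wit x i) := by
      have := (Γ.far_smul_iff (g⁻¹ * a * g) x (Γ.wit x i)).2 hw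
      rwa [hbx] at this
    have := congrArg (Γ.φ g x) h'
    rw [Γ.φ_pt g hax', Γ.φ_pt g hw] at this
    rw [show g • (g⁻¹ * a * g) • Γ.wit x i = a • g • Γ.wit x i by
      rw [smul_smul, smul_smul, ← mul_assoc, ← mul_assoc, mul_inv_cancel, one_mul]] at this
    exact this

theorem exists_π_apply (x : V) {i j : Fin 7} :
    ∃ h : ↥(MulAction.stabilizer G x), Γ.π x h i = j := by
  have key : ∀ i j : Fin 7, ∃ σ : Equiv.Perm (Fin 7), σ ∈ alternatingGroup (Fin 7) ∧ σ i = j := by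
    intro i j
    have := alternatingGroup.isPretransitive_of_three_le_card (Fin 7) (by simp)
    obtain ⟨σ, hσ⟩ := MulAction.exists_smul_eq (alternatingGroup (Fin 7)) i j
    exact ⟨σ, σ.2, hσ⟩
  obtain ⟨σ, hσ, e⟩ := key i j
  obtain ⟨h, hh⟩ := Γ.exists_π x hσ
  exact ⟨h, hh ▸ e⟩

/-- The flag action is transitive. -/
theorem exists_move (x y : V) (i j : Fin 7) : ∃ g : G, g • x = y ∧ Γ.φ g x i = j := by
  obtain ⟨g, hg⟩ := Γ.trans x y
  obtain ⟨h, hh⟩ := Γ.exists_π_apply y (i := Γ.φ g x i) (j := j)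
  have hy : (h : G) • y = y := h.2
  exact ⟨(h : G) * g, by rw [mul_smul, hg, hy], by rw [Γ.φ_mul, hg, Γ.φ_stab, hh]⟩

end Geom

end CfsgLib.M23Count
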