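/-
The conjugate class of elementary abelian subgroups of order 16 of a group with the order and
element-order counts of `M₂₃`: the core of an involution is the core of each of its involutions.
-/
import Cfsg.Agent.M23Count.Defs
import Mathlib.GroupTheory.GroupAction.Quotient
import Mathlib.GroupTheory.PGroup

set_option autoImplicit false
set_option linter.style.haveILetI false

namespace CfsgLib.M23Count

/-- The facts about cores consumed here. -/
structure CoreFacts (G : Type*) [Group G] : Prop where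
  exists_core : ∀ {t : G}, orderOf t = 2 → ∃ E : Subgroup G, Core t E
  unique : ∀ {t : G} {E F : Subgroup G}, orderOf t = 2 → Core t E → Core t F → E = F
  conj : ∀ {t : G} {E : Subgroup G}, Core t E → ∀ g : G,
    Core (g * t * g⁻¹) (E.map (MulAut.conj g).toMonoidHom)

namespace LocalStep

/-- The commutator used throughout. -/
def cm {G : Type*} [Group G] (g e : G) : G := g * e * g⁻¹ * e⁻¹

variable {G : Type*} [Group G]

theorem cm_eq_one {g e : G} (h : Commute g e) : cm g e = 1 := by
  rw [cm, h.eq]; group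

theorem cm_inv (g e : G) : (cm g e)⁻¹ = cm e g := by
  simp only [cm]; group

theorem conj_eq_of_commute {g e : G} (h : Commute g e) : g * e * g⁻¹ = e := by
  rw [h.eq, mul_inv_cancel_right]

/-- The elements of `F` with commutator with `g` in `Z` form a subgroup. -/
theorem cm_mem_of_gen {F Z : Subgroup G} (hZF : ∀ z ∈ Z, ∀ e ∈ F, Commute z e) (g : G)
    {S : Set G} (hS : S ⊆ F) (hgen : ∀ H : Subgroup G, S ⊆ H → F ≤ H)
    (hgS : ∀ s ∈ S, cm g s ∈ Z) {e : G} (he : e ∈ F) : cm g e ∈ Z := by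
  have hmul : ∀ a b, a ∈ F → b ∈ F → cm g a ∈ Z → cm g b ∈ Z → cm g (a * b) = cm g a * cm g b := by
    intro a b ha _ _ hb'
    have h : cm g (a * b) = cm g a * (a * cm g b * a⁻¹) := by simp only [cm]; group
    rw [h, conj_eq_of_commute (hZF _ hb' a ha).symm]
  let H : Subgroup G :=
    { carrier := {a | a ∈ F ∧ cm g a ∈ Z}
      one_mem' := ⟨one_mem _, by simp [cm]⟩
      mul_mem' := fun {a b} ha hb =>
        ⟨mul_mem ha.1 hb.1, by rw [hmul a b ha.1 hb.1 ha.2 hb.2]; exact mul_mem ha.2 hb.2⟩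
      inv_mem' := fun {a} ha => by
        refine ⟨inv_mem ha.1, ?_⟩
        have h : cm g a⁻¹ = a⁻¹ * (cm g a)⁻¹ * a⁻¹⁻¹ := by simp only [cm]; group
        rw [h, conj_eq_of_commute (hZF _ (inv_mem ha.2) a⁻¹ (inv_mem ha.1)).symm]
        exact inv_mem ha.2 }
  exact (hgen H (fun s hs => ⟨hS hs, hgS s hs⟩) he).2

theorem zp_two {t x : G} (ht : t * t = 1) (hx : x ∈ Subgroup.zpowers t) : x = 1 ∨ x = t := by
  obtain ⟨k, rfl⟩ := Subgroup.mem_zpowers_iff.mp hx
  rcases Int.even_or_odd k with ⟨m, rfl⟩ | ⟨m, rfl⟩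
  · left; rw [← two_mul, zpow_mul, zpow_two, ht, one_zpow]
  · right; rw [zpow_add, zpow_mul, zpow_two, ht, one_zpow, one_mul, zpow_one]

theorem cores_commute_gen {E : Subgroup G} {t : G} (hE : Core t E) {g : G} (hg : g ∈ E) :
    Commute g t := hE.comm g hg t hE.mem

variable [Finite G]

/-- Three cosets of a subgroup of order four generate an elementary group of order sixteen. -/
theorem gen_of_cosets {F V : Subgroup G} (hF : Nat.card F = 16) (hsq : ∀ e ∈ F, e * e = 1)
    (hVF : V ≤ F) (hV : Nat.card V = 4) {a b : G} (ha : a ∈ F) (hb : b ∈ F) (haV : a ∉ V)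
    (hbV : b ∉ V) (habV : a * b ∉ V) (H : Subgroup G) (hH : (V : Set G) ∪ {a, b} ⊆ H) : F ≤ H := by
  have hVH : V ≤ H := fun s hs => hH (Or.inl hs)
  have haH : a ∈ H := hH (Or.inr (Or.inl rfl))
  have hbH : b ∈ H := hH (Or.inr (Or.inr rfl))
  let r : Fin 3 → G := ![1, a, b]
  have hr : ∀ i, r i ∈ F ⊓ H := by
    intro i; fin_cases i
    · exact ⟨one_mem _, one_mem _⟩
    · exact ⟨ha, haH⟩
    · exact ⟨hb, hbH⟩
  let f : Fin 3 × V → ↥(F ⊓ H) := fun p =>
    ⟨r p.1 * p.2.1, mul_mem (hr p.1) ⟨hVF p.2.2, hVH p.2.2⟩⟩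
  have hinv : ∀ c ∈ F, c⁻¹ = c := fun c hc => inv_eq_of_mul_eq_one_right (hsq c hc)
  have hf : Function.Injective f := by
    rintro ⟨i, s⟩ ⟨j, s'⟩ h
    have h' : r i * s.1 = r j * s'.1 := congrArg Subtype.val h
    have hm : (r j)⁻¹ * r i ∈ V := by
      have h2 : (r j)⁻¹ * r i = s'.1 * s.1⁻¹ := by
        calc (r j)⁻¹ * r i = (r j)⁻¹ * (r i * s.1) * s.1⁻¹ := by group
          _ = s'.1 * s.1⁻¹ := by rw [h']; group
      rw [h2]; exact mul_mem s'.2 (inv_mem s.2)
    have hij : i = j := by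
      by_contra hij
      have hm' := inv_mem hm
      fin_cases i <;> fin_cases j <;>
        first
          | exact absurd rfl hij
          | simp_all [r]
    subst hij
    exact Prod.ext rfl (Subtype.ext (mul_left_cancel h'))
  have h12 : 12 ≤ Nat.card ↥(F ⊓ H) := by
    have := Nat.card_le_card_of_injective f hf
    simpa [hV] using this
  have hd : Nat.card ↥(F ⊓ H) ∣ 16 := hF ▸ Subgroup.card_dvd_of_le inf_le_left
  have h16 : Nat.card ↥(F ⊓ H) = 16 := by
    have := Nat.le_of_dvd (by norm_num) hd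
    interval_cases Nat.card ↥(F ⊓ H) <;> norm_num at hd <;> rfl
  exact (Subgroup.eq_of_le_of_card_ge inf_le_left (by rw [h16, hF]) : F ⊓ H = F) ▸ inf_le_right

/-- An element acting trivially on `E` modulo `t` lies in `E`. -/
theorem mem_of_trivial {E : Subgroup G} {t : G} (hE : Core t E) {g : G} (hg : Commute g t)
    (h : ∀ e ∈ E, cm g e ∈ Subgroup.zpowers t) : g ∈ E := by
  haveI : Fact (Nat.Prime 7) := ⟨by norm_num⟩
  let L : Subgroup G :=
    { carrier := {g | Commute g t ∧ ∀ e ∈ E, cm g e ∈ Subgroup.zpowers t}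
      one_mem' := ⟨Commute.one_left t, fun e _ => by simp [cm]⟩
      mul_mem' := fun {a b} ha hb => by
        refine ⟨ha.1.mul_left hb.1, fun e he => ?_⟩
        have hbe : b * e * b⁻¹ ∈ E := hE.normal b hb.1 e he
        have hc : cm (a * b) e = cm a (b * e * b⁻¹) * cm b e := by simp only [cm]; group
        rw [hc]
        exact mul_mem (ha.2 _ hbe) (hb.2 e he)
      inv_mem' := fun {a} ha => by
        refine ⟨ha.1.inv_left, fun e he => ?_⟩
        have hae : a⁻¹ * e * a ∈ E := by simpa using hE.normal a⁻¹ ha.1.inv_left e he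
        have hc : cm a⁻¹ e = (cm a (a⁻¹ * e * a))⁻¹ := by simp only [cm]; group
        rw [hc]
        exact inv_mem (ha.2 _ hae) }
  have hmem : ∀ {a : G}, a ∈ L ↔ (Commute a t ∧ ∀ e ∈ E, cm a e ∈ Subgroup.zpowers t) :=
    fun {a} => Iff.rfl
  have hL : L = E := by
    refine hE.max L (fun a ha => Subgroup.mem_centralizer_singleton_iff.mpr (hmem.mp ha).1)
      (fun a ha => hmem.mpr ⟨cores_commute_gen hE ha, fun e he => by
        rw [cm_eq_one (hE.comm a ha e he)]; exact one_mem _⟩) ?_ ?_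
    · intro c hc a ha
      obtain ⟨ha1, ha2⟩ := hmem.mp ha
      refine hmem.mpr ⟨(hc.mul_left ha1).mul_left hc.inv_left, fun e he => ?_⟩
      have he' : c⁻¹ * e * c ∈ E := by simpa using hE.normal c⁻¹ hc.inv_left e he
      have hz := ha2 _ he'
      have h1 : cm (c * a * c⁻¹) e = c * cm a (c⁻¹ * e * c) * c⁻¹ := by simp only [cm]; group
      obtain ⟨k, hk⟩ := Subgroup.mem_zpowers_iff.mp hz
      rw [h1, ← hk, conj_eq_of_commute (hc.zpow_right k)]
      exact Subgroup.mem_zpowers_iff.mpr ⟨k, rfl⟩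
    · intro hd
      obtain ⟨f, hf⟩ := exists_prime_orderOf_dvd_card' 7 hd
      have hf7 : orderOf (f : G) = 7 := by rw [Subgroup.orderOf_coe]; exact hf
      obtain ⟨hft, hfe⟩ := hmem.mp f.2
      have hfE : (f : G) ∈ Subgroup.centralizer (E : Set G) := by
        rw [Subgroup.mem_centralizer_iff]
        intro e he
        have hz := hfe e he
        set z := cm (f : G) e with hzdef
        have hfz : Commute (f : G) z := by
          obtain ⟨k, hk⟩ := Subgroup.mem_zpowers_iff.mp hz
          rw [← hk]; exact hft.zpow_right k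
        have hstep : ∀ n : ℕ, (f : G) ^ n * e * ((f : G) ^ n)⁻¹ = z ^ n * e := by
          intro n
          induction n with
          | zero => simp
          | succ n ih =>
            calc (f : G) ^ (n + 1) * e * ((f : G) ^ (n + 1))⁻¹
                = f * ((f : G) ^ n * e * ((f : G) ^ n)⁻¹) * (f : G)⁻¹ := by rw [pow_succ']; group
              _ = f * (z ^ n * e) * (f : G)⁻¹ := by rw [ih]
              _ = (f * z ^ n * (f : G)⁻¹) * (f * e * (f : G)⁻¹) := by group
              _ = z ^ n * (z * e) := by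
                  rw [conj_eq_of_commute (hfz.pow_right n), hzdef, cm]; group
              _ = z ^ (n + 1) * e := by rw [pow_succ, mul_assoc]
        have h7 : z ^ 7 = 1 := by
          have := hstep 7
          rw [show (f : G) ^ 7 = 1 by rw [← hf7, pow_orderOf_eq_one]] at this
          simpa using this.symm
        have ht2 : t * t = 1 := hE.sq t hE.mem
        have hz1 : z = 1 := by
          rcases zp_two ht2 hz with h1 | h1
          · exact h1
          · rw [h1] at h7 ⊢
            calc t = (t * t) * (t * t) * (t * t) * t := by rw [ht2]; simp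
              _ = t ^ 7 := by simp only [pow_succ, pow_zero, one_mul, mul_assoc]
              _ = 1 := h7
        calc e * (f : G) = z * e * f := by rw [hz1, one_mul]
          _ = f * e := by rw [hzdef, cm]; group
      rw [hE.self_cent] at hfE
      have := orderOf_dvd_of_pow_eq_one (x := (f : G)) (n := 2)
        (by rw [pow_two]; exact hE.sq _ hfE)
      rw [hf7] at this
      norm_num at this
  exact hL ▸ hmem.mpr ⟨hg, h⟩

set_option maxRecDepth 10000 in
theorem alt_five_cent : ∀ s : alternatingGroup (Fin 5), s * s = 1 → s ≠ 1 →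
    (Finset.univ.filter fun r : alternatingGroup (Fin 5) => r * r = 1 ∧ r * s = s * r).card ≤ 4 := by
  decide +kernel

set_option maxRecDepth 10000 in
theorem alt_five_conj : ∀ s r : alternatingGroup (Fin 5), s * s = 1 → s ≠ 1 → r * r = 1 → r ≠ 1 →
    ∃ g : alternatingGroup (Fin 5), g * s * g⁻¹ = r := by
  decide +kernel

/-- The number of fixed points of an element of order three on a subgroup it normalizes. -/
theorem card_fix_mod {F : Subgroup G} {x : G} (hx : orderOf x = 3)
    (hn : ∀ e ∈ F, x * e * x⁻¹ ∈ F) :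
    Nat.card F ≡ Nat.card ↥(F ⊓ Subgroup.centralizer ({x} : Set G)) [MOD 3] := by
  haveI : Fact (Nat.Prime 3) := ⟨Nat.prime_three⟩
  have hU : IsPGroup 3 (Subgroup.zpowers x) :=
    IsPGroup.of_card (n := 1) (by rw [Nat.card_zpowers, hx, pow_one])
  have hxN : Subgroup.zpowers x ≤ Subgroup.normalizer (F : Set G) :=
    Subgroup.zpowers_le.mpr (Subgroup.mem_normalizer_fintype hn)
  let φ : ↥(Subgroup.zpowers x) →* MulAut ↥F := F.normalizerMonoidHom.comp (Subgroup.inclusion hxN)
  letI : MulAction ↥(Subgroup.zpowers x) ↥F := MulAction.compHom _ φ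
  have hF : Nat.card (MulAction.fixedPoints ↥(Subgroup.zpowers x) ↥F) =
      Nat.card ↥(F ⊓ Subgroup.centralizer ({x} : Set G)) := by
    refine Nat.card_congr
      { toFun := fun e => ⟨(e.1 : G), e.1.2, ?_⟩
        invFun := fun e => ⟨⟨e.1, e.2.1⟩, ?_⟩
        left_inv := fun _ => rfl
        right_inv := fun _ => rfl }
    · refine Subgroup.mem_centralizer_singleton_iff.mpr ?_
      have h := congrArg Subtype.val (e.2 ⟨x, Subgroup.mem_zpowers _⟩)
      change x * (e.1 : G) * x⁻¹ = (e.1 : G) at h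
      calc (e.1 : G) * x = (x * (e.1 : G) * x⁻¹) * x := by rw [h]
        _ = x * (e.1 : G) := by group
    · intro g
      obtain ⟨k, hk⟩ := Subgroup.mem_zpowers_iff.mp g.2
      apply Subtype.ext
      change (g : G) * e.1 * (g : G)⁻¹ = e.1
      have hc : Commute e.1 x := Subgroup.mem_centralizer_singleton_iff.mp e.2.2
      rw [← hk, conj_eq_of_commute (hc.zpow_right k).symm]
  rw [← hF]
  exact hU.card_modEq_card_fixedPoints ↥F

/-- The order of a subgroup as the cardinality of a finite set. -/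
theorem card_eq_toFinset (H : Subgroup G) [Fintype (H : Set G)] :
    Nat.card H = (H : Set G).toFinset.card :=
  (Nat.card_coe_set_eq (H : Set G)).trans (Set.ncard_eq_toFinset_card' _)

/-- The square roots of unity centralising `x` and `t`: at most four, with a conjugation. -/
theorem three_facts (hs : Setup G) {x t : G} (hx : orderOf x = 3) (ht : orderOf t = 2)
    (hxt : Commute x t) :
    (∀ S : Finset G, (∀ w ∈ S, w * w = 1 ∧ Commute x w ∧ Commute t w) → S.card ≤ 4) ∧
      ∀ v : G, orderOf v = 2 → Commute x v → ∃ y : G, Commute y x ∧ y * t * y⁻¹ = v := by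
  classical
  set C := Subgroup.centralizer ({x} : Set G) with hC
  obtain ⟨φ, hsurj, hker⟩ := hs.cent_three_hom x hx
  have hinj : ∀ a b : C, (a : G) * a = 1 → (b : G) * b = 1 → φ a = φ b → a = b := by
    intro a b ha hb hab
    have hk : a⁻¹ * b ∈ φ.ker := by rw [MonoidHom.mem_ker, map_mul, map_inv, hab, inv_mul_cancel]
    rw [hker, Subgroup.mem_subgroupOf] at hk
    obtain ⟨k, hk⟩ := Subgroup.mem_zpowers_iff.mp hk
    push_cast at hk
    have hbk : (b : G) = a * x ^ k := by rw [hk, mul_inv_cancel_left]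
    have hax : Commute (a : G) (x ^ k) :=
      (show Commute (a : G) x from Subgroup.mem_centralizer_singleton_iff.mp a.2).zpow_right k
    rw [hbk] at hb
    have h2 : (x ^ k) ^ 2 = 1 := by
      rw [pow_two]
      calc x ^ k * x ^ k = (a : G) * a * (x ^ k * x ^ k) := by rw [ha, one_mul]
        _ = a * (a * x ^ k) * x ^ k := by group
        _ = a * (x ^ k * a) * x ^ k := by rw [hax.eq]
        _ = (a * x ^ k) * (a * x ^ k) := by group
        _ = 1 := hb
    have h3 : (x ^ k) ^ 3 = 1 := by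
      rw [← zpow_natCast, ← zpow_mul, mul_comm, zpow_mul, zpow_natCast, ← hx, pow_orderOf_eq_one,
        one_zpow]
    have h1 : x ^ k = 1 := by
      have := pow_succ (x ^ k) 2
      rw [h3, h2, one_mul] at this
      exact this.symm
    exact Subtype.ext (by rw [hbk, h1, mul_one])
  let tC : C := ⟨t, Subgroup.mem_centralizer_singleton_iff.mpr hxt.symm⟩
  have ht2 : t * t = 1 := by rw [← pow_two, ← ht, pow_orderOf_eq_one]
  have hone : ∀ a : C, (a : G) * a = 1 → (a : G) ≠ 1 → φ a * φ a = 1 ∧ φ a ≠ 1 := by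
    intro a ha ha1
    refine ⟨by rw [← map_mul, show a * a = 1 from Subtype.ext ha, map_one], fun he => ha1 ?_⟩
    have := hinj a 1 ha (by simp) (by rw [he, map_one])
    rw [this]; rfl
  have ht1 : t ≠ 1 := fun he => by rw [he, orderOf_one] at ht; norm_num at ht
  constructor
  · intro S hS
    refine le_trans ?_ (alt_five_cent (φ tC) (hone tC ht2 ht1).1 (hone tC ht2 ht1).2)
    let f : G → alternatingGroup (Fin 5) := fun w =>
      if hw : w ∈ C then φ ⟨w, hw⟩ else 1
    have hmem : ∀ w ∈ S, w ∈ C := fun w hw =>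
      Subgroup.mem_centralizer_singleton_iff.mpr (hS w hw).2.1.symm
    refine Finset.card_le_card_of_injOn f ?_ ?_
    · intro w hw
      simp only [Finset.coe_filter, Finset.mem_univ, true_and, Set.mem_setOf_eq, f, dif_pos (hmem w hw)]
      refine ⟨?_, ?_⟩
      · rw [← map_mul, show (⟨w, hmem w hw⟩ : C) * ⟨w, hmem w hw⟩ = 1 from Subtype.ext (hS w hw).1,
          map_one]
      · rw [← map_mul, ← map_mul]
        exact congrArg φ (Subtype.ext (hS w hw).2.2.symm)
    · intro w hw w' hw' he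
      simp only [f, dif_pos (hmem w hw), dif_pos (hmem w' hw')] at he
      exact congrArg Subtype.val (hinj _ _ (hS w hw).1 (hS w' hw').1 he)
  · intro v hv hxv
    let vC : C := ⟨v, Subgroup.mem_centralizer_singleton_iff.mpr hxv.symm⟩
    have hv2 : v * v = 1 := by rw [← pow_two, ← hv, pow_orderOf_eq_one]
    have hv1 : v ≠ 1 := fun he => by rw [he, orderOf_one] at hv; norm_num at hv
    obtain ⟨σ, hσ⟩ := alt_five_conj (φ tC) (φ vC) (hone tC ht2 ht1).1 (hone tC ht2 ht1).2
      (hone vC hv2 hv1).1 (hone vC hv2 hv1).2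
    obtain ⟨y, rfl⟩ := hsurj σ
    refine ⟨y, Subgroup.mem_centralizer_singleton_iff.mp y.2, ?_⟩
    refine congrArg Subtype.val (hinj (y * tC * y⁻¹) vC ?_ hv2 (by rw [map_mul, map_mul, map_inv, hσ]))
    push_cast
    change (y : G) * t * (y : G)⁻¹ * ((y : G) * t * (y : G)⁻¹) = 1
    calc (y : G) * t * (y : G)⁻¹ * ((y : G) * t * (y : G)⁻¹) = y * (t * t) * (y : G)⁻¹ := by group
      _ = 1 := by rw [ht2]; group

/-- The centraliser of `x` in a core: the four group of square roots of unity at `x`, `t`. -/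
theorem card_fix_core (hs : Setup G) {x t : G} (hx : orderOf x = 3) (ht : orderOf t = 2)
    (hxt : Commute x t) {E : Subgroup G} (hE : Core t E) :
    Nat.card ↥(E ⊓ Subgroup.centralizer ({x} : Set G)) = 4 := by
  classical
  haveI := Fintype.ofFinite G
  set F := E ⊓ Subgroup.centralizer ({x} : Set G) with hF
  have hmod := card_fix_mod hx (F := E) fun e he => hE.normal x hxt e he
  rw [hE.card] at hmod
  have h4 : Nat.card F ≤ 4 := by
    rw [card_eq_toFinset]
    refine (three_facts hs hx ht hxt).1 (F : Set G).toFinset fun w hw => ?_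
    rw [Set.mem_toFinset, SetLike.mem_coe] at hw
    exact ⟨hE.sq w hw.1, (Subgroup.mem_centralizer_singleton_iff.mp hw.2 : Commute w x).symm,
      (cores_commute_gen hE hw.1).symm⟩
  have htF : t ∈ F := ⟨hE.mem, Subgroup.mem_centralizer_singleton_iff.mpr hxt.symm⟩
  have h2 : 2 ∣ Nat.card F := ht ▸ Subgroup.orderOf_dvd_natCard _ htF
  unfold Nat.ModEq at hmod
  rw [← hF] at hmod
  omega

/-- Two commuting involutions centralised by `x`, their cores and the common four group. -/
structure Pair (x t v : G) (E W V : Subgroup G) : Prop where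
  hx : orderOf x = 3
  ht : orderOf t = 2
  hv : orderOf v = 2
  cxt : Commute x t
  cxv : Commute x v
  hE : Core t E
  hW : Core v W
  hVE : E ⊓ Subgroup.centralizer ({x} : Set G) = V
  hVW : W ⊓ Subgroup.centralizer ({x} : Set G) = V
  tV : t ∈ V
  vV : v ∈ V
  ne : t ≠ v

theorem Pair.mk_of_mem (hs : Setup G) {x t v : G} {E W : Subgroup G} (hx : orderOf x = 3)
    (ht : orderOf t = 2) (hv : orderOf v = 2) (cxt : Commute x t) (cxv : Commute x v)
    (hE : Core t E) (hW : Core v W) (hvE : v ∈ E) (hne : t ≠ v) :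
    Pair x t v E W (E ⊓ Subgroup.centralizer ({x} : Set G)) := by
  classical
  haveI := Fintype.ofFinite G
  set V := E ⊓ Subgroup.centralizer ({x} : Set G) with hV
  set V' := W ⊓ Subgroup.centralizer ({x} : Set G) with hV'
  have htV : t ∈ V := ⟨hE.mem, Subgroup.mem_centralizer_singleton_iff.mpr cxt.symm⟩
  have hvV : v ∈ V := ⟨hvE, Subgroup.mem_centralizer_singleton_iff.mpr cxv.symm⟩
  refine ⟨hx, ht, hv, cxt, cxv, hE, hW, rfl, ?_, htV, hvV, hne⟩
  have h4 := card_fix_core hs hx ht cxt hE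
  have h4' := card_fix_core hs hx hv cxv hW
  have hS : ((V : Set G).toFinset ∪ (V' : Set G).toFinset).card ≤ 4 := by
    refine (three_facts hs hx hv cxv).1 _ fun w hw => ?_
    rw [Finset.mem_union, Set.mem_toFinset, Set.mem_toFinset, SetLike.mem_coe, SetLike.mem_coe] at hw
    rcases hw with hw | hw
    · exact ⟨hE.sq w hw.1, (Subgroup.mem_centralizer_singleton_iff.mp hw.2 : Commute w x).symm,
        hE.comm v hvE w hw.1⟩
    · exact ⟨hW.sq w hw.1, (Subgroup.mem_centralizer_singleton_iff.mp hw.2 : Commute w x).symm,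
        (cores_commute_gen hW hw.1).symm⟩
  rw [card_eq_toFinset] at h4
  have h1 : (V : Set G).toFinset = (V : Set G).toFinset ∪ (V' : Set G).toFinset :=
    Finset.eq_of_subset_of_card_le Finset.subset_union_left (hS.trans h4.symm.le)
  have hle : V' ≤ V := fun w hw => by
    have : w ∈ (V : Set G).toFinset := by
      rw [h1]; exact Finset.mem_union_right _ (Set.mem_toFinset.mpr hw)
    simpa using this
  exact Subgroup.eq_of_le_of_card_ge hle (by rw [h4', card_fix_core hs hx ht cxt hE])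

namespace Pair

variable {x t v : G} {E W V : Subgroup G} (P : Pair x t v E W V)
include P

theorem cardV (hs : Setup G) : Nat.card V = 4 :=
  P.hVE ▸ card_fix_core hs P.hx P.ht P.cxt P.hE

theorem le_left : V ≤ E := P.hVE ▸ inf_le_left

theorem le_right : V ≤ W := P.hVW ▸ inf_le_left

theorem swap : Pair x v t W E V :=
  ⟨P.hx, P.hv, P.ht, P.cxv, P.cxt, P.hW, P.hE, P.hVW, P.hVE, P.vV, P.tV, P.ne.symm⟩

/-- Distinct cores of the pair meet in the four group. -/
theorem inf_eq (hs : Setup G) (hne : E ≠ W) : E ⊓ W = V := by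
  have hle : V ≤ E ⊓ W := le_inf P.le_left P.le_right
  refine le_antisymm ?_ hle
  have hmod := card_fix_mod P.hx (F := E ⊓ W) fun e he =>
    ⟨P.hE.normal x P.cxt e he.1, P.hW.normal x P.cxv e he.2⟩
  have hfix : (E ⊓ W) ⊓ Subgroup.centralizer ({x} : Set G) = V :=
    le_antisymm ((inf_le_inf_right _ inf_le_left).trans P.hVE.le)
      (le_inf hle (P.hVE ▸ inf_le_right))
  rw [hfix, P.cardV hs] at hmod
  have hd : Nat.card ↥(E ⊓ W) ∣ 16 := P.hE.card ▸ Subgroup.card_dvd_of_le inf_le_left
  have h4 : 4 ≤ Nat.card ↥(E ⊓ W) := P.cardV hs ▸ Nat.le_of_dvd Nat.card_pos (Subgroup.card_dvd_of_le hle)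
  have h16 : Nat.card ↥(E ⊓ W) ≠ 16 := fun h => hne (by
    have h1 : E ⊓ W = E := Subgroup.eq_of_le_of_card_ge inf_le_left (by rw [h, P.hE.card])
    have h2 : E ⊓ W = W := Subgroup.eq_of_le_of_card_ge inf_le_right (by rw [h, P.hW.card])
    rw [← h1, h2])
  have heq : Nat.card ↥(E ⊓ W) = 4 := by
    have := Nat.le_of_dvd (by norm_num) hd
    unfold Nat.ModEq at hmod
    interval_cases Nat.card ↥(E ⊓ W) <;> omega
  exact (Subgroup.eq_of_le_of_card_ge hle (by rw [heq, P.cardV hs])).ge

theorem cases_V (hs : Setup G) {z : G} (hz : z ∈ V) : z = 1 ∨ z = t ∨ z = v ∨ z = t * v := by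
  classical
  haveI := Fintype.ofFinite G
  have h1 : t ≠ 1 := fun he => by have := P.ht; rw [he, orderOf_one] at this; norm_num at this
  have h2 : v ≠ 1 := fun he => by have := P.hv; rw [he, orderOf_one] at this; norm_num at this
  have hinv : t⁻¹ = t := inv_eq_of_mul_eq_one_right (P.hE.sq t P.hE.mem)
  have h3 : t * v ≠ 1 := fun he => P.ne (by rw [eq_inv_of_mul_eq_one_right he, hinv])
  have h4 : t ≠ t * v := fun he => h2 (by simpa using he.symm)
  have h5 : v ≠ t * v := fun he => h1 (by simpa using he.symm)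
  have hsub : ({1, t, v, t * v} : Finset G) ⊆ (V : Set G).toFinset := by
    intro w hw
    simp only [Finset.mem_insert, Finset.mem_singleton] at hw
    rw [Set.mem_toFinset, SetLike.mem_coe]
    rcases hw with rfl | rfl | rfl | rfl
    exacts [one_mem _, P.tV, P.vV, mul_mem P.tV P.vV]
  have hc := P.cardV hs
  rw [card_eq_toFinset] at hc
  have heq := Finset.eq_of_subset_of_card_le hsub (by
    rw [Finset.card_insert_of_notMem (by simp [h1.symm, h2.symm, h3.symm]),
      Finset.card_insert_of_notMem (by simp [P.ne, h4]),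
      Finset.card_insert_of_notMem (by simp [h5]), Finset.card_singleton]
    exact hc.le)
  have hz' : z ∈ (V : Set G).toFinset := Set.mem_toFinset.mpr hz
  rw [← heq] at hz'
  simpa using hz'

/-- Elements acting on `E` into `V` differ from an element of the other core by one of `E`. -/
theorem exists_rep (hs : Setup G) (hne : E ≠ W) {u : G} (hut : Commute u t) (huv : Commute u v)
    (hu : ∀ e ∈ E, cm u e ∈ V) : ∃ w ∈ W, w⁻¹ * u ∈ E := by
  classical
  haveI := Fintype.ofFinite G
  have hVE := P.le_left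
  have hinf := P.inf_eq hs hne
  have hV4 := P.cardV hs
  -- two elements generating `E` modulo `V`
  obtain ⟨a, ha, haV⟩ : ∃ a ∈ E, a ∉ V := by
    by_contra hn
    push Not at hn
    have := Subgroup.card_dvd_of_le (show E ≤ V from hn)
    rw [P.hE.card, hV4] at this
    norm_num at this
  obtain ⟨b, hb, hbV, habV⟩ : ∃ b ∈ E, b ∉ V ∧ a * b ∉ V := by
    by_contra hn
    push Not at hn
    have hsub : (E : Set G).toFinset ⊆ (V : Set G).toFinset ∪ (V : Set G).toFinset.image (a⁻¹ * ·) := by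
      intro e he
      rw [Set.mem_toFinset, SetLike.mem_coe] at he
      rw [Finset.mem_union, Finset.mem_image]
      by_cases heV : e ∈ V
      · exact Or.inl (Set.mem_toFinset.mpr heV)
      · exact Or.inr ⟨a * e, Set.mem_toFinset.mpr (hn e he heV), by group⟩
    have h1 := (Finset.card_le_card hsub).trans
      ((Finset.card_union_le _ _).trans (add_le_add_right Finset.card_image_le _))
    have hE16 := P.hE.card
    rw [card_eq_toFinset] at hE16 hV4
    omega
  -- the two bits of an element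
  let μ : G → Bool × Bool := fun g =>
    (decide (cm g a ∈ Subgroup.zpowers t), decide (cm g b ∈ Subgroup.zpowers t))
  have hsame : ∀ g h : G, Commute g t → Commute g v → (∀ e ∈ E, cm g e ∈ V) →
      Commute h t → Commute h v → (∀ e ∈ E, cm h e ∈ V) → μ g = μ h → h⁻¹ * g ∈ E := by
    intro g h gt gv gV ht' hv' hV' hμ
    have hhV : ∀ z ∈ V, Commute h z := by
      intro z hz
      rcases P.cases_V hs hz with rfl | rfl | rfl | rfl
      exacts [Commute.one_right _, ht', hv', ht'.mul_right hv']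
    have hgV : ∀ z ∈ V, Commute g z := by
      intro z hz
      rcases P.cases_V hs hz with rfl | rfl | rfl | rfl
      exacts [Commute.one_right _, gt, gv, gt.mul_right gv]
    have key : ∀ c ∈ E, (cm g c ∈ Subgroup.zpowers t ↔ cm h c ∈ Subgroup.zpowers t) →
        cm (h⁻¹ * g) c ∈ Subgroup.zpowers t := by
      intro c hc hiff
      have h2 : cm (h⁻¹ * g) c = cm g c * (cm h c)⁻¹ := by
        have e1 : h⁻¹ * c * h = (cm h c)⁻¹ * c := by
          calc h⁻¹ * c * h = h⁻¹ * (cm h c)⁻¹ * h * c := by simp only [cm]; group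
            _ = (cm h c)⁻¹ * c := by
              rw [show h⁻¹ * (cm h c)⁻¹ * h = (cm h c)⁻¹ by
                simpa using conj_eq_of_commute (hhV _ (inv_mem (hV' c hc))).inv_left]
        calc cm (h⁻¹ * g) c = h⁻¹ * (cm g c) * h * (h⁻¹ * c * h) * c⁻¹ := by simp only [cm]; group
          _ = cm g c * (cm h c)⁻¹ := by
            rw [show h⁻¹ * cm g c * h = cm g c by
              simpa using conj_eq_of_commute (hhV _ (gV c hc)).inv_left, e1]
            group
      rw [h2]
      have hsqV : ∀ z ∈ V, z * z = 1 := fun z hz => P.hE.sq z (hVE hz)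
      have htz : t ∈ Subgroup.zpowers t := Subgroup.mem_zpowers t
      have h1z : (1 : G) ∈ Subgroup.zpowers t := one_mem _
      by_cases hgc : cm g c ∈ Subgroup.zpowers t
      · exact mul_mem hgc (inv_mem (hiff.mp hgc))
      · have hhc : cm h c ∉ Subgroup.zpowers t := fun hh => hgc (hiff.mpr hh)
        have two : ∀ z ∈ V, z ∉ Subgroup.zpowers t → z = v ∨ z = t * v := by
          intro z hz hzt
          rcases P.cases_V hs hz with rfl | rfl | rfl | rfl
          exacts [absurd h1z hzt, absurd htz hzt, Or.inl rfl, Or.inr rfl]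
        rcases two _ (gV c hc) hgc with e1 | e1 <;> rcases two _ (hV' c hc) hhc with e2 | e2 <;>
          rw [e1, e2]
        · rw [mul_inv_cancel]; exact h1z
        · rw [mul_inv_rev, mul_inv_cancel_left]; exact inv_mem htz
        · rw [mul_inv_cancel_right]; exact htz
        · rw [mul_inv_cancel]; exact h1z
    refine mem_of_trivial P.hE (ht'.inv_left.mul_left gt) fun e he => ?_
    refine cm_mem_of_gen (F := E) (S := (V : Set G) ∪ {a, b}) ?_ _ ?_
      (fun H hH => gen_of_cosets P.hE.card P.hE.sq hVE hV4 ha hb haV hbV habV H hH) ?_ he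
    · intro z hz e' he'
      obtain ⟨k, rfl⟩ := Subgroup.mem_zpowers_iff.mp hz
      exact (cores_commute_gen P.hE he').symm.zpow_left k
    · rintro c (hc | hc | hc)
      exacts [hVE hc, hc ▸ ha, hc ▸ hb]
    · rintro c (hc | hc | hc)
      · rw [cm_eq_one ((hhV c hc).inv_left.mul_left (hgV c hc))]; exact one_mem _
      · rw [hc]; exact key a ha (decide_eq_decide.mp (congrArg Prod.fst hμ))
      · rw [Set.mem_singleton_iff.mp hc]; exact key b hb (decide_eq_decide.mp (congrArg Prod.snd hμ))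
  have hWprop : ∀ w ∈ W, Commute w t ∧ Commute w v ∧ ∀ e ∈ E, cm w e ∈ V := by
    intro w hw
    have hwt : Commute w t := P.hW.comm w hw t (P.le_right P.tV)
    have hwv := cores_commute_gen P.hW hw
    refine ⟨hwt, hwv, fun e he => hinf ▸ Subgroup.mem_inf.mpr ⟨mul_mem (P.hE.normal w hwt e he) (inv_mem he), ?_⟩⟩
    have he' : Commute e v := P.hE.comm e he v (hVE P.vV)
    have h2 := P.hW.normal e he' w⁻¹ (inv_mem hw)
    have h3 : cm w e = w * (e * w⁻¹ * e⁻¹) := by simp only [cm]; group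
    rw [h3]
    exact mul_mem hw h2
  by_contra hn
  push Not at hn
  have hlt : ((W : Set G).toFinset.image μ).card ≤ 3 := by
    have hnot : μ u ∉ (W : Set G).toFinset.image μ := by
      rw [Finset.mem_image]
      rintro ⟨w, hw, hwu⟩
      rw [Set.mem_toFinset, SetLike.mem_coe] at hw
      obtain ⟨w1, w2, w3⟩ := hWprop w hw
      exact hn w hw (hsame u w hut huv hu w1 w2 w3 hwu.symm)
    have h := Finset.card_le_univ (insert (μ u) ((W : Set G).toFinset.image μ))
    rw [Finset.card_insert_of_notMem hnot] at h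
    simp at h
    omega
  have hfib : ∀ c ∈ (W : Set G).toFinset.image μ,
      ((W : Set G).toFinset.filter fun w => μ w = c).card ≤ 4 := by
    intro c hc
    obtain ⟨w0, hw0, rfl⟩ := Finset.mem_image.mp hc
    rw [Set.mem_toFinset, SetLike.mem_coe] at hw0
    have hV4' := hV4
    rw [card_eq_toFinset] at hV4'
    rw [← hV4']
    refine Finset.card_le_card_of_injOn (fun w => w0⁻¹ * w) ?_
      (fun w _ w' _ he => mul_left_cancel he)
    intro w hw
    simp only [Finset.coe_filter, Set.mem_toFinset, SetLike.mem_coe, Set.mem_setOf_eq] at hw ⊢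
    obtain ⟨a1, a2, a3⟩ := hWprop w hw.1
    obtain ⟨b1, b2, b3⟩ := hWprop w0 hw0
    rw [← hinf]
    exact Subgroup.mem_inf.mpr ⟨hsame w w0 a1 a2 a3 b1 b2 b3 hw.2, mul_mem (inv_mem hw0) hw.1⟩
  have h16 := Finset.card_le_mul_card_image (W : Set G).toFinset 4 hfib
  have hW16 := P.hW.card
  rw [card_eq_toFinset] at hW16
  omega

/-- The three cores of the four group are not pairwise different. -/
theorem not_distinct (hs : Setup G) {U : Subgroup G} (Q : Pair x t (t * v) E U V) (hEW : E ≠ W)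
    (hEU : E ≠ U) (hWU : W ≠ U) : False := by
  classical
  have hU := Q.hW
  have hVE := P.le_left
  have hVW := P.le_right
  have hVU := Q.le_right
  have hV4 := P.cardV hs
  have hEW' := P.inf_eq hs hEW
  have hEU' := Q.inf_eq hs hEU
  have hWU' : W ⊓ U = V :=
    (show Pair x v (t * v) W U V from ⟨P.hx, P.hv, Q.hv, P.cxv, Q.cxv, P.hW, Q.hW, P.hVW, Q.hVW,
      P.vV, Q.vV, fun he => by
        have h1 : t ≠ 1 := fun ht => by have := P.ht; rw [ht, orderOf_one] at this; norm_num at this
        exact h1 (by simpa using he.symm)⟩).inf_eq hs hWU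
  have hinvE : ∀ e ∈ E, e⁻¹ = e := fun e he => inv_eq_of_mul_eq_one_right (P.hE.sq e he)
  have hinvW : ∀ e ∈ W, e⁻¹ = e := fun e he => inv_eq_of_mul_eq_one_right (P.hW.sq e he)
  have hVc : ∀ z ∈ V, ∀ g, g ∈ E ∨ g ∈ W → Commute z g := by
    rintro z hz g (hg | hg)
    exacts [P.hE.comm z (hVE hz) g hg, P.hW.comm z (hVW hz) g hg]
  have hcmV : ∀ w ∈ W, ∀ e ∈ E, cm w e ∈ V ∧ cm e w ∈ V := by
    intro w hw e he
    have hwt : Commute w t := P.hW.comm w hw t (hVW P.tV)
    have hev : Commute e v := P.hE.comm e he v (hVE P.vV)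
    have h1 : cm w e ∈ V := by
      rw [← hEW']
      refine Subgroup.mem_inf.mpr ⟨mul_mem (P.hE.normal w hwt e he) (inv_mem he), ?_⟩
      rw [show cm w e = w * (e * w⁻¹ * e⁻¹) by simp only [cm]; group]
      exact mul_mem hw (P.hW.normal e hev w⁻¹ (inv_mem hw))
    exact ⟨h1, cm_inv w e ▸ inv_mem h1⟩
  -- every element of `U` is a product
  have hsplit : ∀ u ∈ U, ∃ w ∈ W, ∃ e ∈ E, u = w * e := by
    intro u hu
    obtain ⟨w, hw, hwu⟩ := P.exists_rep hs hEW (hU.comm u hu t (hVU Q.tV))
      (hU.comm u hu v (hVU P.vV)) fun e he => by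
        rw [← hEU']
        have hut : Commute u t := hU.comm u hu t (hVU Q.tV)
        refine Subgroup.mem_inf.mpr ⟨mul_mem (P.hE.normal u hut e he) (inv_mem he), ?_⟩
        rw [show cm u e = u * (e * u⁻¹ * e⁻¹) by simp only [cm]; group]
        exact mul_mem hu (hU.normal e (P.hE.comm e he (t * v) (hVE Q.vV)) u⁻¹ (inv_mem hu))
    exact ⟨w, hw, _, hwu, by group⟩
  obtain ⟨u₁, hu₁, hu₁V⟩ : ∃ u ∈ U, u ∉ V := by
    by_contra hn
    push Not at hn
    have := Subgroup.card_dvd_of_le (show U ≤ V from hn)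
    rw [hU.card, hV4] at this
    norm_num at this
  obtain ⟨u₂, hu₂, hu₂V, hu₁₂V⟩ : ∃ u ∈ U, u ∉ V ∧ u₁ * u ∉ V := by
    haveI := Fintype.ofFinite G
    by_contra hn
    push Not at hn
    have hsub : (U : Set G).toFinset ⊆ (V : Set G).toFinset ∪ (V : Set G).toFinset.image (u₁⁻¹ * ·) := by
      intro e he
      rw [Set.mem_toFinset, SetLike.mem_coe] at he
      rw [Finset.mem_union, Finset.mem_image]
      by_cases heV : e ∈ V
      · exact Or.inl (Set.mem_toFinset.mpr heV)
      · exact Or.inr ⟨u₁ * e, Set.mem_toFinset.mpr (hn e he heV), by group⟩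
    have h1 := (Finset.card_le_card hsub).trans
      ((Finset.card_union_le _ _).trans (add_le_add_right Finset.card_image_le _))
    have hU16 := hU.card
    have hV4' := hV4
    rw [card_eq_toFinset] at hU16 hV4'
    omega
  obtain ⟨w₁, hw₁, e₁, he₁, rfl⟩ := hsplit u₁ hu₁
  obtain ⟨w₂, hw₂, e₂, he₂, rfl⟩ := hsplit u₂ hu₂
  -- neither part lies in `V`
  have hpart : ∀ w ∈ W, ∀ e ∈ E, w * e ∈ U → w * e ∉ V → w ∉ V ∧ e ∉ V := by
    intro w hw e he hwe hn
    constructor
    · intro hwV
      have heU : e ∈ U := by simpa using mul_mem (inv_mem (hVU hwV)) hwe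
      exact hn (mul_mem hwV (hEU' ▸ ⟨he, heU⟩))
    · intro heV
      have hwU : w ∈ U := by simpa using mul_mem hwe (inv_mem (hVU heV))
      exact hn (mul_mem (hWU' ▸ ⟨hw, hwU⟩) heV)
  obtain ⟨hw₁V, he₁V⟩ := hpart w₁ hw₁ e₁ he₁ hu₁ hu₁V
  obtain ⟨hw₂V, he₂V⟩ := hpart w₂ hw₂ e₂ he₂ hu₂ hu₂V
  set z := cm e₁ w₂ with hz
  have hzV : z ∈ V := (hcmV w₂ hw₂ e₁ he₁).2
  have hprod : w₁ * e₁ * (w₂ * e₂) = z * (w₁ * w₂) * (e₁ * e₂) := by
    calc w₁ * e₁ * (w₂ * e₂) = w₁ * z * (w₂ * e₁ * e₂) := by rw [hz]; simp only [cm]; group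
      _ = z * w₁ * (w₂ * e₁ * e₂) := by rw [(hVc z hzV w₁ (Or.inr hw₁)).eq]
      _ = _ := by group
  obtain ⟨hw12V, he12V⟩ : w₁ * w₂ ∉ V ∧ e₁ * e₂ ∉ V := by
    obtain ⟨p, q⟩ := hpart (z * (w₁ * w₂)) (mul_mem (hVW hzV) (mul_mem hw₁ hw₂)) (e₁ * e₂)
      (mul_mem he₁ he₂) (hprod ▸ mul_mem hu₁ hu₂) (hprod ▸ hu₁₂V)
    exact ⟨fun h' => p (mul_mem hzV h'), q⟩
  have hz2 : cm e₂ w₁ = z := by
    have h1 : w₂ * e₂ * (w₁ * e₁) = cm e₂ w₁ * (w₂ * w₁) * (e₂ * e₁) := by
      calc w₂ * e₂ * (w₁ * e₁) = w₂ * cm e₂ w₁ * (w₁ * e₂ * e₁) := by simp only [cm]; group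
        _ = cm e₂ w₁ * w₂ * (w₁ * e₂ * e₁) := by
          rw [(hVc _ (hcmV w₁ hw₁ e₂ he₂).2 w₂ (Or.inr hw₂)).eq]
        _ = _ := by group
    have h2 := hU.comm _ hu₁ _ hu₂
    rw [hprod, h1, P.hE.comm e₂ he₂ e₁ he₁, P.hW.comm w₂ hw₂ w₁ hw₁] at h2
    exact (mul_right_cancel (mul_right_cancel h2)).symm
  have hdiag : ∀ w ∈ W, ∀ e ∈ E, w * e ∈ U → cm e w = 1 := by
    intro w hw e he hwe
    refine cm_eq_one ?_
    have h1 : (w * e)⁻¹ = w * e := inv_eq_of_mul_eq_one_right (hU.sq _ hwe)
    rw [mul_inv_rev, hinvE e he, hinvW w hw] at h1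
    exact h1
  set Z := Subgroup.zpowers z with hZdef
  have hZE : ∀ c ∈ Z, ∀ g, g ∈ E ∨ g ∈ W → Commute c g := fun c hc g hg =>
    hVc c ((Subgroup.zpowers_le.mpr hzV) hc) g hg
  have hrow : ∀ w, w = w₁ ∨ w = w₂ → ∀ e ∈ E, cm w e ∈ Z := by
    intro w hw e he
    have hwW : w ∈ W := by rcases hw with rfl | rfl <;> assumption
    refine cm_mem_of_gen (F := E) (S := (V : Set G) ∪ {e₁, e₂})
      (fun c hc g hg => hZE c hc g (Or.inl hg)) w ?_
      (fun H hH => gen_of_cosets P.hE.card P.hE.sq hVE hV4 he₁ he₂ he₁V he₂V he12V H hH) ?_ he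
    · rintro c (hc | rfl | rfl)
      exacts [hVE hc, he₁, he₂]
    · rintro c (hc | rfl | rfl)
      · rw [cm_eq_one (hVc c hc w (Or.inr hwW)).symm]; exact one_mem _
      · rcases hw with rfl | rfl
        · rw [← cm_inv, hdiag _ hwW _ he₁ hu₁, inv_one]; exact one_mem _
        · rw [← cm_inv]; exact inv_mem (hz ▸ Subgroup.mem_zpowers z)
      · rcases hw with rfl | rfl
        · rw [← cm_inv, hz2]; exact inv_mem (Subgroup.mem_zpowers z)
        · rw [← cm_inv, hdiag _ hwW _ he₂ hu₂, inv_one]; exact one_mem _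
  have hall : ∀ e ∈ E, ∀ w ∈ W, cm e w ∈ Z := by
    intro e he w hw
    refine cm_mem_of_gen (F := W) (S := (V : Set G) ∪ {w₁, w₂})
      (fun c hc g hg => hZE c hc g (Or.inr hg)) e ?_
      (fun H hH => gen_of_cosets P.hW.card P.hW.sq hVW hV4 hw₁ hw₂ hw₁V hw₂V hw12V H hH) ?_ hw
    · rintro c (hc | rfl | rfl)
      exacts [hVW hc, hw₁, hw₂]
    · rintro c (hc | rfl | rfl)
      · rw [cm_eq_one (hVc c hc e (Or.inl he)).symm]; exact one_mem _
      · rw [← cm_inv]; exact inv_mem (hrow _ (Or.inl rfl) e he)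
      · rw [← cm_inv]; exact inv_mem (hrow _ (Or.inr rfl) e he)
  rcases P.cases_V hs hzV with h1 | h1 | h1 | h1
  · -- trivial commutators
    refine he₁V (hEW' ▸ ⟨he₁, mem_of_trivial P.hW (P.hE.comm e₁ he₁ v (hVE P.vV)) fun w hw => ?_⟩)
    have := hall e₁ he₁ w hw
    rw [hZdef, h1, Subgroup.zpowers_one_eq_bot, Subgroup.mem_bot] at this
    rw [this]; exact one_mem _
  · refine hw₁V (hEW' ▸ ⟨mem_of_trivial P.hE (P.hW.comm w₁ hw₁ t (hVW P.tV)) fun e he => ?_, hw₁⟩)
    exact h1 ▸ hrow _ (Or.inl rfl) e he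
  · refine he₁V (hEW' ▸ ⟨he₁, mem_of_trivial P.hW (P.hE.comm e₁ he₁ v (hVE P.vV)) fun w hw => ?_⟩)
    exact h1 ▸ hall e₁ he₁ w hw
  · refine he₁V (hEU' ▸ ⟨he₁, mem_of_trivial hU (P.hE.comm e₁ he₁ _ (hVE Q.vV)) fun u hu => ?_⟩)
    obtain ⟨w, hw, e, he, rfl⟩ := hsplit u hu
    have hcalc : cm e₁ (w * e) = cm e₁ w := by
      calc cm e₁ (w * e) = e₁ * w * (e * e₁⁻¹) * e⁻¹ * w⁻¹ := by simp only [cm]; group
        _ = e₁ * w * (e₁⁻¹ * e) * e⁻¹ * w⁻¹ := by rw [P.hE.comm e he e₁⁻¹ (inv_mem he₁)]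
        _ = cm e₁ w := by simp only [cm]; group
    rw [hcalc]
    exact h1 ▸ hall e₁ he₁ w hw

end Pair

/-- A core is the core of each of its involutions centralised by `x`. -/
theorem core_pair (hs : Setup G) (hcf : CoreFacts G) {x t v : G} {E W : Subgroup G} (hx : orderOf x = 3)
    (ht : orderOf t = 2) (hv : orderOf v = 2) (cxt : Commute x t) (cxv : Commute x v)
    (hE : Core t E) (hW : Core v W) (hvE : v ∈ E) (hne : t ≠ v) : E = W := by
  by_contra hEW
  have P := Pair.mk_of_mem hs hx ht hv cxt cxv hE hW hvE hne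
  have ht1 : t ≠ 1 := fun he => by rw [he, orderOf_one] at ht; norm_num at ht
  have hv1 : v ≠ 1 := fun he => by rw [he, orderOf_one] at hv; norm_num at hv
  have htvE : t * v ∈ E := mul_mem hE.mem hvE
  have htv : orderOf (t * v) = 2 := by
    refine orderOf_eq_prime (by rw [pow_two]; exact hE.sq _ htvE) fun he => hne ?_
    rw [eq_inv_of_mul_eq_one_right he, inv_eq_of_mul_eq_one_right (hE.sq t hE.mem)]
  obtain ⟨U, hU⟩ := hcf.exists_core htv
  have Q : Pair x t (t * v) E U (E ⊓ Subgroup.centralizer ({x} : Set G)) :=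
    Pair.mk_of_mem hs hx ht htv cxt (cxt.mul_right cxv) hE hU htvE
      fun he => hv1 (by simpa using he.symm)
  -- two equal cores force the third
  have key : ∀ (a b : G) (A B : Subgroup G) (hP : Pair x a b A B (E ⊓ Subgroup.centralizer ({x} : Set G))),
      a * b = t * v → A = U → B = A := by
    intro a b A B hP hab hAU
    subst hAU
    obtain ⟨y, hyx, hy⟩ := (three_facts hs hx hP.ht hP.cxt).2 b hP.hv hP.cxv
    set c := MulAut.conj y with hc
    have hB : A.map c.toMonoidHom = B :=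
      hcf.unique hP.hv (hy ▸ hcf.conj hP.hE y) hP.hW
    have hyv : y * b * y⁻¹ = a ∨ y * b * y⁻¹ = a * b := by
      have hmem : y * b * y⁻¹ ∈ E ⊓ Subgroup.centralizer ({x} : Set G) := by
        rw [← hP.hVW]
        refine ⟨?_, Subgroup.mem_centralizer_singleton_iff.mpr ?_⟩
        · rw [← hB]; exact ⟨b, (hP.le_left hP.vV), rfl⟩
        · exact ((hyx.mul_left hP.cxv.symm).mul_left hyx.inv_left).eq
      rcases hP.cases_V hs hmem with h | h | h | h
      · exfalso
        have hb : b = 1 := by simpa [mul_assoc] using congrArg (fun g => y⁻¹ * g * y) h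
        have := hP.hv; rw [hb, orderOf_one] at this; norm_num at this
      · exact Or.inl h
      · exact absurd (mul_left_cancel (mul_right_cancel (hy.trans h.symm))) hP.ne
      · exact Or.inr h
    have hAab : Core (a * b) A := hab ▸ hU
    have himg : Core (y * (a * b) * y⁻¹) B := hB ▸ hcf.conj hAab y
    have hprod : y * (a * b) * y⁻¹ = b * (y * b * y⁻¹) := by
      rw [show y * (a * b) * y⁻¹ = y * a * y⁻¹ * (y * b * y⁻¹) by group, hy]
    rw [hprod] at himg
    rcases hyv with h | h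
    · rw [h, (hP.hE.comm b (hP.le_left hP.vV) a hP.hE.mem)] at himg
      exact hcf.unique (hab ▸ htv) himg hAab
    · have hba : b * (a * b) = a := by
        rw [hP.hE.comm a hP.hE.mem b (hP.le_left hP.vV), ← mul_assoc,
          hP.hE.sq b (hP.le_left hP.vV), one_mul]
      rw [h, hba] at himg
      exact hcf.unique hP.ht himg hP.hE
  refine P.not_distinct hs Q hEW ?_ ?_
  · intro hEU
    exact hEW (key t v E W P rfl hEU).symm
  · intro hWU
    exact hEW (key v t W E P.swap (hE.comm v hvE t hE.mem) hWU)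

/-- A core is the core of every one of its involutions. -/
theorem core_of_mem (hs : Setup G) (hcf : CoreFacts G) {t : G} (ht : orderOf t = 2) {E : Subgroup G} (hE : Core t E)
    {u : G} (hu : u ∈ E) (hu1 : u ≠ 1) : Core u E := by
  by_cases hut : u = t
  · exact hut ▸ hE
  classical
  obtain ⟨⟨x, hx, hxt⟩⟩ : Nonempty {x : G // orderOf x = 3 ∧ Commute x t} :=
    (Nat.card_pos_iff.mp (by rw [hs.invol_three t ht]; norm_num)).1
  have h4 := card_fix_core hs hx ht hxt hE
  obtain ⟨v, hvE, hvx, hv1, hvt⟩ : ∃ v ∈ E, Commute x v ∧ v ≠ 1 ∧ v ≠ t := by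
    by_contra hn
    push Not at hn
    have hle : E ⊓ Subgroup.centralizer ({x} : Set G) ≤ Subgroup.zpowers t := by
      intro w hw
      by_cases hw1 : w = 1
      · rw [hw1]; exact one_mem _
      · rw [hn w hw.1 (Subgroup.mem_centralizer_singleton_iff.mp hw.2 : Commute w x).symm hw1]
        exact Subgroup.mem_zpowers t
    have := Subgroup.card_dvd_of_le hle
    rw [h4, Nat.card_zpowers, ht] at this
    norm_num at this
  have hord : ∀ w ∈ E, w ≠ 1 → orderOf w = 2 := fun w hw h1 =>
    orderOf_eq_prime (by rw [pow_two]; exact hE.sq w hw) h1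
  have hcore : ∀ w ∈ E, Commute x w → w ≠ 1 → w ≠ t → Core w E := by
    intro w hw hxw h1 h2
    obtain ⟨W, hW⟩ := hcf.exists_core (hord w hw h1)
    exact core_pair hs hcf hx ht (hord w hw h1) hxt hxw hE hW hw (Ne.symm h2) ▸ hW
  obtain ⟨g, hgt, hg⟩ := hE.lines v hvE u hu hv1 hvt hu1 hut
  have hgE : E.map (MulAut.conj g).toMonoidHom = E := by
    refine Subgroup.eq_of_le_of_card_ge ?_
      (Subgroup.card_map_of_injective (f := (MulAut.conj g).toMonoidHom) (MulAut.conj g).injective).ge
    rintro _ ⟨e, he, rfl⟩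
    exact hE.normal g hgt e he
  rcases hg with h | h
  · have := hcf.conj (hcore v hvE hvx hv1 hvt) g
    rwa [hgE, h] at this
  · have hv' : Core (v * t) E := hcore _ (mul_mem hvE hE.mem) (hvx.mul_right hxt)
      (fun he => hvt (by rw [eq_inv_of_mul_eq_one_left he,
        inv_eq_of_mul_eq_one_right (hE.sq t hE.mem)]))
      (fun he => hv1 (by simpa using he))
    have := hcf.conj hv' g
    rw [hgE, show g * (v * t) * g⁻¹ = (g * v * g⁻¹) * (g * t * g⁻¹) by group, h,
      conj_eq_of_commute hgt, mul_assoc, hE.sq t hE.mem, mul_one] at this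
    exact this

/-- The square of the fixed-point count of an involution on `E` is at least `|E|`. -/
theorem four_le_fix {E : Subgroup G} (hcard : Nat.card E = 16)
    (hcomm : ∀ a ∈ E, ∀ b ∈ E, a * b = b * a) (hsq : ∀ e ∈ E, e * e = 1) {a : G} (ha : a * a = 1)
    (haN : ∀ e ∈ E, a * e * a⁻¹ ∈ E) :
    4 ≤ Nat.card ↥(E ⊓ Subgroup.centralizer ({a} : Set G)) := by
  let f : E →* E :=
    MonoidHom.mk' (fun e => ⟨(a * e * a⁻¹) * e, mul_mem (haN e e.2) e.2⟩) fun e d => Subtype.ext (by
      change a * (e * d : G) * a⁻¹ * (e * d) = a * e * a⁻¹ * e * (a * d * a⁻¹ * d)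
      calc a * (e * d : G) * a⁻¹ * (e * d)
          = a * e * a⁻¹ * ((a * d * a⁻¹) * e) * d := by group
        _ = a * e * a⁻¹ * (e * (a * d * a⁻¹)) * d := by rw [hcomm _ (haN d d.2) e e.2]
        _ = a * e * a⁻¹ * e * (a * d * a⁻¹ * d) := by group)
  have hfix : ∀ e : E, e ∈ f.ker ↔ (e : G) ∈ Subgroup.centralizer ({a} : Set G) := by
    intro e
    rw [MonoidHom.mem_ker, Subgroup.mem_centralizer_singleton_iff, Subtype.ext_iff]
    change a * e * a⁻¹ * e = 1 ↔ _
    rw [mul_eq_one_iff_eq_inv, inv_eq_of_mul_eq_one_right (hsq e e.2), mul_inv_eq_iff_eq_mul]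
    exact eq_comm
  have hker : Nat.card f.ker = Nat.card ↥(E ⊓ Subgroup.centralizer ({a} : Set G)) := Nat.card_congr
    { toFun := fun e => ⟨(e.1 : G), e.1.2, (hfix e.1).mp e.2⟩
      invFun := fun e => ⟨⟨e.1, e.2.1⟩, (hfix _).mpr e.2.2⟩
      left_inv := fun _ => rfl
      right_inv := fun _ => rfl }
  have hrange : f.range ≤ f.ker := by
    rintro _ ⟨e, rfl⟩
    rw [hfix, Subgroup.mem_centralizer_singleton_iff]
    change a * e * a⁻¹ * e * a = a * (a * e * a⁻¹ * e)
    have hinv : a⁻¹ = a := inv_eq_of_mul_eq_one_right ha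
    calc a * e * a⁻¹ * e * a = (a * e * a⁻¹) * (e : G) * a := by group
      _ = (e : G) * (a * e * a⁻¹) * a := by rw [hcomm _ (haN e e.2) e e.2]
      _ = e * a * e := by group
      _ = (a * a) * e * a⁻¹ * e := by rw [ha, one_mul, hinv]
      _ = a * (a * e * a⁻¹ * e) := by group
  have hmul := f.ker.card_mul_index
  rw [Subgroup.index_ker, hcard] at hmul
  have hle := Nat.le_of_dvd Nat.card_pos (Subgroup.card_dvd_of_le hrange)
  rw [← hker]
  nlinarith

end LocalStep

open LocalStep

/-- The group has an elementary abelian subgroup of order 16 with normaliser of order 40320. -/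
theorem Setup.exists_heptad_of_core {G : Type*} [Group G] [Finite G] (hs : Setup G)
    (hcf : CoreFacts G) :
    ∃ E : Subgroup G, Heptad E := by
  classical
  haveI : Fact (Nat.Prime 2) := ⟨Nat.prime_two⟩
  obtain ⟨t, ht⟩ := exists_prime_orderOf_dvd_card' (G := G) 2 (by rw [hs.card]; norm_num)
  obtain ⟨E, hE⟩ := hcf.exists_core ht
  have hcore : ∀ u ∈ E, u ≠ 1 → Core u E := fun u hu h1 => core_of_mem hs hcf ht hE hu h1
  have hord : ∀ w ∈ E, w ≠ 1 → orderOf w = 2 := fun w hw h1 =>
    orderOf_eq_prime (by rw [pow_two]; exact hE.sq w hw) h1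
  have hN : ∀ {g u : G}, u ∈ E → u ≠ 1 → g * u * g⁻¹ ∈ E →
      g ∈ Subgroup.normalizer (E : Set G) := by
    intro g u hu h1 hg
    have hg1 : g * u * g⁻¹ ≠ 1 := fun he => h1 (by
      simpa [mul_assoc] using congrArg (fun r => g⁻¹ * r * g) he)
    have heq : E.map (MulAut.conj g).toMonoidHom = E :=
      hcf.unique (hord _ hg hg1) (hcf.conj (hcore u hu h1) g) (hcore _ hg hg1)
    refine Subgroup.mem_normalizer_fintype fun e he => ?_
    rw [SetLike.mem_coe]
    conv => rw [← heq]
    exact ⟨e, he, rfl⟩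
  have hle : ∀ u ∈ E, u ≠ 1 →
      Subgroup.centralizer ({u} : Set G) ≤ Subgroup.normalizer (E : Set G) := fun u hu h1 c hc =>
    hN hu h1 (by
      rw [conj_eq_of_commute (Subgroup.mem_centralizer_singleton_iff.mp hc)]; exact hu)
  have htrans : ∀ u ∈ E, ∀ w ∈ E, u ≠ 1 → w ≠ 1 →
      ∃ n ∈ Subgroup.normalizer (E : Set G), n * u * n⁻¹ = w := by
    intro u hu w hw h1 h2
    obtain ⟨g, hg⟩ := isConj_iff.mp (hs.invol_conj u w (hord u hu h1) (hord w hw h2))
    exact ⟨g, hN hu h1 (hg ▸ hw), hg⟩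
  have ht1 : t ≠ 1 := fun he => by rw [he, orderOf_one] at ht; norm_num at ht
  refine ⟨E, hE.card, hE.comm, hE.sq, hE.self_cent, ?_, hcore, hle, htrans,
    fun g u hu h1 hg => hN hu h1 hg, ?_⟩
  · -- the orbit of `t`
    haveI := Fintype.ofFinite G
    set N := Subgroup.normalizer (E : Set G) with hNdef
    let X := {w : G // w ∈ E ∧ w ≠ 1}
    letI : MulAction N X :=
      { smul := fun n w => ⟨(n : G) * w.1 * (n : G)⁻¹,
          (Subgroup.mem_normalizer_iff.mp n.2 w.1).mp w.2.1,
          fun he => w.2.2 (by simpa [mul_assoc] using congrArg (fun r => (n : G)⁻¹ * r * (n : G)) he)⟩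
        one_smul := fun w => Subtype.ext (show (1 : G) * w.1 * (1 : G)⁻¹ = w.1 by group)
        mul_smul := fun a b w => Subtype.ext
          (show (a : G) * b * w.1 * ((a : G) * b)⁻¹ = a * ((b : G) * w.1 * (b : G)⁻¹) * (a : G)⁻¹ by
            group) }
    let t0 : X := ⟨t, hE.mem, ht1⟩
    have horb : MulAction.orbit N t0 = Set.univ := Set.eq_univ_of_forall fun w => by
      obtain ⟨n, hn, he⟩ := htrans t hE.mem w.1 w.2.1 ht1 w.2.2
      exact ⟨⟨n, hn⟩, Subtype.ext he⟩
    have hX : Nat.card X = 15 := by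
      have h16 := hE.card
      rw [card_eq_toFinset] at h16
      change Nat.card {w : G // w ∈ E ∧ w ≠ 1} = 15
      rw [Nat.card_eq_fintype_card, Fintype.card_subtype,
        show (Finset.univ.filter fun w => w ∈ E ∧ w ≠ 1) = (E : Set G).toFinset.erase 1 by
          ext w; simp [and_comm], Finset.card_erase_of_mem (by simp), h16]
    have hst : Nat.card (MulAction.stabilizer N t0) = 2688 := by
      rw [← hs.cent_invol t ht]
      refine Nat.card_congr
        { toFun := fun n => ⟨(n.1 : G), Subgroup.mem_centralizer_singleton_iff.mpr ?_⟩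
          invFun := fun c => ⟨⟨c.1, hle t hE.mem ht1 c.2⟩, ?_⟩
          left_inv := fun _ => rfl
          right_inv := fun _ => rfl }
      · exact mul_inv_eq_iff_eq_mul.mp (congrArg Subtype.val n.2)
      · exact Subtype.ext (mul_inv_eq_iff_eq_mul.mpr (Subgroup.mem_centralizer_singleton_iff.mp c.2))
    have h := Nat.card_congr (MulAction.orbitProdStabilizerEquivGroup N t0)
    rw [Nat.card_prod, horb, Nat.card_congr (Equiv.Set.univ X), hX, hst] at h
    omega
  · intro a haN ha2 haE
    set B := E ⊓ Subgroup.centralizer ({a} : Set G) with hB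
    have haa : a * a = 1 := by rw [← pow_two, ← ha2, pow_orderOf_eq_one]
    have hconj : ∀ e ∈ E, a * e * a⁻¹ ∈ E := fun e he =>
      (Subgroup.mem_normalizer_iff.mp haN e).mp he
    have h4 : 4 ≤ Nat.card B := four_le_fix hE.card hE.comm hE.sq haa hconj
    have hd : Nat.card B ∣ 16 := hE.card ▸ Subgroup.card_dvd_of_le inf_le_left
    have h16 : Nat.card B ≠ 16 := by
      intro h
      have heq : B = E := Subgroup.eq_of_le_of_card_ge inf_le_left (by rw [h, hE.card])
      refine haE (hE.self_cent ▸ Subgroup.mem_centralizer_iff.mpr fun e he => ?_)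
      exact Subgroup.mem_centralizer_singleton_iff.mp ((heq.symm ▸ he : e ∈ B)).2
    have h8 : Nat.card B ≠ 8 := by
      intro h
      obtain ⟨e₀, he₀, he₀B⟩ : ∃ e ∈ E, e ∉ B := by
        by_contra hn
        push Not at hn
        have := Subgroup.card_dvd_of_le (show E ≤ B from hn)
        rw [h, hE.card] at this
        norm_num at this
      set u := cm a e₀ with hu
      have huE : u ∈ E := mul_mem (hconj e₀ he₀) (inv_mem he₀)
      have hu1 : u ≠ 1 := fun he => he₀B ⟨he₀, Subgroup.mem_centralizer_singleton_iff.mpr (by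
        calc e₀ * a = u * e₀ * a := by rw [he, one_mul]
          _ = a * e₀ := by rw [hu]; simp only [cm]; group)⟩
      have hau : Commute a u := by
        have hinv : a⁻¹ = a := inv_eq_of_mul_eq_one_right haa
        refine mul_inv_eq_iff_eq_mul.mp ?_
        calc a * u * a⁻¹ = (a * a) * e₀ * (a⁻¹ * e₀⁻¹ * a⁻¹) := by rw [hu]; simp only [cm]; group
          _ = e₀ * (a * e₀⁻¹ * a⁻¹) := by rw [haa, one_mul, hinv]
          _ = e₀⁻¹ * (a * e₀ * a⁻¹) := by rw [inv_eq_of_mul_eq_one_right (hE.sq e₀ he₀)]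
          _ = u := by rw [hE.comm _ (inv_mem he₀) _ (hconj e₀ he₀)]; rfl
      refine haE (mem_of_trivial (hcore u huE hu1) hau fun e he => ?_)
      refine cm_mem_of_gen (F := E) (S := (B : Set G) ∪ {e₀})
        (fun c hc g hg => (hE.comm c ((Subgroup.zpowers_le.mpr huE) hc) g hg)) a ?_ ?_ ?_ he
      · rintro c (hc | rfl)
        exacts [hc.1, he₀]
      · intro H hH
        have hlt : B < E ⊓ H := lt_of_le_not_ge (le_inf inf_le_left fun c hc => hH (Or.inl hc))
          fun hle' => he₀B (hle' ⟨he₀, hH (Or.inr rfl)⟩)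
        have hd' : Nat.card ↥(E ⊓ H) ∣ 16 := hE.card ▸ Subgroup.card_dvd_of_le inf_le_left
        have h8' : 8 < Nat.card ↥(E ⊓ H) := h ▸ (lt_of_not_ge fun hge =>
          hlt.ne (Subgroup.eq_of_le_of_card_ge hlt.le hge))
        have heq : Nat.card ↥(E ⊓ H) = 16 := by
          have := Nat.le_of_dvd (by norm_num) hd'
          interval_cases Nat.card ↥(E ⊓ H) <;> norm_num at hd' <;> rfl
        exact (Subgroup.eq_of_le_of_card_ge inf_le_left (by rw [heq, hE.card]) :
          E ⊓ H = E) ▸ inf_le_right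
      · rintro c (hc | rfl)
        · rw [cm_eq_one (Subgroup.mem_centralizer_singleton_iff.mp hc.2 : Commute c a).symm]
          exact one_mem _
        · exact Subgroup.mem_zpowers u
    have hle16 := Nat.le_of_dvd (by norm_num) hd
    interval_cases hc : Nat.card B <;> first | rfl | omega | norm_num at hd

end CfsgLib.M23Count
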