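import Cfsg.Agent.M23Count.Defs
import Cfsg.Agent.M23Count.ModelSideData
import Cfsg.Agent.M22Count.ModelSide

/-!
The element-order counts of the Mathieu group of degree 23.

The group is replaced by the stabiliser of the first base point. The elements fixing the second
base point are counted by the model side for degree 22; the others reduce, by conjugation with the
stabilisers of the points already fixed, to four cosets of the stabiliser of four points.
-/

set_option autoImplicit false

namespace CfsgLib.M23Count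

open Cfsg CfsgLib.Mathieu

/-- The search for the order of a table. -/
def ordAux (t : List ℕ) : ℕ → List ℕ → ℕ → ℕ
  | 0, _, _ => 0
  | fuel + 1, cur, m => bif cur == idTab then m else ordAux t fuel (fcomp t cur) (m + 1)

/-- The order of a table, when it is at most 23, and zero otherwise. -/
def ord23 (t : List ℕ) : ℕ := ordAux t 23 (M12Count.powF t 1) 1

theorem ordAux_spec (t : List ℕ) : ∀ (fuel m r : ℕ), ordAux t fuel (M12Count.powF t m) m = r →
    r ≠ 0 → m ≤ r ∧ M12Count.powF t r = idTab ∧
      ∀ j, m ≤ j → j < r → M12Count.powF t j ≠ idTab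
  | 0, _, r, h, hr => absurd h.symm hr
  | fuel + 1, m, r, h, hr => by
    rw [ordAux] at h
    by_cases e : M12Count.powF t m = idTab
    · rw [beq_iff_eq.2 e, cond_true] at h
      subst h
      exact ⟨le_rfl, e, fun j h1 h2 => absurd h2 (not_lt.2 h1)⟩
    · rw [beq_false_of_ne e, cond_false] at h
      obtain ⟨h1, h2, h3⟩ := ordAux_spec t fuel (m + 1) r h hr
      refine ⟨by omega, h2, fun j hj hjr => ?_⟩
      rcases eq_or_lt_of_le hj with rfl | hlt
      · exact e
      · exact h3 j hlt hjr

theorem orderOf_eq_ord23 {g : Equiv.Perm GolayPt} (h : ord23 (toTab g) ≠ 0) :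
    orderOf g = ord23 (toTab g) := by
  obtain ⟨h1, h2, h3⟩ := ordAux_spec (toTab g) 23 1 _ rfl h
  have key : ∀ i, M12Count.powF (toTab g) i = idTab ↔ g ^ i = 1 := fun i => by
    rw [← M12Count.toTab_powF, ← toTab_one, toTab_injective.eq_iff]
  exact (orderOf_eq_iff h1).2 ⟨(key _).1 h2, fun j hj hj0 e => h3 j hj0 hj ((key j).2 e)⟩

theorem ords23_check :
    fixList4F.map (fun t => ord23 (fcomp (M22Count.wtab22 quadWA) t)) = ordsA ∧
    fixList4F.map (fun t => ord23 (fcomp (M22Count.wtab22 quadWB) t)) = ordsB ∧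
    fixList4F.map (fun t => ord23 (fcomp (M22Count.wtab22 quadWC) t)) = ordsC ∧
    fixList4F.map (fun t => ord23 (fcomp (M22Count.wtab22 quadWD) t)) = ordsD := by
  decide +kernel

/-- The elements of order `n` fixing the first base point. -/
noncomputable def ordSet23 (n : ℕ) : Finset (Equiv.Perm GolayPt) := by
  classical exact Finset.univ.filter fun g => g ∈ base7Fix 1 ∧ orderOf g = n

theorem mem_ordSet23 {n : ℕ} {g : Equiv.Perm GolayPt} :
    g ∈ ordSet23 n ↔ (g ∈ M24 ∧ g (i2p 0) = i2p 0) ∧ orderOf g = n := by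
  simp [ordSet23, mem_base7Fix, base7]

/-- The count in one coset of the stabiliser of four points. -/
theorem card_coset23 (n a b c : ℕ) (w : List ℕ) (os : List ℕ)
    (hw : ([0, 1, 2, 3].map fun i => app (M22Count.wtab22 w) i) = [0, a, b, c])
    (hos : fixList4F.map (fun t => ord23 (fcomp (M22Count.wtab22 w) t)) = os)
    (h0 : os.contains 0 = false) :
    ((((ordSet23 n).filter fun g => g (i2p 1) = i2p a).filter fun g => g (i2p 2) = i2p b).filter
      fun g => g (i2p 3) = i2p c).card =
      os.count n := by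
  classical
  obtain ⟨x, hx, hxw⟩ := M22Count.rep_wtab22 w
  simp only [List.map_cons, List.map_nil, List.cons.injEq, and_true, ← hxw,
    app_toTab x 0 (by norm_num), app_toTab x 1 (by norm_num), app_toTab x 2 (by norm_num),
    app_toTab x 3 (by norm_num)] at hw
  obtain ⟨hw0, hwa, hwb, hwc⟩ := hw
  have hx0 : x (i2p 0) = i2p 0 := (i2p_p2i _).symm.trans (congrArg i2p hw0)
  have hxa : x (i2p 1) = i2p a := (i2p_p2i _).symm.trans (congrArg i2p hwa)
  have hxb : x (i2p 2) = i2p b := (i2p_p2i _).symm.trans (congrArg i2p hwb)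
  have hxc : x (i2p 3) = i2p c := (i2p_p2i _).symm.trans (congrArg i2p hwc)
  have hord : ∀ y : Equiv.Perm GolayPt, toTab y ∈ fixList4F →
      orderOf (x * y) = ord23 (fcomp (M22Count.wtab22 w) (toTab y)) := by
    intro y hy
    have hmem : ord23 (fcomp (M22Count.wtab22 w) (toTab y)) ∈ os :=
      hos ▸ List.mem_map.2 ⟨_, hy, rfl⟩
    rw [orderOf_eq_ord23, ← fcomp_toTab, hxw]
    rw [← fcomp_toTab, hxw]
    intro e
    rw [e] at hmem
    simp [hmem] at h0
  have hcount : os.count n =
      (fixList4F.filter fun t => ord23 (fcomp (M22Count.wtab22 w) t) == n).length := by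
    rw [← hos, List.count, List.countP_map, List.countP_eq_length_filter]
    rfl
  rw [hcount, ← List.toFinset_card_of_nodup (M22Count.quadFix_nodup.filter _)]
  refine Finset.card_bij (fun g _ => toTab (x⁻¹ * g)) ?_ ?_ ?_
  · intro g hg
    simp only [Finset.mem_filter, mem_ordSet23] at hg
    obtain ⟨⟨⟨⟨⟨hg, hg0⟩, hn⟩, ha⟩, hb⟩, hc⟩ := hg
    have hmem : x⁻¹ * g ∈ base7Fix 4 := by
      refine mem_base7Fix.2 ⟨mul_mem (inv_mem hx) hg, fun i hi => ?_⟩
      simp only [base7, List.take_succ_cons, List.take_zero, List.mem_cons, List.not_mem_nil,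
        or_false] at hi
      rw [Equiv.Perm.mul_apply, Equiv.Perm.inv_eq_iff_eq]
      rcases hi with rfl | rfl | rfl | rfl
      · rw [hg0, hx0]
      · rw [ha, hxa]
      · rw [hb, hxb]
      · rw [hc, hxc]
    have hy : toTab (x⁻¹ * g) ∈ fixList4F := fixList4F_eq ▸ toTab_mem_fixList4 hmem
    have := hord _ hy
    rw [mul_inv_cancel_left, hn] at this
    simp [hy, ← this]
  · intro g _ g' _ e
    exact mul_left_cancel (toTab_injective e)
  · intro t ht
    simp only [List.mem_toFinset, List.mem_filter, beq_iff_eq] at ht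
    obtain ⟨y, hy, rfl⟩ := rep_fixList4 t (fixList4F_eq ▸ ht.1)
    obtain ⟨hy24, hfix⟩ := mem_base7Fix.1 hy
    have f : ∀ i, i ∈ [0, 1, 2, 3] → y (i2p i) = i2p i := hfix
    refine ⟨x * y, ?_, by rw [inv_mul_cancel_left]⟩
    simp only [Finset.mem_filter, mem_ordSet23, Equiv.Perm.mul_apply, f 0 (by simp), f 1 (by simp),
      f 2 (by simp), f 3 (by simp)]
    exact ⟨⟨⟨⟨⟨mul_mem hx hy24, hx0⟩, (hord y ht.1).trans ht.2⟩, hxa⟩, hxb⟩, hxc⟩

/-- The count of elements of order `n`. -/
def countOf23 (n : ℕ) : ℕ :=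
  M22Count.countOf22 n +
    22 * ((ordsA.count n + 20 * ordsB.count n) + 21 * (ordsC.count n + 20 * ordsD.count n))

theorem card_ordSet23 (n : ℕ) : (ordSet23 n).card = countOf23 n := by
  classical
  have hne : ∀ i j : ℕ, i < 24 → j < 24 → i ≠ j → (i2p i : GolayPt) ≠ i2p j :=
    fun i j hi hj h e => h (i2p_inj hi hj e)
  have avoid : ∀ (g : Equiv.Perm GolayPt) (i j a : ℕ), i < 24 → j < 24 → i ≠ j →
      g (i2p i) = i2p a → g (i2p j) ≠ i2p a :=
    fun g i j a hi hj h e e' => hne i j hi hj h (g.injective (e.trans e'.symm))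
  have htr0 : ∀ x ∈ M22Count.restPts [0, 1], ∃ k ∈ base7Fix 2, k (i2p 2) = x := by
    intro x hx
    simp only [M22Count.mem_restPts, List.mem_cons, List.not_mem_nil, or_false, forall_eq_or_imp,
      forall_eq] at hx
    obtain ⟨g, hg, h⟩ := M22Count.exists_map_base 3 (by decide +kernel) [i2p 0, i2p 1, x]
      (show 3 = (tuple5.take 3).length by decide +kernel)
      (by simp [hne 0 1, Ne.symm hx.1, Ne.symm hx.2])
    simp only [tuple5, chain24, List.take_succ_cons, List.take_zero, List.map_cons, List.map_nil,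
      List.cons.injEq, and_true] at h
    obtain ⟨h0, h1, h2⟩ := h
    refine ⟨g, mem_base7Fix.2 ⟨hg, ?_⟩, h2⟩
    simp [base7, h0, h1]
  have htr1 : ∀ x ∈ M22Count.restPts [0, 1, 2], ∃ k ∈ base7Fix 3, k (i2p 3) = x := by
    intro x hx
    simp only [M22Count.mem_restPts, List.mem_cons, List.not_mem_nil, or_false, forall_eq_or_imp,
      forall_eq] at hx
    obtain ⟨g, hg, h⟩ := M22Count.exists_map_base 4 (by decide +kernel) [i2p 0, i2p 1, i2p 2, x]
      (show 4 = (tuple5.take 4).length by decide +kernel)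
      (by simp [hne 0 1, hne 0 2, hne 1 2, Ne.symm hx.1, Ne.symm hx.2.1, Ne.symm hx.2.2])
    simp only [tuple5, chain24, List.take_succ_cons, List.take_zero, List.map_cons, List.map_nil,
      List.cons.injEq, and_true] at h
    obtain ⟨h0, h1, h2, h3⟩ := h
    refine ⟨g, mem_base7Fix.2 ⟨hg, ?_⟩, h3⟩
    simp [base7, h0, h1, h2]
  have htr2 : ∀ x ∈ M22Count.restPts [0, 1, 2, 3], ∃ k ∈ base7Fix 4, k (i2p 4) = x := by
    intro x hx
    simp only [M22Count.mem_restPts, List.mem_cons, List.not_mem_nil, or_false, forall_eq_or_imp,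
      forall_eq] at hx
    obtain ⟨g, hg, h⟩ := exists_map_base5 [i2p 0, i2p 1, i2p 2, i2p 3, x] rfl
      (by simp [hne 0 1, hne 0 2, hne 0 3, hne 1 2, hne 1 3, hne 2 3, Ne.symm hx.1, Ne.symm hx.2.1,
        Ne.symm hx.2.2.1, Ne.symm hx.2.2.2])
    simp only [List.map_cons, List.map_nil, List.cons.injEq, and_true] at h
    obtain ⟨h0, h1, h2, h3, h4⟩ := h
    refine ⟨g, mem_base7Fix.2 ⟨hg, ?_⟩, h4⟩
    simp [base7, h0, h1, h2, h3]
  have c0 : (M22Count.restPts [0, 1]).card = 22 := by decide +kernel
  have c1 : (M22Count.restPts [0, 1, 2]).card = 21 := by decide +kernel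
  have c2 : (M22Count.restPts [0, 1, 2, 3]).card = 20 := by decide +kernel
  have hfix : ∀ {j : ℕ} {k : Equiv.Perm GolayPt}, k ∈ base7Fix j → ∀ i ∈ base7.take j,
      k (i2p i) = i2p i := fun hk => (mem_base7Fix.1 hk).2
  have hconj : ∀ k ∈ base7Fix 1, ∀ g ∈ ordSet23 n, k * g * k⁻¹ ∈ ordSet23 n := by
    intro k hk g hg
    have hg' : g ∈ base7Fix 1 := by
      simpa [mem_base7Fix, base7] using (mem_ordSet23.1 hg).1
    have : k * g * k⁻¹ ∈ base7Fix 1 := mul_mem (mul_mem hk hg') (inv_mem hk)
    refine mem_ordSet23.2 ⟨by simpa [mem_base7Fix, base7] using this,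
      (MulEquiv.orderOf_eq (MulAut.conj k) g).trans (mem_ordSet23.1 hg).2⟩
  -- keeping a condition on one image under conjugation
  have hkeep : ∀ (K : Subgroup (Equiv.Perm GolayPt)) (S : Finset (Equiv.Perm GolayPt)) (i a : ℕ),
      (∀ k ∈ K, ∀ g ∈ S, k * g * k⁻¹ ∈ S) → (∀ k ∈ K, k (i2p i) = i2p i) →
      (∀ k ∈ K, k (i2p a) = i2p a) → ∀ k ∈ K, ∀ g ∈ S.filter fun g => g (i2p i) = i2p a,
        k * g * k⁻¹ ∈ S.filter fun g => g (i2p i) = i2p a := by
    intro K S i a hS hi ha k hk g hg
    rw [Finset.mem_filter] at hg ⊢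
    refine ⟨hS k hk g hg.1, ?_⟩
    simp only [Equiv.Perm.mul_apply, hi _ (inv_mem hk), hg.2]
    exact ha k hk
  have hA : ((ordSet23 n).filter fun g => g (i2p 1) = i2p 1).card = M22Count.countOf22 n := by
    rw [← M22Count.card_ordSet22]
    congr 1
    ext g
    simp only [Finset.mem_filter, mem_ordSet23, M22Count.mem_ordSet22]
    tauto
  -- first point
  rw [M12Count.card_split (ordSet23 n) (base7Fix 2) (M22Count.restPts [0, 1]) (i2p 1) (i2p 1)
    (i2p 2) (fun k hk => hconj k (base7Fix_antitone (by norm_num) hk))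
    (fun k hk => hfix hk 1 (by simp [base7])) htr0 (by simp [M22Count.mem_restPts]) (fun g hg => by
      obtain ⟨⟨-, h0⟩, -⟩ := mem_ordSet23.1 hg
      have n0 := avoid g 0 1 0 (by norm_num) (by norm_num) (by norm_num) h0
      simp only [Finset.mem_insert, M22Count.mem_restPts, List.mem_cons, List.not_mem_nil,
        or_false, forall_eq_or_imp, forall_eq]
      tauto), c0, hA]
  -- second point
  rw [M12Count.card_split ((ordSet23 n).filter fun g => g (i2p 1) = i2p 2)
    (base7Fix 3) (M22Count.restPts [0, 1, 2]) (i2p 2) (i2p 1) (i2p 3)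
    (hkeep _ _ 1 2 (fun k hk => hconj k (base7Fix_antitone (by norm_num) hk))
      (fun k hk => hfix hk 1 (by simp [base7])) (fun k hk => hfix hk 2 (by simp [base7])))
    (fun k hk => hfix hk 2 (by simp [base7])) htr1 (by simp [M22Count.mem_restPts])
    (fun g hg => by
      rw [Finset.mem_filter] at hg
      obtain ⟨⟨-, h0⟩, -⟩ := mem_ordSet23.1 hg.1
      have n0 := avoid g 0 2 0 (by norm_num) (by norm_num) (by norm_num) h0
      have n1 := avoid g 1 2 2 (by norm_num) (by norm_num) (by norm_num) hg.2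
      simp only [Finset.mem_insert, M22Count.mem_restPts, List.mem_cons, List.not_mem_nil,
        or_false, forall_eq_or_imp, forall_eq]
      tauto), c1]
  -- third point
  rw [M12Count.card_split
    (((ordSet23 n).filter fun g => g (i2p 1) = i2p 2).filter fun g => g (i2p 2) = i2p 1)
    (base7Fix 4) (M22Count.restPts [0, 1, 2, 3]) (i2p 3) (i2p 3) (i2p 4)
    (hkeep _ _ 2 1
      (hkeep _ _ 1 2 (fun k hk => hconj k (base7Fix_antitone (by norm_num) hk))
        (fun k hk => hfix hk 1 (by simp [base7])) (fun k hk => hfix hk 2 (by simp [base7])))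
      (fun k hk => hfix hk 2 (by simp [base7])) (fun k hk => hfix hk 1 (by simp [base7])))
    (fun k hk => hfix hk 3 (by simp [base7])) htr2 (by simp [M22Count.mem_restPts])
    (fun g hg => by
      simp only [Finset.mem_filter] at hg
      obtain ⟨⟨-, h0⟩, -⟩ := mem_ordSet23.1 hg.1.1
      have n0 := avoid g 0 3 0 (by norm_num) (by norm_num) (by norm_num) h0
      have n1 := avoid g 1 3 2 (by norm_num) (by norm_num) (by norm_num) hg.1.2
      have n2 := avoid g 2 3 1 (by norm_num) (by norm_num) (by norm_num) hg.2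
      simp only [Finset.mem_insert, M22Count.mem_restPts, List.mem_cons, List.not_mem_nil,
        or_false, forall_eq_or_imp, forall_eq]
      tauto), c2]
  rw [M12Count.card_split
    (((ordSet23 n).filter fun g => g (i2p 1) = i2p 2).filter fun g => g (i2p 2) = i2p 3)
    (base7Fix 4) (M22Count.restPts [0, 1, 2, 3]) (i2p 3) (i2p 1) (i2p 4)
    (hkeep _ _ 2 3
      (hkeep _ _ 1 2 (fun k hk => hconj k (base7Fix_antitone (by norm_num) hk))
        (fun k hk => hfix hk 1 (by simp [base7])) (fun k hk => hfix hk 2 (by simp [base7])))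
      (fun k hk => hfix hk 2 (by simp [base7])) (fun k hk => hfix hk 3 (by simp [base7])))
    (fun k hk => hfix hk 3 (by simp [base7])) htr2 (by simp [M22Count.mem_restPts])
    (fun g hg => by
      simp only [Finset.mem_filter] at hg
      obtain ⟨⟨-, h0⟩, -⟩ := mem_ordSet23.1 hg.1.1
      have n0 := avoid g 0 3 0 (by norm_num) (by norm_num) (by norm_num) h0
      have n1 := avoid g 1 3 2 (by norm_num) (by norm_num) (by norm_num) hg.1.2
      have n2 := avoid g 2 3 3 (by norm_num) (by norm_num) (by norm_num) hg.2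
      simp only [Finset.mem_insert, M22Count.mem_restPts, List.mem_cons, List.not_mem_nil,
        or_false, forall_eq_or_imp, forall_eq]
      tauto), c2]
  obtain ⟨oA, oB, oC, oD⟩ := ords23_check
  rw [card_coset23 n 2 1 3 quadWA _ (by decide +kernel) oA (by decide +kernel),
    card_coset23 n 2 1 4 quadWB _ (by decide +kernel) oB (by decide +kernel),
    card_coset23 n 2 3 1 quadWC _ (by decide +kernel) oC (by decide +kernel),
    card_coset23 n 2 3 4 quadWD _ (by decide +kernel) oD (by decide +kernel)]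
  rfl

theorem nonempty_equiv_fix_one : Nonempty (↥Spor.M23 ≃* ↥(base7Fix 1)) := by
  obtain ⟨g, hg, hn⟩ := exists_map_one (none : GolayPt) (i2p 0)
  refine nonempty_conj_equiv g fun k => ?_
  rw [M23_eq]
  simp only [Subgroup.mem_inf, MulAction.mem_stabilizer_iff, mem_base7Fix, base7,
    List.take_succ_cons, List.take_zero, List.mem_cons, List.not_mem_nil, or_false,
    forall_eq, conj_mem_M24_iff hg]
  rw [← conj_fix_iff g k none (i2p 0) hn]
  rfl

theorem cnt_M23 (n : ℕ) : cnt ↥Spor.M23 n = countOf23 n := by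
  classical
  obtain ⟨e⟩ := nonempty_equiv_fix_one
  rw [← card_ordSet23, cnt, ← Nat.card_eq_finsetCard (ordSet23 n)]
  refine (Nat.card_congr (e.toEquiv.subtypeEquiv (q := fun g => orderOf g = n) fun g => by
    rw [show e.toEquiv g = e g from rfl, MulEquiv.orderOf_eq])).trans (Nat.card_congr ?_)
  exact
    { toFun := fun g => ⟨g.1.1, by
        simp only [ordSet23, Finset.mem_filter, Finset.mem_univ, true_and]
        exact ⟨g.1.2, (Subgroup.orderOf_coe g.1).trans g.2⟩⟩
      invFun := fun g => ⟨⟨g.1, by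
        have := g.2
        simp only [ordSet23, Finset.mem_filter, Finset.mem_univ, true_and] at this
        exact this.1⟩, by
        rw [← Subgroup.orderOf_coe]
        exact (mem_ordSet23.1 g.2).2⟩
      left_inv := fun _ => rfl
      right_inv := fun _ => rfl }

theorem countOf23_check :
    ((List.range 24).all fun n => countOf23 n == 0 || decide (countOf23 n ∈ countValues)) = true ∧
    ∀ c ∈ countValues, ∃ n ∈ List.range 24, countOf23 n = c := by
  decide +kernel

theorem countOf23_large {n : ℕ} (hn : 24 ≤ n) : countOf23 n = 0 := by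
  have h : (ordsA ++ ordsB ++ ordsC ++ ordsD).all (fun x => decide (x < 24)) = true := by
    decide +kernel
  simp only [List.all_eq_true, decide_eq_true_eq, List.mem_append] at h
  have z : ∀ l : List ℕ, (∀ x ∈ l, x < 24) → l.count n = 0 := fun l hl =>
    List.count_eq_zero.2 fun hm => absurd (hl n hm) (by omega)
  rw [countOf23, M22Count.countOf22_large (le_trans (by norm_num) hn), z ordsA (fun x hx => h x (by tauto)), z ordsB (fun x hx => h x (by tauto)),
    z ordsC (fun x hx => h x (by tauto)), z ordsD (fun x hx => h x (by tauto))]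

/-- The element-order counts of the Mathieu group of degree 23 take exactly the listed values. -/
theorem countValues_M23 :
    (∀ n, cnt ↥Cfsg.Spor.M23 n ≠ 0 → cnt ↥Cfsg.Spor.M23 n ∈ countValues) ∧
    (∀ c ∈ countValues, ∃ n, cnt ↥Cfsg.Spor.M23 n = c) := by
  refine ⟨fun n hn => ?_, fun c hc => ?_⟩
  · rw [cnt_M23] at hn ⊢
    rcases lt_or_ge n 24 with h | h
    · have := List.all_eq_true.1 countOf23_check.1 n (List.mem_range.2 h)
      simp only [Bool.or_eq_true, beq_iff_eq, decide_eq_true_eq] at this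
      exact this.resolve_left hn
    · exact absurd (countOf23_large h) hn
  · obtain ⟨n, -, hn⟩ := countOf23_check.2 c hc
    exact ⟨n, (cnt_M23 n).trans hn⟩

/-- The order of the Mathieu group of degree 23. -/
theorem card_M23 : Nat.card ↥Cfsg.Spor.M23 = 10200960 := CfsgLib.Mathieu.card_M23

/-- The Mathieu group of degree 23 satisfies the counting hypothesis. -/
theorem countHyp_M23 : CountHyp ↥Cfsg.Spor.M23 :=
  ⟨CfsgLib.Mathieu.card_M23, countValues_M23.1, countValues_M23.2⟩

end CfsgLib.M23Count
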