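import Cfsg.Agent.M23Count.Defs

/-!
The part of `Geom` without the triples: the output of the orbit analysis and the input of the
construction of the triples.
-/

set_option autoImplicit false

namespace CfsgLib.M23Count

universe u v

/-- All fields of `Geom` but those about `tri`. -/
structure PreGeom (G : Type u) (V : Type v) [Group G] [MulAction G V] where
  sub : V → Subgroup G
  far : V → V → Prop
  π : ∀ v : V, ↥(MulAction.stabilizer G v) →* Equiv.Perm (Fin 7)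
  pt : V → V → Fin 7
  card_V : Nat.card V = 253
  trans : ∀ v w : V, ∃ g : G, g • v = w
  sub_smul : ∀ (g : G) (v : V), sub (g • v) = (sub v).map (MulAut.conj g).toMonoidHom
  sub_card : ∀ v : V, Nat.card (sub v) = 16
  sub_comm : ∀ v : V, ∀ a ∈ sub v, ∀ b ∈ sub v, a * b = b * a
  sub_sq : ∀ v : V, ∀ a ∈ sub v, a * a = 1
  sub_le : ∀ v : V, sub v ≤ MulAction.stabilizer G v
  sub_disj : ∀ v w : V, v ≠ w → sub v ⊓ sub w = ⊥
  card_stab : ∀ v : V, Nat.card (MulAction.stabilizer G v) = 40320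
  sub_self_cent : ∀ v : V, Subgroup.centralizer (sub v : Set G) = sub v
  sub_trans : ∀ v : V, ∀ a ∈ sub v, ∀ b ∈ sub v, a ≠ 1 → b ≠ 1 →
    ∃ n ∈ MulAction.stabilizer G v, n * a * n⁻¹ = b
  sub_lines : ∀ v : V, ∀ t ∈ sub v, t ≠ 1 → ∀ a ∈ sub v, ∀ b ∈ sub v,
    a ≠ 1 → a ≠ t → b ≠ 1 → b ≠ t →
    ∃ n ∈ MulAction.stabilizer G v, Commute n t ∧ (n * a * n⁻¹ = b ∨ n * a * n⁻¹ = b * t)
  small : ∀ v : V, ∀ a ∈ MulAction.stabilizer G v, orderOf a = 2 → a ∉ sub v →
    Nat.card ↥(sub v ⊓ Subgroup.centralizer ({a} : Set G)) = 4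
  far_iff : ∀ v w : V, far v w ↔ v ≠ w ∧ sub w ⊓ MulAction.stabilizer G v = ⊥
  far_symm : ∀ v w : V, far v w → far w v
  near_card : ∀ v w : V, v ≠ w → ¬ far v w →
    Nat.card ↥(sub w ⊓ MulAction.stabilizer G v) = 4
  near_comm : ∀ v w : V, v ≠ w → ∀ a ∈ sub w ⊓ MulAction.stabilizer G v,
    ∀ b ∈ sub v ⊓ MulAction.stabilizer G w, a * b = b * a
  semireg : ∀ v w : V, far v w → ∀ e ∈ sub v, e • w = w → e = 1
  π_ker : ∀ v : V, (π v).ker = (sub v).subgroupOf (MulAction.stabilizer G v)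
  π_range : ∀ v : V, (π v).range = alternatingGroup (Fin 7)
  pt_smul : ∀ (v w : V) (h : ↥(MulAction.stabilizer G v)), far v w →
    pt v ((h : G) • w) = π v h (pt v w)
  pt_eq_iff : ∀ v w w' : V, far v w → far v w' →
    (pt v w = pt v w' ↔ ∃ e ∈ sub v, e • w = w')
  pt_surj : ∀ (v : V) i, ∃ w, far v w ∧ pt v w = i

end CfsgLib.M23Count
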