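import Cfsg.Agent.M23Count.OrbitsBasic
import Cfsg.Agent.M23Count.PreGeom
import Mathlib.GroupTheory.Sylow

/-!
The seven orbits of a heptad on the conjugates in general position, the action of its normaliser on
them, and the geometry without triples.
-/

set_option autoImplicit false
set_option linter.style.haveILetI false
set_option linter.unusedSectionVars false

open MulAction

namespace CfsgLib.M23Count.Orbits

universe u

variable {G : Type u} [Group G] [Finite G] {E : Subgroup G} (h : Heptad E) (hs : Setup G)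

/-- The vertices in general position to `v`. -/
abbrev Far (E : Subgroup G) (v : Vert E) : Type u := {w : Vert E // far E v w}

/-- Two vertices in general position to `v` in one orbit of the subgroup at `v`. -/
noncomputable def farSetoid (v : Vert E) : Setoid (Far E v) where
  r w w' := ∃ e ∈ sub E v, e • w.1 = w'.1
  iseqv :=
    { refl := fun w => ⟨1, one_mem _, one_smul _ _⟩
      symm := fun {w w'} ⟨e, he, hw⟩ => ⟨e⁻¹, inv_mem he, inv_smul_eq_iff.2 hw.symm⟩
      trans := fun {w w' w''} ⟨e, he, hw⟩ ⟨e', he', hw'⟩ =>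
        ⟨e' * e, mul_mem he' he, by rw [mul_smul, hw, hw']⟩ }

/-- The orbits of the subgroup at `v` on the vertices in general position to it. -/
abbrev Cls (E : Subgroup G) (v : Vert E) : Type u := Quotient (farSetoid (E := E) v)

/-- The action of the stabiliser on the orbits. -/
noncomputable def clsMap {v : Vert E} (g : ↥(MulAction.stabilizer G v)) : Cls E v → Cls E v :=
  Quotient.map (fun w => (⟨(g : G) • w.1, (far_smul_iff E g.2).2 w.2⟩ : Far E v))
    (fun w w' ⟨e, he, hw⟩ => ⟨(g : G) * e * (g : G)⁻¹, by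
      have h2 := (mem_sub_smul E (x := (g : G))).2 he
      rwa [(g.2 : (g : G) • v = v)] at h2, by
      show ((g : G) * e * (g : G)⁻¹) • (g : G) • w.1 = (g : G) • w'.1
      rw [smul_smul, inv_mul_cancel_right, mul_smul, hw]⟩)

noncomputable instance clsAction (v : Vert E) : MulAction (MulAction.stabilizer G v) (Cls E v) where
  smul := clsMap
  one_smul c := by
    induction c using Quotient.inductionOn with
    | h w => exact congrArg (Quotient.mk _) (Subtype.ext (one_smul G w.1))
  mul_smul g g' c := by
    induction c using Quotient.inductionOn with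
    | h w => exact congrArg (Quotient.mk _) (Subtype.ext (mul_smul (g : G) (g' : G) w.1))

include h hs

theorem card_cls (v : Vert E) : Nat.card (Cls E v) = 7 := by
  classical
  haveI := Fintype.ofFinite (Cls E v)
  have hfib : ∀ c : Cls E v,
      Nat.card {w : Far E v // Quotient.mk (farSetoid v) w = c} = 16 := by
    intro c
    induction c using Quotient.inductionOn with
    | h w₀ =>
      rw [← (hept h v).card]
      refine (Nat.card_eq_of_bijective (fun e : ↥(sub E v) =>
        (⟨⟨(e : G) • w₀.1, (far_smul_iff E (sub_fix h e.2)).2 w₀.2⟩,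
          Quotient.sound ⟨(e : G)⁻¹, inv_mem e.2, inv_smul_smul _ _⟩⟩ :
          {w : Far E v // Quotient.mk (farSetoid v) w = Quotient.mk (farSetoid v) w₀}))
        ⟨?_, ?_⟩).symm
      · intro a b hab
        have h2 : (a : G) • w₀.1 = (b : G) • w₀.1 := congrArg (fun x => x.1.1) hab
        have := semireg h w₀.2 (mul_mem (inv_mem b.2) a.2) (by rw [mul_smul, h2, inv_smul_smul])
        exact Subtype.ext (inv_mul_eq_one.1 this).symm
      · rintro ⟨w, hw⟩
        obtain ⟨e, he, hew⟩ := Quotient.exact hw.symm
        exact ⟨⟨e, he⟩, Subtype.ext (Subtype.ext hew)⟩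
  have h112 : Nat.card (Far E v) = 112 := (card_near_far h hs v).2
  rw [← Nat.card_congr (Equiv.sigmaFiberEquiv (Quotient.mk (farSetoid v))), Nat.card_sigma] at h112
  simp only [hfib] at h112
  rw [Finset.sum_const, smul_eq_mul, Finset.card_univ, ← Nat.card_eq_fintype_card] at h112
  have h112' : Nat.card (Cls E v) * 16 = 112 := h112
  omega

/-- A numbering of the orbits. -/
noncomputable def num (v : Vert E) : Cls E v ≃ Fin 7 :=
  haveI : Finite (Cls E v) := Quotient.finite _
  (Finite.equivFin (Cls E v)).trans (finCongr (card_cls h hs v))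

/-- The action on the seven points at `v`. -/
noncomputable def piHom (v : Vert E) :
    ↥(MulAction.stabilizer G v) →* Equiv.Perm (Fin 7) :=
  (num h hs v).permCongrHom.toMonoidHom.comp
    (MulAction.toPermHom (MulAction.stabilizer G v) (Cls E v))

open Classical in
/-- The point at `v` of a vertex in general position. -/
noncomputable def point (v w : Vert E) : Fin 7 :=
  if hw : far E v w then num h hs v (Quotient.mk (farSetoid v) ⟨w, hw⟩) else 0

theorem point_of {v w : Vert E} (hw : far E v w) :
    point h hs v w = num h hs v (Quotient.mk (farSetoid v) ⟨w, hw⟩) := by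
  rw [point, dif_pos hw]

theorem piHom_apply (v : Vert E) (g : ↥(MulAction.stabilizer G v)) (i : Fin 7) :
    piHom h hs v g i = num h hs v (g • (num h hs v).symm i) := rfl

theorem piHom_point {v w : Vert E} (g : ↥(MulAction.stabilizer G v)) (hw : far E v w) :
    point h hs v ((g : G) • w) = piHom h hs v g (point h hs v w) := by
  rw [piHom_apply, point_of h hs ((far_smul_iff E g.2).2 hw), point_of h hs hw,
    Equiv.symm_apply_apply]
  rfl

theorem mem_ker_iff {v : Vert E} {g : ↥(MulAction.stabilizer G v)} :
    g ∈ (piHom h hs v).ker ↔ ∀ c : Cls E v, g • c = c := by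
  rw [MonoidHom.mem_ker]
  constructor
  · intro hg c
    have := congrArg (fun σ : Equiv.Perm (Fin 7) => σ (num h hs v c)) hg
    simpa [piHom_apply] using this
  · intro hg
    ext i
    simp [piHom_apply, hg]

theorem sub_le_ker {v : Vert E} :
    (sub E v).subgroupOf (MulAction.stabilizer G v) ≤ (piHom h hs v).ker := by
  intro g hg
  rw [mem_ker_iff]
  intro c
  induction c using Quotient.inductionOn with
  | h w => exact Quotient.sound ⟨(g : G)⁻¹, inv_mem hg, inv_smul_smul _ _⟩

/-- An element of order seven moves an orbit. -/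
theorem seven_not_mem_ker {v : Vert E} {g : ↥(MulAction.stabilizer G v)}
    (hg : orderOf (g : G) = 7) : g ∉ (piHom h hs v).ker := by
  intro hk
  rw [mem_ker_iff] at hk
  obtain ⟨w⟩ : Nonempty (Far E v) := by
    have h112 : Nat.card (Far E v) = 112 := (card_near_far h hs v).2
    exact (Nat.card_pos_iff.1 (by omega)).1
  obtain ⟨e, he, hew⟩ := Quotient.exact (hk (Quotient.mk _ w))
  have hew' : (e * (g : G)) • w.1 = w.1 := by rw [mul_smul]; exact hew
  have hgv : (g : G) • v = v := g.2
  have hev : e • v = v := sub_fix h he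
  -- a power of `e * g` of order seven still fixes `v` and `w`
  set x : ↥(MulAction.stabilizer G v) := ⟨e, hev⟩ * g with hx
  have hxw : (x : G) • w.1 = w.1 := hew'
  have h7 : 7 ∣ orderOf (x : G) := by
    by_contra hn
    have hq : (x : G) ^ orderOf (x : G) = 1 := pow_orderOf_eq_one _
    haveI : ((sub E v).subgroupOf (MulAction.stabilizer G v)).Normal :=
      ⟨fun a ha b => conj_mem h b.2 ha⟩
    set q := QuotientGroup.mk' ((sub E v).subgroupOf (MulAction.stabilizer G v)) with hqdef
    have hqe : q ⟨e, hev⟩ = 1 := (QuotientGroup.eq_one_iff _).2 he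
    have h1 : q g ^ orderOf (x : G) = 1 := by
      rw [show q g = q x by rw [hx, map_mul, hqe, one_mul], ← map_pow,
        show x ^ orderOf (x : G) = 1 from Subtype.ext (by rw [SubmonoidClass.coe_pow]; exact hq),
        map_one]
    have h2 : q g ^ 7 = 1 := by
      rw [← map_pow, show g ^ 7 = 1 from Subtype.ext (by
        rw [SubmonoidClass.coe_pow, ← hg]; exact pow_orderOf_eq_one _), map_one]
    have hco : Nat.Coprime (orderOf (x : G)) 7 :=
      ((Nat.Prime.coprime_iff_not_dvd (by norm_num)).2 hn).symm
    have h3 : q g = 1 := by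
      have h' : q g ^ Nat.gcd (orderOf (x : G)) 7 = 1 := pow_gcd_eq_one.2 ⟨h1, h2⟩
      rwa [hco.gcd_eq_one, pow_one] at h'
    have h4 : (g : G) ∈ sub E v := (QuotientGroup.eq_one_iff g).1 h3
    have h5 := orderOf_dvd_of_pow_eq_one
      (show (g : G) ^ 2 = 1 by rw [pow_two]; exact sub_sq h h4)
    rw [hg] at h5
    norm_num at h5
  have hy : orderOf ((x : G) ^ (orderOf (x : G) / 7)) = 7 :=
    orderOf_pow_orderOf_div (orderOf_pos (x : G)).ne' h7
  exact w.2.1 (seven_fix h hs hy
    (MulAction.mem_stabilizer_iff.1 (Subgroup.pow_mem _ x.2 _))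
    (MulAction.mem_stabilizer_iff.1
      (Subgroup.pow_mem _ (MulAction.mem_stabilizer_iff.2 hxw) _)))

theorem card_stab (v : Vert E) : Nat.card (MulAction.stabilizer G v) = 40320 := by
  rw [stab_eq h v, (hept h v).norm_card]

theorem ker_map_normal {v : Vert E} {g a : G} (hg : g • v = v)
    (ha : a ∈ (piHom h hs v).ker.map (MulAction.stabilizer G v).subtype) :
    g * a * g⁻¹ ∈ (piHom h hs v).ker.map (MulAction.stabilizer G v).subtype := by
  obtain ⟨b, hb, rfl⟩ := ha
  let g' : ↥(MulAction.stabilizer G v) := ⟨g, hg⟩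
  refine ⟨g' * b * g'⁻¹, (MonoidHom.normal_ker (piHom h hs v)).conj_mem b hb g', ?_⟩
  simp only [map_mul, map_inv]
  rfl

/-- A member of the kernel centralising a member of the subgroup at `v` lies in the latter. -/
theorem ker_cent {v : Vert E} {x t : G} (ht : t ∈ sub E v) (t1 : t ≠ 1)
    (hx : x ∈ (piHom h hs v).ker.map (MulAction.stabilizer G v).subtype) (hc : Commute x t) :
    x ∈ sub E v := by
  set M := (piHom h hs v).ker.map (MulAction.stabilizer G v).subtype ⊓
    Subgroup.centralizer ({t} : Set G) with hM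
  have hxM : x ∈ M := ⟨hx, Subgroup.mem_centralizer_singleton_iff.2 hc.eq⟩
  have hMeq : M = sub E v := by
    refine ((hept h v).core t ht t1).max M inf_le_right ?_ ?_ ?_
    · intro e he
      exact ⟨⟨⟨e, sub_fix h he⟩, sub_le_ker h hs he, rfl⟩,
        Subgroup.mem_centralizer_singleton_iff.2 ((hept h v).comm e he t ht)⟩
    · intro g hg a ha
      refine ⟨ker_map_normal h hs (smul_eq_of_commute h ht t1 hg) ha.1, ?_⟩
      refine Subgroup.mem_centralizer_singleton_iff.2 ?_
      have hat : Commute a t := Subgroup.mem_centralizer_singleton_iff.1 ha.2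
      exact ((hg.mul_left hat).mul_left hg.inv_left).eq
    · intro h7
      haveI : Fact (Nat.Prime 7) := ⟨by norm_num⟩
      obtain ⟨y, hy⟩ := exists_prime_orderOf_dvd_card' (G := M) 7 h7
      rw [← Subgroup.orderOf_coe] at hy
      obtain ⟨g, hg, hgy⟩ := y.2.1
      exact seven_not_mem_ker h hs (g := g) (by rw [show (g : G) = (y : G) from hgy]; exact hy) hg
  exact hMeq ▸ hxM

theorem ker_no_three_five {v : Vert E} {p : ℕ} (hp : p = 3 ∨ p = 5) :
    ¬ p ∣ Nat.card (piHom h hs v).ker := by
  classical
  intro hdvd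
  haveI : Fact p.Prime := ⟨by rcases hp with rfl | rfl <;> norm_num⟩
  haveI : Fact (Nat.Prime 7) := ⟨by norm_num⟩
  set N := MulAction.stabilizer G v with hN
  set L := (piHom h hs v).ker with hL
  obtain ⟨P⟩ : Nonempty (Sylow p L) := inferInstance
  set PN : Subgroup N := (P : Subgroup L).map L.subtype with hPN
  set K := Subgroup.normalizer (PN : Set N) with hK
  have htop : K ⊔ L = ⊤ := Sylow.normalizer_sup_eq_top P
  -- seven divides the order of the normaliser of the Sylow subgroup
  have hidx : L.index ∣ Nat.card K := by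
    rw [← Subgroup.relIndex_top_right, ← htop, Subgroup.relIndex_sup_right]
    exact (L.subgroupOf K).index_dvd_card
  have hL7 : ¬ 7 ∣ Nat.card L := by
    intro h7
    obtain ⟨y, hy⟩ := exists_prime_orderOf_dvd_card' (G := L) 7 h7
    rw [← Subgroup.orderOf_coe, ← Subgroup.orderOf_coe] at hy
    exact seven_not_mem_ker h hs hy y.2
  have hK7 : 7 ∣ Nat.card K := by
    refine dvd_trans ?_ hidx
    have h2 := L.card_mul_index
    rw [card_stab h hs v] at h2
    exact ((Nat.Prime.dvd_mul (by norm_num : Nat.Prime 7)).1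
      (h2.symm ▸ (by norm_num : 7 ∣ 40320))).resolve_left hL7
  obtain ⟨f, hf⟩ := exists_prime_orderOf_dvd_card' (G := K) 7 hK7
  rw [← Subgroup.orderOf_coe, ← Subgroup.orderOf_coe] at hf
  set PG : Subgroup G := PN.map N.subtype with hPG
  -- the Sylow subgroup has `2`, `4` or `8` nontrivial members
  have hcP : Nat.card PG = Nat.card (P : Subgroup L) := by
    rw [hPG, Subgroup.card_map_of_injective N.subtype_injective, hPN,
      Subgroup.card_map_of_injective L.subtype_injective]
  obtain ⟨k, hk⟩ := P.isPGroup'.exists_card_eq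
  have hk1 : 1 ≤ k := by
    rcases Nat.eq_zero_or_pos k with rfl | hk'
    · have h2 := P.dvd_card_of_dvd_card hdvd
      rw [hk, pow_zero] at h2
      exact absurd (Nat.dvd_one.1 h2) (Fact.out : p.Prime).one_lt.ne'
    · exact hk'
  have hdiv : p ^ k ∣ 40320 := by
    rw [← hk, ← card_stab h hs v]
    exact (Subgroup.card_subgroup_dvd_card _).trans (Subgroup.card_subgroup_dvd_card L)
  have h7S : ¬ 7 ∣ Nat.card {x : G | x ∈ PG ∧ x ≠ 1} := by
    have h2 := CfsgLib.M22Count.HexGraph.card_split_one (p := fun x => x ∈ PG) (one_mem _)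
    have h3 : Nat.card {x : G // x ∈ PG} = p ^ k := hcP.trans hk
    have e : Nat.card {x : G | x ∈ PG ∧ x ≠ 1} = p ^ k - 1 := by
      change Nat.card {x : G // x ∈ PG ∧ x ≠ 1} = _
      omega
    rw [e]
    have hk3 : k ≤ 2 := by
      by_contra hk3
      have h3' : p ^ 3 ∣ 40320 := (pow_dvd_pow p (by omega)).trans hdiv
      rcases hp with rfl | rfl <;> norm_num at h3'
    rcases hp with rfl | rfl <;> interval_cases k <;> norm_num
  obtain ⟨x, ⟨hx, x1⟩, hfx⟩ := exists_fixed hf {x : G | x ∈ PG ∧ x ≠ 1} (fun x hx => by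
    refine ⟨?_, fun e => hx.2 (by
      simpa [mul_assoc] using congrArg (fun t => ((f : N) : G)⁻¹ * t * ((f : N) : G)) e)⟩
    obtain ⟨y, hy, rfl⟩ := hx.1
    exact ⟨(f : N) * y * (f : N)⁻¹, (Subgroup.mem_normalizer_iff.1 f.2 y).1 hy, rfl⟩) h7S
  -- a power of order `p` centralises it as well
  have hox : ∃ i, orderOf x = p ^ i := by
    obtain ⟨i, -, hi⟩ := (Nat.dvd_prime_pow (Fact.out : p.Prime) (m := k)).1
      (orderOf_dvd_of_pow_eq_one (show x ^ p ^ k = 1 by
        have h2 : (⟨x, hx⟩ : PG) ^ Nat.card PG = 1 := pow_card_eq_one'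
        rw [hcP, hk] at h2
        exact congrArg Subtype.val h2))
    exact ⟨i, hi⟩
  obtain ⟨i, hi⟩ := hox
  have hpx : p ∣ orderOf x := by
    rcases Nat.eq_zero_or_pos i with rfl | hi'
    · exact absurd (orderOf_eq_one_iff.1 (hi.trans (pow_zero p))) x1
    · exact hi ▸ dvd_pow_self p hi'.ne'
  have hy : orderOf (x ^ (orderOf x / p)) = p := orderOf_pow_orderOf_div (orderOf_pos x).ne' hpx
  have hmem : ((f : N) : G) ∈ Subgroup.centralizer ({x ^ (orderOf x / p)} : Set G) :=
    Subgroup.mem_centralizer_singleton_iff.2 (hfx.pow_right _).eq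
  have h7 := Subgroup.orderOf_dvd_natCard _ hmem
  rw [hf] at h7
  rcases hp with rfl | rfl
  · rw [hs.cent_three _ hy] at h7; norm_num at h7
  · rw [hs.cent_five _ hy] at h7; norm_num at h7

theorem ker_eq (v : Vert E) :
    (piHom h hs v).ker = (sub E v).subgroupOf (MulAction.stabilizer G v) := by
  classical
  haveI : Fact (Nat.Prime 2) := ⟨by norm_num⟩
  refine le_antisymm ?_ (sub_le_ker h hs)
  set L := (piHom h hs v).ker with hL
  -- the kernel is a two-group
  have h2 : IsPGroup 2 L := by
    refine IsPGroup.iff_card.2 ⟨(Nat.card L).primeFactorsList.length,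
      Nat.eq_prime_pow_of_unique_prime_dvd Nat.card_pos.ne' ?_⟩
    intro q hq hqd
    have hq' : q ∣ 2 ^ 7 * (3 ^ 2 * (5 * 7)) := by
      norm_num
      rw [← card_stab h hs v]
      exact hqd.trans (Subgroup.card_subgroup_dvd_card L)
    rcases (Nat.Prime.dvd_mul hq).1 hq' with h' | h'
    · exact (Nat.prime_dvd_prime_iff_eq hq Nat.prime_two).1 (hq.dvd_of_dvd_pow h')
    exfalso
    rcases (Nat.Prime.dvd_mul hq).1 h' with h' | h'
    · obtain rfl := (Nat.prime_dvd_prime_iff_eq hq Nat.prime_three).1 (hq.dvd_of_dvd_pow h')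
      exact ker_no_three_five h hs (Or.inl rfl) hqd
    rcases (Nat.Prime.dvd_mul hq).1 h' with h' | h'
    · obtain rfl := (Nat.prime_dvd_prime_iff_eq hq (by norm_num)).1 h'
      exact ker_no_three_five h hs (Or.inr rfl) hqd
    · obtain rfl := (Nat.prime_dvd_prime_iff_eq hq (by norm_num : Nat.Prime 7)).1 h'
      haveI : Fact (Nat.Prime 7) := ⟨by norm_num⟩
      obtain ⟨y, hy⟩ := exists_prime_orderOf_dvd_card' (G := L) 7 hqd
      rw [← Subgroup.orderOf_coe, ← Subgroup.orderOf_coe] at hy
      exact seven_not_mem_ker h hs hy y.2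
  -- so it centralises a nontrivial member of the subgroup at `v`
  let T := {a : G // a ∈ sub E v ∧ a ≠ 1}
  letI : MulAction L T :=
    { smul := fun g a => ⟨((g : MulAction.stabilizer G v) : G) * a.1 * ((g : MulAction.stabilizer G v) : G)⁻¹,
        conj_mem h g.1.2 a.2.1, fun e => a.2.2 (by
          simpa [mul_assoc] using congrArg (fun t => ((g : MulAction.stabilizer G v) : G)⁻¹ * t *
            ((g : MulAction.stabilizer G v) : G)) e)⟩
      one_smul := fun a => Subtype.ext (show (1 : G) * a.1 * (1 : G)⁻¹ = a.1 by group)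
      mul_smul := fun b c a => Subtype.ext (by
        show ((b : MulAction.stabilizer G v) : G) * ((c : MulAction.stabilizer G v) : G) * a.1 *
            (((b : MulAction.stabilizer G v) : G) * ((c : MulAction.stabilizer G v) : G))⁻¹ =
          ((b : MulAction.stabilizer G v) : G) * (((c : MulAction.stabilizer G v) : G) * a.1 *
            ((c : MulAction.stabilizer G v) : G)⁻¹) * ((b : MulAction.stabilizer G v) : G)⁻¹
        group) }
  obtain ⟨t, ht⟩ := h2.nonempty_fixed_point_of_prime_not_dvd_card T (by
    rw [show Nat.card T = 15 from card_punct h hs v]; norm_num)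
  intro g hg
  refine ker_cent h hs t.2.1 t.2.2 ⟨g, hg, rfl⟩ ?_
  have := congrArg Subtype.val (ht ⟨g, hg⟩)
  exact mul_inv_eq_iff_eq_mul.1 this

theorem range_eq (v : Vert E) : (piHom h hs v).range = alternatingGroup (Fin 7) := by
  have hc : Nat.card (piHom h hs v).range = 2520 := by
    have h2 := (piHom h hs v).ker.card_mul_index
    have h16 : Nat.card (piHom h hs v).ker = 16 := by
      rw [ker_eq h hs v]
      exact (Nat.card_congr (Subgroup.subgroupOfEquivOfLe fun e he => sub_fix h he).toEquiv).trans
        (hept h v).card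
    rw [h16, card_stab h hs v, Subgroup.index_ker] at h2
    omega
  apply Equiv.Perm.eq_alternatingGroup_of_index_eq_two
  have h2 := (piHom h hs v).range.card_mul_index
  rw [hc, Nat.card_perm, Nat.card_fin, show Nat.factorial 7 = 5040 from rfl] at h2
  omega

theorem faithful : FaithfulSMul G (Vert E) := by
  refine ⟨fun {g k} hgk => ?_⟩
  have hfix : ∀ v : Vert E, (k⁻¹ * g) • v = v := fun v => by
    rw [mul_smul, hgk v, inv_smul_smul]
  have hmem : ∀ v : Vert E, k⁻¹ * g ∈ sub E v := fun v => by
    have hk : (⟨k⁻¹ * g, hfix v⟩ : MulAction.stabilizer G v) ∈ (piHom h hs v).ker := by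
      rw [mem_ker_iff]
      intro c
      induction c using Quotient.inductionOn with
      | h w => exact congrArg (Quotient.mk _) (Subtype.ext (hfix w.1))
    rw [ker_eq h hs v] at hk
    exact hk
  obtain ⟨⟨w, hw⟩⟩ : Nonempty (Far E (base E)) := by
    have h112 : Nat.card (Far E (base E)) = 112 := (card_near_far h hs (base E)).2
    exact (Nat.card_pos_iff.1 (by omega)).1
  by_contra hne
  exact hw.1 (eq_of_mem h (hmem _) (hmem _) fun e => hne (inv_mul_eq_one.1 e).symm)

/-- The geometry without triples on the conjugates of a heptad. -/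
noncomputable def preGeom : PreGeom G (Vert E) where
  sub := sub E
  far := far E
  π := piHom h hs
  pt := point h hs
  card_V := card_vert h hs
  trans := fun v w => MulAction.exists_smul_eq G v w
  sub_smul := sub_smul E
  sub_card := fun v => (hept h v).card
  sub_comm := fun v => (hept h v).comm
  sub_sq := fun v => (hept h v).sq
  sub_le := fun v _ ha => sub_fix h ha
  sub_disj := fun v w hvw => (Subgroup.eq_bot_iff_forall _).2 fun x hx =>
    by_contra fun x1 => hvw (eq_of_mem h hx.1 hx.2 x1)
  card_stab := card_stab h hs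
  sub_self_cent := fun v => (hept h v).self_cent
  sub_trans := fun v a ha b hb a1 b1 => by
    rw [stab_eq h v]; exact (hept h v).trans a ha b hb a1 b1
  sub_lines := fun v t ht t1 a ha b hb a1 a2 b1 b2 => by
    obtain ⟨g, hg, e⟩ := ((hept h v).core t ht t1).lines a ha b hb a1 a2 b1 b2
    exact ⟨g, smul_eq_of_commute h ht t1 hg, hg, e⟩
  small := fun v a ha => (hept h v).small a (by rw [← stab_eq h v]; exact ha)
  far_iff := far_iff h
  far_symm := fun _ _ => far_symm h
  near_card := fun _ _ hvw hn => near_card h hvw hn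
  near_comm := fun v w hvw a ha b hb => parts_comm h hvw ha.1 ha.2 hb.1 hb.2
  semireg := fun _ _ hf _ he hew => semireg h hf he hew
  π_ker := ker_eq h hs
  π_range := range_eq h hs
  pt_smul := fun _ _ g hw => piHom_point h hs g hw
  pt_eq_iff := fun v w w' hw hw' => by
    rw [point_of h hs hw, point_of h hs hw', EmbeddingLike.apply_eq_iff_eq]
    exact ⟨fun e => Quotient.exact e, fun e => Quotient.sound e⟩
  pt_surj := fun v i => by
    obtain ⟨⟨w, hw⟩, e⟩ := Quotient.exists_rep ((num h hs v).symm i)
    refine ⟨w, hw, ?_⟩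
    rw [point_of h hs hw, e, Equiv.apply_symm_apply]

end CfsgLib.M23Count.Orbits

namespace CfsgLib.M23Count

universe u

/-- The conjugates of a heptad carry the geometry without triples. -/
theorem exists_preGeom {G : Type u} [Group G] [Finite G] {E : Subgroup G} (hs : Setup G)
    (h : Heptad E) :
    ∃ (V : Type u) (_ : MulAction G V) (_ : FaithfulSMul G V), Nonempty (PreGeom G V) :=
  ⟨Orbits.Vert E, inferInstance, Orbits.faithful h hs, ⟨Orbits.preGeom h hs⟩⟩

end CfsgLib.M23Count
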