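import Cfsg.Agent.M23Count.OrbitsConj
import Cfsg.Agent.M22Count.Graph
import Mathlib.GroupTheory.Perm.Cycle.Type

/-!
The 253 conjugates of a heptad: every involution lies in one of them, and seen from one of them the
others fall into 140 near ones and 112 far ones.
-/

set_option autoImplicit false
set_option linter.style.haveILetI false
set_option linter.unusedSectionVars false

open MulAction

namespace CfsgLib.M23Count.Orbits

universe u

variable {G : Type u} [Group G] (E : Subgroup G)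

/-- The vertices: the cosets of the normaliser. -/
abbrev Vert : Type u := G ⧸ Subgroup.normalizer (E : Set G)

/-- The base vertex. -/
def base : Vert E := ((1 : G) : G ⧸ Subgroup.normalizer (E : Set G))

/-- The conjugate of `E` at a vertex. -/
noncomputable def sub (v : Vert E) : Subgroup G :=
  E.map (MulAut.conj (Quotient.out v)).toMonoidHom

theorem mem_sub_mk {g e : G} :
    e ∈ sub E (g : G ⧸ Subgroup.normalizer (E : Set G)) ↔ g⁻¹ * e * g ∈ E := by
  obtain ⟨n, hn⟩ := QuotientGroup.mk_out_eq_mul (Subgroup.normalizer (E : Set G)) g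
  rw [sub, mem_map_aut, MulAut.conj_symm_apply, hn,
    Subgroup.mem_normalizer_iff''.mp n.2 (g⁻¹ * e * g)]
  simp [mul_assoc]

theorem mem_sub_smul {x e : G} {v : Vert E} : x * e * x⁻¹ ∈ sub E (x • v) ↔ e ∈ sub E v := by
  induction v using QuotientGroup.induction_on with
  | H g =>
    rw [MulAction.Quotient.smul_coe, smul_eq_mul, mem_sub_mk, mem_sub_mk]
    simp [mul_assoc]

theorem mem_sub_smul' {x e : G} {v : Vert E} : e ∈ sub E (x • v) ↔ x⁻¹ * e * x ∈ sub E v := by
  conv_rhs => rw [← mem_sub_smul E (x := x)]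
  simp [mul_assoc]

theorem sub_smul (g : G) (v : Vert E) :
    sub E (g • v) = (sub E v).map (MulAut.conj g).toMonoidHom := by
  ext x
  rw [mem_map_aut, MulAut.conj_symm_apply, mem_sub_smul']

theorem mem_sub_base {e : G} : e ∈ sub E (base E) ↔ e ∈ E := by
  rw [base, mem_sub_mk]; simp

/-- The involutions of the stabiliser of `v` outside the subgroup at `v`. -/
abbrev Outer (v : Vert E) : Type u := {a : G // a • v = v ∧ orderOf a = 2 ∧ a ∉ sub E v}

/-- General position. -/
def far (v w : Vert E) : Prop := v ≠ w ∧ ∀ a ∈ sub E w, a • v = v → a = 1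

theorem far_smul {g : G} {v w : Vert E} (h : far E v w) : far E (g • v) (g • w) := by
  refine ⟨fun e => h.1 (smul_left_cancel g e), fun a ha hav => ?_⟩
  have ha' : g⁻¹ * a * g ∈ sub E w := (mem_sub_smul' E).1 ha
  have := h.2 _ ha' (by rw [mul_smul, mul_smul, hav, inv_smul_smul])
  simpa [mul_assoc] using congrArg (fun t => g * t * g⁻¹) this

theorem far_smul_iff {g : G} {v w : Vert E} (hg : g • v = v) : far E v (g • w) ↔ far E v w := by
  constructor
  · intro h
    have := far_smul E (g := g⁻¹) h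
    rwa [inv_smul_smul, inv_smul_eq_iff.2 hg.symm] at this
  · intro h
    simpa [hg] using far_smul E (g := g) h

variable {E}
variable (h : Heptad E)
include h

theorem hept (v : Vert E) : Heptad (sub E v) := heptad_aut h _

theorem sub_sq {v : Vert E} {a : G} (ha : a ∈ sub E v) : a * a = 1 := (hept h v).sq a ha

theorem orderOf_two {v : Vert E} {a : G} (ha : a ∈ sub E v) (h1 : a ≠ 1) : orderOf a = 2 :=
  orderOf_eq_prime (by rw [pow_two]; exact sub_sq h ha) h1

theorem eq_of_mem {v w : Vert E} {e : G} (hv : e ∈ sub E v) (hw : e ∈ sub E w) (h1 : e ≠ 1) :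
    v = w := by
  induction v using QuotientGroup.induction_on with
  | H g =>
    induction w using QuotientGroup.induction_on with
    | H k =>
      rw [mem_sub_mk] at hv hw
      rw [QuotientGroup.eq]
      exact h.ti (g⁻¹ * k) _ hw
        (fun he => h1 (by simpa [mul_assoc] using congrArg (fun t => k * t * k⁻¹) he))
        (by simpa [mul_assoc] using hv)

theorem smul_eq_of_commute {v : Vert E} {a c : G} (ha : a ∈ sub E v) (h1 : a ≠ 1)
    (hc : Commute c a) : c • v = v := by
  have h2 : c * a * c⁻¹ ∈ sub E (c • v) := (mem_sub_smul E).mpr ha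
  rw [hc.eq, mul_inv_cancel_right] at h2
  exact eq_of_mem h h2 ha h1

theorem exists_ne_one (v : Vert E) : ∃ a ∈ sub E v, a ≠ 1 := by
  by_contra hn
  push Not at hn
  have : sub E v = ⊥ := (Subgroup.eq_bot_iff_forall _).2 hn
  have h16 := (hept h v).card
  rw [this, Subgroup.card_bot] at h16
  omega

theorem stab_eq (v : Vert E) :
    MulAction.stabilizer G v = Subgroup.normalizer (sub E v : Set G) := by
  ext g
  rw [MulAction.mem_stabilizer_iff, Subgroup.mem_normalizer_iff]
  constructor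
  · intro hg e
    conv_rhs => rw [← hg]
    exact (mem_sub_smul E).symm
  · intro hg
    obtain ⟨a, ha, a1⟩ := exists_ne_one h v
    have h2 : g * a * g⁻¹ ∈ sub E v := (hg a).1 ha
    exact eq_of_mem h ((mem_sub_smul E).2 ha) h2
      fun e => a1 (by simpa [mul_assoc] using congrArg (fun t => g⁻¹ * t * g) e)

theorem conj_mem {v : Vert E} {g e : G} (hg : g • v = v) (he : e ∈ sub E v) :
    g * e * g⁻¹ ∈ sub E v := by
  have h2 := (mem_sub_smul E (x := g)).2 he
  rwa [hg] at h2

theorem sub_fix {v : Vert E} {a : G} (ha : a ∈ sub E v) : a • v = v := by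
  rw [← MulAction.mem_stabilizer_iff, stab_eq h v]
  exact Subgroup.le_normalizer ha

theorem not_mem_of_ne {v w : Vert E} (hvw : v ≠ w) {a : G} (ha : a ∈ sub E w) (h1 : a ≠ 1) :
    a ∉ sub E v := fun he => hvw (eq_of_mem h he ha h1)

theorem parts_comm {v w : Vert E} (hvw : v ≠ w) {a b : G} (ha : a ∈ sub E w) (hav : a • v = v)
    (hb : b ∈ sub E v) (hbw : b • w = w) : a * b = b * a := by
  by_contra hne
  have hne' : a * b * a⁻¹ * b⁻¹ ≠ 1 := fun he => hne (by
    calc a * b = a * b * a⁻¹ * b⁻¹ * (b * a) := by group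
      _ = b * a := by rw [he, one_mul])
  refine not_mem_of_ne h hvw ?_ hne' (mul_mem (conj_mem h hav hb) (inv_mem hb))
  have h2 : b * a⁻¹ * b⁻¹ ∈ sub E w := conj_mem h hbw (inv_mem ha)
  simpa [mul_assoc] using mul_mem ha h2

variable [Finite G]

/-- An involution of a stabiliser outside the subgroup there centralises four of its elements. -/
theorem card_cent {v : Vert E} {a : G} (hav : a • v = v) (ha2 : orderOf a = 2)
    (han : a ∉ sub E v) : Nat.card {b : G // b ∈ sub E v ∧ Commute b a} = 4 := by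
  rw [← (hept h v).small a (by rw [← stab_eq h v]; exact hav) ha2 han]
  refine Nat.card_congr (Equiv.subtypeEquivRight fun b => ?_)
  rw [Subgroup.mem_inf, Subgroup.mem_centralizer_singleton_iff]
  rfl

theorem exists_cent {v : Vert E} {a : G} (hav : a • v = v) (ha2 : orderOf a = 2)
    (han : a ∉ sub E v) : ∃ b ∈ sub E v, Commute b a ∧ b ≠ 1 := by
  obtain ⟨b, hb, b1⟩ := CfsgLib.M22Count.HexGraph.exists_ne_one_of_card_four (card_cent h hav ha2 han)
  exact ⟨b, hb.1, hb.2, b1⟩

theorem fix_of_part {v w : Vert E} (hvw : v ≠ w) {a : G} (ha : a ∈ sub E w) (a1 : a ≠ 1)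
    (hav : a • v = v) : ∃ b ∈ sub E v, b ≠ 1 ∧ b • w = w := by
  obtain ⟨b, hb, hc, b1⟩ :=
    exists_cent h hav (orderOf_two h ha a1) (not_mem_of_ne h hvw ha a1)
  exact ⟨b, hb, b1, smul_eq_of_commute h ha a1 hc⟩

theorem far_symm {v w : Vert E} (hf : far E v w) : far E w v := by
  refine ⟨hf.1.symm, fun b hb hbw => ?_⟩
  by_contra b1
  obtain ⟨a, ha, a1, hav⟩ := fix_of_part h hf.1.symm hb b1 hbw
  exact a1 (hf.2 a ha hav)

theorem semireg {v w : Vert E} (hf : far E v w) {e : G} (he : e ∈ sub E v) (hew : e • w = w) :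
    e = 1 := (far_symm h hf).2 e he hew

theorem far_iff (v w : Vert E) :
    far E v w ↔ v ≠ w ∧ sub E w ⊓ MulAction.stabilizer G v = ⊥ := by
  rw [Subgroup.eq_bot_iff_forall]
  simp only [Subgroup.mem_inf, MulAction.mem_stabilizer_iff, and_imp]
  rfl

theorem exists_part {v w : Vert E} (hvw : v ≠ w) (hn : ¬ far E v w) :
    ∃ a ∈ sub E w, a ≠ 1 ∧ a • v = v := by
  by_contra hc
  push Not at hc
  exact hn ⟨hvw, fun a ha hav => by_contra fun a1 => hc a ha a1 hav⟩

theorem card_fix {v w : Vert E} (hvw : v ≠ w) (hn : ¬ far E v w) :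
    Nat.card {b : G // b ∈ sub E v ∧ b • w = w} = 4 := by
  obtain ⟨a, ha, a1, hav⟩ := exists_part h hvw hn
  rw [← card_cent h hav (orderOf_two h ha a1) (not_mem_of_ne h hvw ha a1)]
  exact Nat.card_congr (Equiv.subtypeEquivRight fun b =>
    ⟨fun hb => ⟨hb.1, (parts_comm h hvw ha hav hb.1 hb.2).symm⟩,
      fun hb => ⟨hb.1, smul_eq_of_commute h ha a1 hb.2⟩⟩)

theorem near_symm {v w : Vert E} (hn : ¬ far E v w) : ¬ far E w v := fun hf => hn (far_symm h hf)

theorem near_card {v w : Vert E} (hvw : v ≠ w) (hn : ¬ far E v w) :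
    Nat.card ↥(sub E w ⊓ MulAction.stabilizer G v) = 4 := by
  rw [← card_fix h hvw.symm (near_symm h hn)]
  refine Nat.card_congr (Equiv.subtypeEquivRight fun b => ?_)
  rw [Subgroup.mem_inf, MulAction.mem_stabilizer_iff]

variable (hs : Setup G)
include hs

theorem card_vert : Nat.card (Vert E) = 253 := by
  have h2 := (Subgroup.normalizer (E : Set G)).index_mul_card
  rw [h.norm_card, hs.card] at h2
  rw [show Nat.card (Vert E) = (Subgroup.normalizer (E : Set G)).index from rfl]
  omega

theorem exists_sub {a : G} (ha : orderOf a = 2) : ∃ w : Vert E, a ∈ sub E w := by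
  obtain ⟨t, ht, t1⟩ := exists_ne_one h (base E)
  obtain ⟨g, rfl⟩ := isConj_iff.1 (hs.invol_conj t a (orderOf_two h ht t1) ha)
  exact ⟨g • base E, (mem_sub_smul E).2 ht⟩

omit h in
/-- An element of order seven commutes with at most one involution. -/
theorem invol_unique {f a b : G} (hf : orderOf f = 7) (ha : orderOf a = 2) (hb : orderOf b = 2)
    (hfa : Commute f a) (hfb : Commute f b) : a = b := by
  set C := Subgroup.centralizer ({f} : Set G) with hC
  set Z : Subgroup C := (Subgroup.zpowers f).subgroupOf C with hZ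
  have hfC : Subgroup.zpowers f ≤ C := by
    rw [Subgroup.zpowers_le, hC, Subgroup.mem_centralizer_singleton_iff]
  have hi : Z.index = 2 := by
    have h2 := Z.card_mul_index
    rw [Nat.card_congr (Subgroup.subgroupOfEquivOfLe hfC).toEquiv, Nat.card_zpowers, hf,
      show Nat.card C = 14 from hs.cent_seven f hf] at h2
    omega
  have hout : ∀ x : C, orderOf (x : G) = 2 → x ∉ Z := by
    intro x hx hxZ
    have h2 := orderOf_dvd_of_mem_zpowers (Subgroup.mem_subgroupOf.1 hxZ)
    rw [hx, hf] at h2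
    norm_num at h2
  let a' : C := ⟨a, Subgroup.mem_centralizer_singleton_iff.2 hfa.symm.eq⟩
  let b' : C := ⟨b, Subgroup.mem_centralizer_singleton_iff.2 hfb.symm.eq⟩
  have hab : a * b ∈ Subgroup.zpowers f := by
    have : a' * b' ∈ Z := (Subgroup.mul_mem_iff_of_index_two hi).2
      (iff_of_false (hout a' ha) (hout b' hb))
    exact Subgroup.mem_subgroupOf.1 this
  have hca : Commute a (a * b) := by
    obtain ⟨k, hk⟩ := hab
    rw [← hk]
    exact hfa.symm.zpow_right k
  have hcab : Commute a b := mul_left_cancel (hca.eq.trans (mul_assoc a b a))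
  have hsq : ∀ x : G, orderOf x = 2 → x * x = 1 := fun x hx => by
    rw [← pow_two, ← hx]; exact pow_orderOf_eq_one x
  have h2 : (a * b) * (a * b) = 1 := by
    calc (a * b) * (a * b) = a * (b * a) * b := by group
      _ = a * (a * b) * b := by rw [hcab.eq]
      _ = (a * a) * (b * b) := by group
      _ = 1 := by rw [hsq a ha, hsq b hb, one_mul]
  have h7 : orderOf (a * b) = 1 := by
    have d1 : orderOf (a * b) ∣ 7 := hf ▸ orderOf_dvd_of_mem_zpowers hab
    have d2 : orderOf (a * b) ∣ 2 := orderOf_dvd_of_pow_eq_one (by rw [pow_two]; exact h2)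
    exact Nat.eq_one_of_dvd_coprimes (by norm_num) d1 d2
  have hab1 : a * b = 1 := orderOf_eq_one_iff.1 h7
  rw [eq_inv_of_mul_eq_one_left hab1]
  exact inv_eq_of_mul_eq_one_right (hsq b hb)

omit h hs in
/-- An element of order seven normalising a set of size prime to seven centralises a member. -/
theorem exists_fixed {f : G} (hf : orderOf f = 7) (S : Set G) (hS : ∀ x ∈ S, f * x * f⁻¹ ∈ S)
    (hc : ¬ 7 ∣ Nat.card S) : ∃ x ∈ S, Commute f x := by
  classical
  haveI := Fintype.ofFinite S
  haveI : Fact (Nat.Prime 7) := ⟨by norm_num⟩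
  let m : S → S := fun x => ⟨f * x * f⁻¹, hS x x.2⟩
  have hm : Function.Injective m := fun x y e => Subtype.ext
    (mul_left_cancel (mul_right_cancel (congrArg Subtype.val e)))
  let σ : Equiv.Perm S := Equiv.ofBijective m ((Finite.injective_iff_bijective).1 hm)
  have hpow : ∀ (k : ℕ) (x : S), (((σ ^ k) x : S) : G) = f ^ k * x * (f ^ k)⁻¹ := by
    intro k
    induction k with
    | zero => intro x; simp
    | succ k ih =>
      intro x
      rw [pow_succ', Equiv.Perm.mul_apply]
      show f * (((σ ^ k) x : S) : G) * f⁻¹ = _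
      rw [ih x, pow_succ' f k]
      group
  have h7 : σ ^ 7 ^ 1 = 1 := by
    ext x
    rw [pow_one, hpow, ← hf, pow_orderOf_eq_one]
    simp
  obtain ⟨x, hx⟩ := Equiv.Perm.exists_fixed_point_of_prime
    (by rwa [← Nat.card_eq_fintype_card]) h7
  exact ⟨x, x.2, mul_inv_eq_iff_eq_mul.1 (congrArg Subtype.val hx)⟩

theorem card_punct (v : Vert E) : Nat.card {x : G // x ∈ sub E v ∧ x ≠ 1} = 15 := by
  have h2 := CfsgLib.M22Count.HexGraph.card_split_one (p := fun x => x ∈ sub E v) (one_mem _)
  have h16 : Nat.card {x : G // x ∈ sub E v} = 16 := (hept h v).card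
  omega

theorem exists_fixed_sub {f : G} (hf : orderOf f = 7) {v : Vert E} (hv : f • v = v) :
    ∃ t ∈ sub E v, t ≠ 1 ∧ Commute f t := by
  obtain ⟨t, ⟨ht, t1⟩, hc⟩ := exists_fixed hf {x : G | x ∈ sub E v ∧ x ≠ 1}
    (fun x hx => ⟨conj_mem h hv hx.1,
      fun e => hx.2 (by simpa [mul_assoc] using congrArg (fun t => f⁻¹ * t * f) e)⟩)
    (by
      rw [show Nat.card {x : G | x ∈ sub E v ∧ x ≠ 1} = 15 from card_punct h hs v]
      norm_num)
  exact ⟨t, ht, t1, hc⟩

/-- An element of order seven fixes at most one vertex. -/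
theorem seven_fix {f : G} (hf : orderOf f = 7) {v w : Vert E} (hv : f • v = v) (hw : f • w = w) :
    v = w := by
  obtain ⟨a, ha, a1, hca⟩ := exists_fixed_sub h hs hf hv
  obtain ⟨b, hb, b1, hcb⟩ := exists_fixed_sub h hs hf hw
  have := invol_unique hs hf (orderOf_two h ha a1) (orderOf_two h hb b1) hca hcb
  exact eq_of_mem h ha (this ▸ hb) a1

theorem card_outer_near (v : Vert E) :
    Nat.card (Outer E v) = 3 * Nat.card {w : Vert E // v ≠ w ∧ ¬ far E v w} := by
  classical
  haveI := Fintype.ofFinite {w : Vert E // v ≠ w ∧ ¬ far E v w}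
  have hfib : ∀ x : {w : Vert E // v ≠ w ∧ ¬ far E v w},
      Nat.card {a : G // (a ∈ sub E x.1 ∧ a • v = v) ∧ a ≠ 1} = 3 := by
    intro x
    have h4 := card_fix h x.2.1.symm (near_symm h x.2.2)
    rw [CfsgLib.M22Count.HexGraph.card_split_one ⟨one_mem _, one_smul _ _⟩] at h4
    omega
  let Φ : (Σ x : {w : Vert E // v ≠ w ∧ ¬ far E v w},
      {a : G // (a ∈ sub E x.1 ∧ a • v = v) ∧ a ≠ 1}) → Outer E v :=
    fun p => ⟨p.2.1, p.2.2.1.2, orderOf_two h p.2.2.1.1 p.2.2.2,
      not_mem_of_ne h p.1.2.1 p.2.2.1.1 p.2.2.2⟩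
  have hΦ : Function.Bijective Φ := by
    refine ⟨?_, ?_⟩
    · rintro ⟨⟨w, hw⟩, ⟨a, ha⟩⟩ ⟨⟨w', hw'⟩, ⟨a', ha'⟩⟩ e
      obtain rfl : a = a' := congrArg Subtype.val e
      obtain rfl : w = w' := eq_of_mem h ha.1.1 ha'.1.1 ha.2
      rfl
    · rintro ⟨a, hav, ha2, han⟩
      obtain ⟨w, hw⟩ := exists_sub h hs ha2
      have a1 : a ≠ 1 := fun e => han (e ▸ one_mem _)
      exact ⟨⟨⟨w, fun e => han (e ▸ hw), fun hf => a1 (hf.2 a hw hav)⟩, ⟨a, ⟨hw, hav⟩, a1⟩⟩, rfl⟩
  rw [← Nat.card_eq_of_bijective Φ hΦ, Nat.card_sigma]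
  simp only [hfib]
  rw [Finset.sum_const, smul_eq_mul, Finset.card_univ, Nat.card_eq_fintype_card, mul_comm]

theorem outer_count {v : Vert E} {t : G} (ht : t ∈ sub E v) (t1 : t ≠ 1) :
    3 * Nat.card (Outer E v) =
      15 * Nat.card {a : G // orderOf a = 2 ∧ a ∉ sub E v ∧ Commute a t} := by
  classical
  let E1 := {e : G // e ∈ sub E v ∧ e ≠ 1}
  haveI : Finite (Outer E v) := Subtype.finite
  haveI := Fintype.ofFinite (Outer E v)
  haveI := Fintype.ofFinite E1
  have hrow : ∀ a : Outer E v, Nat.card {e : E1 // Commute e.1 a.1} = 3 := by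
    intro a
    have h4 := card_cent h a.2.1 a.2.2.1 a.2.2.2
    rw [CfsgLib.M22Count.HexGraph.card_split_one ⟨one_mem _, Commute.one_left _⟩] at h4
    have e2 : {e : E1 // Commute e.1 a.1} ≃ {b : G // (b ∈ sub E v ∧ Commute b a.1) ∧ b ≠ 1} :=
      { toFun := fun e => ⟨e.1.1, ⟨e.1.2.1, e.2⟩, e.1.2.2⟩
        invFun := fun b => ⟨⟨b.1, b.2.1.1, b.2.2⟩, b.2.1.2⟩
        left_inv := fun _ => rfl
        right_inv := fun _ => rfl }
    rw [Nat.card_congr e2]
    omega
  have hcol : ∀ e : E1, Nat.card {a : Outer E v // Commute e.1 a.1} =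
      Nat.card {a : G // orderOf a = 2 ∧ a ∉ sub E v ∧ Commute a t} := by
    rintro ⟨e, he, he1⟩
    obtain ⟨n, hn, hne⟩ := (hept h v).trans t ht e he t1 he1
    rw [← stab_eq h v, MulAction.mem_stabilizer_iff] at hn
    have hmem : ∀ a : G, n * a * n⁻¹ ∈ sub E v ↔ a ∈ sub E v := fun a => by
      constructor
      · intro hm
        simpa [mul_assoc] using conj_mem h (inv_smul_eq_iff.2 hn.symm) hm
      · exact conj_mem h hn
    have k1 : ∀ a : {a : G // orderOf a = 2 ∧ a ∉ sub E v ∧ Commute a t},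
        (n * a.1 * n⁻¹) • v = v ∧ orderOf (n * a.1 * n⁻¹) = 2 ∧ n * a.1 * n⁻¹ ∉ sub E v ∧
          Commute e (n * a.1 * n⁻¹) := by
      intro a
      have hc : Commute e (n * a.1 * n⁻¹) := by
        rw [← hne, Commute.conj_iff]; exact a.2.2.2.symm
      exact ⟨smul_eq_of_commute h he he1 hc.symm,
        ((MulAut.conj n).orderOf_eq a.1).trans a.2.1, fun hm => a.2.2.1 ((hmem _).1 hm), hc⟩
    have k2 : ∀ a : {a : Outer E v // Commute e a.1},
        orderOf (n⁻¹ * a.1.1 * n) = 2 ∧ n⁻¹ * a.1.1 * n ∉ sub E v ∧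
          Commute (n⁻¹ * a.1.1 * n) t := by
      intro a
      have hx : n * (n⁻¹ * a.1.1 * n) * n⁻¹ = a.1.1 := by group
      refine ⟨?_, fun hm => a.1.2.2.2 (hx ▸ (hmem _).2 hm), ?_⟩
      · rw [← (MulAut.conj n).orderOf_eq, MulAut.conj_apply, hx]
        exact a.1.2.2.1
      · have h2 : Commute e a.1.1 := a.2
        have h3 : Commute (n * t * n⁻¹) (n * (n⁻¹ * a.1.1 * n) * n⁻¹) :=
          hne.symm ▸ hx.symm ▸ h2
        exact ((Commute.conj_iff n).1 h3).symm
    exact (Nat.card_congr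
      { toFun := fun a => (⟨⟨n * a.1 * n⁻¹, (k1 a).1, (k1 a).2.1, (k1 a).2.2.1⟩, (k1 a).2.2.2⟩ :
          {a : Outer E v // Commute e a.1})
        invFun := fun a => ⟨n⁻¹ * a.1.1 * n, k2 a⟩
        left_inv := fun a => Subtype.ext (by simp [mul_assoc])
        right_inv := fun a => Subtype.ext (Subtype.ext (by simp [mul_assoc])) }).symm
  have hcount : Nat.card (Σ a : Outer E v, {e : E1 // Commute e.1 a.1}) =
      Nat.card (Σ e : E1, {a : Outer E v // Commute e.1 a.1}) := Nat.card_congr
    { toFun := fun x => ⟨x.2.1, x.1, x.2.2⟩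
      invFun := fun x => ⟨x.2.1, x.1, x.2.2⟩
      left_inv := fun _ => rfl
      right_inv := fun _ => rfl }
  rw [Nat.card_sigma, Nat.card_sigma] at hcount
  simp only [hrow, hcol] at hcount
  rw [Finset.sum_const, Finset.sum_const, Finset.card_univ, Finset.card_univ] at hcount
  simp only [smul_eq_mul, ← Nat.card_eq_fintype_card] at hcount
  rw [show Nat.card E1 = 15 from card_punct h hs v] at hcount
  rw [mul_comm]
  exact hcount

theorem seven_dvd_outer {v : Vert E} {t : G} (ht : t ∈ sub E v) (t1 : t ≠ 1) :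
    7 ∣ Nat.card {a : G // orderOf a = 2 ∧ a ∉ sub E v ∧ Commute a t} := by
  by_contra hn
  haveI : Fact (Nat.Prime 7) := ⟨by norm_num⟩
  obtain ⟨f, hf⟩ := exists_prime_orderOf_dvd_card' (G := Subgroup.centralizer ({t} : Set G)) 7
    (by rw [hs.cent_invol t (orderOf_two h ht t1)]; norm_num)
  rw [← Subgroup.orderOf_coe] at hf
  have hft : Commute (f : G) t := Subgroup.mem_centralizer_singleton_iff.1 f.2
  have hfv : (f : G) • v = v := smul_eq_of_commute h ht t1 hft
  obtain ⟨a, ⟨ha2, han, -⟩, hfa⟩ := exists_fixed hf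
    {a : G | orderOf a = 2 ∧ a ∉ sub E v ∧ Commute a t}
    (fun a ha => ⟨((MulAut.conj (f : G)).orderOf_eq a).trans ha.1,
      fun hm => ha.2.1 (by
        simpa [mul_assoc] using conj_mem h (inv_smul_eq_iff.2 hfv.symm) hm), by
      have := (Commute.conj_iff (f : G)).2 ha.2.2
      rwa [hft.eq, mul_inv_cancel_right] at this⟩) hn
  exact han (invol_unique hs hf (orderOf_two h ht t1) ha2 hft hfa ▸ ht)

theorem card_near_far (v : Vert E) :
    Nat.card {w : Vert E // v ≠ w ∧ ¬ far E v w} = 140 ∧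
      Nat.card {w : Vert E // far E v w} = 112 := by
  classical
  haveI := Fintype.ofFinite (Vert E)
  obtain ⟨t, ht, t1⟩ := exists_ne_one h v
  have e1 := card_outer_near h hs v
  have e2 := outer_count h hs ht t1
  have e3 := seven_dvd_outer h hs ht t1
  have h4 : 4 ∣ Nat.card {w : Vert E | v ≠ w ∧ ¬ far E v w} := by
    refine CfsgLib.M22Count.HexGraph.dvd_card_of_stabilizer (sub E v) _ (fun g hg x hx => ?_) 4 4
      (by rw [(hept h v).card]) (by norm_num) fun x hx => card_fix h hx.1 hx.2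
    have hgv := sub_fix h hg
    refine ⟨fun e => hx.1 (smul_left_cancel g (hgv.trans e)), ?_⟩
    rw [far_smul_iff E hgv]
    exact hx.2
  have h16 : 16 ∣ Nat.card {w : Vert E | far E v w} := by
    refine CfsgLib.M22Count.HexGraph.dvd_card_of_stabilizer (sub E v) _ (fun g hg x hx => ?_) 1 16
      (by rw [(hept h v).card]) (by norm_num) fun x hx => ?_
    · exact (far_smul_iff E (sub_fix h hg)).2 hx
    · rw [Nat.card_eq_one_iff_unique]
      exact ⟨⟨fun a b => Subtype.ext ((semireg h hx a.2.1 a.2.2).trans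
        (semireg h hx b.2.1 b.2.2).symm)⟩, ⟨⟨1, one_mem _, one_smul _ _⟩⟩⟩
  have hsum : Nat.card {w : Vert E // v ≠ w ∧ ¬ far E v w} + Nat.card {w : Vert E // far E v w} + 1
      = 253 := by
    rw [← card_vert h hs]
    simp only [Nat.card_eq_fintype_card, Fintype.card_subtype]
    rw [← Finset.card_union_of_disjoint]
    · rw [← Finset.card_univ (α := Vert E),
        ← Finset.card_erase_add_one (s := (Finset.univ : Finset (Vert E))) (a := v)
          (Finset.mem_univ _)]
      congr 2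
      ext w
      simp only [Finset.mem_union, Finset.mem_filter, Finset.mem_univ, true_and, Finset.mem_erase,
        and_true]
      constructor
      · rintro (hm | hm)
        · exact hm.1.symm
        · exact hm.1.symm
      · intro hw
        by_cases hm : far E v w
        · exact Or.inr hm
        · exact Or.inl ⟨Ne.symm hw, hm⟩
    · rw [Finset.disjoint_filter]
      exact fun w _ hm ha => hm.2 ha
  have h4' : 4 ∣ Nat.card {w : Vert E // v ≠ w ∧ ¬ far E v w} := h4
  have h16' : 16 ∣ Nat.card {w : Vert E // far E v w} := h16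
  omega

end CfsgLib.M23Count.Orbits
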