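import Cfsg.Agent.M23Count.Defs

/-!
Heptads are carried to heptads by automorphisms.
-/

set_option autoImplicit false

namespace CfsgLib.M23Count.Orbits

universe u

variable {G : Type u} [Group G]

theorem mem_map_aut {φ : MulAut G} {P : Subgroup G} {x : G} :
    x ∈ P.map φ.toMonoidHom ↔ φ.symm x ∈ P :=
  Subgroup.mem_map_equiv

theorem mem_cent_aut {φ : MulAut G} {t x : G} :
    x ∈ Subgroup.centralizer ({φ t} : Set G) ↔ φ.symm x ∈ Subgroup.centralizer ({t} : Set G) := by
  rw [Subgroup.mem_centralizer_singleton_iff, Subgroup.mem_centralizer_singleton_iff]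
  constructor
  · intro h
    simpa using congrArg φ.symm h
  · intro h
    simpa using congrArg φ h

theorem normalizer_map_aut (φ : MulAut G) (P : Subgroup G) :
    Subgroup.normalizer (P.map φ.toMonoidHom : Set G) =
      (Subgroup.normalizer (P : Set G)).map φ.toMonoidHom := by
  ext x
  rw [mem_map_aut, Subgroup.mem_normalizer_iff, Subgroup.mem_normalizer_iff]
  constructor
  · intro h y
    have := h (φ y)
    simp only [mem_map_aut, map_mul, map_inv, MulEquiv.symm_apply_apply] at this
    exact this
  · intro h y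
    simp only [mem_map_aut, map_mul, map_inv]
    exact h (φ.symm y)

theorem centralizer_map_aut (φ : MulAut G) (P : Subgroup G) :
    Subgroup.centralizer (P.map φ.toMonoidHom : Set G) =
      (Subgroup.centralizer (P : Set G)).map φ.toMonoidHom := by
  ext x
  rw [mem_map_aut, Subgroup.mem_centralizer_iff, Subgroup.mem_centralizer_iff]
  constructor
  · intro h y hy
    have := h (φ y) (mem_map_aut.2 (by simpa using hy))
    simpa using congrArg φ.symm this
  · intro h y hy
    have := h _ (mem_map_aut.1 hy)
    simpa using congrArg φ this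

theorem card_map_aut (φ : MulAut G) (P : Subgroup G) :
    Nat.card ↥(P.map φ.toMonoidHom) = Nat.card P :=
  Subgroup.card_map_of_injective φ.injective

theorem core_aut {t : G} {F : Subgroup G} (h : Core t F) (φ : MulAut G) :
    Core (φ t) (F.map φ.toMonoidHom) where
  card := by rw [card_map_aut, h.card]
  comm := by
    rintro _ ⟨a, ha, rfl⟩ _ ⟨b, hb, rfl⟩
    rw [← map_mul, ← map_mul, h.comm a ha b hb]
  sq := by
    rintro _ ⟨a, ha, rfl⟩
    rw [← map_mul, h.sq a ha, map_one]
  mem := ⟨t, h.mem, rfl⟩
  le := fun x hx => mem_cent_aut.2 (h.le (mem_map_aut.1 hx))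
  normal := fun g hg a ha => by
    rw [mem_map_aut, map_mul, map_mul, map_inv]
    exact h.normal _ (by simpa using hg.map φ.symm.toMonoidHom) _ (mem_map_aut.1 ha)
  max := fun L hL hEL hn h7 => by
    have hF := h.max (L.map φ.symm.toMonoidHom)
      (fun x hx => by
        have := mem_cent_aut.1 (hL (mem_map_aut.1 hx))
        simpa using this)
      (fun x hx => mem_map_aut.2 (hEL (mem_map_aut.2 (by simpa using hx))))
      (fun g hg a ha => by
        rw [mem_map_aut, map_mul, map_mul, map_inv]
        exact hn _ (by simpa using hg.map φ.toMonoidHom) _ (mem_map_aut.1 ha))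
      (by rwa [card_map_aut])
    ext x
    rw [mem_map_aut, ← hF, mem_map_aut]
    simp
  self_cent := by rw [centralizer_map_aut, h.self_cent]
  lines := by
    rintro _ ⟨a, ha, rfl⟩ _ ⟨b, hb, rfl⟩ a1 at' b1 bt
    obtain ⟨g, hg, hgab⟩ := h.lines a ha b hb (fun e => a1 (by simp [e]))
      (fun e => at' (by simp [e])) (fun e => b1 (by simp [e])) fun e => bt (by simp [e])
    refine ⟨φ g, hg.map φ.toMonoidHom, hgab.imp (fun e => ?_) fun e => ?_⟩
    · simpa using congrArg φ e
    · simpa using congrArg φ e

theorem heptad_aut {F : Subgroup G} (h : Heptad F) (φ : MulAut G) :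
    Heptad (F.map φ.toMonoidHom) where
  card := by rw [card_map_aut, h.card]
  comm := by
    rintro _ ⟨a, ha, rfl⟩ _ ⟨b, hb, rfl⟩
    rw [← map_mul, ← map_mul, h.comm a ha b hb]
  sq := by
    rintro _ ⟨a, ha, rfl⟩
    rw [← map_mul, h.sq a ha, map_one]
  self_cent := by rw [centralizer_map_aut, h.self_cent]
  norm_card := by rw [normalizer_map_aut, card_map_aut, h.norm_card]
  core := by
    rintro _ ⟨u, hu, rfl⟩ hu1
    exact core_aut (h.core u hu fun e => hu1 (by simp [e])) φ
  cent_le := by
    rintro _ ⟨u, hu, rfl⟩ hu1 x hx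
    rw [normalizer_map_aut, mem_map_aut]
    exact h.cent_le u hu (fun e => hu1 (by simp [e])) (mem_cent_aut.1 hx)
  trans := by
    rintro _ ⟨u, hu, rfl⟩ _ ⟨w, hw, rfl⟩ u1 w1
    obtain ⟨n, hn, e⟩ := h.trans u hu w hw (fun e => u1 (by simp [e])) fun e => w1 (by simp [e])
    refine ⟨φ n, ?_, by simpa using congrArg φ e⟩
    rw [normalizer_map_aut]
    exact ⟨n, hn, rfl⟩
  ti := by
    rintro g _ ⟨u, hu, rfl⟩ u1 hm
    rw [normalizer_map_aut, mem_map_aut]
    refine h.ti _ u hu (fun e => u1 (by simp [e])) ?_
    rw [mem_map_aut] at hm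
    simpa using hm
  small := fun a ha h2 hna => by
    rw [normalizer_map_aut, mem_map_aut] at ha
    have key : F.map φ.toMonoidHom ⊓ Subgroup.centralizer ({a} : Set G) =
        (F ⊓ Subgroup.centralizer ({φ.symm a} : Set G)).map φ.toMonoidHom := by
      ext x
      simp only [Subgroup.mem_inf, mem_map_aut]
      refine and_congr_right fun _ => ?_
      conv_lhs => rw [← φ.apply_symm_apply a]
      exact mem_cent_aut
    rw [key, card_map_aut]
    exact h.small _ ha (by rw [MulEquiv.orderOf_eq]; exact h2) fun e => hna (mem_map_aut.2 e)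

end CfsgLib.M23Count.Orbits
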