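import Cfsg.Agent.M23Count.Cover

/-!
`Geom`: twenty-three points, the classes of flags.
-/

set_option autoImplicit false

open scoped Pointwise

namespace CfsgLib.M23Count

namespace Geom

universe u v

variable {G : Type u} {V : Type v} [Group G] [MulAction G V] (Γ : Geom G V)

/-- Flags joined by at most two edges. -/
def Linked (f f' : V × Fin 7) : Prop := f' = f ∨ Γ.Adj f f' ∨ Γ.Two f f'

/-- The class of a flag. -/
def star (f : V × Fin 7) : Set (V × Fin 7) := {f' | Γ.Linked f f'}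

/-- The move of a flag. -/
noncomputable def move (g : G) (f : V × Fin 7) : V × Fin 7 := (g • f.1, Γ.φ g f.1 f.2)

theorem linked_two [Finite G] {f g h : V × Fin 7} (h1 : Γ.Adj f g) (h2 : Γ.Adj g h) :
    Γ.Linked f h := by
  obtain ⟨hf1, hp1, hq1⟩ := h1
  obtain ⟨hf2, hp2, hq2⟩ := h2
  by_cases he : h.1 = f.1
  · refine Or.inl (Prod.ext he ?_)
    rw [← hq2, he, hp1]
  · exact Or.inr (Or.inr ⟨g.1, ⟨hf1, hp1, hf2, hp2.trans hq1.symm, he⟩, hq2⟩)

theorem linked_adj [Finite G] {f g h : V × Fin 7} (h1 : Γ.Linked f g) (h2 : Γ.Adj g h) :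
    Γ.Linked f h := by
  rcases h1 with rfl | h1 | ⟨w, hw, hq⟩
  · exact Or.inr (Or.inl h2)
  · exact Γ.linked_two h1 h2
  · obtain ⟨hf2, hp2, hq2⟩ := h2
    obtain ⟨x, i⟩ := f
    obtain ⟨z, r⟩ := h
    simp only at hw hf2 hp2 hq2
    have := Γ.closed hw (z := z) ⟨hf2, hp2.trans hq.symm⟩
    rw [hq2] at this
    exact Or.inr this

theorem linked_trans [Finite G] {f g h : V × Fin 7} (h1 : Γ.Linked f g) (h2 : Γ.Linked g h) :
    Γ.Linked f h := by
  rcases h2 with rfl | h2 | ⟨w, hw, hq⟩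
  · exact h1
  · exact Γ.linked_adj h1 h2
  · exact Γ.linked_adj (Γ.linked_adj h1 (h := (w, Γ.pt w g.1)) ⟨hw.1, hw.2.1, rfl⟩)
      ⟨hw.2.2.1, hw.2.2.2.1, hq⟩

theorem linked_symm {f g : V × Fin 7} (h : Γ.Linked f g) : Γ.Linked g f := by
  rcases h with rfl | ⟨h1, h2, h3⟩ | ⟨w, hw, hq⟩
  · exact Or.inl rfl
  · exact Or.inr (Or.inl ⟨Γ.far_symm _ _ h1, h3, h2⟩)
  · exact Or.inr (Or.inr ⟨w, hq ▸ Γ.paths_rev hw, hw.2.1⟩)

theorem star_eq_of_linked [Finite G] {f g : V × Fin 7} (h : Γ.Linked f g) :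
    Γ.star g = Γ.star f := by
  ext k
  exact ⟨fun hk => Γ.linked_trans h hk, fun hk => Γ.linked_trans (Γ.linked_symm h) hk⟩

theorem linked_vertex [Finite G] {x y : V} {i j : Fin 7} (h : Γ.Linked (x, i) (y, j)) :
    (y = x ∧ j = i) ∨ (Γ.far x y ∧ Γ.pt x y = i ∧ Γ.pt y x = j) ∨
      (Γ.near x y ∧ i ∈ Γ.tri x y) := by
  rcases h with h | ⟨h1, h2, h3⟩ | ⟨w, hw, -⟩
  · simp only [Prod.mk.injEq] at h
    exact Or.inl h
  · exact Or.inr (Or.inl ⟨h1, h2, h3⟩)
  · exact Or.inr (Or.inr (Γ.two_step hw))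

theorem linked_unique [Finite G] {f : V × Fin 7} {y : V} {j j' : Fin 7}
    (h : Γ.Linked f (y, j)) (h' : Γ.Linked f (y, j')) : j = j' := by
  rcases Γ.linked_vertex (Γ.linked_trans (Γ.linked_symm h) h') with ⟨-, e⟩ | ⟨hf, -⟩ | ⟨hn, -⟩
  · exact e.symm
  · exact absurd rfl (Γ.far_ne hf)
  · exact absurd rfl hn.1

theorem ncard_star [Finite G] (f : V × Fin 7) : (Γ.star f).ncard = 77 := by
  classical
  obtain ⟨x, i⟩ := f
  have := Γ.finite_V
  set T := {y | Γ.near x y ∧ i ∈ Γ.tri x y} with hT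
  have hinj : Set.InjOn Prod.fst (Γ.star (x, i)) := by
    rintro ⟨y, j⟩ hj ⟨y', j'⟩ hj' (rfl : y = y')
    have h2 : j = j' := Γ.linked_unique hj hj'
    rw [h2]
  have himg : Prod.fst '' Γ.star (x, i) = insert x (Γ.row x i ∪ T) := by
    ext y
    constructor
    · rintro ⟨⟨y, j⟩, hj, rfl⟩
      rcases Γ.linked_vertex hj with ⟨e, -⟩ | ⟨h1, h2, -⟩ | h
      · exact Or.inl e
      · exact Or.inr (Or.inl ⟨h1, h2⟩)
      · exact Or.inr (Or.inr h)
    · rintro (rfl | ⟨h1, h2⟩ | ⟨h1, h2⟩)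
      · exact ⟨(y, i), Or.inl rfl, rfl⟩
      · exact ⟨(y, Γ.pt y x), Or.inr (Or.inl ⟨h1, h2, rfl⟩), rfl⟩
      · obtain ⟨w, hw⟩ := Γ.exists_path h1 h2
        exact ⟨(y, Γ.pt y w), Or.inr (Or.inr ⟨w, hw, rfl⟩), rfl⟩
  rw [← hinj.ncard_image, himg, Set.ncard_insert_of_notMem, Set.ncard_union_eq, Γ.ncard_row,
    hT, Γ.orbit_sixty]
  · exact Set.disjoint_left.2 fun y hy hy' => hy'.1.2 hy.1
  · rintro (h | h)
    · exact Γ.far_ne h.1 rfl
    · exact h.1.1 rfl

theorem move_one (f : V × Fin 7) : Γ.move 1 f = f := by simp [move, Γ.φ_one]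

theorem move_mul (g h : G) (f : V × Fin 7) : Γ.move (g * h) f = Γ.move g (Γ.move h f) := by
  simp [move, mul_smul, Γ.φ_mul]

theorem adj_move (g : G) {f f' : V × Fin 7} (h : Γ.Adj f f') :
    Γ.Adj (Γ.move g f) (Γ.move g f') := by
  obtain ⟨h1, h2, h3⟩ := h
  refine ⟨(Γ.far_smul_iff g _ _).2 h1, ?_, ?_⟩
  · show Γ.pt (g • f.1) (g • f'.1) = Γ.φ g f.1 f.2
    rw [← Γ.φ_pt g h1, h2]
  · show Γ.pt (g • f'.1) (g • f.1) = Γ.φ g f'.1 f'.2
    rw [← Γ.φ_pt g (Γ.far_symm _ _ h1), h3]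

theorem linked_move [Finite G] (g : G) {f f' : V × Fin 7} (h : Γ.Linked f f') :
    Γ.Linked (Γ.move g f) (Γ.move g f') := by
  rcases h with rfl | h | ⟨w, hw, hq⟩
  · exact Or.inl rfl
  · exact Or.inr (Or.inl (Γ.adj_move g h))
  · exact Γ.linked_two (Γ.adj_move g (f' := (w, Γ.pt w f.1)) ⟨hw.1, hw.2.1, rfl⟩)
      (Γ.adj_move g ⟨hw.2.2.1, hw.2.2.2.1, hq⟩)

theorem star_move [Finite G] (g : G) (f : V × Fin 7) :
    Γ.move g '' Γ.star f = Γ.star (Γ.move g f) := by
  ext k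
  constructor
  · rintro ⟨k, hk, rfl⟩; exact Γ.linked_move g hk
  · intro hk
    refine ⟨Γ.move g⁻¹ k, ?_, by rw [← Γ.move_mul, mul_inv_cancel, Γ.move_one]⟩
    have := Γ.linked_move g⁻¹ hk
    rwa [← Γ.move_mul, inv_mul_cancel, Γ.move_one] at this

include Γ in
/-- The twenty-three points. -/
theorem hasPoints [Finite G] : HasPoints G V := by
  classical
  have := Γ.finite_V
  let Ω := ↥(Set.range Γ.star)
  have hΩ : Nat.card Ω = 23 := by
    let _ : Fintype (V × Fin 7) := Fintype.ofFinite _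
    let _ : Fintype Ω := Fintype.ofFinite _
    let p : V × Fin 7 → Ω := fun f => ⟨Γ.star f, f, rfl⟩
    have h := Finset.card_eq_sum_card_fiberwise (f := p) (s := Finset.univ) (t := Finset.univ)
      fun _ _ => Finset.mem_univ _
    have hfib : ∀ o : Ω, (Finset.univ.filter fun f => p f = o).card = 77 := by
      rintro ⟨_, f, rfl⟩
      rw [← Γ.ncard_star f, ← Set.ncard_coe_finset]
      congr 1
      ext k
      simp only [Finset.coe_filter, Finset.mem_univ, true_and, Set.mem_ofPred_eq, p]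
      refine ⟨fun e => ?_, fun hk => Subtype.ext (Γ.star_eq_of_linked hk)⟩
      have h' : Γ.star k = Γ.star f := congrArg Subtype.val e
      rw [← h']
      exact Or.inl rfl
    rw [Finset.sum_congr rfl (fun o _ => hfib o), Finset.sum_const, Finset.card_univ,
      Finset.card_univ, ← Nat.card_eq_fintype_card, Nat.card_prod, Γ.card_V, Nat.card_fin,
      smul_eq_mul, ← Nat.card_eq_fintype_card] at h
    omega
  obtain ⟨e⟩ : Nonempty (Ω ≃ Fin 23) := ⟨Finite.equivFinOfCardEq hΩ⟩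
  let mv : G → Ω → Ω := fun g o => ⟨Γ.move g '' (o : Set (V × Fin 7)), by
    obtain ⟨f, hf⟩ := o.2
    exact ⟨Γ.move g f, by rw [← hf, Γ.star_move]⟩⟩
  have hmv1 : ∀ o, mv 1 o = o := fun o => Subtype.ext (by simp [mv, Γ.move_one])
  have hmvm : ∀ g h o, mv (g * h) o = mv g (mv h o) := fun g h o => Subtype.ext (by
    simp [mv, Set.image_image, Γ.move_mul])
  let _ : MulAction G Ω := { smul := mv, one_smul := hmv1, mul_smul := hmvm }
  let pnt : V → Fin 7 → Fin 23 := fun w i => e ⟨Γ.star (w, i), (w, i), rfl⟩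
  let act : G →* Equiv.Perm (Fin 23) := e.permCongrHom.toMonoidHom.comp (MulAction.toPermHom G Ω)
  have hact : ∀ g o, act g (e o) = e (mv g o) := fun g o => by
    show e (g • e.symm (e o)) = e (mv g o)
    rw [Equiv.symm_apply_apply]; rfl
  have hpnt : ∀ g w i, act g (pnt w i) = pnt (g • w) (Γ.φ g w i) := fun g w i => by
    rw [hact]
    exact congrArg e (Subtype.ext (Γ.star_move g (w, i)))
  have hlink : ∀ {w w' i i'}, pnt w i = pnt w' i' → Γ.Linked (w, i) (w', i') := by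
    intro w w' i i' h
    have h' : Γ.star (w, i) = Γ.star (w', i') := congrArg Subtype.val (e.injective h)
    show (w', i') ∈ Γ.star (w, i)
    rw [h']; exact Or.inl rfl
  have hpinj : ∀ w, Function.Injective (pnt w) := fun w i j h =>
    Γ.linked_unique (f := (w, i)) (Or.inl rfl) (hlink h)
  let blk : V → Finset (Fin 23) := fun w => Finset.univ.image (pnt w)
  have hcard : ∀ w, (blk w).card = 7 := fun w => by
    rw [Finset.card_image_of_injective _ (hpinj w), Finset.card_univ, Fintype.card_fin]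
  have hmeet : ∀ w w', w ≠ w' → (blk w ∩ blk w').card ≤ 3 := by
    intro w w' hne
    have hle : blk w ∩ blk w' ⊆
        (if Γ.far w w' then {Γ.pt w w'} else Γ.tri w w').image (pnt w) := by
      intro k hk
      simp only [blk, Finset.mem_inter, Finset.mem_image, Finset.mem_univ, true_and] at hk
      obtain ⟨⟨i, rfl⟩, ⟨j, hj⟩⟩ := hk
      refine Finset.mem_image_of_mem _ ?_
      rcases Γ.linked_vertex (hlink hj.symm) with ⟨e', -⟩ | ⟨h1, h2, -⟩ | ⟨h1, h2⟩
      · exact absurd e'.symm hne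
      · rw [if_pos h1, h2]; exact Finset.mem_singleton_self _
      · rw [if_neg h1.2]; exact h2
    refine (Finset.card_le_card hle).trans (Finset.card_image_le.trans ?_)
    split_ifs with h
    · simp
    · rw [Γ.tri_card w w' hne h]
  have hblk : ∀ g w, blk (g • w) = (blk w).image (act g) := by
    intro g w
    symm
    refine Finset.eq_of_subset_of_card_le ?_ ?_
    · intro k hk
      simp only [blk, Finset.mem_image, Finset.mem_univ, true_and] at hk ⊢
      obtain ⟨_, ⟨i, rfl⟩, rfl⟩ := hk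
      exact ⟨Γ.φ g w i, (hpnt g w i).symm⟩
    · rw [Finset.card_image_of_injective _ (act g).injective, hcard, hcard]
  refine ⟨act, blk, (injective_iff_map_eq_one act).2 fun g hg => ?_, hcard, hblk, hmeet⟩
  have hfix : ∀ w : V, g • w = w := by
    intro w
    by_contra hne
    have h := hmeet _ _ hne
    rw [hblk, hg, Equiv.Perm.coe_one, Finset.image_id, Finset.inter_self, hcard] at h
    omega
  have hsub : ∀ w, g ∈ Γ.sub w := by
    intro w
    refine Γ.mem_sub_of_π_eq_one ⟨g, hfix w⟩ (Equiv.ext fun i => ?_)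
    have h := hpnt g w i
    rw [hg, Equiv.Perm.one_apply, hfix w] at h
    rw [← Γ.φ_stab ⟨g, hfix w⟩, Equiv.Perm.one_apply]
    exact (hpinj w h).symm
  obtain ⟨w₁⟩ : Nonempty V := (Nat.card_pos_iff.1 (by rw [Γ.card_V]; norm_num)).1
  obtain ⟨w₂, hw₂, -⟩ := Γ.pt_surj w₁ 0
  exact Subgroup.mem_bot.1 (Γ.sub_disj w₁ w₂ (Γ.far_ne hw₂) ▸ ⟨hsub w₁, hsub w₂⟩)

end Geom

end CfsgLib.M23Count
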