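import Mathlib.GroupTheory.Perm.Cycle.Type
import Mathlib.GroupTheory.SpecificGroups.Alternating
import Mathlib.GroupTheory.Sylow
import Mathlib.Tactic.Group
import Mathlib.Tactic.FinCases

/-!
Facts about seven points: an element of order three centralizing an even involution is a three-cycle
on its fixed points, and even permutations move any triple to any other. Counting lemmas for
equivariant maps with equal fibres.
-/

set_option autoImplicit false

namespace CfsgLib.M23Count

open Equiv

theorem card_fix_seven (a : Perm (Fin 7)) (h1 : a ≠ 1) (h2 : a * a = 1)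
    (hs : Perm.sign a = 1) : (Finset.univ.filter fun i => a i = i).card = 3 := by
  have ho : orderOf a = 2 := orderOf_eq_prime (by rw [pow_two, h2]) h1
  have : Fact (Nat.Prime 2) := ⟨Nat.prime_two⟩
  obtain ⟨k, hk⟩ := Perm.cycleType_prime_order (by rw [ho]; exact Nat.prime_two)
  rw [ho] at hk
  have hsum := Perm.sum_cycleType a
  have hsg := Perm.sign_of_cycleType a
  rw [hk, Multiset.sum_replicate, smul_eq_mul] at hsum
  rw [hk, Multiset.sum_replicate, Multiset.card_replicate, smul_eq_mul, hs] at hsg
  have hle : a.support.card ≤ 7 := (Finset.card_le_univ _).trans_eq (Fintype.card_fin 7)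
  have hfix : (Finset.univ.filter fun i => a i = i) = a.supportᶜ := by
    ext i
    simp
  rw [hfix, Finset.card_compl, Fintype.card_fin, ← hsum]
  have hk2 : k = 0 ∨ k = 1 ∨ k = 2 := by omega
  rcases hk2 with rfl | rfl | rfl
  · exact absurd hsg (by decide)
  · rfl
  · exact absurd hsg (by decide)

theorem fix_eq_of_three (a c : Perm (Fin 7)) (h1 : a ≠ 1) (h2 : a * a = 1)
    (hs : Perm.sign a = 1) (hc : orderOf c = 3) (hac : Commute a c) :
    (Finset.univ.filter fun i => a i = i) = c.support := by
  have hc3 : ∀ i, c (c (c i)) = i := fun i => by
    have h := pow_orderOf_eq_one c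
    rw [hc] at h
    simpa [pow_succ] using DFunLike.congr_fun h i
  have hcomm : ∀ i, a (c i) = c (a i) := fun i => by
    simpa using DFunLike.congr_fun hac.eq i
  have ha2 : ∀ i, a (a i) = i := fun i => by simpa using DFunLike.congr_fun h2 i
  have hfix3 := card_fix_seven a h1 h2 hs
  have key : ∀ i, a i ≠ i → c i = i := by
    intro i hi
    by_contra hci
    -- the two c-orbits of `i` and `a i` lie in the four moved points
    let S : Finset (Fin 7) := {i, c i, c (c i), a i, c (a i), c (c (a i))}
    have hS : S ⊆ a.support := by
      intro j hj
      simp only [S, Finset.mem_insert, Finset.mem_singleton] at hj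
      rw [Perm.mem_support]
      rcases hj with rfl | rfl | rfl | rfl | rfl | rfl
      · exact hi
      · rw [hcomm]; exact fun h => hi (c.injective h)
      · rw [hcomm, hcomm]; exact fun h => hi (c.injective (c.injective h))
      · rw [ha2]; exact fun h => hi h.symm
      · rw [hcomm, ha2]; exact fun h => hi (c.injective h).symm
      · rw [hcomm, hcomm, ha2]; exact fun h => hi (c.injective (c.injective h)).symm
    have hsupp : a.support.card = 4 := by
      have hfix : (Finset.univ.filter fun i => a i = i) = a.supportᶜ := by ext i; simp
      rw [hfix, Finset.card_compl, Fintype.card_fin] at hfix3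
      omega
    have h12 : c (c i) ≠ i := fun h => hci (by have := hc3 i; rwa [h] at this)
    have h21 : c (c i) ≠ c i := fun h => hci (c.injective h)
    have hcard : S.card = 6 := by
      have e1 : a i ≠ i := hi
      have e2 : a i ≠ c i := fun h => by
        have h' : c (a i) = i := by rw [← hcomm, ← h, ha2]
        rw [h] at h'
        exact h12 h'
      have e3 : a i ≠ c (c i) := fun h => by
        have h' : c (c (a i)) = i := by rw [← hcomm, ← hcomm, ← h, ha2]
        rw [h] at h'
        have := hc3 (c i)
        rw [h'] at this
        exact hci this.symm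
      simp only [S]
      rw [Finset.card_insert_of_notMem, Finset.card_insert_of_notMem, Finset.card_insert_of_notMem,
        Finset.card_insert_of_notMem, Finset.card_insert_of_notMem, Finset.card_singleton]
      all_goals simp only [Finset.mem_insert, Finset.mem_singleton, not_or]
      all_goals refine ?_
      · exact fun h => hci (by
          have := c.injective h
          rw [← hcomm] at this
          exact (a.injective this).symm)
      · refine ⟨fun h => hci (by
          have := a.injective (show a (c i) = a i by rw [hcomm]; exact h.symm)
          exact this), fun h => h12 (by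
          have := a.injective (show a (c (c i)) = a i by rw [hcomm, hcomm]; exact h.symm)
          exact this)⟩
      · exact ⟨fun h => e3 h.symm, fun h => e2 (c.injective h.symm).symm.symm |>.elim,
          fun h => e1 (c.injective (c.injective h)).symm⟩
      · exact ⟨fun h => h21 h.symm, fun h => e2 h.symm, fun h => e1 (c.injective h).symm,
          fun h => e2 (by
            have := c.injective h
            have h' : i = c (a i) := this
            exact absurd h'.symm (fun hh => e3 (by rw [← hc3 (a i), hh])))⟩
      · exact ⟨fun h => hci h.symm, fun h => h12 h.symm, fun h => e1 h.symm,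
          fun h => e3 (by rw [← hc3 (a i), ← h]),
          fun h => e2 (by rw [← hc3 (a i), ← h])⟩
    have := Finset.card_le_card hS
    omega
  refine (Finset.eq_of_subset_of_card_le (fun i hi => ?_) ?_).symm
  · rw [Perm.mem_support] at hi
    refine Finset.mem_filter.2 ⟨Finset.mem_univ i, ?_⟩
    by_contra h
    exact hi (key i h)
  · rw [hfix3]
    have : Fact (Nat.Prime 3) := ⟨Nat.prime_three⟩
    obtain ⟨k, hk⟩ := Perm.cycleType_prime_order (σ := c) (by rw [hc]; exact Nat.prime_three)
    have hsum := Perm.sum_cycleType c
    rw [hk, Multiset.sum_replicate, smul_eq_mul, hc] at hsum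
    omega

theorem exists_even_image {T T' : Finset (Fin 7)} (h : T.card = 3) (h' : T'.card = 3) :
    ∃ σ ∈ alternatingGroup (Fin 7), T.image σ = T' := by
  classical
  have e : {i // i ∈ T} ≃ {i // i ∈ T'} := Fintype.equivOfCardEq (by simp [h, h'])
  let σ : Perm (Fin 7) := e.extendSubtype
  have hσ : T.image σ = T' := by
    refine Finset.eq_of_subset_of_card_le (fun j hj => ?_)
      (by rw [Finset.card_image_of_injective _ σ.injective, h, h'])
    obtain ⟨i, hi, rfl⟩ := Finset.mem_image.1 hj
    exact e.extendSubtype_mem i hi
  rcases Int.units_eq_one_or (Perm.sign σ) with hs | hs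
  · exact ⟨σ, Perm.mem_alternatingGroup.2 hs, hσ⟩
  have hcompl : 1 < (Tᶜ).card := by rw [Finset.card_compl, Fintype.card_fin, h]; norm_num
  obtain ⟨p, hp, q, hq, hpq⟩ := Finset.one_lt_card.1 hcompl
  rw [Finset.mem_compl] at hp hq
  refine ⟨σ * Equiv.swap p q, Perm.mem_alternatingGroup.2 ?_, ?_⟩
  · rw [map_mul, hs, Perm.sign_swap hpq]; rfl
  · rw [← hσ]
    refine Finset.image_congr fun i hi => ?_
    rw [Perm.mul_apply, Equiv.swap_apply_of_ne_of_ne (fun hh => hp (by rw [← hh]; exact hi))
      (fun hh => hq (by rw [← hh]; exact hi))]

end CfsgLib.M23Count
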