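import Cfsg.Agent.M23Count.PreGeom
import Cfsg.Agent.M23Count.TripleAux
import Mathlib.GroupTheory.Index
import Mathlib.GroupTheory.Perm.Cycle.Type
import Mathlib.Data.Finset.Powerset

/-!
The triples at a vertex: a near vertex `w` gives a four-group in the stabilizer of `v` acting on the
seven points at `v`, and its common fixed points form the triple `tri v w`.
-/

set_option autoImplicit false

namespace CfsgLib.M23Count

universe u v

section Aux

variable {G : Type u} [Group G]

/-- Conjugation by elements normalizing a finite set, as permutations. -/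
noncomputable def conjPermHom (P A : Subgroup G) (h : ∀ p ∈ P, ∀ a ∈ A, p * a * p⁻¹ ∈ A) :
    ↥P →* Equiv.Perm ↥A where
  toFun p :=
    { toFun := fun a => ⟨(p : G) * a * (p : G)⁻¹, h _ p.2 _ a.2⟩
      invFun := fun a => ⟨(p : G)⁻¹ * a * (p : G), by
        simpa using h _ (P.inv_mem p.2) _ a.2⟩
      left_inv := fun a => by ext; simp [mul_assoc]
      right_inv := fun a => by ext; simp [mul_assoc] }
  map_one' := by ext; simp
  map_mul' p q := by ext; simp [mul_assoc]

theorem conjPermHom_ker (P A : Subgroup G) (h : ∀ p ∈ P, ∀ a ∈ A, p * a * p⁻¹ ∈ A) (p : ↥P)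
    (hp : conjPermHom P A h p = 1) : ∀ a ∈ A, Commute (p : G) a := by
  intro a ha
  have := congrArg Subtype.val (Equiv.ext_iff.1 hp ⟨a, ha⟩)
  simp only [conjPermHom, MonoidHom.coe_mk, OneHom.coe_mk, Equiv.coe_fn_mk,
    Equiv.Perm.one_apply] at this
  exact mul_inv_eq_iff_eq_mul.1 this

theorem card_perm_four {A : Subgroup G} [Finite ↥A] (hA : Nat.card A = 4) :
    Nat.card (Equiv.Perm ↥A) = 24 := by
  rw [Nat.card_perm, hA]; rfl

theorem commute_of_normalize {A : Subgroup G} (hA : Nat.card A = 4) {f : G}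
    (hn : ∀ a ∈ A, f * a * f⁻¹ ∈ A) (hf : Nat.Coprime (orderOf f) 24) :
    ∀ a ∈ A, Commute f a := by
  have : Finite ↥A := Nat.finite_of_card_ne_zero (by rw [hA]; norm_num)
  have hz : ∀ p ∈ Subgroup.zpowers f, ∀ a ∈ A, p * a * p⁻¹ ∈ A := by
    have hle : Subgroup.zpowers f ≤ Subgroup.normalizer (A : Set G) := by
      rw [Subgroup.zpowers_le]
      exact Subgroup.mem_normalizer_fintype hn
    exact fun p hp a ha => ((Subgroup.mem_normalizer_iff.1 (hle hp)) a).1 ha
  let φ := conjPermHom (Subgroup.zpowers f) A hz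
  have h1 : orderOf (φ ⟨f, Subgroup.mem_zpowers f⟩) = 1 := by
    apply Nat.dvd_one.1
    rw [← hf.gcd_eq_one]
    refine Nat.dvd_gcd ?_ (card_perm_four hA ▸ orderOf_dvd_natCard _)
    have h := orderOf_map_dvd φ ⟨f, Subgroup.mem_zpowers f⟩
    rwa [Subgroup.orderOf_mk] at h
  exact conjPermHom_ker _ _ hz _ (orderOf_eq_one_iff.1 h1)

theorem exists_three_centralizing {P A : Subgroup G} (hA : Nat.card A = 4) (hP : Nat.card P = 9)
    (h : ∀ p ∈ P, ∀ a ∈ A, p * a * p⁻¹ ∈ A) :
    ∃ c ∈ P, orderOf c = 3 ∧ ∀ a ∈ A, Commute c a := by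
  have : Finite ↥A := Nat.finite_of_card_ne_zero (by rw [hA]; norm_num)
  have : Finite ↥P := Nat.finite_of_card_ne_zero (by rw [hP]; norm_num)
  let φ := conjPermHom P A h
  have hker : Nat.card φ.ker ≠ 1 := by
    intro h1
    have hinj : Function.Injective φ := (MonoidHom.ker_eq_bot_iff φ).1 (Subgroup.card_eq_one.1 h1)
    have := Subgroup.card_dvd_of_injective φ hinj
    rw [hP, card_perm_four hA] at this
    norm_num at this
  have hdvd : Nat.card φ.ker ∣ 3 ^ 2 := by
    have := φ.ker.card_subgroup_dvd_card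
    rw [hP] at this
    exact this
  obtain ⟨k, hk, hk'⟩ := (Nat.dvd_prime_pow Nat.prime_three).1 hdvd
  have : Fact (Nat.Prime 3) := ⟨Nat.prime_three⟩
  obtain ⟨x, hx⟩ := exists_prime_orderOf_dvd_card' (G := φ.ker) 3 (by
    rw [hk']
    exact dvd_pow_self 3 (fun h0 => hker (by rw [hk', h0, pow_zero])))
  refine ⟨((x : ↥P) : G), (x : ↥P).2, ?_, conjPermHom_ker _ _ h _ x.2⟩
  rw [Subgroup.orderOf_coe, Subgroup.orderOf_coe, hx]

theorem card_nontrivial [DecidableEq G] (A : Subgroup G) [Fintype G] [DecidablePred (· ∈ A)] :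
    (Finset.univ.filter fun x : G => x ∈ A ∧ x ≠ 1).card = Nat.card A - 1 := by
  classical
  have h : (Finset.univ.filter fun x : G => x ∈ A ∧ x ≠ 1) =
      (Finset.univ.filter fun x : G => x ∈ A).erase 1 := by
    ext x
    simp [and_comm]
  rw [h, Finset.card_erase_of_mem (by simp), Nat.card_eq_fintype_card, Fintype.card_subtype]

/-- A function on a transitively permuted finite set, compatible with the permutations, has fibres
of equal size. -/
theorem card_eq_image_mul_fibre {α β : Type*} [DecidableEq β] (N : Finset α) (F : α → β)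
    (hmove : ∀ w ∈ N, ∀ w' ∈ N, ∃ g : α → α, Function.Injective g ∧ (∀ x ∈ N, g x ∈ N) ∧
      g w = w' ∧ ∀ x ∈ N, F x = F w → F (g x) = F (g w))
    (w : α) (hw : w ∈ N) :
    N.card = (N.image F).card * (N.filter fun x => F x = F w).card := by
  have hle : ∀ a ∈ N, ∀ b ∈ N,
      (N.filter fun x => F x = F a).card ≤ (N.filter fun x => F x = F b).card := by
    intro a ha b hb
    obtain ⟨g, hg, hgN, hgab, hgF⟩ := hmove a ha b hb
    refine Finset.card_le_card_of_injOn g (fun x hx => ?_) hg.injOn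
    rw [Finset.mem_coe, Finset.mem_filter] at hx ⊢
    exact ⟨hgN x hx.1, by rw [hgF x hx.1 hx.2, hgab]⟩
  rw [Finset.card_eq_sum_card_image F N, Finset.sum_const_nat (m := _) fun c hc => ?_]
  obtain ⟨a, ha, rfl⟩ := Finset.mem_image.1 hc
  exact le_antisymm (hle a ha w hw) (hle w hw a ha)

end Aux

namespace PreGeom

variable {G : Type u} {V : Type v} [Group G] [MulAction G V]

/-- Different and not in general position. -/
def Near (P : PreGeom G V) (x w : V) : Prop := x ≠ w ∧ ¬ P.far x w

/-- The triple at `x` belonging to `w`. -/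
noncomputable def triple (P : PreGeom G V) (x w : V) : Finset (Fin 7) := by
  classical
  exact Finset.univ.filter fun i =>
    ∀ a : ↥(MulAction.stabilizer G x), (a : G) ∈ P.sub w → P.π x a i = i

variable {P : PreGeom G V} {x w w' : V}

theorem mem_triple {i : Fin 7} : i ∈ P.triple x w ↔
    ∀ a : ↥(MulAction.stabilizer G x), (a : G) ∈ P.sub w → P.π x a i = i := by
  classical
  simp [triple]

theorem mem_sub_smul (g : G) {a : G} : a ∈ P.sub (g • w) ↔ g⁻¹ * a * g ∈ P.sub w := by
  rw [P.sub_smul, Subgroup.mem_map_equiv]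
  simp [MulAut.conj_symm_apply]

theorem mem_stab_smul (g : G) {a : G} :
    a ∈ MulAction.stabilizer G (g • w) ↔ g⁻¹ * a * g ∈ MulAction.stabilizer G w := by
  simp only [MulAction.mem_stabilizer_iff, mul_smul, inv_smul_eq_iff]

theorem conj_sub {h : G} (hh : h • x = x) {a : G} (ha : a ∈ P.sub x) :
    h * a * h⁻¹ ∈ P.sub x := by
  have : h * a * h⁻¹ ∈ P.sub (h • x) := by
    rw [mem_sub_smul]
    simpa [mul_assoc] using ha
  rwa [hh] at this

theorem π_eq_one (a : ↥(MulAction.stabilizer G x)) : P.π x a = 1 ↔ (a : G) ∈ P.sub x := by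
  rw [← MonoidHom.mem_ker, P.π_ker]
  exact Subgroup.mem_subgroupOf

theorem π_sign (a : ↥(MulAction.stabilizer G x)) : Equiv.Perm.sign (P.π x a) = 1 := by
  have : P.π x a ∈ (P.π x).range := ⟨a, rfl⟩
  rw [P.π_range] at this
  exact Equiv.Perm.mem_alternatingGroup.1 this

theorem far_smul {h : G} (hh : h • x = x) : P.far x (h • w) ↔ P.far x w := by
  rw [P.far_iff, P.far_iff, Subgroup.eq_bot_iff_forall, Subgroup.eq_bot_iff_forall]
  refine and_congr ⟨fun hne e => hne (by rw [← e, hh]), fun hne e => hne ?_⟩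
    ⟨fun H a ha => ?_, fun H a ha => ?_⟩
  · exact MulAction.injective h (hh.trans e)
  · obtain ⟨ha1, ha2⟩ := Subgroup.mem_inf.1 ha
    have := H (h * a * h⁻¹) (Subgroup.mem_inf.2
      ⟨(mem_sub_smul h).2 (by simpa [mul_assoc] using ha1), by
        rw [← hh, mem_stab_smul]; simpa [mul_assoc] using ha2⟩)
    exact conj_eq_one_iff.1 this
  · obtain ⟨ha1, ha2⟩ := Subgroup.mem_inf.1 ha
    have := H (h⁻¹ * a * h) (Subgroup.mem_inf.2 ⟨(mem_sub_smul h).1 ha1, by
      rw [← hh, mem_stab_smul] at ha2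
      exact ha2⟩)
    have h3 : h⁻¹ * a * h⁻¹⁻¹ = 1 := by rwa [inv_inv]
    exact conj_eq_one_iff.1 h3

theorem Near.symm (hw : P.Near x w) : P.Near w x :=
  ⟨hw.1.symm, fun h => hw.2 (P.far_symm _ _ h)⟩

theorem Near.smul (hw : P.Near x w) {h : G} (hh : h • x = x) : P.Near x (h • w) := by
  refine ⟨fun e => hw.1 (MulAction.injective h (hh.trans e)), fun hf => hw.2 ?_⟩
  exact (far_smul hh).1 hf

theorem card_far (P : PreGeom G V) (x : V) : Nat.card {w // P.far x w} = 112 := by
  choose r hr hr' using P.pt_surj x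
  have hfar : ∀ (i : Fin 7) (e : P.sub x), P.far x ((e : G) • r i) := fun i e =>
    (far_smul (P.sub_le x e.2)).2 (hr i)
  have hpt : ∀ (i : Fin 7) (e : P.sub x), P.pt x ((e : G) • r i) = i := fun i e => by
    have := P.pt_smul x (r i) ⟨e, P.sub_le x e.2⟩ (hr i)
    rw [(π_eq_one _).2 e.2, hr'] at this
    simpa using this
  let f : Fin 7 × P.sub x → {w // P.far x w} := fun p => ⟨(p.2 : G) • r p.1, hfar p.1 p.2⟩
  have hf : Function.Bijective f := by
    constructor
    · rintro ⟨i, e⟩ ⟨j, d⟩ h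
      have h' : (e : G) • r i = (d : G) • r j := congrArg Subtype.val h
      have hij : i = j := by rw [← hpt i e, h', hpt j d]
      subst hij
      have h1 := P.semireg x (r i) (hr i) ((d : G)⁻¹ * e) ((P.sub x).mul_mem
        ((P.sub x).inv_mem d.2) e.2) (by rw [mul_smul, h', inv_smul_smul])
      rw [inv_mul_eq_one] at h1
      exact Prod.ext rfl (Subtype.ext h1.symm)
    · rintro ⟨w, hw⟩
      obtain ⟨e, he, hew⟩ := (P.pt_eq_iff x (r (P.pt x w)) w (hr _) hw).1 (hr' _)
      exact ⟨(P.pt x w, ⟨e, he⟩), Subtype.ext hew⟩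
  rw [← Nat.card_eq_of_bijective f hf, Nat.card_prod, P.sub_card, Nat.card_fin]

theorem card_near (P : PreGeom G V) (x : V) : Nat.card {w // P.Near x w} = 140 := by
  classical
  have : Finite V := Nat.finite_of_card_ne_zero (by rw [P.card_V]; norm_num)
  let _ : Fintype V := Fintype.ofFinite V
  have hV := P.card_V
  have hfar := P.card_far x
  rw [Nat.card_eq_fintype_card, Fintype.card_subtype] at hfar ⊢
  rw [Nat.card_eq_fintype_card, ← Finset.card_univ] at hV
  have h : (Finset.univ.filter fun w => P.Near x w) =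
      (Finset.univ.filter fun w => ¬ P.far x w).erase x := by
    ext w
    simp only [Finset.mem_filter, Finset.mem_erase, Finset.mem_univ, true_and]
    exact and_congr ne_comm Iff.rfl
  rw [h, Finset.card_erase_of_mem (by simp [P.far_iff])]
  have := Finset.card_filter_add_card_filter_not (s := (Finset.univ : Finset V))
    (fun w => P.far x w)
  omega

theorem exists_near (P : PreGeom G V) (x : V) : ∃ w, P.Near x w := by
  obtain ⟨⟨w, hw⟩⟩ := (Nat.card_pos_iff.1 (by rw [P.card_near x]; norm_num :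
    0 < Nat.card {w // P.Near x w})).1
  exact ⟨w, hw⟩

theorem card_orbit_sub (hw : P.Near x w) :
    Nat.card (MulAction.orbit ↥(P.sub x) w) = 4 := by
  have hs : MulAction.stabilizer ↥(P.sub x) w =
      (MulAction.stabilizer G w).subgroupOf (P.sub x) := by
    ext e
    rw [Subgroup.mem_subgroupOf, MulAction.mem_stabilizer_iff, MulAction.mem_stabilizer_iff]
    rfl
  have hc : Nat.card ((MulAction.stabilizer G w).subgroupOf (P.sub x)) = 4 := by
    rw [← Subgroup.inf_subgroupOf_right, Nat.card_congr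
      (Subgroup.subgroupOfEquivOfLe inf_le_right).toEquiv, inf_comm]
    exact P.near_card w x hw.1.symm hw.symm.2
  have := Subgroup.index_mul_card (MulAction.stabilizer ↥(P.sub x) w)
  rw [MulAction.index_stabilizer, hs, hc, P.sub_card, ← Nat.card_coe_set_eq] at this
  omega

variable [Finite G]

omit [Finite G] in
theorem card_inter_stab_dvd (hw : P.Near x w) :
    4 * Nat.card ↥(MulAction.stabilizer G x ⊓ MulAction.stabilizer G w) ∣ 40320 := by
  set H := MulAction.stabilizer G x with hH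
  set E' := (P.sub x).subgroupOf H with hE'
  set K' := (MulAction.stabilizer G w).subgroupOf H with hK'
  have : E'.Normal := ⟨fun a ha h => by
    rw [hE', Subgroup.mem_subgroupOf] at ha ⊢
    exact conj_sub h.2 ha⟩
  have hI : Nat.card ↥(E' ⊓ K') = 4 := by
    rw [hE', hK', show (P.sub x).subgroupOf H ⊓ (MulAction.stabilizer G w).subgroupOf H =
        (P.sub x ⊓ MulAction.stabilizer G w).subgroupOf H from rfl, Nat.card_congr
      (Subgroup.subgroupOfEquivOfLe (inf_le_left.trans (P.sub_le x))).toEquiv]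
    exact P.near_card w x hw.1.symm hw.symm.2
  have hE : Nat.card E' = 16 := by
    rw [hE', Nat.card_congr (Subgroup.subgroupOfEquivOfLe (P.sub_le x)).toEquiv, P.sub_card]
  have hK : Nat.card K' = Nat.card ↥(H ⊓ MulAction.stabilizer G w) := by
    rw [hK', ← Subgroup.inf_subgroupOf_left, Nat.card_congr
      (Subgroup.subgroupOfEquivOfLe inf_le_left).toEquiv]
  have h1 : Nat.card ↥(E' ⊓ K') * E'.relIndex K' = Nat.card K' := by
    have := Subgroup.relIndex_mul_relIndex ⊥ (E' ⊓ K') K' bot_le inf_le_right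
    rwa [Subgroup.relIndex_bot_left, Subgroup.relIndex_bot_left,
      Subgroup.inf_relIndex_right] at this
  have h2 : Nat.card E' * E'.relIndex K' = Nat.card ↥(K' ⊔ E') := by
    have := Subgroup.relIndex_mul_relIndex ⊥ E' (K' ⊔ E') bot_le le_sup_right
    rwa [Subgroup.relIndex_bot_left, Subgroup.relIndex_bot_left,
      Subgroup.relIndex_sup_right] at this
  have h3 := (K' ⊔ E').card_subgroup_dvd_card
  rw [show Nat.card ↥H = 40320 from P.card_stab x, ← h2, hE] at h3
  rw [← hK, ← h1, hI, ← mul_assoc]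
  exact h3

theorem not_prime_dvd (hw : P.Near x w) {p : ℕ} (hp : p.Prime) (hp24 : Nat.Coprime p 24)
    (hc : ∀ f : G, orderOf f = p → ¬ 4 ∣ Nat.card (Subgroup.centralizer ({f} : Set G))) :
    ¬ p ∣ Nat.card ↥(MulAction.stabilizer G x ⊓ MulAction.stabilizer G w) := by
  intro hdvd
  have : Fact p.Prime := ⟨hp⟩
  obtain ⟨⟨f, hf1, hf2⟩, hf⟩ := exists_prime_orderOf_dvd_card' p hdvd
  rw [← Subgroup.orderOf_coe] at hf
  have hB : Nat.card ↥(P.sub x ⊓ MulAction.stabilizer G w) = 4 :=
    P.near_card w x hw.1.symm hw.symm.2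
  have hcomm := commute_of_normalize (f := f) hB (fun a ha => ⟨conj_sub hf1 ha.1, by
    exact Subgroup.mul_mem _ (Subgroup.mul_mem _ hf2 ha.2) (Subgroup.inv_mem _ hf2)⟩)
    (by rw [hf]; exact hp24)
  have hle : P.sub x ⊓ MulAction.stabilizer G w ≤ Subgroup.centralizer ({f} : Set G) := by
    intro a ha
    rw [Subgroup.mem_centralizer_singleton_iff]
    exact ((hcomm a ha).eq).symm
  exact hc f hf (hB ▸ Subgroup.card_dvd_of_le hle)

theorem card_orbit_stab (hs : Setup G) (hw : P.Near x w) :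
    Nat.card (MulAction.orbit ↥(MulAction.stabilizer G x) w) = 140 ∧
      Nat.card ↥(MulAction.stabilizer G x ⊓ MulAction.stabilizer G w) = 288 := by
  classical
  have : Finite V := Nat.finite_of_card_ne_zero (by rw [P.card_V]; norm_num)
  set K := MulAction.stabilizer G x ⊓ MulAction.stabilizer G w with hK
  have hidx : Nat.card (MulAction.orbit ↥(MulAction.stabilizer G x) w) * Nat.card K = 40320 := by
    have := Subgroup.index_mul_card (MulAction.stabilizer ↥(MulAction.stabilizer G x) w)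
    have he : MulAction.stabilizer ↥(MulAction.stabilizer G x) w =
        (MulAction.stabilizer G w).subgroupOf (MulAction.stabilizer G x) := by
      ext e
      rw [Subgroup.mem_subgroupOf, MulAction.mem_stabilizer_iff, MulAction.mem_stabilizer_iff]
      rfl
    rw [MulAction.index_stabilizer, he, ← Subgroup.inf_subgroupOf_left, Nat.card_congr
      (Subgroup.subgroupOfEquivOfLe inf_le_left).toEquiv, P.card_stab, ← Nat.card_coe_set_eq]
      at this
    exact this
  set o := Nat.card (MulAction.orbit ↥(MulAction.stabilizer G x) w) with ho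
  have hpos : 0 < Nat.card K := Nat.card_pos
  have h4 : 4 ∣ o := by
    have := card_inter_stab_dvd hw
    rw [← hK, ← hidx, mul_comm o, mul_comm 4] at this
    exact (Nat.mul_dvd_mul_iff_left hpos).1 this
  have h5 : 5 ∣ o := by
    refine ((Nat.Prime.dvd_mul Nat.prime_five).1 (hidx ▸ (by norm_num : 5 ∣ 40320))).resolve_right ?_
    exact not_prime_dvd hw Nat.prime_five (by norm_num) fun f hf => by
      rw [hs.cent_five f hf]; norm_num
  have h7 : 7 ∣ o := by
    have h7p : Nat.Prime 7 := by norm_num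
    refine (h7p.dvd_mul.1 (hidx ▸ (by norm_num : 7 ∣ 40320))).resolve_right ?_
    exact not_prime_dvd hw h7p (by norm_num) fun f hf => by
      rw [hs.cent_seven f hf]; norm_num
  have hle : o ≤ 140 := by
    rw [ho, ← P.card_near x]
    refine Nat.card_le_card_of_injective (fun z => ⟨(z : V), ?_⟩) (fun a b h => ?_)
    · obtain ⟨h, hh⟩ := z.2
      rw [← hh]
      exact hw.smul h.2
    · exact Subtype.ext (congrArg (fun q : {w // P.Near x w} => (q : V)) h)
  have hpo : 0 < o := by
    rcases Nat.eq_zero_or_pos o with h | h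
    · rw [h] at hidx; simp at hidx
    · exact h
  have : o = 140 := by omega
  exact ⟨this, by rw [this] at hidx; omega⟩

theorem exists_move (hs : Setup G) (hw : P.Near x w) (hw' : P.Near x w') :
    ∃ h : ↥(MulAction.stabilizer G x), (h : G) • w = w' := by
  classical
  have : Finite V := Nat.finite_of_card_ne_zero (by rw [P.card_V]; norm_num)
  have hsub : MulAction.orbit ↥(MulAction.stabilizer G x) w ⊆ {z | P.Near x z} := by
    rintro z ⟨h, rfl⟩
    exact hw.smul h.2
  have hcard : {z | P.Near x z}.ncard ≤ (MulAction.orbit ↥(MulAction.stabilizer G x) w).ncard := by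
    rw [← Nat.card_coe_set_eq, ← Nat.card_coe_set_eq, (card_orbit_stab hs hw).1]
    exact (P.card_near x).le
  have heq := Set.eq_of_subset_of_ncard_le hsub hcard (Set.toFinite _)
  have : w' ∈ MulAction.orbit ↥(MulAction.stabilizer G x) w := by rw [heq]; exact hw'
  obtain ⟨h, hh⟩ := this
  exact ⟨h, hh⟩

theorem fix_eq (hs : Setup G) (hw : P.Near x w) (a b : ↥(MulAction.stabilizer G x))
    (ha : (a : G) ∈ P.sub w) (ha1 : a ≠ 1) (hb : (b : G) ∈ P.sub w) (hb1 : b ≠ 1) :
    (Finset.univ.filter fun i => P.π x a i = i) = Finset.univ.filter fun i => P.π x b i = i := by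
  set A := P.sub w ⊓ MulAction.stabilizer G x with hA
  have hAc : Nat.card A = 4 := P.near_card x w hw.1 hw.2
  have : Fact (Nat.Prime 3) := ⟨Nat.prime_three⟩
  obtain ⟨Q, hQ⟩ := Sylow.exists_subgroup_card_pow_prime 3 (n := 2)
    (show 3 ^ 2 ∣ Nat.card ↥(MulAction.stabilizer G x ⊓ MulAction.stabilizer G w) by
      rw [(card_orbit_stab hs hw).2]; norm_num)
  let Q' : Subgroup G := Q.map (Subgroup.subtype _)
  have hQ' : Nat.card Q' = 9 := by
    rw [Nat.card_congr (Q.equivMapOfInjective _ (Subgroup.subtype_injective _)).toEquiv.symm, hQ]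
    rfl
  have hQle : Q' ≤ MulAction.stabilizer G x ⊓ MulAction.stabilizer G w := Subgroup.map_subtype_le _
  obtain ⟨c, hcQ, hc3, hcA⟩ := exists_three_centralizing hAc hQ' fun p hp z hz =>
    ⟨conj_sub (hQle hp).2 hz.1, Subgroup.mul_mem _ (Subgroup.mul_mem _ (hQle hp).1 hz.2)
      (Subgroup.inv_mem _ (hQle hp).1)⟩
  let c' : ↥(MulAction.stabilizer G x) := ⟨c, (hQle hcQ).1⟩
  have hπc : orderOf (P.π x c') = 3 := by
    have hc'3 : orderOf c' = 3 := by rw [← Subgroup.orderOf_coe]; exact hc3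
    have hd : orderOf (P.π x c') ∣ 3 := hc'3 ▸ orderOf_map_dvd _ _
    refine ((Nat.dvd_prime Nat.prime_three).1 hd).resolve_left fun h1 => ?_
    have h2 : c * c = 1 := P.sub_sq x c ((π_eq_one c').1 (orderOf_eq_one_iff.1 h1))
    have h3 : orderOf c ∣ 2 := orderOf_dvd_of_pow_eq_one (by rw [pow_two, h2])
    rw [hc3] at h3
    norm_num at h3
  have key : ∀ z : ↥(MulAction.stabilizer G x), (z : G) ∈ P.sub w → z ≠ 1 →
      (Finset.univ.filter fun i => P.π x z i = i) = (P.π x c').support := by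
    intro z hz hz1
    refine fix_eq_of_three _ _ ?_ ?_ (π_sign z) hπc ?_
    · intro h
      have h' : (z : G) ∈ P.sub x ⊓ P.sub w := ⟨(π_eq_one z).1 h, hz⟩
      rw [P.sub_disj x w hw.1, Subgroup.mem_bot] at h'
      exact hz1 (Subtype.ext h')
    · rw [← map_mul, (Subtype.ext (P.sub_sq w _ hz) : z * z = 1), map_one]
    · have : Commute z c' := Subtype.ext (hcA z ⟨hz, z.2⟩).eq.symm
      exact this.map (P.π x)
  rw [key a ha ha1, key b hb hb1]

omit [Finite G] in
theorem exists_nontrivial (hw : P.Near x w) :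
    ∃ a : ↥(MulAction.stabilizer G x), (a : G) ∈ P.sub w ∧ a ≠ 1 := by
  have hne : P.sub w ⊓ MulAction.stabilizer G x ≠ ⊥ := fun h => by
    have := P.near_card x w hw.1 hw.2
    rw [h, Subgroup.card_bot] at this
    norm_num at this
  obtain ⟨a, ⟨ha, hax⟩, ha1⟩ := (Subgroup.bot_or_exists_ne_one _).resolve_left hne
  exact ⟨⟨a, hax⟩, ha, fun h => ha1 (congrArg Subtype.val h)⟩

theorem triple_eq (hs : Setup G) (hw : P.Near x w) (a : ↥(MulAction.stabilizer G x))
    (ha : (a : G) ∈ P.sub w) (ha1 : a ≠ 1) :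
    P.triple x w = Finset.univ.filter fun i => P.π x a i = i := by
  ext i
  rw [mem_triple, Finset.mem_filter]
  refine ⟨fun h => ⟨Finset.mem_univ i, h a ha⟩, fun h b hb => ?_⟩
  by_cases hb1 : b = 1
  · simp [hb1]
  · have hi : i ∈ Finset.univ.filter fun j => P.π x a j = j := Finset.mem_filter.2 h
    rw [fix_eq hs hw a b ha ha1 hb hb1, Finset.mem_filter] at hi
    exact hi.2

theorem triple_card (hs : Setup G) (hw : P.Near x w) : (P.triple x w).card = 3 := by
  obtain ⟨a, ha, ha1⟩ := exists_nontrivial hw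
  rw [triple_eq hs hw a ha ha1]
  refine card_fix_seven _ (fun h => ?_) ?_ (π_sign a)
  · have h' : (a : G) ∈ P.sub x ⊓ P.sub w := ⟨(π_eq_one a).1 h, ha⟩
    rw [P.sub_disj x w hw.1, Subgroup.mem_bot] at h'
    exact ha1 (Subtype.ext h')
  · rw [← map_mul, (Subtype.ext (P.sub_sq w _ ha) : a * a = 1), map_one]

theorem triple_reg (hs : Setup G) (hw : P.Near x w) (i j : Fin 7) (hi : i ∉ P.triple x w)
    (hj : j ∉ P.triple x w) :
    ∃ a : ↥(MulAction.stabilizer G x), (a : G) ∈ P.sub w ∧ P.π x a i = j := by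
  classical
  let A := (P.sub w).subgroupOf (MulAction.stabilizer G x)
  let _ : Fintype A := Fintype.ofFinite A
  have hA : Fintype.card A = 4 := by
    rw [← Nat.card_eq_fintype_card, show Nat.card A = Nat.card ((P.sub w ⊓
      MulAction.stabilizer G x).subgroupOf (MulAction.stabilizer G x)) by
        rw [Subgroup.inf_subgroupOf_right], Nat.card_congr
      (Subgroup.subgroupOfEquivOfLe inf_le_right).toEquiv]
    exact P.near_card x w hw.1 hw.2
  let f : A → {k // k ∈ (P.triple x w)ᶜ} := fun a => ⟨P.π x a i, Finset.mem_compl.2 fun h => by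
    have h' := mem_triple.1 h (a : ↥(MulAction.stabilizer G x)) a.2
    exact hi ((P.π x a).injective h' ▸ h)⟩
  have hinj : Function.Injective f := by
    intro a b h
    have h' : P.π x a i = P.π x b i := congrArg Subtype.val h
    by_contra hne
    have hne' : ((b : ↥(MulAction.stabilizer G x))⁻¹ * a) ≠ 1 := fun e =>
      hne (Subtype.ext (inv_mul_eq_one.1 e).symm)
    refine hi ?_
    rw [triple_eq hs hw _ ((P.sub w).mul_mem ((P.sub w).inv_mem b.2) a.2) hne', Finset.mem_filter]
    refine ⟨Finset.mem_univ i, ?_⟩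
    rw [map_mul, map_inv, Equiv.Perm.mul_apply, h', Equiv.Perm.coe_inv, Equiv.symm_apply_apply]
  have hbij : Function.Bijective f := (Fintype.bijective_iff_injective_and_card f).2 ⟨hinj, by
    rw [hA, Fintype.card_coe, Finset.card_compl, Fintype.card_fin, triple_card hs hw]⟩
  obtain ⟨a, ha⟩ := hbij.2 ⟨j, Finset.mem_compl.2 hj⟩
  exact ⟨a, a.2, congrArg Subtype.val ha⟩

omit [Finite G] in
theorem triple_smul (h : ↥(MulAction.stabilizer G x)) :
    P.triple x ((h : G) • w) = (P.triple x w).image (P.π x h) := by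
  ext i
  rw [mem_triple, Finset.mem_image]
  constructor
  · intro H
    refine ⟨(P.π x h)⁻¹ i, mem_triple.2 fun a ha => ?_, by simp⟩
    have h1 := H (h * a * h⁻¹) (by rw [mem_sub_smul]; simpa [mul_assoc] using ha)
    simp only [map_mul, map_inv, Equiv.Perm.mul_apply] at h1
    exact (Equiv.eq_symm_apply _).2 h1
  · rintro ⟨j, hj, rfl⟩ a ha
    have h1 := mem_triple.1 hj (h⁻¹ * a * h) (by rw [mem_sub_smul] at ha; simpa using ha)
    simp only [map_mul, map_inv, Equiv.Perm.mul_apply] at h1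
    simpa using congrArg (P.π x h) h1

theorem triple_surj (hs : Setup G) (T : Finset (Fin 7)) (hT : T.card = 3) :
    ∃ w, P.Near x w ∧ P.triple x w = T := by
  obtain ⟨w, hw⟩ := P.exists_near x
  obtain ⟨σ, hσ, hσT⟩ := exists_even_image (triple_card hs hw) hT
  rw [← P.π_range x] at hσ
  obtain ⟨h, rfl⟩ := hσ
  exact ⟨(h : G) • w, hw.smul h.2, (triple_smul h).trans hσT⟩

omit [Finite G] in
theorem triple_smul_sub {e : G} (he : e ∈ P.sub x) : P.triple x (e • w) = P.triple x w := by
  have h := triple_smul (P := P) (w := w) ⟨e, P.sub_le x he⟩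
  rw [(π_eq_one _).2 he] at h
  simpa using h

omit [Finite G] in
theorem four_smul_sub {e : G} (he : e ∈ P.sub x) :
    P.sub x ⊓ MulAction.stabilizer G (e • w) = P.sub x ⊓ MulAction.stabilizer G w := by
  ext a
  simp only [Subgroup.mem_inf, mem_stab_smul]
  refine and_congr_right fun ha => ?_
  rw [mul_assoc, P.sub_comm x a ha e he, inv_mul_cancel_left]

omit [Finite G] in
theorem four_smul {h : G} (hh : h • x = x) :
    P.sub x ⊓ MulAction.stabilizer G (h • w) =
      (P.sub x ⊓ MulAction.stabilizer G w).map (MulAut.conj h).toMonoidHom := by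
  ext a
  rw [Subgroup.mem_map_equiv, Subgroup.mem_inf, Subgroup.mem_inf, mem_stab_smul,
    MulAut.conj_symm_apply]
  refine and_congr_left fun _ => ?_
  conv_lhs => rw [← hh, mem_sub_smul]

theorem triple_eq_iff (hs : Setup G) (hw : P.Near x w) (hw' : P.Near x w') :
    P.triple x w = P.triple x w' ↔ ∃ e ∈ P.sub x, e • w = w' := by
  classical
  have : Finite V := Nat.finite_of_card_ne_zero (by rw [P.card_V]; norm_num)
  let _ : Fintype V := Fintype.ofFinite V
  refine ⟨fun hT => ?_, fun ⟨e, he, h⟩ => by rw [← h, triple_smul_sub he]⟩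
  set N := Finset.univ.filter fun z => P.Near x z with hN
  have hNcard : N.card = 140 := by
    rw [hN, ← Fintype.card_subtype, ← Nat.card_eq_fintype_card, P.card_near x]
  have hmem : ∀ z, z ∈ N ↔ P.Near x z := fun z => by simp [hN]
  have hfib := card_eq_image_mul_fibre N (P.triple x) (fun a ha b hb => by
    obtain ⟨h, hh⟩ := exists_move hs ((hmem a).1 ha) ((hmem b).1 hb)
    exact ⟨fun z => (h : G) • z, MulAction.injective _,
      fun z hz => (hmem _).2 (((hmem z).1 hz).smul h.2), hh,
      fun z _ hz => by simp only [triple_smul, hz]⟩) w ((hmem w).2 hw)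
  have himg : N.image (P.triple x) = (Finset.univ : Finset (Fin 7)).powersetCard 3 := by
    ext T
    rw [Finset.mem_image, Finset.mem_powersetCard]
    refine ⟨fun ⟨z, hz, hzT⟩ => ⟨Finset.subset_univ _, hzT ▸ triple_card hs ((hmem z).1 hz)⟩,
      fun h => ?_⟩
    obtain ⟨z, hz, hzT⟩ := triple_surj hs (x := x) T h.2
    exact ⟨z, (hmem z).2 hz, hzT⟩
  rw [hNcard, himg, Finset.card_powersetCard, Finset.card_univ, Fintype.card_fin,
    (by decide : Nat.choose 7 3 = 35)] at hfib
  have hsub : (MulAction.orbit ↥(P.sub x) w).toFinset ⊆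
      N.filter fun z => P.triple x z = P.triple x w := by
    intro z hz
    rw [Set.mem_toFinset] at hz
    obtain ⟨e, rfl⟩ := hz
    exact Finset.mem_filter.2
      ⟨(hmem _).2 (hw.smul (P.sub_le x e.2)), triple_smul_sub e.2⟩
  have horb : (MulAction.orbit ↥(P.sub x) w).toFinset.card = 4 := by
    rw [Set.toFinset_card, ← Nat.card_eq_fintype_card, card_orbit_sub hw]
  have heq := Finset.eq_of_subset_of_card_le hsub (by omega)
  have : w' ∈ (MulAction.orbit ↥(P.sub x) w).toFinset := by
    rw [heq]; exact Finset.mem_filter.2 ⟨(hmem _).2 hw', hT.symm⟩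
  rw [Set.mem_toFinset] at this
  obtain ⟨e, he⟩ := this
  exact ⟨e, e.2, he⟩

theorem exists_four_ge {a b : G} (ha : a ∈ P.sub x) (hb : b ∈ P.sub x) (ha1 : a ≠ 1)
    (hb1 : b ≠ 1) (hab : a ≠ b) :
    ∃ z, P.Near x z ∧ a ∈ P.sub x ⊓ MulAction.stabilizer G z ∧
      b ∈ P.sub x ⊓ MulAction.stabilizer G z := by
  classical
  let _ : Fintype G := Fintype.ofFinite G
  obtain ⟨w, hw⟩ := P.exists_near x
  set B := P.sub x ⊓ MulAction.stabilizer G w with hB
  have h4 : Nat.card B = 4 := P.near_card w x hw.1.symm hw.symm.2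
  have h3 := card_nontrivial B
  rw [h4] at h3
  obtain ⟨a', ha', b', hb', hab'⟩ :=
    Finset.one_lt_card.1 (h3 ▸ (by norm_num) : 1 < (Finset.univ.filter fun y => y ∈ B ∧ y ≠ 1).card)
  simp only [Finset.mem_filter, Finset.mem_univ, true_and] at ha' hb'
  obtain ⟨n, hn, hna⟩ := P.sub_trans x a' ha'.1.1 a ha ha'.2 ha1
  have hb'' : n * b' * n⁻¹ ∈ P.sub x := conj_sub hn hb'.1.1
  obtain ⟨m, hm, hmc, hmb⟩ := P.sub_lines x a ha ha1 (n * b' * n⁻¹) hb'' b hb
    (fun e => hb'.2 (conj_eq_one_iff.1 e))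
    (fun e => hab' (by
      rw [← hna] at e
      exact (mul_left_cancel (mul_right_cancel e)).symm)) hb1 hab.symm
  have hg : (m * n) • x = x := by rw [mul_smul, hn, hm]
  refine ⟨(m * n) • w, hw.smul hg, ?_⟩
  rw [four_smul hg]
  have ha'' : a ∈ B.map (MulAut.conj (m * n)).toMonoidHom := by
    refine ⟨a', ha'.1, ?_⟩
    show m * n * a' * (m * n)⁻¹ = a
    rw [mul_inv_rev, show m * n * a' * (n⁻¹ * m⁻¹) = m * (n * a' * n⁻¹) * m⁻¹ by group, hna,
      hmc.eq, mul_inv_cancel_right]
  refine ⟨ha'', ?_⟩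
  have hb3 : m * (n * b' * n⁻¹) * m⁻¹ ∈ B.map (MulAut.conj (m * n)).toMonoidHom := by
    refine ⟨b', hb'.1, ?_⟩
    show m * n * b' * (m * n)⁻¹ = _
    group
  rcases hmb with h | h
  · rwa [h] at hb3
  · rw [h] at hb3
    exact (Subgroup.mul_mem_cancel_right _ ha'').1 hb3

theorem four_eq_iff (hs : Setup G) (hw : P.Near x w) (hw' : P.Near x w') :
    P.triple x w = P.triple x w' ↔
      P.sub x ⊓ MulAction.stabilizer G w = P.sub x ⊓ MulAction.stabilizer G w' := by
  classical
  have : Finite V := Nat.finite_of_card_ne_zero (by rw [P.card_V]; norm_num)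
  let _ : Fintype V := Fintype.ofFinite V
  let _ : Fintype G := Fintype.ofFinite G
  refine ⟨fun hT => ?_, fun hB => ?_⟩
  · obtain ⟨e, he, h⟩ := (triple_eq_iff hs hw hw').1 hT
    rw [← h, four_smul_sub he]
  set N := Finset.univ.filter fun z => P.Near x z with hN
  have hNcard : N.card = 140 := by
    rw [hN, ← Fintype.card_subtype, ← Nat.card_eq_fintype_card, P.card_near x]
  have hmem : ∀ z, z ∈ N ↔ P.Near x z := fun z => by simp [hN]
  let F : V → Subgroup G := fun z => P.sub x ⊓ MulAction.stabilizer G z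
  have hfib := card_eq_image_mul_fibre N F (fun a ha b hb => by
    obtain ⟨h, hh⟩ := exists_move hs ((hmem a).1 ha) ((hmem b).1 hb)
    exact ⟨fun z => (h : G) • z, MulAction.injective _,
      fun z hz => (hmem _).2 (((hmem z).1 hz).smul h.2), hh,
      fun z _ hz => by
        simp only [F] at hz ⊢
        rw [four_smul h.2, four_smul h.2, hz]⟩) w ((hmem w).2 hw)
  let nt : Subgroup G → Finset G := fun B => Finset.univ.filter fun y => y ∈ B ∧ y ≠ 1
  have hpairs : (nt (P.sub x)).offDiag ⊆ (N.image F).biUnion fun B => (nt B).offDiag := by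
    rintro ⟨a, b⟩ hp
    simp only [Finset.mem_offDiag, nt, Finset.mem_filter, Finset.mem_univ, true_and] at hp
    obtain ⟨z, hz, hza, hzb⟩ := exists_four_ge hp.1.1 hp.2.1.1 hp.1.2 hp.2.1.2 hp.2.2
    exact Finset.mem_biUnion.2 ⟨F z, Finset.mem_image_of_mem F ((hmem z).2 hz), by
      simp only [Finset.mem_offDiag, nt, Finset.mem_filter, Finset.mem_univ, true_and]
      exact ⟨⟨hza, hp.1.2⟩, ⟨hzb, hp.2.1.2⟩, hp.2.2⟩⟩
  have hn : 210 ≤ (N.image F).card * 6 := by
    have h15 : (nt (P.sub x)).offDiag.card = 210 := by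
      rw [Finset.offDiag_card, card_nontrivial, P.sub_card]
    rw [← h15]
    refine (Finset.card_le_card hpairs).trans (Finset.card_biUnion_le_card_mul _ _ _ fun B hB => ?_)
    obtain ⟨z, hz, rfl⟩ := Finset.mem_image.1 hB
    rw [Finset.offDiag_card, card_nontrivial,
      P.near_card z x ((hmem z).1 hz).1.symm ((hmem z).1 hz).symm.2]
  have hle : (N.filter fun z => F z = F w).card ≤ 4 := by
    by_contra h
    have : 35 * 5 ≤ (N.image F).card * (N.filter fun z => F z = F w).card :=
      Nat.mul_le_mul (by omega) (by omega)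
    omega
  have hsub : (MulAction.orbit ↥(P.sub x) w).toFinset ⊆ N.filter fun z => F z = F w := by
    intro z hz
    rw [Set.mem_toFinset] at hz
    obtain ⟨e, rfl⟩ := hz
    exact Finset.mem_filter.2 ⟨(hmem _).2 (hw.smul (P.sub_le x e.2)), four_smul_sub e.2⟩
  have horb : (MulAction.orbit ↥(P.sub x) w).toFinset.card = 4 := by
    rw [Set.toFinset_card, ← Nat.card_eq_fintype_card, card_orbit_sub hw]
  have heq := Finset.eq_of_subset_of_card_le hsub (by omega)
  have : w' ∈ (MulAction.orbit ↥(P.sub x) w).toFinset := by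
    rw [heq]; exact Finset.mem_filter.2 ⟨(hmem _).2 hw', hB.symm⟩
  rw [Set.mem_toFinset] at this
  obtain ⟨e, he⟩ := this
  exact (triple_eq_iff hs hw hw').2 ⟨e, e.2, he⟩

/-- The geometry with its triples. -/
noncomputable def toGeom (P : PreGeom G V) (hs : Setup G) : Geom G V where
  sub := P.sub
  far := P.far
  π := P.π
  pt := P.pt
  tri := P.triple
  card_V := P.card_V
  trans := P.trans
  sub_smul := P.sub_smul
  sub_card := P.sub_card
  sub_comm := P.sub_comm
  sub_sq := P.sub_sq
  sub_le := P.sub_le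
  sub_trans := P.sub_trans
  sub_disj := P.sub_disj
  card_stab := P.card_stab
  small := P.small
  far_iff := P.far_iff
  far_symm := P.far_symm
  near_card := P.near_card
  near_comm := P.near_comm
  semireg := P.semireg
  π_ker := P.π_ker
  π_range := P.π_range
  pt_smul := P.pt_smul
  pt_eq_iff := P.pt_eq_iff
  pt_surj := P.pt_surj
  tri_card _ _ h h' := triple_card hs ⟨h, h'⟩
  tri_fix _ _ _ _ a ha _ hi := mem_triple.1 hi a ha
  tri_reg _ _ h h' := triple_reg hs ⟨h, h'⟩
  tri_smul _ _ g _ _ := triple_smul g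
  tri_eq_iff _ _ _ h h' k k' := triple_eq_iff hs ⟨h, h'⟩ ⟨k, k'⟩
  tri_line _ _ _ h h' k k' := four_eq_iff hs ⟨h, h'⟩ ⟨k, k'⟩
  tri_surj v T hT := by
    obtain ⟨w, hw, hwT⟩ := triple_surj (P := P) (x := v) hs T hT
    exact ⟨w, hw.1, hw.2, hwT⟩

end PreGeom

theorem PreGeom.exists_geom {G : Type u} {V : Type v} [Group G] [MulAction G V] [Finite G]
    (P : PreGeom G V) (hs : Setup G) : Nonempty (Geom G V) :=
  ⟨P.toGeom hs⟩

end CfsgLib.M23Count
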